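import Mathlib
import Cfsg.Agent.Lib.H3.ExtraspecialUnique

/-!
Counting square roots of the identity in extraspecial 2-groups; order and count determine the group.
-/

set_option autoImplicit false

open Subgroup H3.Extraspecial H3.ExtraspecialUnique H3.ClassTwo
open scoped commutatorElement

namespace H76.ExtraCount

/-- number of elements squaring to the identity -/
noncomputable def sqc (E : Type*) [Group E] : ℕ := Nat.card {x : E // x ^ 2 = 1}

theorem card_add_compl {C : Type*} [Finite C] (P : C → Prop) :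
    Nat.card {c : C // P c} + Nat.card {c : C // ¬ P c} = Nat.card C := by
  classical
  rw [← Nat.card_sum]
  exact Nat.card_congr (Equiv.sumCompl P)

section
variable {E : Type*} [Group E] [Finite E] (hZ : commutator E ≤ center E) (hc : Nat.card (center E) = 2)
include hZ hc

theorem fiber {x y t : E} (_hxy : ⁅x, y⁆ ≠ 1) (ht : ∀ c ∈ centralizer ({x, y} : Set E), Commute t c) :
    (t ^ 2 = 1 → Nat.card {c : centralizer ({x, y} : Set E) // (t * (c : E)) ^ 2 = 1} = sqc (centralizer ({x, y} : Set E))) ∧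
    (t ^ 2 ≠ 1 → Nat.card {c : centralizer ({x, y} : Set E) // (t * (c : E)) ^ 2 = 1} + sqc (centralizer ({x, y} : Set E)) =
      Nat.card (centralizer ({x, y} : Set E))) := by
  have h2 : Fact (Nat.Prime 2) := ⟨Nat.prime_two⟩
  have hcu := fun (a b : E) => center_unique hc (a := a) (b := b)
  constructor
  · intro h
    refine Nat.card_congr (Equiv.subtypeEquivRight fun c => ?_)
    rw [(ht c c.2).mul_pow, h, one_mul]
    constructor
    · intro h1; exact Subtype.ext h1
    · intro h1; exact congrArg Subtype.val h1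
  · intro h
    rw [add_comm, ← card_add_compl (fun c : centralizer ({x, y} : Set E) => c ^ 2 = 1)]
    congr 1
    refine Nat.card_congr (Equiv.subtypeEquivRight fun c => ?_)
    rw [(ht c c.2).mul_pow]
    constructor
    · intro h1 h3
      have h4 : (c : E) ^ 2 = 1 := congrArg Subtype.val h3
      rw [h4, mul_one] at h1
      exact h h1
    · intro h3
      have h4 : (c : E) ^ 2 ≠ 1 := fun h5 => h3 (Subtype.ext h5)
      have h5 := hcu _ _ (pow_mem_center hZ hc t) (pow_mem_center hZ hc (c : E)) h h4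
      rw [← h5]
      have := center_pow hc (pow_mem_center hZ hc t)
      rw [← sq]; exact this

/-- the count as a sum over the four cosets of `C_E(x, y)` -/
theorem sqc_eq_sum {x y : E} (hxy : ⁅x, y⁆ ≠ 1) :
    sqc E = ∑ p : Fin 2 × Fin 2, Nat.card {c : centralizer ({x, y} : Set E) //
      (x ^ (p.1 : ℕ) * y ^ (p.2 : ℕ) * (c : E)) ^ 2 = 1} := by
  have h2 : Fact (Nat.Prime 2) := ⟨Nat.prime_two⟩
  set Φ : (Fin 2 × Fin 2) × centralizer ({x, y} : Set E) → E :=
    fun p => x ^ (p.1.1 : ℕ) * y ^ (p.1.2 : ℕ) * (p.2 : E) with hΦ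
  have hsurj : Function.Surjective Φ := by
    intro g
    obtain ⟨i, j, c, hcx, hcy, rfl⟩ := exists_decomp hZ hc hxy g
    have hx2 := pow_mem_center hZ hc x
    have hy2 := pow_mem_center hZ hc y
    have hmem : (x ^ 2) ^ (i / 2) * (y ^ 2) ^ (j / 2) * c ∈ centralizer ({x, y} : Set E) := by
      refine mul_mem (mul_mem ?_ ?_) ?_
      · exact pow_mem (mem_centralizer_pair_of_mem_center hx2) _
      · exact pow_mem (mem_centralizer_pair_of_mem_center hy2) _
      · rw [mem_centralizer_iff]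
        intro h hh
        rcases hh with rfl | hh
        · exact hcx.symm
        · rw [Set.mem_singleton_iff] at hh
          rw [hh]; exact hcy.symm
    refine ⟨((⟨i % 2, Nat.mod_lt _ (by norm_num)⟩, ⟨j % 2, Nat.mod_lt _ (by norm_num)⟩), ⟨_, hmem⟩), ?_⟩
    show x ^ (i % 2) * y ^ (j % 2) * ((x ^ 2) ^ (i / 2) * (y ^ 2) ^ (j / 2) * c) = x ^ i * y ^ j * c
    have e1 : y ^ (j % 2) * (x ^ 2) ^ (i / 2) = (x ^ 2) ^ (i / 2) * y ^ (j % 2) :=
      mem_center_iff.mp (pow_mem hx2 (i / 2)) _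
    calc x ^ (i % 2) * y ^ (j % 2) * ((x ^ 2) ^ (i / 2) * (y ^ 2) ^ (j / 2) * c)
        = x ^ (i % 2) * (y ^ (j % 2) * (x ^ 2) ^ (i / 2)) * (y ^ 2) ^ (j / 2) * c := by simp only [mul_assoc]
      _ = x ^ (i % 2) * (x ^ 2) ^ (i / 2) * (y ^ (j % 2) * (y ^ 2) ^ (j / 2)) * c := by
          rw [e1]; simp only [mul_assoc]
      _ = x ^ i * y ^ j * c := by
          rw [← pow_mul, ← pow_mul, ← pow_add, ← pow_add, Nat.mod_add_div, Nat.mod_add_div]
  have hbij : Function.Bijective Φ := by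
    rw [Nat.bijective_iff_surjective_and_card]
    refine ⟨hsurj, ?_⟩
    rw [card_centralizer_pair hZ hc hxy, Nat.card_prod, Nat.card_prod, Nat.card_eq_fintype_card, Fintype.card_fin]
    ring
  have e1 : sqc E = Nat.card {p : (Fin 2 × Fin 2) × centralizer ({x, y} : Set E) // (Φ p) ^ 2 = 1} := by
    rw [sqc]
    exact (Nat.card_congr ((Equiv.ofBijective Φ hbij).subtypeEquiv (fun a => Iff.rfl))).symm
  have e2 : {p : (Fin 2 × Fin 2) × centralizer ({x, y} : Set E) // (Φ p) ^ 2 = 1} ≃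
      Σ p : Fin 2 × Fin 2, {c : centralizer ({x, y} : Set E) // (x ^ (p.1 : ℕ) * y ^ (p.2 : ℕ) * (c : E)) ^ 2 = 1} :=
    { toFun := fun p => ⟨p.1.1, ⟨p.1.2, p.2⟩⟩
      invFun := fun p => ⟨(p.1, p.2.1), p.2.2⟩
      left_inv := fun p => rfl
      right_inv := fun p => rfl }
  rw [e1, Nat.card_congr e2, Nat.card_sigma]

theorem sqc_D {x y : E} (hxy : ⁅x, y⁆ ≠ 1) (hx : x ^ 2 = 1) (hy : y ^ 2 = 1) :
    sqc E = 2 * sqc (centralizer ({x, y} : Set E)) + Nat.card (centralizer ({x, y} : Set E)) := by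
  have h2 : Fact (Nat.Prime 2) := ⟨Nat.prime_two⟩
  rw [sqc_eq_sum hZ hc hxy, Fintype.sum_prod_type]
  simp only [Fin.sum_univ_two, Fin.val_zero, Fin.val_one, pow_zero, pow_one]
  have hxc := commute_of_mem_centralizer_pair_left (x := x) (y := y)
  have hyc := commute_of_mem_centralizer_pair_right (x := x) (y := y)
  have f1 := (fiber hZ hc hxy (t := 1 * 1) (fun c _ => by rw [one_mul]; exact Commute.one_left c)).1 (by simp)
  have f2 := (fiber hZ hc hxy (t := 1 * y) (fun c hcc => by rw [one_mul]; exact hyc c hcc)).1 (by rw [one_mul, hy])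
  have f3 := (fiber hZ hc hxy (t := x * 1) (fun c hcc => by rw [mul_one]; exact hxc c hcc)).1 (by rw [mul_one, hx])
  have hne : (x * y) ^ 2 ≠ 1 := by
    intro h
    apply hxy
    have e1 : x⁻¹ = x := inv_eq_of_mul_eq_one_right (by rw [← sq]; exact hx)
    have e2 : y⁻¹ = y := inv_eq_of_mul_eq_one_right (by rw [← sq]; exact hy)
    rw [commutatorElement_def, e1, e2]
    rw [sq] at h
    rw [← h]; group
  have f4 := (fiber hZ hc hxy (t := x * y) (fun c hcc => (hxc c hcc).mul_left (hyc c hcc))).2 hne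
  rw [f1, f2, f3]
  omega

theorem sqc_Q {x y : E} (hxy : ⁅x, y⁆ ≠ 1) (hx : x ^ 2 ≠ 1) (hy : y ^ 2 ≠ 1) :
    sqc E + 2 * sqc (centralizer ({x, y} : Set E)) = 3 * Nat.card (centralizer ({x, y} : Set E)) := by
  have h2 : Fact (Nat.Prime 2) := ⟨Nat.prime_two⟩
  rw [sqc_eq_sum hZ hc hxy, Fintype.sum_prod_type]
  simp only [Fin.sum_univ_two, Fin.val_zero, Fin.val_one, pow_zero, pow_one]
  have hxc := commute_of_mem_centralizer_pair_left (x := x) (y := y)
  have hyc := commute_of_mem_centralizer_pair_right (x := x) (y := y)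
  have f1 := (fiber hZ hc hxy (t := 1 * 1) (fun c _ => by rw [one_mul]; exact Commute.one_left c)).1 (by simp)
  have f2 := (fiber hZ hc hxy (t := 1 * y) (fun c hcc => by rw [one_mul]; exact hyc c hcc)).2 (by rwa [one_mul])
  have f3 := (fiber hZ hc hxy (t := x * 1) (fun c hcc => by rw [mul_one]; exact hxc c hcc)).2 (by rwa [mul_one])
  have hne : (x * y) ^ 2 ≠ 1 := by
    have hyx : ⁅y, x⁆ ≠ 1 := by
      intro h
      apply hxy
      rw [← commutatorElement_inv, h, inv_one]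
    have hz := commutator_le_center_iff.1 hZ y x
    have e1 : x ^ 2 = ⁅y, x⁆ := center_unique hc (pow_mem_center hZ hc x) hz hx hyx
    have e2 : y ^ 2 = ⁅y, x⁆ := center_unique hc (pow_mem_center hZ hc y) hz hy hyx
    have e3 : ⁅y, x⁆ * ⁅y, x⁆ = 1 := by
      have := center_pow hc hz
      rwa [pow_two] at this
    have e4 : (x * y) ^ 2 = x ^ 2 * y ^ 2 * ⁅y, x⁆ := by
      rw [mul_pow hZ]; simp
    rw [e4, e1, e2, e3, one_mul]
    exact hyx
  have f4 := (fiber hZ hc hxy (t := x * y) (fun c hcc => (hxc c hcc).mul_left (hyc c hcc))).2 hne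
  rw [f1]
  omega

end

theorem sqc_of_card_two {C : Type*} [Group C] (h : Nat.card C = 2) : sqc C = 2 := by
  have : Finite C := Nat.finite_of_card_ne_zero (by rw [h]; norm_num)
  rw [sqc, ← h]
  refine Nat.card_congr ⟨fun x => x, fun x => ⟨x, ?_⟩, fun x => rfl, fun x => rfl⟩
  exact pow_card_eq_one'

theorem exists_type : ∀ (m : ℕ) {E : Type*} [Group E] [Finite E],
    commutator E ≤ center E → Nat.card (center E) = 2 → Nat.card E ≤ m →
    ∃ n : ℕ, Nat.card E = 2 ^ (2 * n + 1) ∧ (sqc E = 2 ^ (2 * n) + 2 ^ n ∨ sqc E + 2 ^ n = 2 ^ (2 * n)) := by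
  intro m
  induction m with
  | zero =>
    intro E _ _ _ _ h
    exact absurd Nat.card_pos (not_lt_of_ge h)
  | succ m ih =>
    intro E _ _ hZ hc hm
    have h2 : Fact (Nat.Prime 2) := ⟨Nat.prime_two⟩
    by_cases hE : Nat.card E = 2
    · exact ⟨0, by rw [hE]; norm_num, Or.inl (by rw [sqc_of_card_two hE]; norm_num)⟩
    obtain ⟨a, b, hab⟩ := exists_noncomm_of_card hc hE
    by_cases hC : Nat.card (centralizer ({a, b} : Set E)) = 2
    · have k := card_centralizer_pair hZ hc hab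
      obtain ⟨x, y, hxy, hd | hq⟩ := exists_pair hZ hc hab
      · have k' := card_centralizer_pair hZ hc hxy
        have hC' : Nat.card (centralizer ({x, y} : Set E)) = 2 := by rw [k, hC] at k'; omega
        have hs := sqc_D hZ hc hxy hd.1 hd.2
        rw [sqc_of_card_two hC', hC'] at hs
        exact ⟨1, by rw [k, hC]; norm_num, Or.inl (by rw [hs]; norm_num)⟩
      · have k' := card_centralizer_pair hZ hc hxy
        have hC' : Nat.card (centralizer ({x, y} : Set E)) = 2 := by rw [k, hC] at k'; omega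
        have hs := sqc_Q hZ hc hxy hq.1 hq.2
        rw [sqc_of_card_two hC', hC'] at hs
        exact ⟨1, by rw [k, hC]; norm_num, Or.inr (by norm_num; omega)⟩
    · obtain ⟨x, y, hxy, hx, hy⟩ := exists_pair_D hZ hc hab hC
      have k := card_centralizer_pair hZ hc hxy
      have hs := sqc_D hZ hc hxy hx hy
      obtain ⟨n, hn, hn'⟩ := ih (commutator_le_center_subgroup hZ (centralizer ({x, y} : Set E)))
        (card_center_centralizer_pair hZ hc hxy) (by
          have hpos : 0 < Nat.card (centralizer ({x, y} : Set E)) := Nat.card_pos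
          omega)
      refine ⟨n + 1, ?_, ?_⟩
      · rw [k, hn]; ring
      · rw [hn] at hs
        have e1 : 2 ^ (2 * (n + 1)) = 4 * 2 ^ (2 * n) := by ring
        have e2 : 2 ^ (n + 1) = 2 * 2 ^ n := by ring
        have e3 : 2 ^ (2 * n + 1) = 2 * 2 ^ (2 * n) := by ring
        rw [e1, e2]
        rw [e3] at hs
        omega

theorem iso_of_sqc : ∀ (m : ℕ) {E₁ E₂ : Type*} [Group E₁] [Group E₂] [Finite E₁] [Finite E₂],
    commutator E₁ ≤ center E₁ → Nat.card (center E₁) = 2 →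
    commutator E₂ ≤ center E₂ → Nat.card (center E₂) = 2 →
    Nat.card E₁ = Nat.card E₂ → sqc E₁ = sqc E₂ → Nat.card E₁ ≤ m → Nonempty (E₁ ≃* E₂) := by
  intro m
  induction m with
  | zero =>
    intro E₁ E₂ _ _ _ _ _ _ _ _ _ _ h
    exact absurd Nat.card_pos (not_lt_of_ge h)
  | succ m ih =>
    intro E₁ E₂ _ _ _ _ hZ₁ hc₁ hZ₂ hc₂ h12 hs hm
    have h2 : Fact (Nat.Prime 2) := ⟨Nat.prime_two⟩
    by_cases hE : Nat.card E₁ = 2
    · exact ⟨mulEquivOfPrimeCardEq (p := 2) hE (by rw [← h12, hE])⟩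
    obtain ⟨a₁, b₁, hab₁⟩ := exists_noncomm_of_card hc₁ hE
    obtain ⟨a₂, b₂, hab₂⟩ := exists_noncomm_of_card hc₂ (by rw [← h12]; exact hE)
    have k₁ := card_centralizer_pair hZ₁ hc₁ hab₁
    have k₂ := card_centralizer_pair hZ₂ hc₂ hab₂
    by_cases hC : Nat.card (centralizer ({a₁, b₁} : Set E₁)) = 2
    · have e₁ : Nat.card E₁ = 8 := by rw [k₁, hC]; norm_num
      have e₂ : Nat.card E₂ = 8 := by rw [← h12, e₁]
      obtain ⟨x₁, y₁, h₁, t₁⟩ := exists_pair hZ₁ hc₁ hab₁
      obtain ⟨x₂, y₂, h₂', t₂⟩ := exists_pair hZ₂ hc₂ hab₂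
      have l₁ := card_centralizer_pair hZ₁ hc₁ h₁
      have l₂ := card_centralizer_pair hZ₂ hc₂ h₂'
      have c₁ : Nat.card (centralizer ({x₁, y₁} : Set E₁)) = 2 := by rw [e₁] at l₁; omega
      have c₂ : Nat.card (centralizer ({x₂, y₂} : Set E₂)) = 2 := by rw [e₂] at l₂; omega
      have φ : centralizer ({x₁, y₁} : Set E₁) ≃* centralizer ({x₂, y₂} : Set E₂) :=
        mulEquivOfPrimeCardEq (p := 2) c₁ c₂
      rcases t₁ with t₁ | t₁ <;> rcases t₂ with t₂ | t₂
      · exact iso_two hZ₁ hc₁ hZ₂ hc₂ h₁ h₂' (by simp [t₁.1, t₂.1]) (by simp [t₁.2, t₂.2]) φ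
      · exfalso
        have s₁ := sqc_D hZ₁ hc₁ h₁ t₁.1 t₁.2
        have s₂ := sqc_Q hZ₂ hc₂ h₂' t₂.1 t₂.2
        rw [sqc_of_card_two c₁, c₁] at s₁
        rw [sqc_of_card_two c₂, c₂] at s₂
        omega
      · exfalso
        have s₁ := sqc_Q hZ₁ hc₁ h₁ t₁.1 t₁.2
        have s₂ := sqc_D hZ₂ hc₂ h₂' t₂.1 t₂.2
        rw [sqc_of_card_two c₁, c₁] at s₁
        rw [sqc_of_card_two c₂, c₂] at s₂
        omega
      · exact iso_two hZ₁ hc₁ hZ₂ hc₂ h₁ h₂' (by simp [t₁.1, t₂.1]) (by simp [t₁.2, t₂.2]) φ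
    · have hC₂ : Nat.card (centralizer ({a₂, b₂} : Set E₂)) ≠ 2 := by
        intro h
        rw [h] at k₂
        rw [h12, k₂] at k₁
        omega
      obtain ⟨x₁, y₁, h₁, hx₁, hy₁⟩ := exists_pair_D hZ₁ hc₁ hab₁ hC
      obtain ⟨x₂, y₂, h₂', hx₂, hy₂⟩ := exists_pair_D hZ₂ hc₂ hab₂ hC₂
      have l₁ := card_centralizer_pair hZ₁ hc₁ h₁
      have l₂ := card_centralizer_pair hZ₂ hc₂ h₂'
      have s₁ := sqc_D hZ₁ hc₁ h₁ hx₁ hy₁
      have s₂ := sqc_D hZ₂ hc₂ h₂' hx₂ hy₂
      obtain ⟨φ⟩ := ih (commutator_le_center_subgroup hZ₁ (centralizer ({x₁, y₁} : Set E₁)))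
        (card_center_centralizer_pair hZ₁ hc₁ h₁)
        (commutator_le_center_subgroup hZ₂ (centralizer ({x₂, y₂} : Set E₂)))
        (card_center_centralizer_pair hZ₂ hc₂ h₂') (by omega) (by omega) (by
          have hpos : 0 < Nat.card (centralizer ({x₁, y₁} : Set E₁)) := Nat.card_pos
          omega)
      exact iso_two hZ₁ hc₁ hZ₂ hc₂ h₁ h₂' (by simp [hx₁, hx₂]) (by simp [hy₁, hy₂]) φ

end H76.ExtraCount
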