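import Mathlib
import Cfsg.Agent.Lib.H76.ExtraCount
import Cfsg.Agent.Lib.H91.ExtraDual

/-!
Automorphisms of extraspecial 2-groups, in particular the outer automorphism group of `2^{1+4}_-`.
-/

set_option autoImplicit false

open Subgroup H3.Extraspecial H3.ExtraspecialUnique
open scoped commutatorElement

namespace H76.AutExtra

variable {P : Type*} [Group P] [Finite P]

/-- basic data of an extraspecial 2-group -/
structure Data (P : Type*) [Group P] (z : P) : Prop where
  ne : z ≠ 1
  sq : z * z = 1
  cent : ∀ g, z * g = g * z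
  mem_center : ∀ c, c ∈ center P ↔ (c = 1 ∨ c = z)
  comm : ∀ a b : P, a * b = b * a ∨ a * b = z * (b * a)
  sqs : ∀ a : P, a * a = 1 ∨ a * a = z

theorem exists_data (hex : Cfsg.IsExtraspecial 2 P) : ∃ z : P, Data P z := by
  have h2 : Fact (Nat.Prime 2) := ⟨Nat.prime_two⟩
  have hZ := commutator_le hex.1
  have hc := hex.2
  have hne : center P ≠ ⊥ := by
    rw [← one_lt_card_iff_ne_bot, hc]; norm_num
  obtain ⟨⟨z, hz⟩, hz1'⟩ := Subgroup.ne_bot_iff_exists_ne_one.mp hne
  have hz1 : z ≠ 1 := fun h => hz1' (Subtype.ext h)
  have hmem : ∀ c, c ∈ center P ↔ (c = 1 ∨ c = z) := by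
    intro c
    constructor
    · intro hcc
      by_cases h1 : c = 1
      · exact Or.inl h1
      · exact Or.inr (center_unique hc hcc hz h1 hz1)
    · rintro (rfl | rfl)
      · exact one_mem _
      · exact hz
  refine ⟨z, hz1, ?_, fun g => (mem_center_iff.mp hz g).symm, hmem, ?_, ?_⟩
  · have := center_pow hc hz
    rwa [pow_two] at this
  · intro a b
    rcases (hmem _).mp (H3.ClassTwo.commutator_le_center_iff.1 hZ a b) with h | h
    · left
      exact commutatorElement_eq_one_iff_mul_comm.mp h
    · right
      rw [commutatorElement_def, mul_inv_eq_iff_eq_mul, mul_inv_eq_iff_eq_mul] at h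
      rw [h, mul_assoc]
  · intro a
    rw [← pow_two]
    exact (hmem _).mp (pow_mem_center hZ hc a)

namespace Data

variable {z : P} (D : Data P z)
include D

omit [Finite P] in
theorem not_comm {a b : P} (h : a * b ≠ b * a) : a * b = z * (b * a) := (D.comm a b).resolve_left h

omit [Finite P] in
theorem comm_of_not_not {u g h : P} (hg : u * g ≠ g * u) (hh : u * h ≠ h * u) : u * (g * h) = g * h * u := by
  have e1 := D.not_comm hg
  have e2 := D.not_comm hh
  calc u * (g * h) = (u * g) * h := by group
    _ = z * g * (u * h) := by rw [e1]; group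
    _ = z * (g * z) * (h * u) := by rw [e2]; group
    _ = (z * z) * (g * h * u) := by rw [← D.cent g]; group
    _ = _ := by rw [D.sq, one_mul]

omit [Finite P] in
theorem not_comm_of_comm_not {u g h : P} (hg : u * g = g * u) (hh : u * h ≠ h * u) : u * (g * h) ≠ g * h * u := by
  intro h1
  apply hh
  have : g * (u * h) = g * (h * u) := by
    calc g * (u * h) = (g * u) * h := by group
      _ = u * (g * h) := by rw [← hg]; group
      _ = g * (h * u) := by rw [h1]; group
  exact mul_left_cancel this

omit [Finite P] in
theorem not_comm_of_not_comm {u g h : P} (hg : u * g ≠ g * u) (hh : u * h = h * u) : u * (g * h) ≠ g * h * u := by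
  intro h1
  apply hg
  have : (u * g) * h = (g * u) * h := by
    calc (u * g) * h = u * (g * h) := by group
      _ = g * (h * u) := by rw [h1]; group
      _ = (g * u) * h := by rw [← hh]; group
  exact mul_right_cancel this

open Classical in
/-- the orthogonal transvection automorphism attached to `u` with `u² = z` -/
noncomputable def tau (u : P) (hu : u * u = z) : P →* P where
  toFun g := if u * g = g * u then g else g * u
  map_one' := by simp
  map_mul' g h := by
    by_cases hg : u * g = g * u <;> by_cases hh : u * h = h * u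
    · have : u * (g * h) = g * h * u := by
        calc u * (g * h) = (u * g) * h := by group
          _ = g * (u * h) := by rw [hg]; group
          _ = _ := by rw [hh]; group
      rw [if_pos this, if_pos hg, if_pos hh]
    · rw [if_neg (D.not_comm_of_comm_not hg hh), if_pos hg, if_neg hh, mul_assoc]
    · rw [if_neg (D.not_comm_of_not_comm hg hh), if_neg hg, if_pos hh, mul_assoc, mul_assoc, hh]
    · rw [if_pos (D.comm_of_not_not hg hh), if_neg hg, if_neg hh]
      have e := D.not_comm hh
      calc g * h = (z * z) * (g * h) := by rw [D.sq, one_mul]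
        _ = g * (z * h) * z := by rw [← D.cent (g * (z * h)), ← mul_assoc g, ← D.cent g]; group
        _ = g * (z * (h * u)) * u := by rw [← hu]; group
        _ = g * (u * h) * u := by rw [← e]
        _ = g * u * (h * u) := by group

omit [Finite P] in
open Classical in
theorem tau_apply (u : P) (hu : u * u = z) (g : P) : D.tau u hu g = if u * g = g * u then g else g * u := rfl

theorem tau_bijective (u : P) (hu : u * u = z) : Function.Bijective (D.tau u hu) := by
  classical
  rw [Finite.injective_iff_bijective.symm]
  rw [injective_iff_map_eq_one]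
  intro g hg
  rw [D.tau_apply] at hg
  split_ifs at hg with h
  · exact hg
  · exfalso
    apply h
    rw [hg]
    have : g = u⁻¹ := eq_inv_of_mul_eq_one_left hg
    rw [this]; group

end Data

/-! ### the induced action on `P / Z(P)` -/

omit [Finite P] in
theorem map_center_eq (f : MulAut P) : (center P).map (f : P →* P) = center P :=
  characteristic_iff_map_eq.mp (inferInstance : (center P).Characteristic) f

/-- action on the central quotient -/
noncomputable def quotAct (P : Type*) [Group P] : MulAut P →* MulAut (P ⧸ center P) where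
  toFun f := QuotientGroup.congr (center P) (center P) f (map_center_eq f)
  map_one' := by
    ext x
    obtain ⟨x, rfl⟩ := QuotientGroup.mk'_surjective _ x
    rfl
  map_mul' a b := by
    ext x
    obtain ⟨x, rfl⟩ := QuotientGroup.mk'_surjective _ x
    rfl

omit [Finite P] in
theorem quotAct_mk (f : MulAut P) (x : P) : quotAct P f (QuotientGroup.mk x) = QuotientGroup.mk (f x) := rfl

/-- the predicate "nontrivial coset of involutions" -/
def IsSing {P : Type*} [Group P] (v : P ⧸ center P) : Prop :=
  v ≠ 1 ∧ ∃ t : P, t * t = 1 ∧ (QuotientGroup.mk t : P ⧸ center P) = v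

omit [Finite P] in
theorem isSing_act (f : MulAut P) {v : P ⧸ center P} (h : IsSing v) : IsSing (quotAct P f v) := by
  obtain ⟨h1, t, ht, rfl⟩ := h
  refine ⟨fun h => h1 ((quotAct P f).injective (by rw [h, map_one])), f t, ?_, (quotAct_mk f t).symm⟩
  rw [← map_mul, ht, map_one]

/-- the permutation action on the singular points -/
noncomputable def permAct (P : Type*) [Group P] : MulAut P →* Equiv.Perm {v : P ⧸ center P // IsSing v} where
  toFun f :=
    { toFun := fun v => ⟨quotAct P f v, isSing_act f v.2⟩
      invFun := fun v => ⟨quotAct P f⁻¹ v, isSing_act f⁻¹ v.2⟩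
      left_inv := fun v => by
        apply Subtype.ext
        show quotAct P f⁻¹ (quotAct P f v) = v
        rw [map_inv]; exact MulAut.inv_apply_self _ _ _
      right_inv := fun v => by
        apply Subtype.ext
        show quotAct P f (quotAct P f⁻¹ v) = v
        rw [map_inv]; exact MulAut.apply_inv_self _ _ _ }
  map_one' := by
    ext v
    show ((quotAct P 1 v : P ⧸ center P)) = v
    rw [map_one]; rfl
  map_mul' a b := by
    ext v
    show ((quotAct P (a * b) v : P ⧸ center P)) = quotAct P a (quotAct P b v)
    rw [map_mul]; rfl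

/-- hypotheses for the minus type group of order 32 -/
structure Minus (P : Type*) [Group P] [Finite P] (z : P) : Prop extends Data P z where
  card : Nat.card P = 32
  minus : ∀ A : Subgroup P, Cfsg.IsElementaryAbelian 2 A → Nat.card A ≤ 4

namespace Minus

variable {z : P} (D : Minus P z)
include D

theorem eq_of_comm {x c : P} (hx : x * x = 1) (hc : c * c = 1) (hxc : x * c = c * x) (hx1 : x ≠ 1) (hxz : x ≠ z) :
    c = 1 ∨ c = z ∨ c = x ∨ c = z * x := by
  by_contra hcon
  push Not at hcon
  obtain ⟨c1, c2, c3, c4⟩ := hcon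
  set A := closure ({z, x, c} : Set P) with hA
  have hcomm : ∀ a ∈ ({z, x, c} : Set P), ∀ b ∈ ({z, x, c} : Set P), a * b = b * a := by
    rintro a (rfl | rfl | rfl) b (rfl | rfl | rfl) <;>
      first
      | rfl
      | exact D.cent _
      | exact (D.cent _).symm
      | exact hxc
      | exact hxc.symm
  have hAc : IsMulCommutative A := isMulCommutative_closure hcomm
  have hAcomm : ∀ a ∈ A, ∀ b ∈ A, a * b = b * a := fun a ha b hb =>
    congrArg Subtype.val (hAc.is_comm.comm ⟨a, ha⟩ ⟨b, hb⟩)
  have hsq : ∀ a ∈ A, a ^ 2 = 1 := by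
    intro a ha
    refine closure_induction (p := fun a _ => a ^ 2 = 1) ?_ (one_pow _) ?_ ?_ ha
    · rintro a (rfl | rfl | rfl)
      · rw [sq]; exact D.sq
      · rw [sq]; exact hx
      · rw [sq]; exact hc
    · intro a b ha' hb' h1 h2
      have : Commute a b := hAcomm a ha' b hb'
      rw [this.mul_pow, h1, h2, one_mul]
    · intro a _ h1
      rw [inv_pow, h1, inv_one]
  have hle := D.minus A ⟨hAc, hsq⟩
  have hzA : z ∈ A := subset_closure (by simp)
  have hxA : x ∈ A := subset_closure (by simp)
  have hcA : c ∈ A := subset_closure (by simp)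
  have hinj : Function.Injective (![⟨1, one_mem _⟩, ⟨z, hzA⟩, ⟨x, hxA⟩, ⟨z * x, mul_mem hzA hxA⟩, ⟨c, hcA⟩] : Fin 5 → A) := by
    have hz1 := D.ne
    have d1 : z * x ≠ 1 := by
      intro h
      apply hxz
      have : z * x = z * z := by rw [h, D.sq]
      exact mul_left_cancel this
    have d2 : z * x ≠ z := by simpa using hx1
    have d3 : z * x ≠ x := by simpa using hz1
    intro i j hij
    have hij' := congrArg Subtype.val hij
    fin_cases i <;> fin_cases j <;> simp at hij' ⊢ <;>
      first
      | exact absurd hij' hz1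
      | exact absurd hij'.symm hz1
      | exact absurd hij' hx1
      | exact absurd hij'.symm hx1
      | exact absurd hij' hxz
      | exact absurd hij'.symm hxz
      | exact absurd hij' d1
      | exact absurd hij'.symm d1
      | exact absurd hij' d2
      | exact absurd hij'.symm d2
      | exact absurd hij' d3
      | exact absurd hij'.symm d3
      | exact absurd hij' c1
      | exact absurd hij'.symm c1
      | exact absurd hij' c2
      | exact absurd hij'.symm c2
      | exact absurd hij' c3
      | exact absurd hij'.symm c3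
      | exact absurd hij' c4
      | exact absurd hij'.symm c4
  have := Nat.card_le_card_of_injective _ hinj
  rw [Nat.card_eq_fintype_card, Fintype.card_fin] at this
  omega

omit D in
theorem mk_eq_iff (D : Data P z) (a b : P) :
    (QuotientGroup.mk a : P ⧸ center P) = QuotientGroup.mk b ↔ (b = a ∨ b = z * a) := by
  rw [QuotientGroup.eq, D.mem_center]
  constructor
  · rintro (h | h)
    · left; rw [inv_mul_eq_one] at h; exact h.symm
    · right; rw [inv_mul_eq_iff_eq_mul] at h; rw [h, D.cent]
  · rintro (h | h)
    · left; rw [h, inv_mul_cancel]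
    · right; rw [h, D.cent]; group

/-- distinct singular points do not commute -/
theorem not_comm_of_sing {x t : P} (hx : x * x = 1) (ht : t * t = 1) (hx1 : x ≠ 1) (hxz : x ≠ z)
    (ht1 : t ≠ 1) (htz : t ≠ z)
    (hne : (QuotientGroup.mk x : P ⧸ center P) ≠ QuotientGroup.mk t) : x * t ≠ t * x := by
  intro h
  rcases D.eq_of_comm hx ht h hx1 hxz with h1 | h1 | h1 | h1
  · exact ht1 h1
  · exact htz h1
  · exact hne (by rw [h1])
  · exact hne ((mk_eq_iff D.toData x t).mpr (Or.inr h1))

theorem rep_ne {x : P} (h : (QuotientGroup.mk x : P ⧸ center P) ≠ 1) : x ≠ 1 ∧ x ≠ z := by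
  constructor
  · rintro rfl; exact h rfl
  · rintro rfl
    apply h
    rw [QuotientGroup.eq_one_iff, D.mem_center]; exact Or.inr rfl

/-- every transposition of the singular points is induced by an automorphism -/
theorem exists_swap [DecidableEq {v : P ⧸ center P // IsSing v}] (v w : {v : P ⧸ center P // IsSing v}) (hvw : v ≠ w) :
    ∃ f : MulAut P, permAct P f = Equiv.swap v w := by
  obtain ⟨v, hv1, x, hx, rfl⟩ := v
  obtain ⟨w, hw1, y, hy, rfl⟩ := w
  obtain ⟨x1, xz⟩ := D.rep_ne hv1
  obtain ⟨y1, yz⟩ := D.rep_ne hw1
  have hne : (QuotientGroup.mk x : P ⧸ center P) ≠ QuotientGroup.mk y := fun h => hvw (Subtype.ext h)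
  have hxy := D.not_comm_of_sing hx hy x1 xz y1 yz hne
  have hxy' := D.not_comm hxy
  have hyx' : y * x = z * (x * y) := by rw [hxy', ← mul_assoc, D.sq, one_mul]
  have hu : (x * y) * (x * y) = z := by
    calc (x * y) * (x * y) = x * (y * x) * y := by group
      _ = (x * z) * x * (y * y) := by rw [hyx']; group
      _ = z * (x * x) * (y * y) := by rw [← D.cent x]; group
      _ = z := by rw [hx, hy, mul_one, mul_one]
  set f : MulAut P := MulEquiv.ofBijective (D.toData.tau (x * y) hu) (D.toData.tau_bijective (x * y) hu) with hf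
  have hfa : ∀ g, f g = D.toData.tau (x * y) hu g := fun g => rfl
  have hz1 := D.ne
  have e1 : f x = y := by
    rw [hfa, D.toData.tau_apply, if_neg]
    · rw [← mul_assoc, hx, one_mul]
    · intro h
      have h1 : (x * y) * x = z * y := by
        calc (x * y) * x = x * (y * x) := by group
          _ = (x * z) * x * y := by rw [hyx']; group
          _ = z * (x * x) * y := by rw [← D.cent x]; group
          _ = z * y := by rw [hx, mul_one]
      have h2 : x * (x * y) = y := by rw [← mul_assoc, hx, one_mul]
      rw [h1, h2] at h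
      exact hz1 (mul_eq_right.mp h)
  have e2 : f y = z * x := by
    have h2 : y * (x * y) = z * x := by
      calc y * (x * y) = (y * x) * y := by group
        _ = z * x * (y * y) := by rw [hyx']; group
        _ = z * x := by rw [hy, mul_one]
    rw [hfa, D.toData.tau_apply, if_neg]
    · exact h2
    · intro h
      have h1 : (x * y) * y = x := by rw [mul_assoc, hy, mul_one]
      rw [h1, h2] at h
      exact hz1 (mul_eq_right.mp h.symm)
  refine ⟨f, ?_⟩
  apply Equiv.ext
  rintro ⟨t, ht1, t, ht, rfl⟩
  obtain ⟨t1, tz⟩ := D.rep_ne ht1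
  by_cases htv : (QuotientGroup.mk t : P ⧸ center P) = QuotientGroup.mk x
  · have : (⟨QuotientGroup.mk t, ht1, t, ht, rfl⟩ : {v : P ⧸ center P // IsSing v}) = ⟨QuotientGroup.mk x, hv1, x, hx, rfl⟩ :=
      Subtype.ext htv
    rw [this, Equiv.swap_apply_left]
    apply Subtype.ext
    show quotAct P f (QuotientGroup.mk x) = QuotientGroup.mk y
    rw [quotAct_mk, e1]
  by_cases htw : (QuotientGroup.mk t : P ⧸ center P) = QuotientGroup.mk y
  · have : (⟨QuotientGroup.mk t, ht1, t, ht, rfl⟩ : {v : P ⧸ center P // IsSing v}) = ⟨QuotientGroup.mk y, hw1, y, hy, rfl⟩ :=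
      Subtype.ext htw
    rw [this, Equiv.swap_apply_right]
    apply Subtype.ext
    show quotAct P f (QuotientGroup.mk y) = QuotientGroup.mk x
    rw [quotAct_mk, e2, mk_eq_iff D.toData]
    right; rw [← mul_assoc, D.sq, one_mul]
  · rw [Equiv.swap_apply_of_ne_of_ne (fun h => htv (congrArg Subtype.val h)) (fun h => htw (congrArg Subtype.val h))]
    apply Subtype.ext
    show quotAct P f (QuotientGroup.mk t) = QuotientGroup.mk t
    have c1 := D.not_comm_of_sing ht hx t1 tz x1 xz htv
    have c2 := D.not_comm_of_sing ht hy t1 tz y1 yz htw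
    rw [quotAct_mk, hfa, D.toData.tau_apply, if_pos (D.toData.comm_of_not_not c1 c2).symm]

theorem permAct_surjective : Function.Surjective (permAct P) := by
  classical
  rw [← MonoidHom.range_eq_top, eq_top_iff, ← Equiv.Perm.closure_isSwap, closure_le]
  rintro σ ⟨v, w, hvw, rfl⟩
  obtain ⟨f, hf⟩ := D.exists_swap v w hvw
  exact ⟨f, hf⟩

theorem exists_pair' (hex : Cfsg.IsExtraspecial 2 P) : ∃ x y : P, ⁅x, y⁆ ≠ 1 ∧ x ^ 2 = 1 ∧ y ^ 2 = 1 := by
  have h2 : Fact (Nat.Prime 2) := ⟨Nat.prime_two⟩
  have hZ := commutator_le hex.1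
  have hc := hex.2
  obtain ⟨a, b, hab⟩ := exists_noncomm_of_card hc (by rw [D.card]; norm_num)
  apply exists_pair_D hZ hc hab
  have k := card_centralizer_pair hZ hc hab
  rw [D.card] at k
  omega

/-- noncentral elements of `C(x, y)` square to `z` -/
theorem sq_of_mem {x y c : P} (hxy : ⁅x, y⁆ ≠ 1) (hx : x ^ 2 = 1)
    (hc : c ∈ centralizer ({x, y} : Set P)) (h1 : c ≠ 1) (hz : c ≠ z) : c * c = z := by
  rcases D.sqs c with h | h
  · exfalso
    have hxc : x * c = c * x := mem_centralizer_iff.mp hc x (by simp)
    have hyc : y * c = c * y := mem_centralizer_iff.mp hc y (by simp)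
    have hx1 : x ≠ 1 := by rintro rfl; exact hxy (by simp)
    have hxz : x ≠ z := by
      rintro rfl
      apply hxy
      rw [commutatorElement_eq_one_iff_mul_comm]
      exact D.cent y
    have hnc : x * y ≠ y * x := fun h => hxy (commutatorElement_eq_one_iff_mul_comm.mpr h)
    rcases D.eq_of_comm (by rw [← sq]; exact hx) h hxc hx1 hxz with h3 | h3 | h3 | h3
    · exact h1 h3
    · exact hz h3
    · rw [h3] at hyc; exact hnc hyc.symm
    · rw [h3] at hyc
      apply hnc
      have : z * (y * x) = z * (x * y) := by
        calc z * (y * x) = (z * y) * x := by group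
          _ = y * (z * x) := by rw [D.cent y]; group
          _ = z * (x * y) := by rw [hyc]; group
      exact (mul_left_cancel this).symm
  · exact h

theorem card_sing (hex : Cfsg.IsExtraspecial 2 P) : Nat.card {v : P ⧸ center P // IsSing v} = 5 := by
  have h2 : Fact (Nat.Prime 2) := ⟨Nat.prime_two⟩
  have hZ := commutator_le hex.1
  have hc := hex.2
  obtain ⟨x, y, hxy, hx, hy⟩ := D.exists_pair' hex
  have k := card_centralizer_pair hZ hc hxy
  rw [D.card] at k
  have hC8 : Nat.card (centralizer ({x, y} : Set P)) = 8 := by omega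
  have hs := ExtraCount.sqc_D hZ hc hxy hx hy
  have hsC : ExtraCount.sqc (centralizer ({x, y} : Set P)) = 2 := by
    rw [← hc, ExtraCount.sqc]
    refine Nat.card_congr ⟨fun c => ⟨((c : centralizer ({x, y} : Set P)) : P), ?_⟩,
      fun c => ⟨⟨c, mem_centralizer_pair_of_mem_center c.2⟩, ?_⟩, fun c => rfl, fun c => rfl⟩
    · rw [D.mem_center]
      by_contra hcon
      push Not at hcon
      have h1 := D.sq_of_mem hxy hx (c : centralizer ({x, y} : Set P)).2 hcon.1 hcon.2
      have h3 : ((c : centralizer ({x, y} : Set P)) : P) ^ 2 = 1 := congrArg Subtype.val c.2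
      rw [sq, h1] at h3
      exact D.ne h3
    · apply Subtype.ext
      exact center_pow hc c.2
  rw [hsC, hC8] at hs
  -- the cosets
  have h3 := QuotientGroup.card_preimage_mk (center P) {v : P ⧸ center P | ∃ t : P, t * t = 1 ∧ (QuotientGroup.mk t : P ⧸ center P) = v}
  have h4 : Nat.card (QuotientGroup.mk ⁻¹' {v : P ⧸ center P | ∃ t : P, t * t = 1 ∧ (QuotientGroup.mk t : P ⧸ center P) = v} : Set P) =
      ExtraCount.sqc P := by
    rw [ExtraCount.sqc]
    refine Nat.card_congr (Equiv.subtypeEquivRight fun g => ?_)
    constructor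
    · rintro ⟨t, ht, htg⟩
      rw [sq]
      rcases (mk_eq_iff D.toData t g).mp htg with h | h
      · rw [h]; exact ht
      · rw [h]
        calc z * t * (z * t) = z * (t * z) * t := by group
          _ = (z * z) * (t * t) := by rw [← D.cent t]; group
          _ = 1 := by rw [D.sq, ht, one_mul]
    · intro h
      exact ⟨g, by rw [← sq]; exact h, rfl⟩
  rw [h4, hs, hc] at h3
  have h5 : {v : P ⧸ center P | ∃ t : P, t * t = 1 ∧ (QuotientGroup.mk t : P ⧸ center P) = v} =
      insert 1 {v : P ⧸ center P | IsSing v} := by
    ext v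
    simp only [Set.mem_ofPred_eq, Set.mem_insert_iff, IsSing]
    constructor
    · intro h
      by_cases hv : v = 1
      · exact Or.inl hv
      · exact Or.inr ⟨hv, h⟩
    · rintro (rfl | ⟨_, h⟩)
      · exact ⟨1, one_mul 1, rfl⟩
      · exact h
  rw [h5, Nat.card_coe_set_eq, Set.ncard_insert_of_notMem (by simp [IsSing])] at h3
  have h6 : Nat.card {v : P ⧸ center P // IsSing v} = {v : P ⧸ center P | IsSing v}.ncard := Nat.card_coe_set_eq _
  omega

theorem ker_permAct (hex : Cfsg.IsExtraspecial 2 P) : (permAct P).ker = (MulAut.conj : P →* MulAut P).range := by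
  have h2 : Fact (Nat.Prime 2) := ⟨Nat.prime_two⟩
  have hZ := commutator_le hex.1
  have hc := hex.2
  apply le_antisymm
  · intro f hf
    rw [MonoidHom.mem_ker] at hf
    have hsing : ∀ t : P, t * t = 1 → (QuotientGroup.mk (f t) : P ⧸ center P) = QuotientGroup.mk t := by
      intro t ht
      by_cases ht1 : (QuotientGroup.mk t : P ⧸ center P) = 1
      · rw [← quotAct_mk, ht1, map_one]
      · have h1 := congrArg (fun σ : Equiv.Perm {v : P ⧸ center P // IsSing v} =>
          ((σ ⟨QuotientGroup.mk t, ht1, t, ht, rfl⟩ : {v : P ⧸ center P // IsSing v}) : P ⧸ center P)) hf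
        exact h1
    obtain ⟨x, y, hxy, hx, hy⟩ := D.exists_pair' hex
    set E : Subgroup P := ((QuotientGroup.mk' (center P)).comp f.toMonoidHom).eqLocus (QuotientGroup.mk' (center P)) with hE
    have hmemE : ∀ g, g ∈ E ↔ (QuotientGroup.mk (f g) : P ⧸ center P) = QuotientGroup.mk g := fun g => Iff.rfl
    have hEt : E = ⊤ := by
      rw [eq_top_iff, ← closure_centralizer_pair hZ hc hxy, closure_le]
      have hxE : x ∈ E := (hmemE x).mpr (hsing x (by rw [← sq]; exact hx))
      have hyE : y ∈ E := (hmemE y).mpr (hsing y (by rw [← sq]; exact hy))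
      rintro c (hcc | hcc)
      · by_cases h1 : c = 1
        · rw [h1]; exact one_mem _
        by_cases hcz : c = z
        · rw [hcz]
          show z ∈ E
          rw [hmemE]
          exact hsing z D.sq
        have hcs := D.sq_of_mem hxy hx hcc h1 hcz
        -- `x y c` is an involution
        have hxc : x * c = c * x := mem_centralizer_iff.mp hcc x (by simp)
        have hyc : y * c = c * y := mem_centralizer_iff.mp hcc y (by simp)
        have hnc : x * y ≠ y * x := fun h => hxy (commutatorElement_eq_one_iff_mul_comm.mpr h)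
        have hxy' := D.not_comm hnc
        have hyx' : y * x = z * (x * y) := by rw [hxy', ← mul_assoc, D.sq, one_mul]
        have hinv : (x * y * c) * (x * y * c) = 1 := by
          have hx' : x * x = 1 := by rw [← sq]; exact hx
          have hy' : y * y = 1 := by rw [← sq]; exact hy
          have e0 : c * (x * y) = x * y * c := by
            rw [← mul_assoc, ← hxc, mul_assoc, ← hyc, mul_assoc]
          calc (x * y * c) * (x * y * c) = (x * y) * (c * (x * y)) * c := by group
            _ = (x * y) * (x * y * c) * c := by rw [e0]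
            _ = x * (y * x) * y * (c * c) := by group
            _ = (x * z) * x * (y * y) * (c * c) := by rw [hyx']; group
            _ = z * (x * x) * (y * y) * (c * c) := by rw [← D.cent x]; group
            _ = 1 := by rw [hx', hy', hcs, mul_one, mul_one, D.sq]
        have h3 : x * y * c ∈ E := (hmemE _).mpr (hsing _ hinv)
        have h4 : c = (x * y)⁻¹ * (x * y * c) := by group
        show c ∈ E
        rw [h4]
        exact mul_mem (inv_mem (mul_mem hxE hyE)) h3
      · rcases hcc with rfl | hcc
        · exact hxE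
        · rw [Set.mem_singleton_iff] at hcc; rw [hcc]; exact hyE
    obtain ⟨g, hg⟩ := H91.ExtraDual.inner_of_trivial_mod_center hex f.toMonoidHom (by
      intro g
      have : g ∈ E := by rw [hEt]; exact mem_top _
      have h1 := ((hmemE g).mp this).symm
      rcases (mk_eq_iff D.toData _ _).mp h1 with h | h
      · show f g * g⁻¹ ∈ _
        rw [h, mul_inv_cancel]; exact one_mem _
      · show f g * g⁻¹ ∈ _
        rw [h, mul_inv_cancel_right, D.mem_center]; exact Or.inr rfl)
    refine ⟨g, ?_⟩
    ext x
    exact (hg x).symm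
  · rintro _ ⟨g, rfl⟩
    rw [MonoidHom.mem_ker]
    apply Equiv.ext
    rintro ⟨v, hv1, t, ht, rfl⟩
    apply Subtype.ext
    show quotAct P (MulAut.conj g) (QuotientGroup.mk t) = QuotientGroup.mk t
    rw [quotAct_mk, MulAut.conj_apply, mk_eq_iff D.toData]
    rcases D.comm g t with h | h
    · left; rw [h, mul_inv_cancel_right]
    · right
      rw [h]
      calc t = (z * z) * t := by rw [D.sq, one_mul]
        _ = z * (z * (t * g) * g⁻¹) := by group

end Minus

end H76.AutExtra
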