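import Mathlib

/-! Binary affine groups, stage 1: reflections (elements with a maximal number of fixed vectors). -/

set_option autoImplicit false

namespace H76.Bin

/-- The data of a binary primitive affine group: translation group `V`, point stabilizer `H`. -/
structure Dat (V H : Type*) [AddCommGroup V] [Group H] [DistribMulAction H V] (p : ℕ) : Prop where
  hp : ∀ v : V, p • v = 0
  irr : ∀ W : AddSubgroup V, (∀ h : H, ∀ w ∈ W, h • w ∈ W) → W = ⊥ ∨ W = ⊤
  bin : ∀ (n : ℕ) (x y : Fin n → V),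
    (∀ i j, ∃ h : H, h • (x i - x j) = y i - y j) → ∃ h : H, ∀ i j, h • (x i - x j) = y i - y j

variable {V H : Type*} [AddCommGroup V] [Group H] [DistribMulAction H V] {p : ℕ}

/-- fixed vectors of `g` -/
def fixS (V : Type*) {H : Type*} [AddCommGroup V] [Group H] [DistribMulAction H V] (g : H) :
    AddSubgroup V where
  carrier := {v | g • v = v}
  zero_mem' := smul_zero g
  add_mem' := by
    intro a b ha hb
    change g • (a + b) = a + b
    rw [smul_add, show g • a = a from ha, show g • b = b from hb]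
  neg_mem' := by
    intro a ha
    change g • (-a) = -a
    rw [smul_neg, show g • a = a from ha]

theorem mem_fixS {g : H} {v : V} : v ∈ fixS V g ↔ g • v = v := Iff.rfl

theorem Dat.binF (D : Dat V H p) {ι : Type*} [Finite ι] (x y : ι → V)
    (h : ∀ i j, ∃ h : H, h • (x i - x j) = y i - y j) :
    ∃ h : H, ∀ i j, h • (x i - x j) = y i - y j := by
  classical
  obtain ⟨n, ⟨e⟩⟩ := Finite.exists_equiv_fin ι
  obtain ⟨g, hg⟩ := D.bin n (x ∘ e.symm) (y ∘ e.symm) (fun i j => h _ _)
  refine ⟨g, fun i j => ?_⟩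
  have := hg (e i) (e j)
  simpa using this

theorem Dat.bin3 (D : Dat V H p) {a b a' b' : V} (h1 : ∃ h : H, h • a = a') (h2 : ∃ h : H, h • b = b')
    (h3 : ∃ h : H, h • (a - b) = a' - b') : ∃ h : H, h • a = a' ∧ h • b = b' := by
  obtain ⟨g, hg⟩ := D.binF (ι := Option (Option Unit))
    (fun i => match i with | none => 0 | some none => a | some (some _) => b)
    (fun i => match i with | none => 0 | some none => a' | some (some _) => b')
    (by
      rintro (_ | _ | _) (_ | _ | _)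
      · exact ⟨1, by simp⟩
      · obtain ⟨h, hh⟩ := h1
        exact ⟨h, by simp [hh]⟩
      · obtain ⟨h, hh⟩ := h2
        exact ⟨h, by simp [hh]⟩
      · obtain ⟨h, hh⟩ := h1
        exact ⟨h, by simp [hh]⟩
      · exact ⟨1, by simp⟩
      · exact h3
      · obtain ⟨h, hh⟩ := h2
        exact ⟨h, by simp [hh]⟩
      · obtain ⟨h, hh⟩ := h3
        exact ⟨h, by
          change h • (b - a) = b' - a'
          rw [← neg_sub a b, smul_neg, hh, neg_sub]⟩
      · exact ⟨1, by simp⟩)
  refine ⟨g, ?_, ?_⟩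
  · have := hg (some none) none
    simpa using this
  · have := hg (some (some ())) none
    simpa using this

/-- swap -/
theorem Dat.swap (D : Dat V H p) (w : V) (k : H) : ∃ h : H, h • w = k • w ∧ h • (k • w) = w := by
  obtain ⟨g, h1, h2⟩ := D.bin3 (a := -w) (b := k⁻¹ • w) (a' := -w) (b' := k • w)
    ⟨1, one_smul _ _⟩ ⟨k * k, by rw [mul_smul, smul_inv_smul]⟩
    ⟨k, by rw [smul_sub, smul_neg, smul_inv_smul]; abel⟩
  refine ⟨g * k⁻¹, ?_, ?_⟩
  · rw [mul_smul, h2]
  · rw [mul_smul, inv_smul_smul]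
    rw [smul_neg] at h1
    exact neg_injective h1

/-- bisector -/
theorem Dat.bis [Finite V] (D : Dat V H p) (x : V) (k : H) :
    ∃ g : H, g • x = k • x ∧ g • (k • x) = x ∧
      ∀ q : V, g • q = q ↔ ∃ h : H, h • (x - q) = k • x - q := by
  classical
  obtain ⟨s, hs1, hs2⟩ := D.swap x k
  obtain ⟨g, hg⟩ := D.binF (ι := Option (Option {q : V // ∃ h : H, h • (x - q) = k • x - q}))
    (fun i => match i with | none => x | some none => k • x | some (some q) => q.1)
    (fun i => match i with | none => k • x | some none => x | some (some q) => q.1)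
    (by
      rintro (_ | _ | ⟨q, hq⟩) (_ | _ | ⟨q', hq'⟩)
      · exact ⟨1, by simp⟩
      · exact ⟨s, by
          change s • (x - k • x) = k • x - x
          rw [smul_sub, hs1, hs2]⟩
      · exact hq'
      · exact ⟨s, by
          change s • (k • x - x) = x - k • x
          rw [smul_sub, hs1, hs2]⟩
      · exact ⟨1, by simp⟩
      · obtain ⟨h, hh⟩ := hq'
        exact ⟨h⁻¹, by
          change h⁻¹ • (k • x - q') = x - q'
          rw [← hh, inv_smul_smul]⟩
      · obtain ⟨h, hh⟩ := hq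
        exact ⟨h, by
          change h • (q - x) = q - k • x
          rw [← neg_sub x q, smul_neg, hh, neg_sub]⟩
      · obtain ⟨h, hh⟩ := hq
        exact ⟨h⁻¹, by
          change h⁻¹ • (q - k • x) = q - x
          rw [← neg_sub (k • x) q, smul_neg, ← hh, inv_smul_smul, neg_sub]⟩
      · exact ⟨1, one_smul _ _⟩)
  have h0 : ∃ h : H, h • (x - (0 : V)) = k • x - 0 := ⟨k, by simp⟩
  have hx : g • x = k • x := by
    have := hg none (some (some ⟨0, h0⟩))
    simpa using this
  have hx' : g • (k • x) = x := by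
    have := hg (some none) (some (some ⟨0, h0⟩))
    simpa using this
  refine ⟨g, hx, hx', fun q => ⟨fun hq => ⟨g, by rw [smul_sub, hx, hq]⟩, fun hq => ?_⟩⟩
  have := hg (some (some ⟨q, hq⟩)) (some (some ⟨0, h0⟩))
  simpa using this

/-- `t` moves something and has the largest possible number of fixed vectors. -/
def IsR (V : Type*) {H : Type*} [AddCommGroup V] [Group H] [DistribMulAction H V] (t : H) : Prop :=
  t ≠ 1 ∧ ∀ g : H, g ≠ 1 → Nat.card (fixS V g) ≤ Nat.card (fixS V t)

theorem exists_isR [Finite H] [Nontrivial H] : ∃ t : H, IsR V t := by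
  classical
  obtain ⟨a, ha⟩ := exists_ne (1 : H)
  obtain ⟨t, ht, hmax⟩ := Set.exists_max_image {g : H | g ≠ 1} (fun g => Nat.card (fixS V g))
    (Set.toFinite _) ⟨a, ha⟩
  exact ⟨t, ht, fun g hg => hmax g hg⟩

theorem IsR.of_le [Finite V] {t g : H} (ht : IsR V t) (hg : g ≠ 1) (hle : fixS V t ≤ fixS V g) :
    IsR V g ∧ fixS V g = fixS V t := by
  have h1 : Nat.card (fixS V t) ≤ Nat.card (fixS V g) := AddSubgroup.card_le_of_le hle
  refine ⟨⟨hg, fun g' hg' => (ht.2 g' hg').trans h1⟩, ?_⟩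
  exact (AddSubgroup.eq_of_le_of_card_ge hle (ht.2 g hg)).symm

theorem IsR.bis [Finite V] (D : Dat V H p) {t : H} (ht : IsR V t) {y : V} (hy : t • y ≠ y) {q : V}
    (hq : ∃ h : H, h • (y - q) = t • y - q) : t • q = q := by
  obtain ⟨g, hg1, hg2, hg3⟩ := D.bis y t
  have hg : g ≠ 1 := by
    rintro rfl
    rw [one_smul] at hg1
    exact hy hg1.symm
  have hle : fixS V t ≤ fixS V g := by
    intro v hv
    rw [mem_fixS] at hv ⊢
    exact (hg3 v).2 ⟨t, by rw [smul_sub, hv]⟩
  obtain ⟨-, h2⟩ := ht.of_le hg hle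
  have : q ∈ fixS V g := (hg3 q).2 hq
  rw [h2] at this
  exact this

/-- (K) -/
theorem IsR.key [Finite V] (D : Dat V H p) {t : H} (ht : IsR V t) {v y : V} (hv : t • v ≠ v)
    (hy : ∃ h : H, h • y = y + (t • v - v)) : t • y = y + (t • v - v) := by
  have h1 : t • (v - y) = v - y := by
    refine ht.bis D hv ?_
    obtain ⟨h, hh⟩ := hy
    refine ⟨h, ?_⟩
    rw [sub_sub_cancel, hh]
    abel
  rw [smul_sub] at h1
  have h2 : t • y = t • v - (v - y) := by rw [← h1]; abel
  rw [h2]
  abel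

theorem IsR.sq_smul [Finite V] (D : Dat V H p) {t : H} (ht : IsR V t) (y : V) : t • (t • y) = y := by
  by_cases hy : t • y = y
  · rw [hy, hy]
  have h1 : t • (-y) ≠ -y := by
    rw [smul_neg]
    intro h
    exact hy (neg_injective h)
  have h2 := ht.key D h1 (y := t • y) ⟨t⁻¹, by rw [inv_smul_smul, smul_neg]; abel⟩
  rw [h2, smul_neg]
  abel

theorem IsR.mul_self [Finite V] [FaithfulSMul H V] (D : Dat V H p) {t : H} (ht : IsR V t) :
    t * t = 1 := by
  apply FaithfulSMul.eq_of_smul_eq_smul (α := V)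
  intro v
  rw [mul_smul, ht.sq_smul D, one_smul]

theorem IsR.inv_eq [Finite V] [FaithfulSMul H V] (D : Dat V H p) {t : H} (ht : IsR V t) :
    t⁻¹ = t := inv_eq_of_mul_eq_one_right (ht.mul_self D)

/-- the subgroup `(t - 1) V` -/
def Zs (V : Type*) {H : Type*} [AddCommGroup V] [Group H] [DistribMulAction H V] (t : H) :
    AddSubgroup V := (DistribSMul.toAddMonoidHom V t - AddMonoidHom.id V).range

theorem mem_Zs {t : H} {u : V} : u ∈ Zs V t ↔ ∃ v : V, t • v - v = u := by
  unfold Zs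
  rw [AddMonoidHom.mem_range]
  rfl

theorem IsR.neg [Finite V] (D : Dat V H p) {t : H} (ht : IsR V t) {u : V} (hu : u ∈ Zs V t) :
    t • u = -u := by
  obtain ⟨v, rfl⟩ := mem_Zs.1 hu
  rw [smul_sub, ht.sq_smul D]
  abel

theorem IsR.keyZ [Finite V] (D : Dat V H p) {t : H} (ht : IsR V t) {u y : V} (hu : u ∈ Zs V t)
    (hu0 : u ≠ 0) (hy : ∃ h : H, h • y = y + u) : t • y = y + u := by
  obtain ⟨v, rfl⟩ := mem_Zs.1 hu
  exact ht.key D (fun h => hu0 (by rw [h, sub_self])) hy

/-- conjugates -/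
theorem smul_mem_Zs {t h : H} {u : V} (hu : u ∈ Zs V t) : h • u ∈ Zs V (h * t * h⁻¹) := by
  obtain ⟨v, rfl⟩ := mem_Zs.1 hu
  refine mem_Zs.2 ⟨h • v, ?_⟩
  rw [mul_smul, mul_smul, inv_smul_smul, smul_sub]

theorem card_fixS_conj (t h : H) : Nat.card (fixS V (h * t * h⁻¹)) = Nat.card (fixS V t) := by
  refine Nat.card_congr ⟨fun v => ⟨h⁻¹ • v.1, ?_⟩, fun v => ⟨h • v.1, ?_⟩, ?_, ?_⟩
  · have := v.2
    rw [mem_fixS] at this ⊢
    rw [mul_smul, mul_smul] at this
    rw [← eq_inv_smul_iff] at this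
    exact this
  · have := v.2
    rw [mem_fixS] at this ⊢
    rw [mul_smul, mul_smul, inv_smul_smul, this]
  · intro v
    simp
  · intro v
    simp

theorem IsR.conj {t : H} (ht : IsR V t) (h : H) : IsR V (h * t * h⁻¹) := by
  refine ⟨?_, fun g hg => ?_⟩
  · intro hh
    apply ht.1
    have : h * t = h := by
      calc h * t = (h * t * h⁻¹) * h := by group
        _ = h := by rw [hh, one_mul]
    simpa using this
  · rw [card_fixS_conj]
    exact ht.2 g hg

/-- (F1) -/
theorem IsR.uniq [Finite V] [FaithfulSMul H V] (D : Dat V H p) {t t' : H} (ht : IsR V t)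
    (ht' : IsR V t') {u : V} (hu : u ∈ Zs V t) (hu' : u ∈ Zs V t') (hu0 : u ≠ 0) : t = t' := by
  by_contra hne
  obtain ⟨v, hv⟩ := mem_Zs.1 hu
  have hv1 : t • v = v + u := by rw [← hv]; abel
  have hv2 : t' • v = v + u := ht'.keyZ D hu' hu0 ⟨t, hv1⟩
  -- fixed spaces
  have hfix : ∀ c : V, t • c = c → t' • c = c := by
    intro c hc
    have h1 : t • (v + c) = (v + c) + u := by rw [smul_add, hv1, hc]; abel
    have h2 : t' • (v + c) = (v + c) + u := ht'.keyZ D hu' hu0 ⟨t, h1⟩
    rw [smul_add, hv2] at h2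
    have : t' • c = (v + c + u) - (v + u) := by rw [← h2]; abel
    rw [this]; abel
  have hg : t⁻¹ * t' ≠ 1 := fun h => hne (inv_mul_eq_one.1 h)
  have hle : fixS V t ≤ fixS V (t⁻¹ * t') := by
    intro c hc
    rw [mem_fixS] at hc ⊢
    rw [mul_smul, hfix c hc]
    exact inv_smul_eq_iff.2 hc.symm
  obtain ⟨-, h2⟩ := ht.of_le hg hle
  have h3 : v ∈ fixS V (t⁻¹ * t') := by
    rw [mem_fixS, mul_smul, hv2, ← hv1, inv_smul_smul]
  rw [h2, mem_fixS, hv1] at h3
  exact hu0 (by simpa using h3)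

/-- (F2) -/
theorem IsR.two [Finite V] (D : Dat V H p) {t : H} (ht : IsR V t) {u w : V} (hu : u ∈ Zs V t)
    (hw : w ∈ Zs V t) (h : ∃ g : H, g • u = w) : w = u ∨ w = -u := by
  by_cases hne : w = u
  · exact Or.inl hne
  right
  have h1 := ht.keyZ D (u := w - u) (y := u) (sub_mem hw hu) (sub_ne_zero.2 hne)
    (by obtain ⟨g, hg⟩ := h; exact ⟨g, by rw [hg]; abel⟩)
  rw [ht.neg D hu] at h1
  rw [h1]; abel

/-- (F3) -/
theorem IsR.stab [Finite V] [FaithfulSMul H V] [hpp : Fact p.Prime] (D : Dat V H p) {t : H}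
    (ht : IsR V t) {u : V} (hu : u ∈ Zs V t) (hu0 : u ≠ 0) {h : H} (hh : h • u = u) :
    h * t * h⁻¹ = t ∧ ∀ z ∈ Zs V t, h • z = z := by
  have h1 : h * t * h⁻¹ = t := by
    have h2 : u ∈ Zs V (h * t * h⁻¹) := by
      have := smul_mem_Zs (h := h) hu
      rwa [hh] at this
    exact (ht.conj h).uniq D ht h2 hu hu0
  refine ⟨h1, fun z hz => ?_⟩
  have hz' : h • z ∈ Zs V t := by
    have := smul_mem_Zs (h := h) hz
    rwa [h1] at this
  rcases ht.two D hz hz' ⟨h, rfl⟩ with h2 | h2
  · exact h2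
  rcases ht.two D (add_mem hz hu) (by rw [smul_add, hh]; exact add_mem hz' hu) ⟨h, rfl⟩ with h3 | h3
  · rw [smul_add, hh] at h3
    exact add_right_cancel h3
  · rw [smul_add, hh, h2] at h3
    have h4 : u + u = 0 := by
      have : -z + u + (z + u) = 0 := by rw [h3]; abel
      rw [← this]; abel
    have h5 : (2 : ℕ) • u = 0 := by rw [two_nsmul]; exact h4
    have hp2 : p = 2 := by
      by_contra hne
      have hcop : Nat.Coprime 2 p := (Nat.coprime_primes Nat.prime_two hpp.out).2 (Ne.symm hne)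
      have := addOrderOf_dvd_of_nsmul_eq_zero h5
      have h6 := addOrderOf_dvd_of_nsmul_eq_zero (D.hp u)
      have h7 := Nat.dvd_gcd this h6
      rw [hcop.gcd_eq_one, Nat.dvd_one, AddMonoid.addOrderOf_eq_one_iff] at h7
      exact hu0 h7
    rw [h2]
    have := D.hp z
    rw [hp2, two_nsmul] at this
    exact neg_eq_of_add_eq_zero_left this

end H76.Bin
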