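import Cfsg.Agent.Lib.H76.Bin9

/-! Binary affine groups: the reduction from permutation groups. -/

set_option autoImplicit false

namespace H76.Bin

open MulAction

structure Aff (G Ω V H : Type*) [Group G] [MulAction G Ω] [AddCommGroup V] [Group H]
    [DistribMulAction H V] (e0 : V ≃ Ω) : Prop where
  fwd : ∀ g : G, ∃ (h : H) (b : V), ∀ v, g • e0 v = e0 (h • v + b)
  bwd : ∀ (h : H) (b : V), ∃ g : G, ∀ v, g • e0 v = e0 (h • v + b)

section

variable {G Ω V H : Type*} [Group G] [MulAction G Ω] [AddCommGroup V] [Group H]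
    [DistribMulAction H V] {e0 : V ≃ Ω}

theorem Aff.irr (A : Aff G Ω V H e0) (hprim : IsPreprimitive G Ω) (W : AddSubgroup V)
    (hW : ∀ h : H, ∀ w ∈ W, h • w ∈ W) : W = ⊥ ∨ W = ⊤ := by
  have hB : IsBlock G (e0 '' (W : Set V)) := by
    rw [isBlock_iff_smul_eq_or_disjoint]
    intro g
    obtain ⟨h, b, hg⟩ := A.fwd g
    by_cases hb : b ∈ W
    · left
      apply Set.Subset.antisymm
      · rintro _ ⟨_, ⟨w, hw, rfl⟩, rfl⟩
        change g • e0 w ∈ _
        rw [hg]
        exact ⟨_, add_mem (hW h w hw) hb, rfl⟩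
      · rintro _ ⟨w, hw, rfl⟩
        refine ⟨e0 (h⁻¹ • (w - b)), ⟨_, hW h⁻¹ _ (sub_mem hw hb), rfl⟩, ?_⟩
        change g • e0 _ = _
        rw [hg, smul_inv_smul, sub_add_cancel]
    · right
      rw [Set.disjoint_left]
      rintro _ ⟨_, ⟨w, hw, rfl⟩, rfl⟩ ⟨w', hw', h2⟩
      apply hb
      change e0 w' = g • e0 w at h2
      rw [hg] at h2
      have h3 := e0.injective h2
      have h4 : b = w' - h • w := by rw [h3]; abel
      rw [h4]
      exact sub_mem hw' (hW h w hw)
  rcases hprim.isTrivialBlock_of_isBlock hB with h | h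
  · left
    rw [eq_bot_iff]
    intro w hw
    have := h ⟨w, hw, rfl⟩ ⟨0, W.zero_mem, rfl⟩
    exact e0.injective this
  · right
    rw [eq_top_iff]
    intro v _
    have : e0 v ∈ e0 '' (W : Set V) := by rw [h]; trivial
    obtain ⟨w, hw, h2⟩ := this
    rw [← e0.injective h2]
    exact hw

theorem Aff.exists_dat [Finite V] [Nontrivial V] (A : Aff G Ω V H e0) (hprim : IsPreprimitive G Ω)
    (hbin : ∀ (n : ℕ) (I J : Fin n → Ω), 2 ≤ n →
      (∀ i j : Fin n, i ≠ j → ∃ g : G, g • I i = J i ∧ g • I j = J j) → ∃ g : G, ∀ i, g • I i = J i) :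
    ∃ p : ℕ, p.Prime ∧ Dat V H p := by
  classical
  have : Fintype V := Fintype.ofFinite V
  have hcard : Fintype.card V ≠ 1 := by
    have := Fintype.one_lt_card (α := V)
    omega
  obtain ⟨p, hp, hpd⟩ := Nat.exists_prime_and_dvd hcard
  have hpp : Fact p.Prime := ⟨hp⟩
  refine ⟨p, hp, ?_, fun W hW => A.irr hprim W hW, ?_⟩
  · obtain ⟨v0, hv0⟩ := exists_prime_addOrderOf_dvd_card p hpd
    have hv00 : v0 ≠ 0 := by
      rintro rfl
      rw [addOrderOf_zero] at hv0
      exact hp.one_lt.ne hv0
    let W : AddSubgroup V := {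
      carrier := {v | p • v = 0}
      zero_mem' := smul_zero p
      add_mem' := fun {a b} ha hb => by
        change p • (a + b) = 0
        rw [smul_add, show p • a = 0 from ha, show p • b = 0 from hb, add_zero]
      neg_mem' := fun {a} ha => by
        change p • (-a) = 0
        rw [smul_neg, show p • a = 0 from ha, neg_zero] }
    rcases A.irr hprim W (fun h w hw => by
      change p • (h • w) = 0
      rw [← smul_comm, show p • w = 0 from hw, smul_zero]) with h1 | h1
    · exfalso
      have : v0 ∈ W := by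
        change p • v0 = 0
        rw [← hv0]
        exact addOrderOf_nsmul_eq_zero v0
      rw [h1] at this
      exact hv00 this
    · intro v
      have : v ∈ W := by rw [h1]; trivial
      exact this
  · intro n x y hxy
    by_cases hn : 2 ≤ n
    · obtain ⟨g, hg⟩ := hbin n (e0 ∘ x) (e0 ∘ y) hn (by
        intro i j hij
        obtain ⟨h, hh⟩ := hxy i j
        obtain ⟨g, hg⟩ := A.bwd h (y i - h • x i)
        refine ⟨g, ?_, ?_⟩
        · change g • e0 (x i) = e0 (y i)
          rw [hg]; congr 1; abel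
        · change g • e0 (x j) = e0 (y j)
          rw [hg]; congr 1
          rw [smul_sub] at hh
          have : y j = y i - (h • x i - h • x j) := by rw [hh]; abel
          rw [this]; abel)
      obtain ⟨h, b, hb⟩ := A.fwd g
      have hk : ∀ i, h • x i + b = y i := by
        intro i
        have := hg i
        change g • e0 (x i) = e0 (y i) at this
        rw [hb] at this
        exact e0.injective this
      refine ⟨h, fun i j => ?_⟩
      rw [smul_sub, ← hk i, ← hk j]; abel
    · refine ⟨1, fun i j => ?_⟩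
      have : i = j := by
        apply Fin.ext
        have := i.2
        have := j.2
        omega
      rw [this, sub_self, sub_self, smul_zero]

theorem Aff.final {V : Type} [AddCommGroup V] [DistribMulAction H V] {e0 : V ≃ Ω}
    [Finite V] [Nontrivial V] [Finite H] [FaithfulSMul H V] [Finite G] [Fintype Ω]
    [FaithfulSMul G Ω] (A : Aff G Ω V H e0) (hprim : IsPreprimitive G Ω)
    (hbin : ∀ (n : ℕ) (I J : Fin n → Ω), 2 ≤ n →
      (∀ i j : Fin n, i ≠ j → ∃ g : G, g • I i = J i ∧ g • I j = J j) → ∃ g : G, ∀ i, g • I i = J i) :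
    ((Fintype.card Ω).Prime ∧ ∀ ω : Ω, Nat.card ↥(MulAction.stabilizer G ω) ≤ 2) ∨
    (∃ (F E : Type) (_ : Field F) (_ : Fintype F) (_ : Field E) (_ : Fintype E) (_ : Algebra F E)
      (e : Ω ≃ E), Module.finrank F E = 2 ∧
        ∀ σ : Equiv.Perm Ω, σ ∈ (MulAction.toPermHom G Ω).range ↔
          ∃ (a b : E) (φ : E ≃ₐ[F] E), Algebra.norm F a = 1 ∧ ∀ ω : Ω, e (σ ω) = a * φ (e ω) + b) := by
  classical
  obtain ⟨p, hp, D⟩ := A.exists_dat hprim hbin
  have hpp : Fact p.Prime := ⟨hp⟩
  rcases main_abs D with ⟨h1, h2⟩ | ⟨R, hR, σ, e, hσσ, hσne, hto, hof⟩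
  · left
    refine ⟨?_, fun ω => ?_⟩
    · rw [← Nat.card_eq_fintype_card, ← Nat.card_congr e0]; exact h1
    · refine le_trans ?_ h2
      choose f b hfb using A.fwd
      refine Nat.card_le_card_of_injective (fun g : MulAction.stabilizer G ω => f g.1) ?_
      intro g g' hgg
      change f g.1 = f g'.1 at hgg
      apply Subtype.ext
      have hb : ∀ g : MulAction.stabilizer G ω, b g.1 = e0.symm ω - f g.1 • e0.symm ω := by
        intro g
        have h3 := hfb g.1 (e0.symm ω)
        rw [Equiv.apply_symm_apply] at h3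
        have h4 : g.1 • ω = ω := g.2
        rw [h4] at h3
        have h5 : e0.symm ω = f g.1 • e0.symm ω + b g.1 := by
          apply e0.injective
          rw [← h3, Equiv.apply_symm_apply]
        have h6 : b g.1 = (f g.1 • e0.symm ω + b g.1) - f g.1 • e0.symm ω := by abel
        rw [h6, ← h5]
      apply FaithfulSMul.eq_of_smul_eq_smul (α := Ω)
      intro x
      obtain ⟨v, rfl⟩ := e0.surjective x
      rw [hfb, hfb, hb g, hb g', hgg]
  · right
    let fE : Field R := hR.toField
    have hfinR : Finite R := Finite.of_injective e.symm e.symm.injective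
    let fR : Fintype R := Fintype.ofFinite R
    obtain ⟨F, fF, finF, aF, hrk, hnorm, hauts, φ, hφ⟩ := quad (E := R) σ hσσ hσne
    refine ⟨F, R, fF, finF, fE, fR, aF, e0.symm.trans e.toEquiv, hrk, fun τ => ?_⟩
    constructor
    · rintro ⟨g, rfl⟩
      obtain ⟨h, b, hg⟩ := A.fwd g
      obtain ⟨a, ha, hcase⟩ := hto h
      have key : ∀ v : V, e (e0.symm (g • e0 v)) = e (h • v) + e b := by
        intro v
        rw [hg, Equiv.symm_apply_apply, map_add]
      rcases hcase with hc | hc
      · refine ⟨a, e b, AlgEquiv.refl, (hnorm a).2 ha, fun ω => ?_⟩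
        obtain ⟨v, rfl⟩ := e0.surjective ω
        change e (e0.symm (g • e0 v)) = a * e (e0.symm (e0 v)) + e b
        rw [key, hc, Equiv.symm_apply_apply]
      · refine ⟨a, e b, φ, (hnorm a).2 ha, fun ω => ?_⟩
        obtain ⟨v, rfl⟩ := e0.surjective ω
        change e (e0.symm (g • e0 v)) = a * φ (e (e0.symm (e0 v))) + e b
        rw [key, hc, hφ, Equiv.symm_apply_apply]
    · rintro ⟨a, b, ψ, ha, hψ⟩
      obtain ⟨⟨h1, hh1⟩, ⟨h2, hh2⟩⟩ := hof a ((hnorm a).1 ha)
      obtain ⟨h, hh⟩ : ∃ h : H, ∀ v, e (h • v) = a * ψ (e v) := by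
        rcases hauts ψ with h3 | h3
        · exact ⟨h1, fun v => by rw [h3, hh1]⟩
        · exact ⟨h2, fun v => by rw [h3, hh2]⟩
      obtain ⟨g, hg⟩ := A.bwd h (e.symm b)
      refine ⟨g, ?_⟩
      ext ω
      obtain ⟨v, rfl⟩ := e0.surjective ω
      change g • e0 v = τ (e0 v)
      rw [hg]
      apply e0.symm.injective
      apply e.injective
      rw [Equiv.symm_apply_apply, map_add, hh, AddEquiv.apply_symm_apply]
      have := hψ (e0 v)
      change e (e0.symm (τ (e0 v))) = a * ψ (e (e0.symm (e0 v))) + b at this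
      rw [this, Equiv.symm_apply_apply]

end

end H76.Bin
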