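import Cfsg.Agent.Lib.H76.Bin10

/-! Binary affine groups: constructing the affine structure. -/

set_option autoImplicit false

namespace H76.Bin

open MulAction

theorem exists_aff {G Ω : Type*} [Group G] [MulAction G Ω] [FaithfulSMul G Ω] {V : Type}
    [AddCommGroup V] {N : Subgroup G} (hN : N.Normal) (f : V → G) (hf : ∀ v w, f (v + w) = f v * f w)
    (hinj : Function.Injective f) (hr : ∀ g, g ∈ N ↔ ∃ v, f v = g)
    {ω0 : Ω} (hreg : ∀ n ∈ N, n • ω0 = ω0 → n = 1) (htr : ∀ x : Ω, ∃ n ∈ N, n • ω0 = x) :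
    ∃ (_ : DistribMulAction (stabilizer G ω0) V) (e0 : V ≃ Ω), FaithfulSMul (stabilizer G ω0) V ∧
      Aff G Ω V (stabilizer G ω0) e0 := by
  classical
  have hact : ∀ (h : G) (v : V), ∃ w, f w = h * f v * h⁻¹ := by
    intro h v
    rw [← hr]
    exact hN.conj_mem _ ((hr _).2 ⟨v, rfl⟩) h
  choose act hact using hact
  have hf0 : f 0 = 1 := by
    have := hf 0 0
    rw [add_zero] at this
    exact (mul_eq_left.1 this.symm)
  let inst : DistribMulAction (stabilizer G ω0) V := {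
    smul := fun h v => act h v
    one_smul := fun v => by
      apply hinj
      change f (act _ v) = _
      rw [hact]; simp
    mul_smul := fun a b v => by
      apply hinj
      change f (act _ v) = f (act _ (act _ v))
      rw [hact, hact, hact]
      simp only [Subgroup.coe_mul, mul_inv_rev, mul_assoc]
    smul_zero := fun a => by
      apply hinj
      change f (act _ 0) = f 0
      rw [hact, hf0]; simp
    smul_add := fun a v w => by
      apply hinj
      change f (act _ (v + w)) = f (act _ v + act _ w)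
      rw [hf, hact, hact, hact, hf]
      group }
  have hsm : ∀ (h : stabilizer G ω0) (v : V), f (h • v) = h * f v * (h : G)⁻¹ := fun h v => hact _ _
  have hbij : Function.Bijective (fun v : V => f v • ω0) := by
    constructor
    · intro v w hvw
      change f v • ω0 = f w • ω0 at hvw
      apply hinj
      have h1 : ((f w)⁻¹ * f v) • ω0 = ω0 := by rw [mul_smul, hvw, inv_smul_smul]
      have h2 := hreg _ (N.mul_mem (N.inv_mem ((hr _).2 ⟨w, rfl⟩)) ((hr _).2 ⟨v, rfl⟩)) h1
      exact (inv_mul_eq_one.1 h2).symm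
    · intro x
      obtain ⟨n, hn, hx⟩ := htr x
      obtain ⟨v, rfl⟩ := (hr n).1 hn
      exact ⟨v, hx⟩
  let e0 : V ≃ Ω := Equiv.ofBijective _ hbij
  have he0 : ∀ v, e0 v = f v • ω0 := fun v => rfl
  refine ⟨inst, e0, ⟨fun {h h'} hh => ?_⟩, ?_, ?_⟩
  · apply Subtype.ext
    apply FaithfulSMul.eq_of_smul_eq_smul (α := Ω)
    intro x
    obtain ⟨v, rfl⟩ := e0.surjective x
    have key : ∀ g : stabilizer G ω0, (g : G) • e0 v = f (g • v) • ω0 := by
      intro g
      rw [he0, hsm, mul_smul, mul_smul]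
      have h3 : (g : G)⁻¹ • ω0 = ω0 := by
        rw [inv_smul_eq_iff]; exact g.2.symm
      rw [h3]
    rw [key, key, hh]
  · intro g
    obtain ⟨n, hn, hx⟩ := htr (g • ω0)
    obtain ⟨b, rfl⟩ := (hr n).1 hn
    have hs : (f b)⁻¹ * g ∈ stabilizer G ω0 := by
      rw [mem_stabilizer_iff, mul_smul, ← hx, inv_smul_smul]
    refine ⟨⟨(f b)⁻¹ * g, hs⟩, b, fun v => ?_⟩
    rw [he0, he0, add_comm, hf, hsm]
    change g • f v • ω0 = (f b * ((f b)⁻¹ * g * f v * ((f b)⁻¹ * g)⁻¹)) • ω0
    have h3 : ((f b)⁻¹ * g)⁻¹ • ω0 = ω0 := by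
      rw [inv_smul_eq_iff]; exact (mem_stabilizer_iff.1 hs).symm
    rw [← mul_assoc, mul_smul _ (((f b)⁻¹ * g)⁻¹), h3, ← mul_smul]
    congr 1
    group
  · intro h b
    refine ⟨f b * h, fun v => ?_⟩
    rw [he0, he0, add_comm, hf, hsm]
    have h3 : (h : G)⁻¹ • ω0 = ω0 := by
      rw [inv_smul_eq_iff]; exact h.2.symm
    rw [← mul_assoc, mul_smul _ ((h : G)⁻¹), h3, ← mul_smul]
    congr 1
    group

theorem main {G Ω : Type*} [Group G] [Finite G] [MulAction G Ω] [FaithfulSMul G Ω] [Fintype Ω]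
    (hprim : MulAction.IsPreprimitive G Ω)
    (haff : ∃ N : Subgroup G, N.Normal ∧ N ≠ ⊥ ∧ IsMulCommutative ↥N)
    (hbin : ∀ (n : ℕ) (I J : Fin n → Ω), 2 ≤ n →
      (∀ i j : Fin n, i ≠ j → ∃ g : G, g • I i = J i ∧ g • I j = J j) → ∃ g : G, ∀ i, g • I i = J i) :
    ((Fintype.card Ω).Prime ∧ ∀ ω : Ω, Nat.card ↥(MulAction.stabilizer G ω) ≤ 2) ∨
    (∃ (F E : Type) (_ : Field F) (_ : Fintype F) (_ : Field E) (_ : Fintype E) (_ : Algebra F E)
      (e : Ω ≃ E), Module.finrank F E = 2 ∧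
        ∀ σ : Equiv.Perm Ω, σ ∈ (MulAction.toPermHom G Ω).range ↔
          ∃ (a b : E) (φ : E ≃ₐ[F] E), Algebra.norm F a = 1 ∧ ∀ ω : Ω, e (σ ω) = a * φ (e ω) + b) := by
  classical
  obtain ⟨N, hN, hN1, hab⟩ := haff
  have hcomm : ∀ a ∈ N, ∀ b ∈ N, a * b = b * a := by
    intro a ha b hb
    have := hab.is_comm.comm ⟨a, ha⟩ ⟨b, hb⟩
    exact congrArg Subtype.val this
  obtain ⟨n, hn, hn1⟩ : ∃ n ∈ N, n ≠ 1 := by
    by_contra hcon
    push Not at hcon
    exact hN1 ((Subgroup.eq_bot_iff_forall N).2 hcon)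
  obtain ⟨ω0, hω0⟩ : ∃ ω : Ω, n • ω ≠ ω := by
    by_contra hcon
    push Not at hcon
    apply hn1
    apply FaithfulSMul.eq_of_smul_eq_smul (α := Ω)
    intro ω
    rw [hcon, one_smul]
  have hq : IsQuasiPreprimitive G Ω := inferInstance
  have htr : IsPretransitive N Ω := hq.isPretransitive_of_normal (by
    intro h
    have : ω0 ∈ fixedPoints N Ω := by rw [h]; trivial
    exact hω0 (this ⟨n, hn⟩))
  have htr' : ∀ x : Ω, ∃ n ∈ N, n • ω0 = x := by
    intro x
    obtain ⟨m, hm⟩ := htr.exists_smul_eq ω0 x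
    exact ⟨m.1, m.2, hm⟩
  have hreg : ∀ n ∈ N, n • ω0 = ω0 → n = 1 := by
    intro m hm h
    apply FaithfulSMul.eq_of_smul_eq_smul (α := Ω)
    intro x
    obtain ⟨k, hk, rfl⟩ := htr' x
    rw [← mul_smul, hcomm m hm k hk, mul_smul, h, one_smul]
  let cg : CommGroup N := { (inferInstance : Group N) with
    mul_comm := fun a b => Subtype.ext (hcomm a.1 a.2 b.1 b.2) }
  let V := Shrink.{0} (Additive N)
  let e : V ≃+ Additive N := Shrink.addEquiv
  let f : V → G := fun v => ((Additive.toMul (e v) : N) : G)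
  have hf : ∀ v w, f (v + w) = f v * f w := by
    intro v w
    change ((Additive.toMul (e (v + w)) : N) : G) = _
    rw [map_add]
    rfl
  have hinj : Function.Injective f := by
    intro v w h
    apply e.injective
    exact Additive.toMul.injective (Subtype.ext h)
  have hr : ∀ g, g ∈ N ↔ ∃ v, f v = g := by
    intro g
    constructor
    · intro hg
      refine ⟨e.symm (Additive.ofMul ⟨g, hg⟩), ?_⟩
      change ((Additive.toMul (e (e.symm (Additive.ofMul ⟨g, hg⟩))) : N) : G) = g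
      rw [AddEquiv.apply_symm_apply]
      rfl
    · rintro ⟨v, rfl⟩
      exact (Additive.toMul (e v)).2
  obtain ⟨inst, e0, hfs, A⟩ := exists_aff hN f hf hinj hr hreg htr'
  have hVfin : Finite V := Finite.of_injective f hinj
  have hVnt : Nontrivial V := by
    obtain ⟨v, hv⟩ := (hr n).1 hn
    refine ⟨v, 0, fun h => hn1 ?_⟩
    rw [← hv, h]
    have := hf 0 0
    rw [add_zero] at this
    exact mul_eq_left.1 this.symm
  exact A.final hprim hbin

end H76.Bin
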