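import Cfsg.Agent.Lib.H76.Bin1

/-! Binary affine groups, stage 1b: the field of `H`-endomorphisms. -/

set_option autoImplicit false

namespace H76.Bin

variable {V H : Type*} [AddCommGroup V] [Group H] [DistribMulAction H V] {p : ℕ}

/-- `(1 - t) a z` -/
def ga (t a : H) (z : V) : V := a • z - t • (a • z)

theorem ga_mem (t a : H) (z : V) : ga t a z ∈ Zs V t :=
  mem_Zs.2 ⟨-(a • z), by rw [smul_neg]; unfold ga; abel⟩

theorem ga_add (t a : H) (z w : V) : ga t a (z + w) = ga t a z + ga t a w := by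
  unfold ga
  rw [smul_add, smul_add]; abel

theorem ga_neg (t a : H) (z : V) : ga t a (-z) = -ga t a z := by
  unfold ga
  rw [smul_neg, smul_neg]; abel

theorem ga_zero (t a : H) : ga t a (0 : V) = 0 := by
  unfold ga
  simp

theorem ga_smul (t a h : H) (z : V) : ga t a (h • z) = ga t (a * h) z := by
  unfold ga
  rw [mul_smul]

theorem ga_ga (t a b : H) (z : V) : ga t a (ga t b z) = ga t (a * b) z - ga t (a * t * b) z := by
  unfold ga
  simp only [smul_sub, mul_smul]
  abel

variable [Finite V] [FaithfulSMul H V] [hpp : Fact p.Prime]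

theorem IsR.ga_inv (D : Dat V H p) {t : H} (ht : IsR V t) (h : H) {z : V} (hz : z ∈ Zs V t) :
    ga t h⁻¹ z = ga t h z := by
  by_cases hz0 : z = 0
  · rw [hz0, ga_zero, ga_zero]
  obtain ⟨s, hs1, hs2⟩ := D.swap z h
  -- h⁻¹ s fixes z, s h fixes z
  have e1 : (h⁻¹ * s) • z = z := by rw [mul_smul, hs1, inv_smul_smul]
  have e2 : (s * h) • z = z := by rw [mul_smul, hs2]
  obtain ⟨c1, c2⟩ := ht.stab D hz hz0 e1
  obtain ⟨d1, d2⟩ := ht.stab D hz hz0 e2
  have h1 : ga t s z = ga t h z := by
    unfold ga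
    rw [hs1]
  have h2 : ga t s z = ga t h⁻¹ z := by
    have e3 : s = (s * h) * h⁻¹ := by group
    have comm : ∀ v : V, t • ((s * h) • v) = (s * h) • (t • v) := by
      intro v
      rw [← mul_smul, ← mul_smul]
      congr 1
      calc t * (s * h) = (s * h * t * (s * h)⁻¹) * (s * h) := by rw [d1]
        _ = s * h * t := by group
    have : ga t s z = (s * h) • ga t h⁻¹ z := by
      unfold ga
      rw [smul_sub, ← comm, ← mul_smul (s * h) h⁻¹, ← e3]
    rw [this]
    exact d2 _ (ga_mem _ _ _)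
  rw [← h2, h1]

theorem IsR.ga_comm (D : Dat V H p) {t : H} (ht : IsR V t) (a b : H) {z : V} (hz : z ∈ Zs V t) :
    ga t a (ga t b z) = ga t b (ga t a z) := by
  have htt : t⁻¹ = t := ht.inv_eq D
  have h1 : ga t a (ga t b z) = ga t a⁻¹ (ga t b⁻¹ z) := by
    rw [ht.ga_inv D b hz, ht.ga_inv D a (ga_mem _ _ _)]
  rw [h1, ga_ga, ga_ga]
  have e1 : a⁻¹ * b⁻¹ = (b * a)⁻¹ := by group
  have e2 : a⁻¹ * t * b⁻¹ = (b * t * a)⁻¹ := by
    rw [mul_inv_rev, mul_inv_rev, htt, mul_assoc]
  rw [e1, e2, ht.ga_inv D _ hz, ht.ga_inv D _ hz]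

/-- the graph of `Λ_a` -/
def graph (V : Type*) {H : Type*} [AddCommGroup V] [Group H] [DistribMulAction H V] (t a : H) :
    AddSubgroup (V × V) :=
  AddSubgroup.closure {q | ∃ h : H, ∃ z ∈ Zs V t, q = (h • z, h • ga t a z)}

omit [Finite V] [FaithfulSMul H V] in
theorem graph_smul (t a h : H) {q : V × V} (hq : q ∈ graph V t a) :
    (h • q.1, h • q.2) ∈ graph V t a := by
  unfold graph at hq
  induction hq using AddSubgroup.closure_induction with
  | mem x hx =>
    obtain ⟨g, z, hz, rfl⟩ := hx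
    apply AddSubgroup.subset_closure
    exact ⟨h * g, z, hz, by simp only [mul_smul]⟩
  | zero =>
    change (h • (0 : V), h • (0 : V)) ∈ graph V t a
    rw [smul_zero]
    exact (graph V t a).zero_mem
  | add x y _ _ hx hy =>
    have := add_mem hx hy
    simpa [smul_add] using this
  | neg x _ hx =>
    have := neg_mem hx
    simpa [smul_neg] using this

theorem IsR.graph_key (D : Dat V H p) {t : H} (ht : IsR V t) (a : H) {q : V × V}
    (hq : q ∈ graph V t a) (g : H) : ga t a (ga t g q.1) = ga t g q.2 := by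
  unfold graph at hq
  induction hq using AddSubgroup.closure_induction with
  | mem x hx =>
    obtain ⟨h, z, hz, rfl⟩ := hx
    change ga t a (ga t g (h • z)) = ga t g (h • ga t a z)
    rw [ga_smul, ga_smul, ht.ga_comm D _ _ hz]
  | zero => simp [ga_zero]
  | add x y _ _ hx hy =>
    change ga t a (ga t g (x.1 + y.1)) = ga t g (x.2 + y.2)
    rw [ga_add, ga_add, ga_add, hx, hy]
  | neg x _ hx =>
    change ga t a (ga t g (-x.1)) = ga t g (-x.2)
    rw [ga_neg, ga_neg, ga_neg, hx]

theorem IsR.graph_inj (D : Dat V H p) {t : H} (ht : IsR V t) (a : H) {w : V}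
    (hq : ((0 : V), w) ∈ graph V t a) : w = 0 := by
  have h1 : ∀ g : H, ga t g w = 0 := by
    intro g
    have := ht.graph_key D a hq g
    simp only [ga_zero] at this
    exact this.symm
  let W : AddSubgroup V := {
    carrier := {v | ∀ g : H, ga t g v = 0}
    zero_mem' := fun g => ga_zero t g
    add_mem' := fun {x y} hx hy g => by
      change ∀ g : H, ga t g x = 0 at hx
      change ∀ g : H, ga t g y = 0 at hy
      rw [ga_add, hx, hy, add_zero]
    neg_mem' := fun {x} hx g => by
      change ∀ g : H, ga t g x = 0 at hx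
      rw [ga_neg, hx, neg_zero] }
  rcases D.irr W (fun h v hv g => by
    change ∀ g : H, ga t g v = 0 at hv
    rw [ga_smul]; exact hv _) with h2 | h2
  · have : w ∈ W := h1
    rw [h2] at this
    exact this
  · exfalso
    apply ht.1
    apply FaithfulSMul.eq_of_smul_eq_smul (α := V)
    intro v
    have : v ∈ W := by rw [h2]; trivial
    have h3 : ga t 1 v = 0 := this 1
    unfold ga at h3
    rw [one_smul, sub_eq_zero] at h3
    rw [one_smul]
    exact h3.symm

omit [Finite V] in
theorem IsR.exists_Zs_ne {t : H} (ht : IsR V t) : ∃ u ∈ Zs V t, u ≠ 0 := by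
  by_contra hcon
  push Not at hcon
  apply ht.1
  apply FaithfulSMul.eq_of_smul_eq_smul (α := V)
  intro v
  rw [one_smul]
  exact sub_eq_zero.1 (hcon _ (mem_Zs.2 ⟨v, rfl⟩))

omit [Finite V] hpp in
theorem IsR.graph_surj (D : Dat V H p) {t : H} (ht : IsR V t) (a : H) (v : V) :
    ∃ w : V, (v, w) ∈ graph V t a := by
  let W : AddSubgroup V := (graph V t a).map (AddMonoidHom.fst V V)
  have hW : ∀ v : V, v ∈ W ↔ ∃ w, (v, w) ∈ graph V t a := by
    intro v
    constructor
    · rintro ⟨q, hq, rfl⟩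
      exact ⟨q.2, hq⟩
    · rintro ⟨w, hw⟩
      exact ⟨(v, w), hw, rfl⟩
  rcases D.irr W (fun h v hv => by
    rw [hW] at hv ⊢
    obtain ⟨w, hw⟩ := hv
    exact ⟨h • w, graph_smul t a h hw⟩) with h2 | h2
  · exfalso
    obtain ⟨u, hu, hu0⟩ := ht.exists_Zs_ne (V := V)
    apply hu0
    have : u ∈ W := (hW u).2 ⟨ga t a u, AddSubgroup.subset_closure ⟨1, u, hu, by simp⟩⟩
    rw [h2] at this
    exact this
  · rw [← hW, h2]; trivial

/-- extension of `γ_a` to an `H`-endomorphism of `V` -/
theorem IsR.exists_ext (D : Dat V H p) {t : H} (ht : IsR V t) (a : H) :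
    ∃ L : V →+ V, (∀ (h : H) (v : V), L (h • v) = h • L v) ∧ ∀ z ∈ Zs V t, L z = ga t a z := by
  choose f hf using ht.graph_surj D a
  have huniq : ∀ v w w' : V, (v, w) ∈ graph V t a → (v, w') ∈ graph V t a → w = w' := by
    intro v w w' h h'
    have h1 := sub_mem h h'
    rw [Prod.mk_sub_mk, sub_self] at h1
    exact sub_eq_zero.1 (ht.graph_inj D a h1)
  refine ⟨AddMonoidHom.mk' f (fun x y => ?_), fun h v => ?_, fun z hz => ?_⟩
  · exact huniq _ _ _ (hf _) (by
      have := add_mem (hf x) (hf y)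
      rwa [Prod.mk_add_mk] at this)
  · exact huniq _ _ _ (hf _) (graph_smul t a h (hf v))
  · exact huniq _ _ _ (hf _) (AddSubgroup.subset_closure ⟨1, z, hz, by simp⟩)

/-- the ring of `H`-endomorphisms -/
def En (V H : Type*) [AddCommGroup V] [Group H] [DistribMulAction H V] :
    Subring (AddMonoid.End V) :=
  Subring.centralizer (Set.range (fun h : H => DistribMulAction.toAddMonoidEnd H V h))

omit [Finite V] [FaithfulSMul H V] in
theorem mem_En {L : AddMonoid.End V} : L ∈ En V H ↔ ∀ (h : H) (v : V), L (h • v) = h • L v := by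
  unfold En
  rw [Subring.mem_centralizer_iff]
  constructor
  · intro hL h v
    have := hL _ ⟨h, rfl⟩
    have h2 := congrArg (fun f : AddMonoid.End V => f v) this
    exact h2.symm
  · rintro hL _ ⟨h, rfl⟩
    ext v
    exact (hL h v).symm

theorem IsR.trans (D : Dat V H p) {t : H} (ht : IsR V t) {z1 z2 : V} (hz1 : z1 ∈ Zs V t)
    (h0 : z1 ≠ 0) (hz2 : z2 ∈ Zs V t) : ∃ L ∈ En V H, L z1 = z2 := by
  let W : AddSubgroup V := {
    carrier := {v | ∃ L ∈ En V H, L z1 = v - t • v}
    zero_mem' := ⟨0, zero_mem _, by simp⟩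
    add_mem' := fun {x y} hx hy => by
      obtain ⟨L, hL, e⟩ := hx
      obtain ⟨L', hL', e'⟩ := hy
      refine ⟨L + L', add_mem hL hL', ?_⟩
      change L z1 + L' z1 = _
      rw [e, e', smul_add]
      abel
    neg_mem' := fun {x} hx => by
      obtain ⟨L, hL, e⟩ := hx
      refine ⟨-L, neg_mem hL, ?_⟩
      change -(L z1) = _
      rw [e, smul_neg]
      abel }
  have h1 : AddSubgroup.closure {v : V | ∃ h : H, v = h • z1} ≤ W := by
    rw [AddSubgroup.closure_le]
    rintro _ ⟨h, rfl⟩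
    obtain ⟨L, hL, hL'⟩ := ht.exists_ext D h
    exact ⟨L, mem_En.2 hL, by
      have := hL' z1 hz1
      unfold ga at this
      exact this⟩
  have h2 : AddSubgroup.closure {v : V | ∃ h : H, v = h • z1} = ⊤ := by
    rcases D.irr (AddSubgroup.closure {v : V | ∃ h : H, v = h • z1}) (fun g w hw => by
      induction hw using AddSubgroup.closure_induction with
      | mem x hx =>
        obtain ⟨h, rfl⟩ := hx
        exact AddSubgroup.subset_closure ⟨g * h, by rw [mul_smul]⟩
      | zero => rw [smul_zero]; exact zero_mem _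
      | add x y _ _ hx hy => rw [smul_add]; exact add_mem hx hy
      | neg x _ hx => rw [smul_neg]; exact neg_mem hx) with h3 | h3
    · exfalso
      have : z1 ∈ AddSubgroup.closure {v : V | ∃ h : H, v = h • z1} :=
        AddSubgroup.subset_closure ⟨1, (one_smul _ _).symm⟩
      rw [h3] at this
      exact h0 this
    · exact h3
  obtain ⟨v, rfl⟩ := mem_Zs.1 hz2
  have h3 : -v ∈ W := h1 (by rw [h2]; trivial)
  obtain ⟨L, hL, e⟩ := h3
  exact ⟨L, hL, by rw [e, smul_neg]; abel⟩

omit [Finite V] [FaithfulSMul H V] hpp in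
theorem En.noZeroDiv (D : Dat V H p) {L M : AddMonoid.End V} (_ : L ∈ En V H) (hM : M ∈ En V H)
    (h : L * M = 0) : L = 0 ∨ M = 0 := by
  by_cases hM0 : M = 0
  · exact Or.inr hM0
  left
  rcases D.irr (AddMonoidHom.range (M : V →+ V)) (fun g w hw => by
    obtain ⟨v, rfl⟩ := hw
    exact ⟨g • v, mem_En.1 hM g v⟩) with h1 | h1
  · exfalso
    apply hM0
    ext v
    have : M v ∈ AddMonoidHom.range (M : V →+ V) := ⟨v, rfl⟩
    rw [h1] at this
    exact this
  · ext v
    have : v ∈ AddMonoidHom.range (M : V →+ V) := by rw [h1]; trivial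
    obtain ⟨w, rfl⟩ := this
    exact congrArg (fun f : AddMonoid.End V => f w) h

end H76.Bin
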