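import Cfsg.Agent.Lib.H76.Bin2

/-! Binary affine groups, stage 2a: linear algebra over the field of `H`-endomorphisms. -/

set_option autoImplicit false

namespace H76.Bin

open Module

/-- The geometric data. -/
structure Geo (K V H : Type*) [Field K] [AddCommGroup V] [Module K V] [Group H]
    [DistribMulAction H V] (p : ℕ) : Prop where
  D : Dat V H p
  line : ∀ t : H, IsR V t → ∀ z1 ∈ Zs V t, z1 ≠ 0 → ∀ z2 ∈ Zs V t, ∃ c : K, c • z1 = z2

universe u

theorem exists_field {V : Type u} {H : Type*} [AddCommGroup V] [Group H] [DistribMulAction H V] {p : ℕ}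
    [Finite V] [FaithfulSMul H V] [hpp : Fact p.Prime] (D : Dat V H p) [Nontrivial V] :
    ∃ (K : Type u) (_ : Field K) (_ : Module K V), Finite K ∧
      (∀ (h : H) (c : K) (v : V), h • (c • v) = c • (h • v)) ∧ Geo K V H p := by
  have hdom : IsDomain (En V H) := by
    have : NoZeroDivisors (En V H) := ⟨by
      intro a b hab
      rcases En.noZeroDiv D a.2 b.2 (congrArg Subtype.val hab) with h | h
      · exact Or.inl (Subtype.ext h)
      · exact Or.inr (Subtype.ext h)⟩
    have : Nontrivial (En V H) := ⟨0, 1, fun h => by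
      obtain ⟨v, hv⟩ := exists_ne (0 : V)
      have h1 : (0 : AddMonoid.End V) = 1 := congrArg Subtype.val h
      exact hv (congrArg (fun f : AddMonoid.End V => f v) h1).symm⟩
    exact NoZeroDivisors.to_isDomain _
  have : Finite (AddMonoid.End V) :=
    Finite.of_injective (fun f : AddMonoid.End V => ((f : V →+ V) : V → V)) DFunLike.coe_injective
  have hf : IsField (En V H) := Finite.isDomain_to_isField _
  let md : Module (En V H) V := inferInstance
  let fld : Field (En V H) := hf.toField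
  refine ⟨En V H, fld, md, inferInstance, ?_, D, ?_⟩
  · intro h c v
    exact (mem_En.1 c.2 h v).symm
  · intro t ht z1 hz1 h0 z2 hz2
    obtain ⟨L, hL, e⟩ := ht.trans D hz1 h0 hz2
    exact ⟨⟨L, hL⟩, e⟩

section

variable {K V H : Type*} [Field K] [AddCommGroup V] [Module K V] [Group H] [DistribMulAction H V]
  {p : ℕ}

/-- fixed vectors as a subspace -/
def CK (K V : Type*) {H : Type*} [Field K] [AddCommGroup V] [Module K V] [Group H]
    [DistribMulAction H V] [SMulCommClass H K V] (g : H) : Submodule K V where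
  carrier := {v | g • v = v}
  zero_mem' := smul_zero g
  add_mem' := by
    intro a b ha hb
    change g • (a + b) = a + b
    rw [smul_add, show g • a = a from ha, show g • b = b from hb]
  smul_mem' := by
    intro c a ha
    change g • (c • a) = c • a
    rw [smul_comm, show g • a = a from ha]

theorem mem_CK [SMulCommClass H K V] {g : H} {v : V} : v ∈ CK K V g ↔ g • v = v := Iff.rfl

/-- `(g - 1)` as a linear map -/
def TK (K V : Type*) {H : Type*} [Field K] [AddCommGroup V] [Module K V] [Group H]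
    [DistribMulAction H V] [SMulCommClass H K V] (g : H) : V →ₗ[K] V :=
  DistribSMul.toLinearMap K V g - LinearMap.id

theorem TK_apply [SMulCommClass H K V] (g : H) (v : V) : TK K V g v = g • v - v := rfl

theorem ker_TK [SMulCommClass H K V] (g : H) : LinearMap.ker (TK K V g) = CK K V g := by
  ext v
  rw [LinearMap.mem_ker, TK_apply, mem_CK, sub_eq_zero]

theorem mem_range_TK [SMulCommClass H K V] {g : H} {v : V} :
    v ∈ LinearMap.range (TK K V g) ↔ v ∈ Zs V g := by
  rw [LinearMap.mem_range, mem_Zs]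
  rfl

theorem smul_mem_ZsK [SMulCommClass H K V] {t : H} {u : V} (hu : u ∈ Zs V t) (c : K) :
    c • u ∈ Zs V t := by
  rw [← mem_range_TK (K := K)] at hu ⊢
  exact Submodule.smul_mem _ _ hu

variable [Finite V] [FaithfulSMul H V] [hpp : Fact p.Prime] [SMulCommClass H K V]

omit hpp in
theorem Geo.finrank_range (G : Geo K V H p) {t : H} (ht : IsR V t) :
    finrank K (LinearMap.range (TK K V t)) = 1 := by
  obtain ⟨u, hu, hu0⟩ := ht.exists_Zs_ne (V := V)
  rw [finrank_eq_one_iff']
  refine ⟨⟨u, mem_range_TK.2 hu⟩, fun h => hu0 (congrArg Subtype.val h), fun w => ?_⟩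
  obtain ⟨c, hc⟩ := G.line t ht u hu hu0 w.1 (mem_range_TK.1 w.2)
  exact ⟨c, Subtype.ext hc⟩

omit hpp in
theorem Geo.finrank_CK (G : Geo K V H p) {t : H} (ht : IsR V t) :
    finrank K (CK K V t) + 1 = finrank K V := by
  have := LinearMap.finrank_range_add_finrank_ker (TK K V t)
  rw [G.finrank_range ht, ker_TK] at this
  omega

omit hpp in
theorem Geo.isR_of [Finite K] (G : Geo K V H p) {t0 : H} (ht0 : IsR V t0) {g : H} (hg : g ≠ 1)
    (h : finrank K V ≤ finrank K (CK K V g) + 1) : IsR V g := by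
  refine ⟨hg, fun g' hg' => ?_⟩
  refine (ht0.2 g' hg').trans ?_
  have h1 : Nat.card (fixS V t0) = Nat.card (CK K V t0) := rfl
  have h2 : Nat.card (fixS V g) = Nat.card (CK K V g) := rfl
  rw [h1, h2, Module.natCard_eq_pow_finrank (K := K) (V := CK K V t0),
    Module.natCard_eq_pow_finrank (K := K) (V := CK K V g)]
  apply Nat.pow_le_pow_right Nat.card_pos
  have := G.finrank_CK ht0
  omega

omit hpp in
theorem IsR.commute_of {V H : Type*} [AddCommGroup V] [Group H] [DistribMulAction H V] {p : ℕ}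
    [Finite V] [FaithfulSMul H V] (D : Dat V H p) {t1 t2 : H}
    (_ : IsR V t1) (h2 : IsR V t2) {w : V} (hw : w ∈ Zs V t2) (hw0 : w ≠ 0) (h : t1 • w = w) :
    t1 * t2 = t2 * t1 := by
  have h3 : w ∈ Zs V (t1 * t2 * t1⁻¹) := by
    have := smul_mem_Zs (h := t1) hw
    rwa [h] at this
  have h4 := (h2.conj t1).uniq D h2 h3 hw hw0
  calc t1 * t2 = (t1 * t2 * t1⁻¹) * t1 := by group
    _ = t2 * t1 := by rw [h4]

omit hpp in
theorem IsR.fix_of_commute {V H : Type*} [AddCommGroup V] [Group H] [DistribMulAction H V] {p : ℕ}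
    [Finite V] [FaithfulSMul H V] (D : Dat V H p) {t1 t2 : H}
    (h1 : IsR V t1) (h2 : IsR V t2) (hne : t1 ≠ t2) (hc : t1 * t2 = t2 * t1) {w : V}
    (hw : w ∈ Zs V t2) : t1 • w = w := by
  have h3 : t1 • w ∈ Zs V t2 := by
    have := smul_mem_Zs (h := t1) hw
    have e : t1 * t2 * t1⁻¹ = t2 := by rw [hc]; group
    rwa [e] at this
  by_contra hcon
  apply hne
  exact h1.uniq D h2 (u := t1 • w - w) (mem_Zs.2 ⟨w, rfl⟩) (sub_mem h3 hw) (sub_ne_zero.2 hcon)

omit hpp in
/-- equal axes give commuting reflections -/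
theorem IsR.commute_of_fix {V H : Type*} [AddCommGroup V] [Group H] [DistribMulAction H V] {p : ℕ}
    [Finite V] [FaithfulSMul H V] (D : Dat V H p) {t1 t2 : H}
    (h1 : IsR V t1) (h2 : IsR V t2) (hfix : ∀ v : V, t1 • v = v → t2 • v = v) :
    t1 * t2 = t2 * t1 := by
  by_cases hne : t1 * t2 = 1
  · have : t1 = t2 := by
      have h3 := h2.mul_self D
      exact mul_right_cancel (hne.trans h3.symm)
    rw [this]
  have h3 : IsR V (t1 * t2) := by
    refine (h1.of_le (g := t1 * t2) hne ?_).1
    intro v hv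
    rw [mem_fixS] at hv ⊢
    rw [mul_smul, hfix v hv, hv]
  have h4 := h3.mul_self D
  have h5 := h1.mul_self D
  have h6 := h2.mul_self D
  calc t1 * t2 = (t1 * t2)⁻¹ := (eq_inv_of_mul_eq_one_left h4)
    _ = t2⁻¹ * t1⁻¹ := mul_inv_rev _ _
    _ = t2 * t1 := by rw [h1.inv_eq D, h2.inv_eq D]

end

end H76.Bin
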