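import Cfsg.Agent.Lib.H76.Bin3

/-! Binary affine groups, stage 2b: planes of centers. -/

set_option autoImplicit false

namespace H76.Bin

open Module

/-- `w` is a center of a reflection -/
def IsCen (V : Type*) (H : Type*) [AddCommGroup V] [Group H] [DistribMulAction H V] (w : V) : Prop :=
  ∃ s : H, IsR V s ∧ w ∈ Zs V s

section

variable {K V H : Type*} [Field K] [AddCommGroup V] [Module K V] [Group H] [DistribMulAction H V]
  {p : ℕ} [Finite K] [Finite V] [FaithfulSMul H V] [SMulCommClass H K V]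

omit [Finite K] in
theorem lt_finrank {A B : Submodule K V} (hle : A ≤ B) {b : V} (hb : b ∈ B) (hb' : b ∉ A) :
    finrank K A < finrank K B := by
  apply Submodule.finrank_lt_finrank_of_lt
  exact lt_of_le_of_ne hle (fun h => hb' (h ▸ hb))

omit [Finite K] in
theorem Geo.CK_inf_ge (G : Geo K V H p) {t1 t2 : H} (h1 : IsR V t1) (h2 : IsR V t2) :
    finrank K V ≤ finrank K (CK K V t1 ⊓ CK K V t2 : Submodule K V) + 2 := by
  have e1 := G.finrank_CK h1
  have e2 := G.finrank_CK h2
  have e3 := Submodule.finrank_sup_add_finrank_inf_eq (CK K V t1) (CK K V t2)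
  have e4 := Submodule.finrank_le (CK K V t1 ⊔ CK K V t2)
  omega

/-- (A) -/
theorem Geo.plane (G : Geo K V H p) {t1 t2 : H} (h1 : IsR V t1) (h2 : IsR V t2)
    (hnc : t1 * t2 ≠ t2 * t1) {z1 z2 : V} (hz1 : z1 ∈ Zs V t1) (hz2 : z2 ∈ Zs V t2)
    (hw : z1 + z2 ≠ 0) : IsCen V H (z1 + z2) := by
  have D := G.D
  have hne : t1 ≠ t2 := fun h => hnc (by rw [h])
  have e1 := G.finrank_CK h1
  have e2 := G.finrank_CK h2
  have hCne : ¬ CK K V t1 ≤ CK K V t2 := fun hle => hnc (h1.commute_of_fix D h2 (fun v hv => hle hv))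
  have hlt : finrank K (CK K V t1 ⊓ CK K V t2 : Submodule K V) < finrank K (CK K V t1) := by
    apply Submodule.finrank_lt_finrank_of_lt
    refine lt_of_le_of_ne inf_le_left (fun h => hCne ?_)
    rw [← h]; exact inf_le_right
  have hge := G.CK_inf_ge h1 h2
  have hker : LinearMap.ker (TK K V (t1 * t2)) = CK K V t1 ⊓ CK K V t2 := by
    rw [ker_TK]
    ext v
    rw [Submodule.mem_inf, mem_CK, mem_CK, mem_CK]
    constructor
    · intro hv
      rw [mul_smul] at hv
      have hv2 : t2 • v = t1 • v := by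
        rw [← h1.sq_smul D (t2 • v), hv]
      by_cases hv3 : t1 • v = v
      · exact ⟨hv3, by rw [hv2, hv3]⟩
      · exact absurd (h1.uniq D h2 (u := t1 • v - v) (mem_Zs.2 ⟨v, rfl⟩)
          (mem_Zs.2 ⟨v, by rw [hv2]⟩) (sub_ne_zero.2 hv3)) hne
    · rintro ⟨hv1, hv2⟩
      rw [mul_smul, hv2, hv1]
  have hrange : LinearMap.range (TK K V (t1 * t2)) =
      LinearMap.range (TK K V t1) ⊔ LinearMap.range (TK K V t2) := by
    apply Submodule.eq_of_le_of_finrank_le
    · rintro _ ⟨v, rfl⟩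
      rw [Submodule.mem_sup]
      refine ⟨TK K V t1 (t2 • v), ⟨_, rfl⟩, TK K V t2 v, ⟨_, rfl⟩, ?_⟩
      rw [TK_apply, TK_apply, TK_apply, mul_smul]
      abel
    · have e3 := Submodule.finrank_sup_add_finrank_inf_eq (LinearMap.range (TK K V t1))
        (LinearMap.range (TK K V t2))
      rw [G.finrank_range h1, G.finrank_range h2] at e3
      have e4 := LinearMap.finrank_range_add_finrank_ker (TK K V (t1 * t2))
      rw [hker] at e4
      omega
  have hwr : z1 + z2 ∈ LinearMap.range (TK K V (t1 * t2)) := by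
    rw [hrange, Submodule.mem_sup]
    exact ⟨z1, mem_range_TK.2 hz1, z2, mem_range_TK.2 hz2, rfl⟩
  obtain ⟨v, hv⟩ := hwr
  rw [TK_apply] at hv
  set k := t1 * t2 with hk
  have hkv : k • v ≠ v := by
    intro h
    rw [h, sub_self] at hv
    exact hw hv.symm
  obtain ⟨g, hg1, hg2, hg3⟩ := D.bis v k
  have hg : g ≠ 1 := by
    rintro rfl
    rw [one_smul] at hg1
    exact hkv hg1.symm
  have hle : CK K V t1 ⊓ CK K V t2 ≤ CK K V g := by
    intro c hc
    rw [← hker, ker_TK, mem_CK] at hc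
    rw [mem_CK, hg3]
    exact ⟨k, by rw [smul_sub, hc]⟩
  have hmem : v + k • v ∈ CK K V g := by
    rw [mem_CK, hg3]
    refine ⟨k⁻¹, ?_⟩
    have e5 : v - (v + k • v) = -(k • v) := by abel
    have e6 : k • v - (v + k • v) = -v := by abel
    rw [e5, e6, smul_neg, inv_smul_smul]
  have hnmem : v + k • v ∉ CK K V t1 ⊓ CK K V t2 := by
    intro hmem'
    rw [← hker, ker_TK, mem_CK, smul_add] at hmem'
    -- k (k v) = v
    have e7 : k • (k • v) = v := by
      have : k • v + k • (k • v) = k • v + v := by rw [hmem', add_comm]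
      exact add_left_cancel this
    have e8 : k • (z1 + z2) = -(z1 + z2) := by
      rw [← hv, smul_sub, e7]; abel
    have e9 : t2 • (z1 + z2) = -(t1 • (z1 + z2)) := by
      rw [← h1.sq_smul D (t2 • (z1 + z2)), ← mul_smul t1 t2, ← hk, e8, smul_neg]
    rw [smul_add, smul_add, h1.neg D hz1, h2.neg D hz2] at e9
    -- t2 z1 - z2 = z1 - t1 z2
    have e10 : t2 • z1 - z1 = -(t1 • z2 - z2) := by
      have : t2 • z1 = z1 + z2 - t1 • z2 := by
        have h5 : t2 • z1 = (t2 • z1 + -z2) + z2 := by abel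
        rw [h5, e9]; abel
      rw [this]; abel
    have e11 : t2 • z1 - z1 = 0 := by
      by_contra hcon
      apply hne
      refine h1.uniq D h2 (u := t2 • z1 - z1) ?_ (mem_Zs.2 ⟨z1, rfl⟩) hcon
      rw [e10]
      exact neg_mem (mem_Zs.2 ⟨z2, rfl⟩)
    have e12 : t1 • z2 - z2 = 0 := by
      rw [e11] at e10
      exact neg_eq_zero.1 e10.symm
    apply hw
    have hz10 : z1 = 0 := by
      by_contra h0
      exact hnc (h2.commute_of D h1 hz1 h0 (sub_eq_zero.1 e11)).symm
    have hz20 : z2 = 0 := by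
      by_contra h0
      exact hnc (h1.commute_of D h2 hz2 h0 (sub_eq_zero.1 e12))
    rw [hz10, hz20, add_zero]
  have hlt2 := lt_finrank hle hmem hnmem
  have hgR : IsR V g := G.isR_of h1 hg (by omega)
  refine ⟨g, hgR, ?_⟩
  rw [← hv, ← hg1]
  exact mem_Zs.2 ⟨v, rfl⟩

omit [Finite K] [Finite V] [FaithfulSMul H V] in
/-- scaling -/
theorem Geo.exists_scale (G : Geo K V H p) {t : H} (ht : IsR V t) {c x : V} (hc : t • c ≠ c)
    (hx : x ∈ Zs V t) : ∃ a : K, (a • c) - t • (a • c) = x := by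
  obtain ⟨a, ha⟩ := G.line t ht (c - t • c) (by
      rw [← neg_sub]; exact neg_mem (mem_Zs.2 ⟨c, rfl⟩)) (sub_ne_zero.2 (Ne.symm hc)) x hx
  exact ⟨a, by rw [← ha, smul_sub, smul_comm]⟩

/-- (P0) -/
theorem p0_rel {V H : Type*} [AddCommGroup V] [Group H] [DistribMulAction H V] {t t' : H} {x x' q : V}
    (hx : q - t • q = x) (hx' : q - t' • q = x')
    (htt : t • (t • q) = q) : ∃ h : H, h • (x - q) = x' - q := by
  refine ⟨t' * t, ?_⟩
  rw [← hx, ← hx', mul_smul]
  have e1 : q - t • q - q = -(t • q) := by abel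
  have e2 : q - t' • q - q = -(t' • q) := by abel
  rw [e1, e2, smul_neg, htt, smul_neg]

theorem Geo.axes_aux (G : Geo K V H p) {t t' : H} (ht : IsR V t) (ht' : IsR V t') (hne : t ≠ t')
    {x x' v : V} (hx : v - t • v = x) (hx' : v - t' • v = x') (hx0 : x ≠ 0)
    (hrel : ∃ h : H, h • x = x') (hC : CK K V t = CK K V t') : False := by
  have D := G.D
  obtain ⟨k, hk⟩ := hrel
  obtain ⟨g, hg1, hg2, hg3⟩ := D.bis x k
  rw [hk] at hg1 hg2 hg3
  have hall : ∀ b ∈ CK K V t, g • (v + b) = v + b := by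
    intro b hb
    rw [hg3]
    have hb' : t' • b = b := by
      have : b ∈ CK K V t' := hC ▸ hb
      exact this
    rw [mem_CK] at hb
    refine p0_rel (t := t) (t' := t') ?_ ?_ (ht.sq_smul D _)
    · rw [smul_add, hb, ← hx]; abel
    · rw [smul_add, hb', ← hx']; abel
  have hv : g • v = v := by
    have := hall 0 (zero_mem _)
    simpa using this
  have hle : CK K V t ≤ CK K V g := by
    intro b hb
    rw [mem_CK]
    have := hall b hb
    rw [smul_add, hv] at this
    exact add_left_cancel this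
  have hvt : v ∉ CK K V t := by
    rw [mem_CK]
    intro h
    rw [h, sub_self] at hx
    exact hx0 hx.symm
  have hlt := lt_finrank hle (b := v) hv hvt
  have e1 := G.finrank_CK ht
  have htop : CK K V g = ⊤ := by
    apply Submodule.eq_top_of_finrank_eq
    have := Submodule.finrank_le (CK K V g)
    omega
  have hxg : g • x = x := by
    have : x ∈ CK K V g := by rw [htop]; trivial
    exact this
  rw [hxg] at hg1
  apply hne
  refine ht.uniq D ht' (u := x) ?_ ?_ hx0
  · rw [← hx, ← neg_sub]; exact neg_mem (mem_Zs.2 ⟨v, rfl⟩)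
  · rw [hg1, ← hx', ← neg_sub]; exact neg_mem (mem_Zs.2 ⟨v, rfl⟩)

/-- distinct reflections with fused centers have distinct axes -/
theorem Geo.axes_ne (G : Geo K V H p) {t t' : H} (ht : IsR V t) (ht' : IsR V t') (hne : t ≠ t')
    {x x' : V} (hx : x ∈ Zs V t) (hx' : x' ∈ Zs V t') (hx0 : x ≠ 0)
    (hrel : ∃ h : H, h • x = x') : CK K V t ≠ CK K V t' := by
  intro hC
  have D := G.D
  obtain ⟨v0, hv0⟩ := mem_Zs.1 hx
  have hv0' : t • v0 ≠ v0 := by
    intro h
    rw [h, sub_self] at hv0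
    exact hx0 hv0.symm
  obtain ⟨a, ha⟩ := G.exists_scale ht hv0' hx
  set v := a • v0 with hv
  have hvt : v ∉ CK K V t := by
    rw [mem_CK]
    intro h
    rw [h, sub_self] at ha
    exact hx0 ha.symm
  obtain ⟨k, hk⟩ := hrel
  have hx'0 : x' ≠ 0 := by
    rintro rfl
    apply hx0
    rw [← inv_smul_smul k x, hk, smul_zero]
  obtain ⟨c, hc⟩ := G.line t' ht' x' hx' hx'0 (v - t' • v) (by
    rw [← neg_sub]; exact neg_mem (mem_Zs.2 ⟨v, rfl⟩))
  obtain ⟨s, hs1, hs2⟩ := D.swap x k
  rw [hk] at hs1 hs2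
  have hst : s * t * s⁻¹ = t' := by
    have := smul_mem_Zs (h := s) hx
    rw [hs1] at this
    exact (ht.conj s).uniq D ht' this hx' hx'0
  have hst' : s * t' * s⁻¹ = t := by
    have := smul_mem_Zs (h := s) hx'
    rw [hs2] at this
    exact (ht'.conj s).uniq D ht this hx hx0
  have e1 : s • v - t' • (s • v) = x' := by
    rw [← hs1, ← ha, smul_sub, ← hst, mul_smul, mul_smul, inv_smul_smul]
  have e2 : s • v - t • (s • v) = c • x := by
    rw [← hs2, ← smul_comm s c, hc, smul_sub, ← hst', mul_smul, mul_smul, inv_smul_smul]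
  have e3 : s • v - c • v ∈ CK K V t := by
    rw [mem_CK, smul_sub, smul_comm t c]
    have h1 : t • (s • v) = s • v - c • x := by rw [← e2]; abel
    have h2 : t • v = v - x := by rw [← ha]; abel
    rw [h1, h2, smul_sub]
    abel
  rw [hC, mem_CK, smul_sub, smul_comm t' c] at e3
  have e4 : (c * c) • x' = x' := by
    have h1 : t' • (s • v) = s • v - x' := by rw [← e1]; abel
    have h2 : t' • v = v - c • x' := by rw [hc]; abel
    rw [h1, h2, smul_sub, smul_smul c c] at e3
    have : (c * c) • x' = (s • v - x' - (c • v - (c * c) • x')) - (s • v - c • v) + x' := by abel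
    rw [this, e3]
    abel
  have e5 : c * c = 1 := by
    have : (c * c - 1) • x' = 0 := by rw [sub_smul, one_smul, e4, sub_self]
    rcases smul_eq_zero.1 this with h | h
    · exact sub_eq_zero.1 h
    · exact absurd h hx'0
  rcases mul_self_eq_one_iff.1 e5 with h | h
  · rw [h, one_smul] at hc
    exact G.axes_aux ht ht' hne ha hc.symm hx0 ⟨k, hk⟩ hC
  · rw [h, neg_smul, one_smul] at hc
    refine G.axes_aux ht ht' hne ha hc.symm hx0 ⟨t' * k, ?_⟩ hC
    rw [mul_smul, hk, ht'.neg D hx']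

/-- (A') -/
theorem Geo.fused (G : Geo K V H p) {t t' : H} (ht : IsR V t) (ht' : IsR V t') (hne : t ≠ t')
    {x x' : V} (hx : x ∈ Zs V t) (hx' : x' ∈ Zs V t') (hx0 : x ≠ 0)
    (hrel : ∃ h : H, h • x = x') :
    IsCen V H (x' - x) ∧ ∀ a b : K, a • x + b • x' ≠ 0 → IsCen V H (a • x + b • x') := by
  have D := G.D
  have hCne := G.axes_ne ht ht' hne hx hx' hx0 hrel
  have e1 := G.finrank_CK ht
  have e2 := G.finrank_CK ht'
  obtain ⟨k, hk⟩ := hrel
  have hx'0 : x' ≠ 0 := by
    rintro rfl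
    apply hx0
    rw [← inv_smul_smul k x, hk, smul_zero]
  have hxx' : x' ≠ x := by
    rintro rfl
    exact hne (ht.uniq D ht' hx hx' hx0)
  -- the point q
  obtain ⟨c, hc, hc'⟩ : ∃ c ∈ CK K V t', c ∉ CK K V t := by
    by_contra hcon
    push Not at hcon
    exact hCne (Submodule.eq_of_le_of_finrank_le (fun v hv => hcon v hv) (by omega)).symm
  obtain ⟨d, hd, hd'⟩ : ∃ c ∈ CK K V t, c ∉ CK K V t' := by
    by_contra hcon
    push Not at hcon
    exact hCne (Submodule.eq_of_le_of_finrank_le (fun v hv => hcon v hv) (by omega))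
  obtain ⟨a, ha⟩ := G.exists_scale ht hc' hx
  obtain ⟨b, hb⟩ := G.exists_scale ht' hd' hx'
  have hac : t' • (a • c) = a • c := by
    have := Submodule.smul_mem _ a hc
    exact this
  have hbd : t • (b • d) = b • d := by
    have := Submodule.smul_mem _ b hd
    exact this
  set q := a • c + b • d with hq
  have hq1 : q - t • q = x := by
    rw [hq, smul_add, hbd, ← ha]; abel
  have hq2 : q - t' • q = x' := by
    rw [hq, smul_add, hac, ← hb]; abel
  obtain ⟨g, hg1, hg2, hg3⟩ := D.bis x k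
  rw [hk] at hg1 hg2 hg3
  have hall : ∀ b : V, t • b = b → t' • b = b → g • (q + b) = q + b := by
    intro b hb hb'
    rw [hg3]
    refine p0_rel (t := t) (t' := t') ?_ ?_ (ht.sq_smul D _)
    · rw [smul_add, hb, ← hq1]; abel
    · rw [smul_add, hb', ← hq2]; abel
  have hgq : g • q = q := by
    have := hall 0 (smul_zero _) (smul_zero _)
    simpa using this
  have hle : CK K V t ⊓ CK K V t' ≤ CK K V g := by
    intro b hb
    rw [mem_CK]
    have := hall b hb.1 hb.2
    rw [smul_add, hgq] at this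
    exact add_left_cancel this
  have hqt : q ∉ CK K V t ⊓ CK K V t' := by
    intro h
    have h3 : t • q = q := h.1
    rw [h3, sub_self] at hq1
    exact hx0 hq1.symm
  have hlt := lt_finrank hle (b := q) hgq hqt
  have hge := G.CK_inf_ge ht ht'
  have hg : g ≠ 1 := by
    rintro rfl
    rw [one_smul] at hg1
    exact hxx' hg1.symm
  have hgR : IsR V g := G.isR_of ht hg (by omega)
  have hz : x' - x ∈ Zs V g := mem_Zs.2 ⟨x, by rw [hg1]⟩
  refine ⟨⟨g, hgR, hz⟩, fun α β hw => ?_⟩
  have hgt : g * t * g⁻¹ = t' := by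
    have := smul_mem_Zs (h := g) hx
    rw [hg1] at this
    exact (ht.conj g).uniq D ht' this hx' hx'0
  have hnc : g * t ≠ t * g := by
    intro h
    apply hne
    rw [← hgt, h]
    group
  have e3 : α • x + β • x' = β • (x' - x) + (α + β) • x := by
    rw [smul_sub, add_smul]; abel
  rw [e3] at hw ⊢
  exact G.plane hgR ht hnc (smul_mem_ZsK hz β) (smul_mem_ZsK hx _) hw

end

end H76.Bin
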