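import Cfsg.Agent.Lib.H76.Bin4

/-! Binary affine groups, stage 2c: all nonzero vectors are centers. -/

set_option autoImplicit false

namespace H76.Bin

open Module

section

variable {K V H : Type*} [Field K] [AddCommGroup V] [Module K V] [Group H] [DistribMulAction H V]
  {p : ℕ} [Finite K] [Finite V] [FaithfulSMul H V] [SMulCommClass H K V]

/-- in characteristic two the orbits meet the centers of noncommuting reflections -/
theorem Geo.ct (G : Geo K V H p) (h2 : ∀ v : V, v + v = 0) {t1 t2 : H} (ht1 : IsR V t1)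
    (ht2 : IsR V t2) (hnc : t1 * t2 ≠ t2 * t1) {x : V} (hx : x ∈ Zs V t1) (hx0 : x ≠ 0) :
    ∃ x' ∈ Zs V t2, ∃ h : H, h • x = x' := by
  have D := G.D
  have hne : t1 ≠ t2 := fun h => hnc (by rw [h])
  obtain ⟨y, hy, hy0⟩ := ht2.exists_Zs_ne (V := V)
  have hy1 : y ∉ Zs V t1 := fun h => hne (ht1.uniq D ht2 h hy hy0)
  have hnz : ∀ l : K, y + l • x ≠ 0 := by
    intro l h
    apply hy1
    rw [eq_neg_of_add_eq_zero_left h]
    exact neg_mem (smul_mem_ZsK hx l)
  have hcen : ∀ l : K, IsCen V H (y + l • x) := fun l =>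
    G.plane ht2 ht1 (Ne.symm hnc) hy (smul_mem_ZsK hx l) (hnz l)
  choose s hs hsz using hcen
  have hmu : ∀ l : K, ∃ m : K, m • (y + l • x) = s l • x - x := fun l =>
    G.line (s l) (hs l) _ (hsz l) (hnz l) _ (mem_Zs.2 ⟨x, rfl⟩)
  choose μ hμ using hmu
  have hμ0 : ∀ l, μ l ≠ 0 := by
    intro l h
    have h3 := hμ l
    rw [h, zero_smul] at h3
    have h4 : s l • x = x := (sub_eq_zero.1 h3.symm)
    have h5 := (hs l).commute_of D ht1 hx hx0 h4
    have h6 : t1 ≠ s l := by
      intro h7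
      apply hy1
      have h8 := hsz l
      rw [← h7] at h8
      have := sub_mem h8 (smul_mem_ZsK hx l)
      rwa [add_sub_cancel_right] at this
    have h7 := ht1.fix_of_commute D (hs l) h6 h5.symm (hsz l)
    rw [smul_add, smul_comm t1 l x, ht1.neg D hx] at h7
    have h8 : -x = x := neg_eq_of_add_eq_zero_left (h2 x)
    rw [h8] at h7
    exact hnc (ht1.commute_of D ht2 hy hy0 (add_right_cancel h7))
  have hform : ∀ l, s l • x = μ l • (y + (l + (μ l)⁻¹) • x) := by
    intro l
    have h3 : s l • x = x + μ l • (y + l • x) := by rw [hμ l]; abel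
    rw [h3, smul_add, smul_add, add_smul, smul_add, smul_smul (μ l) (μ l)⁻¹,
      mul_inv_cancel₀ (hμ0 l), one_smul]
    abel
  have hinj : Function.Injective (fun l : K => l + (μ l)⁻¹) := by
    intro l l' hll
    change l + (μ l)⁻¹ = l' + (μ l')⁻¹ at hll
    have e1 := hform l
    have e2 := hform l'
    rw [← hll] at e2
    set ρ := l + (μ l)⁻¹ with hρ
    have h3 := (hs ρ).two D (smul_mem_ZsK (hsz ρ) (μ l)) (smul_mem_ZsK (hsz ρ) (μ l'))
      ⟨s l' * (s l)⁻¹, by rw [← e1, ← e2, mul_smul, inv_smul_smul]⟩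
    have h4 : μ l' • (y + ρ • x) = μ l • (y + ρ • x) := by
      rcases h3 with h3 | h3
      · exact h3
      · rw [h3]
        exact neg_eq_of_add_eq_zero_left (h2 _)
    have h5 : (μ l' - μ l) • (y + ρ • x) = 0 := by rw [sub_smul, h4, sub_self]
    rcases smul_eq_zero.1 h5 with h6 | h6
    · have h7 : μ l' = μ l := sub_eq_zero.1 h6
      have h8 : l + (μ l)⁻¹ = l' + (μ l)⁻¹ := by
        calc l + (μ l)⁻¹ = l' + (μ l')⁻¹ := by rw [← hll]
          _ = l' + (μ l)⁻¹ := by rw [h7]
      exact add_right_cancel h8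
    · exact absurd h6 (hnz ρ)
  obtain ⟨l, hl⟩ := (Finite.injective_iff_surjective.1 hinj) 0
  have h3 := hform l
  change l + (μ l)⁻¹ = 0 at hl
  rw [hl, zero_smul, add_zero] at h3
  exact ⟨μ l • y, smul_mem_ZsK hy _, s l, h3⟩

/-- (S) -/
theorem Geo.step (G : Geo K V H p) (hodd : (∀ v : V, v + v = 0) ∨ (∀ v : V, v + v = 0 → v = 0))
    (U : Submodule K V) (hU : ∀ u ∈ U, u ≠ 0 → IsCen V H u) {t : H} (ht : IsR V t) {y : V}
    (hy : y ∈ Zs V t) (hyU : y ∉ U) {z : V} (hz : z ∈ U) (htz : t • z ≠ z) {y0 : V}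
    (hy0 : y0 ∈ Zs V t) (hy00 : y0 ≠ 0) {u : V} (hu : u ∈ U) : IsCen V H (y0 + u) := by
  have D := G.D
  have hline : ∀ u ∈ U, u ∈ Zs V t → u = 0 := by
    intro u hu hut
    by_contra hu0
    obtain ⟨c, hc⟩ := G.line t ht u hut hu0 y hy
    exact hyU (hc ▸ U.smul_mem c hu)
  have hnot : ∀ u ∈ U, y0 + u ≠ 0 := by
    intro u hu h
    have h3 : y0 = -u := eq_neg_of_add_eq_zero_left h
    apply hy00
    apply hline y0 _ hy0
    rw [h3]; exact neg_mem hu
  have case1 : ∀ u ∈ U, t • u ≠ u → IsCen V H (y0 + u) := by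
    intro u hu htu
    have hu0 : u ≠ 0 := by
      rintro rfl
      exact htu (smul_zero _)
    obtain ⟨s, hs, hsu⟩ := hU u hu hu0
    have hts : t ≠ s := by
      rintro rfl
      exact hu0 (hline u hu hsu)
    have hnc : t * s ≠ s * t := fun h => htu (ht.fix_of_commute D hs hts h hsu)
    exact G.plane ht hs hnc hy0 hsu (hnot u hu)
  by_cases htu : t • u ≠ u
  · exact case1 u hu htu
  push Not at htu
  have hz0 : z ≠ 0 := by
    rintro rfl
    exact htz (smul_zero _)
  obtain ⟨r, hr, hrz⟩ := hU z hz hz0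
  have htr : t ≠ r := by
    rintro rfl
    exact hz0 (hline z hz hrz)
  have hshift : ∀ c : K, c ≠ 0 → t • (u + c • z) ≠ u + c • z := by
    intro c hc h
    rw [smul_add, htu, smul_comm t c z] at h
    have h3 := add_left_cancel h
    apply htz
    have h4 : c • (t • z - z) = 0 := by rw [smul_sub, h3, sub_self]
    rcases smul_eq_zero.1 h4 with h5 | h5
    · exact absurd h5 hc
    · exact sub_eq_zero.1 h5
  by_cases hrw : r • (y0 + u) = y0 + u
  swap
  · obtain ⟨c, hc⟩ := G.line r hr z hrz hz0 (r • (y0 + u) - (y0 + u)) (mem_Zs.2 ⟨_, rfl⟩)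
    have hc0 : c ≠ 0 := by
      rintro rfl
      rw [zero_smul] at hc
      exact hrw (sub_eq_zero.1 hc.symm)
    have h3 := case1 (u + c • z) (add_mem hu (U.smul_mem c hz)) (hshift c hc0)
    have h4 : y0 + (u + c • z) = r • (y0 + u) := by rw [hc]; abel
    rw [h4] at h3
    obtain ⟨s, hs, hsm⟩ := h3
    refine ⟨r⁻¹ * s * r⁻¹⁻¹, hs.conj _, ?_⟩
    have := smul_mem_Zs (h := r⁻¹) hsm
    rwa [inv_smul_smul] at this
  rcases hodd with h2 | h2
  · -- characteristic two
    have hry0 : r • y0 ≠ y0 := by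
      intro h
      have h3 := hr.commute_of D ht hy0 hy00 h
      exact htz (ht.fix_of_commute D hr htr h3.symm hrz)
    have hru : r • u ≠ u := by
      intro h
      rw [smul_add, h] at hrw
      exact hry0 (add_right_cancel hrw)
    have hu0 : u ≠ 0 := by
      rintro rfl
      exact hru (smul_zero _)
    obtain ⟨q, hq, hqu⟩ := hU u hu hu0
    have htq : t ≠ q := by
      rintro rfl
      exact hu0 (hline u hu hqu)
    have hn1 : t * r ≠ r * t := fun h => hry0 (hr.fix_of_commute D ht (Ne.symm htr) h.symm hy0)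
    have hrq : r ≠ q := by
      rintro rfl
      apply hru
      rw [hr.neg D hqu]
      exact neg_eq_of_add_eq_zero_left (h2 _)
    have hn2 : r * q ≠ q * r := fun h => hru (hr.fix_of_commute D hq hrq h hqu)
    obtain ⟨z1, hz1, g1, hg1⟩ := G.ct h2 ht hr hn1 hy0 hy00
    have hz10 : z1 ≠ 0 := by
      rintro rfl
      apply hy00
      rw [← inv_smul_smul g1 y0, hg1, smul_zero]
    obtain ⟨u1, hu1, g2, hg2⟩ := G.ct h2 hr hq hn2 hz1 hz10
    have hu10 : u1 ≠ 0 := by
      rintro rfl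
      apply hz10
      rw [← inv_smul_smul g2 z1, hg2, smul_zero]
    obtain ⟨b, hb⟩ := G.line q hq u1 hu1 hu10 u hqu
    have h3 := (G.fused ht hq htq hy0 hu1 hy00 ⟨g2 * g1, by rw [mul_smul, hg1, hg2]⟩).2 1 b
    rw [one_smul, hb] at h3
    exact h3 (hnot u hu)
  · have h3 := case1 (u + (1 : K) • z) (add_mem hu (U.smul_mem _ hz)) (hshift 1 one_ne_zero)
    rw [one_smul] at h3
    obtain ⟨s, hs, hsm⟩ := h3
    have hrs : s ≠ r := by
      rintro rfl
      have h4 : y0 + u ∈ Zs V s := by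
        have := sub_mem hsm hrz
        have e : y0 + (u + z) - z = y0 + u := by abel
        rwa [e] at this
      rw [hs.neg D h4] at hrw
      apply hnot u hu
      apply h2
      nth_rewrite 1 [← hrw]
      abel
    have hnc : s * r ≠ r * s := by
      intro h
      have h4 := hr.fix_of_commute D hs (Ne.symm hrs) h.symm hsm
      have e : y0 + (u + z) = (y0 + u) + z := by abel
      rw [e, smul_add, hrw, hr.neg D hrz] at h4
      have h5 := add_left_cancel h4
      apply hz0
      apply h2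
      nth_rewrite 1 [← h5]
      abel
    have h4 := G.plane hs hr hnc hsm (neg_mem hrz)
    have e : y0 + (u + z) + -z = y0 + u := by abel
    rw [e] at h4
    exact h4 (hnot u hu)

theorem Geo.allCen (G : Geo K V H p)
    (hodd : (∀ v : V, v + v = 0) ∨ (∀ v : V, v + v = 0 → v = 0)) {t0 : H} (ht0 : IsR V t0)
    (w : V) (hw : w ≠ 0) : IsCen V H w := by
  have D := G.D
  obtain ⟨u0, hu0, hu00⟩ := ht0.exists_Zs_ne (V := V)
  have hfin : Finite (Submodule K V) :=
    Finite.of_injective (fun W => (W : Set V)) SetLike.coe_injective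
  obtain ⟨U, hU, hmax⟩ := Set.Finite.exists_maximal
    (s := {U : Submodule K V | u0 ∈ U ∧ ∀ u ∈ U, u ≠ 0 → IsCen V H u}) (Set.toFinite _)
    ⟨Submodule.span K {u0}, Submodule.mem_span_singleton_self u0, by
      intro u hu _
      obtain ⟨c, rfl⟩ := Submodule.mem_span_singleton.1 hu
      exact ⟨t0, ht0, smul_mem_ZsK hu0 c⟩⟩
  by_cases htop : U = ⊤
  · exact hU.2 w (by rw [htop]; trivial) hw
  exfalso
  obtain ⟨h, hh⟩ : ∃ h : H, h • u0 ∉ U := by
    by_contra hcon
    push Not at hcon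
    let W : AddSubgroup V := {
      carrier := {v | ∀ h : H, h • v ∈ U}
      zero_mem' := fun h => by rw [smul_zero]; exact zero_mem _
      add_mem' := fun {a b} ha hb h => by rw [smul_add]; exact add_mem (ha h) (hb h)
      neg_mem' := fun {a} ha h => by rw [smul_neg]; exact neg_mem (ha h) }
    rcases D.irr W (fun g v hv h => by rw [← mul_smul]; exact hv _) with h1 | h1
    · have : u0 ∈ W := hcon
      rw [h1] at this
      exact hu00 this
    · apply htop
      rw [eq_top_iff]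
      intro v _
      have : v ∈ W := by rw [h1]; trivial
      have h2 := this 1
      rwa [one_smul] at h2
  have hx := smul_mem_Zs (h := h) hu0
  have ht' := ht0.conj h
  have hne : t0 ≠ h * t0 * h⁻¹ := by
    intro h1
    rw [← h1] at hx
    obtain ⟨c, hc⟩ := G.line t0 ht0 u0 hu0 hu00 _ hx
    exact hh (hc ▸ U.smul_mem c hU.1)
  obtain ⟨⟨s, hs, hsm⟩, -⟩ := G.fused ht0 ht' hne hu0 hx hu00 ⟨h, rfl⟩
  have hxu : h • u0 ≠ u0 := fun h1 => hh (by rw [h1]; exact hU.1)
  have hy0 : h • u0 - u0 ≠ 0 := sub_ne_zero.2 hxu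
  have hyU : h • u0 - u0 ∉ U := by
    intro h1
    apply hh
    have := add_mem h1 hU.1
    rwa [sub_add_cancel] at this
  have hsu : s • u0 ≠ u0 := by
    rw [hs.keyZ D (u := h • u0 - u0) (y := u0) hsm hy0 ⟨h, by abel⟩]
    intro h1
    exact hxu (by rw [add_sub_cancel] at h1; exact h1)
  have hgood : (U ⊔ Submodule.span K {h • u0 - u0}) ∈
      {U : Submodule K V | u0 ∈ U ∧ ∀ u ∈ U, u ≠ 0 → IsCen V H u} := by
    refine ⟨Submodule.mem_sup_left hU.1, ?_⟩
    intro v hv hv0
    obtain ⟨u, hu, y', hy', rfl⟩ := Submodule.mem_sup.1 hv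
    obtain ⟨c, rfl⟩ := Submodule.mem_span_singleton.1 hy'
    by_cases hc : c = 0
    · rw [hc, zero_smul, add_zero] at hv0 ⊢
      exact hU.2 u hu hv0
    · rw [add_comm]
      refine G.step hodd U hU.2 hs hsm hyU hU.1 hsu (smul_mem_ZsK hsm c) ?_ hu
      intro h1
      rcases smul_eq_zero.1 h1 with h2 | h2
      · exact hc h2
      · exact hy0 h2
  have := hmax hgood le_sup_left
  exact hyU (this (Submodule.mem_sup_right (Submodule.mem_span_singleton_self _)))

end

end H76.Bin
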