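import Cfsg.Agent.Lib.H76.Bin5

/-! Binary affine groups, stage 2d: the dimension is at most two. -/

set_option autoImplicit false

namespace H76.Bin

open Module

section

variable {K V H : Type*} [Field K] [AddCommGroup V] [Module K V] [Group H] [DistribMulAction H V]
  {p : ℕ} [Finite K] [Finite V] [FaithfulSMul H V] [SMulCommClass H K V]

theorem Geo.card_orbit (G : Geo K V H p)
    (hodd : (∀ v : V, v + v = 0) ∨ (∀ v : V, v + v = 0 → v = 0))
    (hall : ∀ w : V, w ≠ 0 → IsCen V H w) {x : V} (hx : x ≠ 0) :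
    Nat.card {y : V // (∃ h : H, h • x = y) ∧ y ≠ x} = Nat.card K ^ (finrank K V - 1) := by
  classical
  have D := G.D
  obtain ⟨t, ht, hxt⟩ := hall x hx
  have hyc : ∀ y : V, (∃ h : H, h • x = y) → y ≠ x → ∃ s : H, IsR V s ∧ y - x ∈ Zs V s ∧ s • x = y := by
    intro y hy hyx
    obtain ⟨s, hs, hsy⟩ := hall (y - x) (sub_ne_zero.2 hyx)
    refine ⟨s, hs, hsy, ?_⟩
    rw [hs.keyZ D (y := x) hsy (sub_ne_zero.2 hyx)
      (by obtain ⟨h, hh⟩ := hy; exact ⟨h, by rw [hh]; abel⟩)]
    abel
  have hbij : Function.Bijective (fun q : {y : V // (∃ h : H, h • x = y) ∧ y ≠ x} × Kˣ =>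
      (⟨(q.2 : K) • (q.1.1 - x), by
        obtain ⟨⟨y, hy, hyx⟩, l⟩ := q
        change t • ((l : K) • (y - x)) ≠ (l : K) • (y - x)
        intro h
        rw [smul_comm t (l : K)] at h
        have h1 : t • (y - x) = y - x := by
          have h2 : (l : K) • (t • (y - x) - (y - x)) = 0 := by rw [smul_sub, h, sub_self]
          rcases smul_eq_zero.1 h2 with h3 | h3
          · exact absurd h3 l.ne_zero
          · exact sub_eq_zero.1 h3
        obtain ⟨s, hs, hsy, hsx⟩ := hyc y hy hyx
        have h2 := ht.commute_of D hs hsy (sub_ne_zero.2 hyx) h1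
        by_cases hst : s = t
        · subst hst
          have h3 := hs.neg D hsy
          rw [h1] at h3
          have h4 := hs.neg D hxt
          rw [hsx] at h4
          have h5 : (y - x) + (y - x) = 0 := by nth_rewrite 1 [h3]; abel
          rcases hodd with h6 | h6
          · exact hyx (by rw [h4]; exact neg_eq_of_add_eq_zero_left (h6 x))
          · exact hyx (sub_eq_zero.1 (h6 _ h5))
        · exact hyx (by rw [← hsx, hs.fix_of_commute D ht hst h2.symm hxt])⟩ :
        {w : V // t • w ≠ w})) := by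
    constructor
    · rintro ⟨⟨y, hy, hyx⟩, l⟩ ⟨⟨y', hy', hyx'⟩, l'⟩ h
      have h1 : (l : K) • (y - x) = (l' : K) • (y' - x) := congrArg Subtype.val h
      obtain ⟨s, hs, hsy, hsx⟩ := hyc y hy hyx
      obtain ⟨s', hs', hsy', hsx'⟩ := hyc y' hy' hyx'
      have h2 : y - x = ((l : K)⁻¹ * (l' : K)) • (y' - x) := by
        rw [mul_smul, ← h1, smul_smul, inv_mul_cancel₀ l.ne_zero, one_smul]
      have h3 : y - x ∈ Zs V s' := by rw [h2]; exact smul_mem_ZsK hsy' _
      have h4 := hs.uniq D hs' hsy h3 (sub_ne_zero.2 hyx)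
      have h5 : y = y' := by rw [← hsx, ← hsx', h4]
      subst h5
      have h6 : ((l : K) - l') • (y - x) = 0 := by rw [sub_smul, h1, sub_self]
      have h7 : l = l' := by
        rcases smul_eq_zero.1 h6 with h7 | h7
        · exact Units.ext (sub_eq_zero.1 h7)
        · exact absurd h7 (sub_ne_zero.2 hyx)
      rw [h7]
    · rintro ⟨w, hw⟩
      have hw0 : w ≠ 0 := by
        rintro rfl
        exact hw (smul_zero _)
      obtain ⟨s, hs, hsw⟩ := hall w hw0
      have hsx : s • x ≠ x := by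
        intro h
        have h1 := hs.commute_of D ht hxt hx h
        by_cases hst : s = t
        · subst hst
          have h3 := hs.neg D hxt
          rw [h] at h3
          have h4 := hs.neg D hsw
          rcases hodd with h6 | h6
          · exact hw (by rw [h4]; exact neg_eq_of_add_eq_zero_left (h6 w))
          · exact hx (h6 x (by nth_rewrite 1 [h3]; abel))
        · exact hw (ht.fix_of_commute D hs (Ne.symm hst) h1.symm hsw)
      obtain ⟨c, hc⟩ := G.line s hs (s • x - x) (mem_Zs.2 ⟨x, rfl⟩) (sub_ne_zero.2 hsx) w hsw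
      have hc0 : c ≠ 0 := by
        rintro rfl
        rw [zero_smul] at hc
        exact hw0 hc.symm
      exact ⟨⟨⟨s • x, ⟨s, rfl⟩, hsx⟩, Units.mk0 c hc0⟩, Subtype.ext hc⟩
  have h1 := Nat.card_congr (Equiv.ofBijective _ hbij)
  rw [Nat.card_prod] at h1
  have h2 : Nat.card {w : V // t • w ≠ w} + Nat.card (CK K V t) = Nat.card V := by
    have h3 := Nat.card_congr (Equiv.sumCompl (fun w : V => t • w = w))
    rw [Nat.card_sum] at h3
    have h4 : Nat.card {w : V // t • w = w} = Nat.card (CK K V t) := rfl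
    rw [← h4, ← h3]
    exact add_comm _ _
  have e1 := G.finrank_CK ht
  rw [Module.natCard_eq_pow_finrank (K := K) (V := CK K V t),
    Module.natCard_eq_pow_finrank (K := K) (V := V)] at h2
  have h5 : Nat.card Kˣ + 1 = Nat.card K := by
    rw [Nat.card_units]
    have : 1 < Nat.card K := Finite.one_lt_card
    omega
  have hq : 1 < Nat.card K := Finite.one_lt_card
  have e2 : finrank K V - 1 = finrank K (CK K V t) := by omega
  rw [e2]
  rw [← h1] at h2
  set N := Nat.card {y : V // (∃ h : H, h • x = y) ∧ y ≠ x}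
  set q := Nat.card K
  have e3 : finrank K V = finrank K (CK K V t) + 1 := e1.symm
  rw [e3, pow_succ] at h2
  have h6 : Nat.card Kˣ = q - 1 := by omega
  rw [h6] at h2
  obtain ⟨q', hq'⟩ : ∃ q', q = q' + 2 := ⟨q - 2, by omega⟩
  have h7 : q - 1 = q' + 1 := by omega
  rw [h7] at h2
  set c := q ^ finrank K (CK K V t)
  rw [hq'] at h2
  have h8 : N * (q' + 1) = c * (q' + 1) := by nlinarith
  exact Nat.eq_of_mul_eq_mul_right (Nat.succ_pos _) h8

end

theorem dvd_card_of_orbits {V H : Type*} [AddCommGroup V] [Group H] [DistribMulAction H V]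
    [Finite V] {N : ℕ} (h : ∀ x : V, x ≠ 0 → Nat.card (MulAction.orbit H x) = N) :
    ∃ k, Nat.card V = 1 + N * k := by
  classical
  have : Fintype V := Fintype.ofFinite V
  have : Fintype (Quotient (MulAction.orbitRel H V)) := Fintype.ofFinite _
  have h1 := Nat.card_congr (MulAction.selfEquivSigmaOrbits H V)
  rw [Nat.card_sigma] at h1
  let ω0 : Quotient (MulAction.orbitRel H V) := Quotient.mk _ (0 : V)
  rw [← Finset.add_sum_erase Finset.univ _ (Finset.mem_univ ω0)] at h1
  have h2 : Nat.card (MulAction.orbit H (Quotient.out ω0)) = 1 := by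
    have h3 : Quotient.out ω0 = 0 := by
      have : (MulAction.orbitRel H V) (Quotient.out ω0) 0 := Quotient.mk_out (s := MulAction.orbitRel H V) (0 : V)
      rw [MulAction.orbitRel_apply] at this
      obtain ⟨g, hg⟩ := this
      rw [← hg]
      exact smul_zero g
    rw [h3, Nat.card_eq_one_iff_unique]
    refine ⟨⟨?_⟩, ⟨⟨0, MulAction.mem_orbit_self 0⟩⟩⟩
    rintro ⟨_, g, rfl⟩ ⟨_, g', rfl⟩
    apply Subtype.ext
    change g • (0 : V) = g' • (0 : V)
    rw [smul_zero, smul_zero]
  rw [h2] at h1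
  have h3 : N ∣ ∑ x ∈ Finset.univ.erase ω0, Nat.card (MulAction.orbit H (Quotient.out x)) := by
    apply Finset.dvd_sum
    intro ω hω
    rw [Finset.mem_erase] at hω
    rw [h]
    intro h4
    apply hω.1
    rw [← Quotient.out_eq ω, h4]
  obtain ⟨k, hk⟩ := h3
  exact ⟨k, by rw [h1, hk]⟩

section

variable {K V H : Type*} [Field K] [AddCommGroup V] [Module K V] [Group H] [DistribMulAction H V]
  {p : ℕ} [Finite K] [Finite V] [FaithfulSMul H V] [SMulCommClass H K V]

theorem Geo.finrank_le_two (G : Geo K V H p)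
    (hodd : (∀ v : V, v + v = 0) ∨ (∀ v : V, v + v = 0 → v = 0))
    (hall : ∀ w : V, w ≠ 0 → IsCen V H w) : finrank K V ≤ 2 := by
  classical
  by_contra hcon
  push Not at hcon
  have hq : 1 < Nat.card K := Finite.one_lt_card
  have horb : ∀ x : V, x ≠ 0 → Nat.card (MulAction.orbit H x) = Nat.card K ^ (finrank K V - 1) + 1 := by
    intro x hx
    rw [← G.card_orbit hodd hall hx]
    have h3 := Nat.card_congr (Equiv.sumCompl (fun w : MulAction.orbit H x => w.1 ≠ x))
    rw [Nat.card_sum] at h3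
    rw [← h3]
    congr 1
    · refine Nat.card_congr ⟨fun y => ⟨y.1.1, y.1.2, y.2⟩, fun y => ⟨⟨y.1, y.2.1⟩, y.2.2⟩, fun _ => rfl, fun _ => rfl⟩
    · rw [Nat.card_eq_one_iff_unique]
      refine ⟨⟨?_⟩, ⟨⟨⟨x, MulAction.mem_orbit_self x⟩, by simp⟩⟩⟩
      rintro ⟨⟨a, ha⟩, ha'⟩ ⟨⟨b, hb⟩, hb'⟩
      simp only [ne_eq, not_not] at ha' hb'
      subst ha'
      simp only [Subtype.mk.injEq]
      exact hb'.symm
  obtain ⟨k, hk⟩ := dvd_card_of_orbits horb
  rw [Module.natCard_eq_pow_finrank (K := K) (V := V)] at hk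
  set q := Nat.card K
  obtain ⟨n, hn⟩ : ∃ n, finrank K V = n + 3 := ⟨finrank K V - 3, by omega⟩
  rw [hn, show n + 3 - 1 = n + 2 by omega, pow_succ q (n + 2)] at hk
  set a := q ^ (n + 2) with ha
  have haq : q < a := by
    rw [ha]
    calc q = q ^ 1 := (pow_one q).symm
      _ < q ^ (n + 2) := Nat.pow_lt_pow_right hq (by omega)
  -- a q = 1 + (a + 1) k
  have hkq : k < q := by
    by_contra h
    push Not at h
    nlinarith
  obtain ⟨j, hj⟩ : ∃ j, q = k + j + 1 := ⟨q - k - 1, by omega⟩
  rw [hj] at hk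
  -- a (k + j + 1) = 1 + a k + k
  have : a * (j + 1) = 1 + k := by nlinarith
  nlinarith

end

end H76.Bin
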