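import Cfsg.Agent.Lib.H76.Bin6

/-! Binary affine groups, stage 3: dimensions one and two. -/

set_option autoImplicit false

namespace H76.Bin

open Module

theorem card_prime_of_inv {V H : Type*} [AddCommGroup V] [Group H] [DistribMulAction H V] {p : ℕ}
    [Nontrivial V] [hpp : Fact p.Prime] (D : Dat V H p)
    (h : ∀ (g : H) (v : V), g • v = v ∨ g • v = -v) : Nat.card V = p := by
  obtain ⟨v, hv⟩ := exists_ne (0 : V)
  rcases D.irr (AddSubgroup.zmultiples v) (fun g w hw => by
    rcases h g w with h1 | h1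
    · rw [h1]; exact hw
    · rw [h1]; exact neg_mem hw) with h1 | h1
  · exact absurd (AddSubgroup.zmultiples_eq_bot.1 h1) hv
  · have h2 : addOrderOf v = p := addOrderOf_eq_prime (D.hp v) hv
    have h3 : Nat.card (AddSubgroup.zmultiples v) = addOrderOf v := Nat.card_zmultiples v
    rw [h1, h2] at h3
    rw [← h3]
    exact (Nat.card_congr (AddSubgroup.topEquiv (G := V)).toEquiv).symm

section

variable {K V H : Type*} [Field K] [AddCommGroup V] [Module K V] [Group H] [DistribMulAction H V]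
  {p : ℕ} [Finite K] [Finite V] [FaithfulSMul H V] [SMulCommClass H K V]

theorem Geo.case_one [hpp : Fact p.Prime] [Nontrivial V] (G : Geo K V H p)
    {t : H} (ht : IsR V t) (h1 : finrank K V = 1) : Nat.card V = p ∧ Nat.card H ≤ 2 := by
  classical
  have D := G.D
  have hZ : ∀ v : V, v ∈ Zs V t := by
    have : LinearMap.range (TK K V t) = ⊤ := by
      apply Submodule.eq_top_of_finrank_eq
      rw [G.finrank_range ht, h1]
    intro v
    rw [← mem_range_TK (K := K), this]
    trivial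
  have hfix : ∀ (g : H) (x : V), x ≠ 0 → g • x = x → g = 1 := by
    intro g x hx hgx
    have h2 : CK K V g = ⊤ := by
      apply Submodule.eq_top_of_finrank_eq
      have h3 := Submodule.finrank_le (CK K V g)
      have h4 : 0 < finrank K (CK K V g) := by
        rw [Module.finrank_pos_iff_exists_ne_zero]
        exact ⟨⟨x, hgx⟩, fun h => hx (congrArg Subtype.val h)⟩
      omega
    apply FaithfulSMul.eq_of_smul_eq_smul (α := V)
    intro v
    have : v ∈ CK K V g := by rw [h2]; trivial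
    rw [one_smul]
    exact this
  have hall : ∀ g : H, g = 1 ∨ g = t := by
    intro g
    obtain ⟨x, hx⟩ := exists_ne (0 : V)
    rcases ht.two D (hZ x) (hZ (g • x)) ⟨g, rfl⟩ with h2 | h2
    · exact Or.inl (hfix g x hx h2)
    · right
      have h3 : (t⁻¹ * g) • x = x := by
        rw [mul_smul, h2, ← ht.neg D (hZ x), inv_smul_smul]
      exact (inv_mul_eq_one.1 (hfix _ x hx h3)).symm
  refine ⟨card_prime_of_inv D (fun g v => ?_), ?_⟩
  · rcases hall g with rfl | rfl
    · left; rw [one_smul]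
    · right; exact ht.neg D (hZ v)
  · have hsub : (Set.univ : Set H) ⊆ {1, t} := by
      intro g _
      rcases hall g with h | h
      · exact Or.inl h
      · exact Or.inr h
    have h3 := Set.ncard_le_ncard hsub (Set.toFinite _)
    rw [Set.ncard_univ] at h3
    exact h3.trans (Set.ncard_insert_le _ _ |>.trans (by simp))

/-- the plane case -/
structure Pl (K V H : Type*) [Field K] [AddCommGroup V] [Module K V] [Group H]
    [DistribMulAction H V] (p : ℕ) : Prop where
  G : Geo K V H p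
  odd : (∀ v : V, v + v = 0) ∨ (∀ v : V, v + v = 0 → v = 0)
  all : ∀ w : V, w ≠ 0 → IsCen V H w
  two : finrank K V = 2

omit [Finite V] [FaithfulSMul H V] [Finite K] in
theorem span_two (h2 : finrank K V = 2) {v w : V} (hv : v ≠ 0) (hw : ∀ c : K, c • v ≠ w) (x : V) :
    ∃ a b : K, x = a • v + b • w := by
  have : FiniteDimensional K V := FiniteDimensional.of_finrank_pos (by omega)
  have h3 : Submodule.span K {v} ⊔ Submodule.span K {w} = ⊤ := by
    apply Submodule.eq_top_of_finrank_eq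
    have h4 := Submodule.finrank_le (Submodule.span K {v} ⊔ Submodule.span K {w})
    have h5 : finrank K (Submodule.span K {v}) <
        finrank K (Submodule.span K {v} ⊔ Submodule.span K {w} : Submodule K V) := by
      apply Submodule.finrank_lt_finrank_of_lt
      refine lt_of_le_of_ne le_sup_left (fun h => ?_)
      have h6 : w ∈ Submodule.span K {v} := by
        rw [h]; exact Submodule.mem_sup_right (Submodule.mem_span_singleton_self _)
      obtain ⟨c, hc⟩ := Submodule.mem_span_singleton.1 h6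
      exact hw c hc
    rw [finrank_span_singleton hv] at h5
    omega
  have h4 : x ∈ Submodule.span K {v} ⊔ Submodule.span K {w} := by rw [h3]; trivial
  obtain ⟨y, hy, z, hz, rfl⟩ := Submodule.mem_sup.1 h4
  obtain ⟨a, rfl⟩ := Submodule.mem_span_singleton.1 hy
  obtain ⟨b, rfl⟩ := Submodule.mem_span_singleton.1 hz
  exact ⟨a, b, rfl⟩

theorem Pl.isR_of_fix (P : Pl K V H p) {g : H} (hg : g ≠ 1) {x : V} (hx : x ≠ 0) (h : g • x = x) :
    IsR V g := by
  obtain ⟨t, ht, -⟩ := P.all x hx
  refine P.G.isR_of ht hg ?_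
  have h4 : 0 < finrank K (CK K V g) := by
    rw [Module.finrank_pos_iff_exists_ne_zero]
    exact ⟨⟨x, h⟩, fun h => hx (congrArg Subtype.val h)⟩
  have := P.two
  omega

theorem Pl.line_fix (P : Pl K V H p) {t : H} (ht : IsR V t) {x y : V} (hx0 : x ≠ 0)
    (hx : t • x = x) (hy : t • y = y) : ∃ c : K, c • x = y := by
  have h1 := P.G.finrank_CK ht
  rw [P.two] at h1
  have h2 : finrank K (CK K V t) = 1 := by omega
  obtain ⟨c, hc⟩ := (finrank_eq_one_iff_of_nonzero' (⟨x, hx⟩ : CK K V t)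
    (fun h => hx0 (congrArg Subtype.val h))).1 h2 ⟨y, hy⟩
  exact ⟨c, congrArg Subtype.val hc⟩

theorem Pl.axis_uniq (P : Pl K V H p) {s t : H} (hs : IsR V s) (ht : IsR V t) {x : V} (hx : x ≠ 0)
    (hsx : s • x = x) (htx : t • x = x) : s = t := by
  have D := P.G.D
  by_contra hne
  have hc : s * t = t * s := hs.commute_of_fix D ht (fun v hv => by
    obtain ⟨c, rfl⟩ := P.line_fix hs hx hsx hv
    rw [smul_comm, htx])
  obtain ⟨w, hw, hw0⟩ := ht.exists_Zs_ne (V := V)
  obtain ⟨u, hu, hu0⟩ := hs.exists_Zs_ne (V := V)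
  have h1 := hs.fix_of_commute D ht hne hc hw
  have h2 := ht.fix_of_commute D hs (Ne.symm hne) hc.symm hu
  obtain ⟨a, ha⟩ := P.line_fix hs hx hsx h1
  obtain ⟨b, hb⟩ := P.line_fix ht hx htx h2
  -- t fixes w
  have h3 : t • w = w := by rw [← ha, smul_comm, htx]
  rw [ht.neg D hw] at h3
  rcases P.odd with h | h
  · obtain ⟨c, hc⟩ := P.line_fix ht hw0 (by rw [ht.neg D hw, h3]) h2
    apply hne
    exact hs.uniq D ht hu (hc ▸ smul_mem_ZsK hw c) hu0
  · exact hw0 (h w (by nth_rewrite 1 [← h3]; abel))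

theorem Pl.mul_notR (P : Pl K V H p) {s t : H} (hs : IsR V s) (ht : IsR V t) : ¬ IsR V (s * t) := by
  intro h
  have D := P.G.D
  have h1 := P.G.finrank_CK h
  rw [P.two] at h1
  have h2 : 0 < finrank K (CK K V (s * t)) := by omega
  obtain ⟨⟨x, hx⟩, hx0⟩ := Module.finrank_pos_iff_exists_ne_zero.1 h2
  have hx0' : x ≠ 0 := fun h => hx0 (Subtype.ext h)
  rw [mem_CK, mul_smul] at hx
  have h3 : t • x = s • x := by rw [← hs.sq_smul D (t • x), hx]
  have hne : s ≠ t := by
    rintro rfl
    exact h.1 (hs.mul_self D)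
  by_cases h4 : s • x = x
  · exact hne (P.axis_uniq hs ht hx0' h4 (by rw [h3, h4]))
  · exact hne (hs.uniq D ht (u := s • x - x) (mem_Zs.2 ⟨x, rfl⟩) (mem_Zs.2 ⟨x, by rw [h3]⟩)
      (sub_ne_zero.2 h4))

theorem Pl.mul_R (P : Pl K V H p) {s h : H} (hs : IsR V s) (hh : ¬ IsR V h) : IsR V (s * h) := by
  have D := P.G.D
  by_cases h1 : h = 1
  · rw [h1, mul_one]; exact hs
  have hinj : Function.Injective (TK K V h) := by
    rw [← LinearMap.ker_eq_bot, ker_TK, Submodule.eq_bot_iff]
    intro x hx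
    by_contra hx0
    exact hh (P.isR_of_fix h1 hx0 hx)
  have : FiniteDimensional K V := FiniteDimensional.of_finrank_pos (by rw [P.two]; omega)
  have hsurj := (LinearMap.injective_iff_surjective (f := TK K V h)).1 hinj
  obtain ⟨u, hu, hu0⟩ := hs.exists_Zs_ne (V := V)
  obtain ⟨v, hv⟩ := hsurj u
  rw [TK_apply] at hv
  have hv' : h • v = v + u := by rw [← hv]; abel
  have hsv : s • v = h • v := by rw [hs.keyZ D hu hu0 ⟨h, hv'⟩, hv']
  have hv0 : v ≠ 0 := by
    rintro rfl
    rw [smul_zero, sub_zero] at hv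
    exact hu0 hv.symm
  refine P.isR_of_fix ?_ hv0 (by rw [mul_smul, ← hsv, hs.sq_smul D])
  intro h2
  apply hh
  have h3 : s = h := mul_left_cancel ((hs.mul_self D).trans h2.symm)
  rw [← h3]
  exact hs

theorem Pl.inv_notR (P : Pl K V H p) {h : H} (hh : ¬ IsR V h) : ¬ IsR V h⁻¹ := by
  intro h1
  apply hh
  have := h1.inv_eq P.G.D
  rw [inv_inv] at this
  rw [this]; exact h1

theorem Pl.mul_R' (P : Pl K V H p) {s h : H} (hs : IsR V s) (hh : ¬ IsR V h) : IsR V (h * s) := by
  have D := P.G.D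
  have h1 := P.mul_R hs (P.inv_notR hh)
  have h2 := h1.inv_eq D
  rw [mul_inv_rev, inv_inv, hs.inv_eq D] at h2
  rw [h2]; exact h1

theorem Pl.mul_C (P : Pl K V H p) {s a b : H} (hs : IsR V s) (ha : ¬ IsR V a) (hb : ¬ IsR V b) :
    ¬ IsR V (a * b) := by
  have h1 := P.mul_notR (P.mul_R' hs ha) (P.mul_R hs hb)
  have h2 : a * s * (s * b) = a * b := by
    rw [mul_assoc, ← mul_assoc s s b, hs.mul_self P.G.D, one_mul]
  rwa [h2] at h1

theorem Pl.conj_inv (P : Pl K V H p) {s a : H} (hs : IsR V s) (ha : ¬ IsR V a) :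
    s * a * s = a⁻¹ := by
  have h1 := (P.mul_R hs ha).mul_self P.G.D
  rw [← mul_assoc] at h1
  exact eq_inv_of_mul_eq_one_left h1

theorem Pl.comm_C (P : Pl K V H p) {s a b : H} (hs : IsR V s) (ha : ¬ IsR V a) (hb : ¬ IsR V b) :
    a * b = b * a := by
  have h1 := P.conj_inv hs (P.mul_C hs ha hb)
  have h2 : s * (a * b) * s = (s * a * s) * (s * b * s) := by
    have := hs.mul_self P.G.D
    calc s * (a * b) * s = s * a * (1 : H) * b * s := by group
      _ = s * a * (s * s) * b * s := by rw [this]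
      _ = (s * a * s) * (s * b * s) := by group
  rw [h2, P.conj_inv hs ha, P.conj_inv hs hb, ← mul_inv_rev] at h1
  exact (inv_injective h1).symm

/-- (9) -/
theorem Pl.exists_move (P : Pl K V H p) {v : V} (hv : v ≠ 0) :
    ∃ c : H, ¬ IsR V c ∧ ∀ k : K, k • v ≠ c • v := by
  by_contra hcon
  push Not at hcon
  have D := P.G.D
  obtain ⟨t, ht, hvt⟩ := P.all v hv
  have hfin : FiniteDimensional K V := FiniteDimensional.of_finrank_pos (by rw [P.two]; omega)
  obtain ⟨w, hw⟩ : ∃ w : V, ∀ k : K, k • v ≠ w := by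
    by_contra h
    push Not at h
    have h3 : finrank K V = 1 := finrank_eq_one_iff'.2 ⟨v, hv, h⟩
    rw [P.two] at h3
    omega
  have key : ∀ s : H, IsR V s → s ≠ t → s • v = v := by
    intro s hs hst
    by_contra hsv
    obtain ⟨k, hk⟩ := hcon (t * s) (P.mul_notR ht hs)
    have h1 : (t * s) • v ∈ Zs V t := by rw [← hk]; exact smul_mem_ZsK hvt k
    have h2 : s • v ∈ Zs V t := by
      have h3 := smul_mem_Zs (h := t) h1
      rw [mul_smul, ht.sq_smul D] at h3
      rwa [mul_inv_cancel_right] at h3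
    exact hst (hs.uniq D ht (u := s • v - v) (mem_Zs.2 ⟨v, rfl⟩) (sub_mem h2 hvt)
      (sub_ne_zero.2 hsv))
  have hw0 : w ≠ 0 := fun h => hw 0 (by rw [zero_smul, h])
  have hvw0 : v + w ≠ 0 := fun h => hw (-1) (by rw [neg_smul, one_smul]; exact (eq_neg_of_add_eq_zero_right h).symm)
  obtain ⟨a, ha, haw⟩ := P.all w hw0
  obtain ⟨b, hb, hbw⟩ := P.all (v + w) hvw0
  have h1 : a ≠ t := by
    rintro rfl
    obtain ⟨c, hc⟩ := P.G.line a ha v hvt hv w haw
    exact hw c hc
  have h2 : b ≠ t := by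
    rintro rfl
    obtain ⟨c, hc⟩ := P.G.line b hb v hvt hv (v + w) hbw
    exact hw (c - 1) (by rw [sub_smul, one_smul, hc]; abel)
  have h3 := P.axis_uniq ha hb hv (key a ha h1) (key b hb h2)
  subst h3
  apply h1
  refine ha.uniq D ht (u := v) ?_ hvt hv
  have := sub_mem hbw haw
  rwa [add_sub_cancel_right] at this

end

end H76.Bin
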