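import Cfsg.Agent.Lib.H76.Bin7

/-! Binary affine groups, stage 3b: the quadratic field. -/

set_option autoImplicit false

namespace H76.Bin

open Module

/-- the commutant of `K` and of the non-reflections -/
def Ac (K V H : Type*) [Field K] [AddCommGroup V] [Module K V] [Group H] [DistribMulAction H V] :
    Subring (AddMonoid.End V) :=
  Subring.centralizer (Set.range (fun k : K => Module.toAddMonoidEnd K V k) ∪
    {L | ∃ c : H, ¬ IsR V c ∧ L = DistribMulAction.toAddMonoidEnd H V c})

theorem mem_Ac {K V H : Type*} [Field K] [AddCommGroup V] [Module K V] [Group H]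
    [DistribMulAction H V] {L : AddMonoid.End V} :
    L ∈ Ac K V H ↔ (∀ (k : K) (v : V), L (k • v) = k • L v) ∧
      ∀ c : H, ¬ IsR V c → ∀ v : V, L (c • v) = c • L v := by
  unfold Ac
  rw [Subring.mem_centralizer_iff]
  constructor
  · intro hL
    refine ⟨fun k v => ?_, fun c hc v => ?_⟩
    · have := hL _ (Or.inl ⟨k, rfl⟩)
      exact (congrArg (fun f : AddMonoid.End V => f v) this).symm
    · have := hL _ (Or.inr ⟨c, hc, rfl⟩)
      exact (congrArg (fun f : AddMonoid.End V => f v) this).symm
  · rintro ⟨h1, h2⟩ _ (⟨k, rfl⟩ | ⟨c, hc, rfl⟩)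
    · ext v
      exact (h1 k v).symm
    · ext v
      exact (h2 c hc v).symm

section

variable {K V H : Type*} [Field K] [AddCommGroup V] [Module K V] [Group H] [DistribMulAction H V]
  {p : ℕ} [Finite K] [Finite V] [FaithfulSMul H V] [SMulCommClass H K V]

theorem Pl.Ac_inj (P : Pl K V H p) {L : AddMonoid.End V} (hL : L ∈ Ac K V H) {v : V} (hv : v ≠ 0)
    (h : L v = 0) : L = 0 := by
  obtain ⟨c, hc, hcv⟩ := P.exists_move hv
  rw [mem_Ac] at hL
  ext x
  obtain ⟨a, b, rfl⟩ := span_two P.two hv hcv x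
  change L (a • v + b • c • v) = 0
  rw [map_add, hL.1, hL.1, hL.2 c hc, h, smul_zero, smul_zero, smul_zero, add_zero]

theorem Pl.Ac_isField (P : Pl K V H p) [Nontrivial V] : IsField (Ac K V H) := by
  have hdom : IsDomain (Ac K V H) := by
    have : NoZeroDivisors (Ac K V H) := ⟨by
      intro a b hab
      have h0 : a.1 * b.1 = 0 := congrArg Subtype.val hab
      by_cases hb : b = 0
      · exact Or.inr hb
      left
      have hb' : b.1 ≠ 0 := fun h => hb (Subtype.ext h)
      obtain ⟨v, hv⟩ : ∃ v : V, b.1 v ≠ 0 := by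
        by_contra hcon
        push Not at hcon
        apply hb'
        ext x
        exact hcon x
      apply Subtype.ext
      exact P.Ac_inj a.2 hv (congrArg (fun f : AddMonoid.End V => f v) h0)⟩
    have : Nontrivial (Ac K V H) := ⟨0, 1, fun h => by
      obtain ⟨v, hv⟩ := exists_ne (0 : V)
      have h1 : (0 : AddMonoid.End V) = 1 := congrArg Subtype.val h
      exact hv (congrArg (fun f : AddMonoid.End V => f v) h1).symm⟩
    exact NoZeroDivisors.to_isDomain _
  have : Finite (AddMonoid.End V) :=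
    Finite.of_injective (fun f : AddMonoid.End V => ((f : V →+ V) : V → V)) DFunLike.coe_injective
  exact Finite.isDomain_to_isField _

theorem Pl.mem_Ac_of (P : Pl K V H p) {s : H} (hs : IsR V s) {c : H} (hc : ¬ IsR V c) :
    DistribMulAction.toAddMonoidEnd H V c ∈ Ac K V H := by
  rw [mem_Ac]
  refine ⟨fun k v => smul_comm c k v, fun c' hc' v => ?_⟩
  change c • (c' • v) = c' • (c • v)
  rw [← mul_smul, ← mul_smul, P.comm_C hs hc hc']

theorem Pl.Ac_bij (P : Pl K V H p) {s : H} (hs : IsR V s) {v : V} (hv : v ≠ 0) :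
    Function.Bijective (fun L : Ac K V H => L.1 v) := by
  constructor
  · intro L M hLM
    have h1 : (L.1 - M.1) v = 0 := by
      change L.1 v - M.1 v = 0
      exact sub_eq_zero.2 hLM
    have := P.Ac_inj (sub_mem L.2 M.2) hv h1
    exact Subtype.ext (sub_eq_zero.1 this)
  · intro x
    obtain ⟨c, hc, hcv⟩ := P.exists_move hv
    obtain ⟨a, b, rfl⟩ := span_two P.two hv hcv x
    have hk : ∀ k : K, Module.toAddMonoidEnd K V k ∈ Ac K V H := by
      intro k
      rw [mem_Ac]
      refine ⟨fun l v => smul_comm k l v, fun c _ v => (smul_comm c k v).symm⟩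
    exact ⟨⟨Module.toAddMonoidEnd K V a + Module.toAddMonoidEnd K V b *
      DistribMulAction.toAddMonoidEnd H V c, add_mem (hk a) (mul_mem (hk b) (P.mem_Ac_of hs hc))⟩, rfl⟩

/-- conjugation by `s` -/
theorem Pl.conj_mem (P : Pl K V H p) {s : H} (hs : IsR V s) {L : AddMonoid.End V}
    (hL : L ∈ Ac K V H) :
    DistribMulAction.toAddMonoidEnd H V s * L * DistribMulAction.toAddMonoidEnd H V s ∈ Ac K V H := by
  have D := P.G.D
  have hL' := mem_Ac.1 hL
  rw [mem_Ac]
  refine ⟨fun k v => ?_, fun c hc v => ?_⟩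
  · change s • (L (s • (k • v))) = k • (s • (L (s • v)))
    rw [smul_comm s k v, hL'.1, smul_comm s k]
  · change s • (L (s • (c • v))) = c • (s • (L (s • v)))
    have h1 := P.conj_inv hs hc
    have h2 : s * c = c⁻¹ * s := by
      rw [← h1, mul_assoc, hs.mul_self D, mul_one]
    have h3 : s * c⁻¹ = c * s := by
      have h4 := P.conj_inv hs (P.inv_notR hc)
      rw [inv_inv] at h4
      calc s * c⁻¹ = s * c⁻¹ * (s * s) := by rw [hs.mul_self D, mul_one]
        _ = (s * c⁻¹ * s) * s := by simp only [mul_assoc]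
        _ = c * s := by rw [h4]
    rw [← mul_smul s c, h2, mul_smul, hL'.2 _ (P.inv_notR hc), ← mul_smul s c⁻¹, h3, mul_smul]

theorem Pl.result (P : Pl K V H p) [Nontrivial V] {s : H} (hs : IsR V s) :
    ∃ (A : Subring (AddMonoid.End V)) (_ : IsField A) (σ : A ≃+* A) (e : V ≃+ A),
      (∀ x, σ (σ x) = x) ∧ (∃ x, σ x ≠ x) ∧
      (∀ h : H, ∃ a : A, a * σ a = 1 ∧
        ((∀ v, e (h • v) = a * e v) ∨ (∀ v, e (h • v) = a * σ (e v)))) ∧
      (∀ a : A, a * σ a = 1 →
        (∃ h : H, ∀ v, e (h • v) = a * e v) ∧ (∃ h : H, ∀ v, e (h • v) = a * σ (e v))) := by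
  classical
  have D := P.G.D
  have hss := hs.mul_self D
  have hfin : FiniteDimensional K V := FiniteDimensional.of_finrank_pos (by rw [P.two]; omega)
  let S : AddMonoid.End V := DistribMulAction.toAddMonoidEnd H V s
  have hSS : S * S = 1 := by
    ext v
    exact hs.sq_smul D v
  obtain ⟨v0, hv00, hsv0⟩ : ∃ v0 : V, v0 ≠ 0 ∧ s • v0 = v0 := by
    have h1 := P.G.finrank_CK hs
    rw [P.two] at h1
    have h2 : 0 < finrank K (CK K V s) := by omega
    obtain ⟨⟨x, hx⟩, hx0⟩ := Module.finrank_pos_iff_exists_ne_zero.1 h2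
    exact ⟨x, fun h => hx0 (Subtype.ext h), hx⟩
  have hSv0 : S v0 = v0 := hsv0
  have hF := P.Ac_isField
  let ev : Ac K V H →+ V := {
    toFun := fun L => L.1 v0
    map_zero' := rfl
    map_add' := fun _ _ => rfl }
  have hbij : Function.Bijective ev := P.Ac_bij hs hv00
  let e' : Ac K V H ≃+ V := AddEquiv.ofBijective ev hbij
  have he' : ∀ L, e' L = L.1 v0 := fun L => rfl
  have he : ∀ v : V, (e'.symm v).1 v0 = v := by
    intro v
    rw [← he', AddEquiv.apply_symm_apply]
  let σ : Ac K V H ≃+* Ac K V H := {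
    toFun := fun L => ⟨S * L.1 * S, P.conj_mem hs L.2⟩
    invFun := fun L => ⟨S * L.1 * S, P.conj_mem hs L.2⟩
    left_inv := fun L => by
      apply Subtype.ext
      change S * (S * L.1 * S) * S = L.1
      calc S * (S * L.1 * S) * S = (S * S) * L.1 * (S * S) := by simp only [mul_assoc]
        _ = L.1 := by rw [hSS, one_mul, mul_one]
    right_inv := fun L => by
      apply Subtype.ext
      change S * (S * L.1 * S) * S = L.1
      calc S * (S * L.1 * S) * S = (S * S) * L.1 * (S * S) := by simp only [mul_assoc]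
        _ = L.1 := by rw [hSS, one_mul, mul_one]
    map_mul' := fun L M => by
      apply Subtype.ext
      change S * (L.1 * M.1) * S = (S * L.1 * S) * (S * M.1 * S)
      calc S * (L.1 * M.1) * S = S * L.1 * 1 * M.1 * S := by simp only [mul_assoc, mul_one, one_mul]
        _ = S * L.1 * (S * S) * M.1 * S := by rw [hSS]
        _ = _ := by simp only [mul_assoc]
    map_add' := fun L M => by
      apply Subtype.ext
      change S * (L.1 + M.1) * S = S * L.1 * S + S * M.1 * S
      rw [mul_add, add_mul] }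
  have hσ : ∀ L, (σ L).1 = S * L.1 * S := fun L => rfl
  have hσσ : ∀ x, σ (σ x) = x := by
    intro L
    apply Subtype.ext
    rw [hσ, hσ]
    calc S * (S * L.1 * S) * S = (S * S) * L.1 * (S * S) := by simp only [mul_assoc]
      _ = L.1 := by rw [hSS, one_mul, mul_one]
  have hev : ∀ (L : AddMonoid.End V) (hL : L ∈ Ac K V H) (v : V),
      e'.symm (L v) = ⟨L, hL⟩ * e'.symm v := by
    intro L hL v
    rw [AddEquiv.symm_apply_eq, he']
    change L v = L ((e'.symm v).1 v0)
    rw [he]
  have hes : ∀ v : V, e'.symm (s • v) = σ (e'.symm v) := by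
    intro v
    rw [AddEquiv.symm_apply_eq, he', hσ]
    change s • v = S ((e'.symm v).1 (S v0))
    rw [hSv0, he]
    rfl
  have hne : ∃ x, σ x ≠ x := by
    by_contra hcon
    push Not at hcon
    apply hs.1
    apply FaithfulSMul.eq_of_smul_eq_smul (α := V)
    intro v
    rw [one_smul]
    apply e'.symm.injective
    rw [hes, hcon]
  have hcomm : ∀ a b : Ac K V H, a * b = b * a := hF.mul_comm
  -- the action of non-reflections
  let ι : ∀ c : H, ¬ IsR V c → Ac K V H := fun c hc => ⟨_, P.mem_Ac_of hs hc⟩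
  have hι : ∀ (c : H) (hc : ¬ IsR V c) (v : V), e'.symm (c • v) = ι c hc * e'.symm v := by
    intro c hc v
    exact hev _ (P.mem_Ac_of hs hc) v
  have hιn : ∀ (c : H) (hc : ¬ IsR V c), ι c hc * σ (ι c hc) = 1 := by
    intro c hc
    apply Subtype.ext
    ext v
    change c • (s • (c • (s • v))) = v
    have h1 := P.conj_inv hs hc
    have h2 : c * s * c * s = 1 := by
      calc c * s * c * s = c * (s * c * s) := by simp only [mul_assoc]
        _ = 1 := by rw [h1, mul_inv_cancel]
    rw [← mul_smul, ← mul_smul, ← mul_smul, h2, one_smul]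
  refine ⟨Ac K V H, hF, σ, e'.symm, hσσ, hne, ?_, ?_⟩
  · intro h
    by_cases hh : IsR V h
    · have hc : ¬ IsR V (h * s) := P.mul_notR hh hs
      refine ⟨ι _ hc, hιn _ hc, Or.inr (fun v => ?_)⟩
      rw [← hes, ← hι (h * s) hc, mul_smul, hs.sq_smul D]
    · exact ⟨ι _ hh, hιn _ hh, Or.inl (fun v => hι _ hh v)⟩
  · intro a ha
    -- `a` comes from a non-reflection
    obtain ⟨c, hc, hca⟩ : ∃ (c : H) (hc : ¬ IsR V c), ι c hc = a := by
      have haa : ∀ v : V, a.1 (s • (a.1 (s • v))) = v := by
        intro v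
        have := congrArg (fun f : AddMonoid.End V => f v) (congrArg Subtype.val ha)
        exact this
      obtain ⟨v, hv⟩ : ∃ v : V, v - a.1 (s • v) ≠ 0 := by
        by_contra hcon
        push Not at hcon
        -- then a = S
        have haS : a.1 = S := by
          ext v
          have := hcon (s • v)
          rw [hs.sq_smul D, sub_eq_zero] at this
          exact this.symm
        obtain ⟨x, hx⟩ := hne
        apply hx
        apply Subtype.ext
        rw [hσ]
        have h1 : S * x.1 = x.1 * S := by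
          have := congrArg Subtype.val (hcomm a x)
          change a.1 * x.1 = x.1 * a.1 at this
          rwa [haS] at this
        rw [h1, mul_assoc, hSS, mul_one]
      set w := v - a.1 (s • v) with hw
      have haw : a.1 (s • w) = -w := by
        rw [hw, smul_sub, map_sub, haa]
        abel
      obtain ⟨t, ht, htw⟩ := P.all w hv
      have hc : ¬ IsR V (t * s) := P.mul_notR ht hs
      refine ⟨t * s, hc, ?_⟩
      have h1 : (t * s) • (s • w) = a.1 (s • w) := by
        rw [mul_smul, hs.sq_smul D, ht.neg D htw, haw]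
      have h2 : ((ι _ hc).1 - a.1) (s • w) = 0 := by
        change (t * s) • (s • w) - a.1 (s • w) = 0
        rw [h1, sub_self]
      have h3 : s • w ≠ 0 := by
        intro h
        apply hv
        rw [← hs.sq_smul D w, h, smul_zero]
      have h4 := P.Ac_inj (sub_mem (ι _ hc).2 a.2) h3 h2
      exact Subtype.ext (sub_eq_zero.1 h4)
    refine ⟨⟨c, fun v => by rw [hι c hc, hca]⟩, ⟨c * s, fun v => ?_⟩⟩
    rw [mul_smul, hι c hc, hca, hes]

end

end H76.Bin
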