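import Cfsg.Agent.Lib.H76.Bin8

/-! Binary affine groups: the abstract theorem, and the quadratic extension. -/

set_option autoImplicit false

namespace H76.Bin

open Module

theorem main_abs {V H : Type*} [AddCommGroup V] [Finite V] [Nontrivial V] [Group H] [Finite H]
    [DistribMulAction H V] [FaithfulSMul H V] {p : ℕ} [hpp : Fact p.Prime] (D : Dat V H p) :
    ((Nat.card V).Prime ∧ Nat.card H ≤ 2) ∨
    ∃ (A : Subring (AddMonoid.End V)) (_ : IsField A) (σ : A ≃+* A) (e : V ≃+ A),
      (∀ x, σ (σ x) = x) ∧ (∃ x, σ x ≠ x) ∧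
      (∀ h : H, ∃ a : A, a * σ a = 1 ∧
        ((∀ v, e (h • v) = a * e v) ∨ (∀ v, e (h • v) = a * σ (e v)))) ∧
      (∀ a : A, a * σ a = 1 →
        (∃ h : H, ∀ v, e (h • v) = a * e v) ∧ (∃ h : H, ∀ v, e (h • v) = a * σ (e v))) := by
  classical
  rcases subsingleton_or_nontrivial H with hH | hH
  · left
    have h1 := card_prime_of_inv D (fun g v => by
      left; rw [Subsingleton.elim g 1, one_smul])
    rw [h1]
    refine ⟨hpp.out, ?_⟩
    rw [Nat.card_of_subsingleton (1 : H)]
    omega
  obtain ⟨t, ht⟩ := exists_isR (V := V) (H := H)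
  have hodd : (∀ v : V, v + v = 0) ∨ (∀ v : V, v + v = 0 → v = 0) := by
    by_cases hp2 : p = 2
    · left
      intro v
      have := D.hp v
      rwa [hp2, two_nsmul] at this
    · right
      intro v hv
      have h5 : (2 : ℕ) • v = 0 := by rw [two_nsmul]; exact hv
      have hcop : Nat.Coprime 2 p := (Nat.coprime_primes Nat.prime_two hpp.out).2 (Ne.symm hp2)
      have h7 := Nat.dvd_gcd (addOrderOf_dvd_of_nsmul_eq_zero h5)
        (addOrderOf_dvd_of_nsmul_eq_zero (D.hp v))
      rwa [hcop.gcd_eq_one, Nat.dvd_one, AddMonoid.addOrderOf_eq_one_iff] at h7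
  obtain ⟨K, fK, mK, hKfin, hcomm, G⟩ := exists_field D
  have hsc : SMulCommClass H K V := ⟨hcomm⟩
  have hall := G.allCen hodd ht
  have hle := G.finrank_le_two hodd hall
  have hpos : 0 < finrank K V := by
    have : FiniteDimensional K V := Module.Finite.of_finite
    exact Module.finrank_pos (R := K) (M := V)
  by_cases h1 : finrank K V = 1
  · left
    obtain ⟨h2, h3⟩ := G.case_one ht h1
    rw [h2]
    exact ⟨hpp.out, h3⟩
  · right
    have P : Pl K V H p := ⟨G, hodd, hall, by omega⟩
    exact P.result ht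

theorem quad {E : Type} [Field E] [Finite E] (σ : E ≃+* E) (h2 : ∀ x, σ (σ x) = x)
    (h1 : ∃ x, σ x ≠ x) :
    ∃ (F : Type) (_ : Field F) (_ : Fintype F) (_ : Algebra F E), finrank F E = 2 ∧
      (∀ a : E, Algebra.norm F a = 1 ↔ a * σ a = 1) ∧
      (∀ φ : E ≃ₐ[F] E, (∀ x, φ x = x) ∨ (∀ x, φ x = σ x)) ∧
      (∃ φ : E ≃ₐ[F] E, ∀ x, φ x = σ x) := by
  classical
  let s : RingAut E := σ
  have hord : orderOf s = 2 := by
    apply orderOf_eq_prime
    · ext x
      rw [pow_two]
      exact h2 x
    · intro h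
      obtain ⟨x, hx⟩ := h1
      apply hx
      have := congrArg (fun f : RingAut E => f x) h
      exact this
  let G := Subgroup.zpowers s
  have hfinR : Finite (RingAut E) :=
    Finite.of_injective (fun f : RingAut E => (f : E → E)) DFunLike.coe_injective
  have : Fintype G := Fintype.ofFinite _
  let F := FixedPoints.subfield G E
  have hfr : finrank F E = 2 := by
    have h3 := FixedPoints.finrank_eq_card G E
    rw [h3, ← Nat.card_eq_fintype_card, Nat.card_zpowers, hord]
  have hfixF : ∀ x : F, σ x.1 = x.1 := by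
    intro x
    exact x.2 ⟨s, Subgroup.mem_zpowers s⟩
  let φ : E ≃ₐ[F] E := AlgEquiv.ofRingEquiv (f := σ) (fun x => hfixF x)
  have hφ : ∀ x, φ x = σ x := fun x => rfl
  have : Fintype F := Fintype.ofFinite _
  have hfd : FiniteDimensional F E := FiniteDimensional.of_finrank_pos (by rw [hfr]; omega)
  have hgal : IsGalois F E := inferInstance
  have hcard : Fintype.card (E ≃ₐ[F] E) = 2 := by
    rw [← Nat.card_eq_fintype_card, IsGalois.card_aut_eq_finrank, hfr]
  have hne : (1 : E ≃ₐ[F] E) ≠ φ := by
    intro h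
    obtain ⟨x, hx⟩ := h1
    apply hx
    rw [← hφ, ← h]
    rfl
  have huniv : (Finset.univ : Finset (E ≃ₐ[F] E)) = {1, φ} := by
    symm
    apply Finset.eq_univ_of_card
    rw [Finset.card_pair hne, hcard]
  refine ⟨F, inferInstance, inferInstance, inferInstance, hfr, ?_, ?_, φ, hφ⟩
  · intro a
    have h3 := Algebra.norm_eq_prod_automorphisms F a
    rw [huniv, Finset.prod_pair hne] at h3
    change algebraMap F E (Algebra.norm F a) = a * σ a at h3
    rw [← h3]
    constructor
    · intro h4
      rw [h4, map_one]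
    · intro h4
      apply (algebraMap F E).injective
      rw [h4, map_one]
  · intro ψ
    have h3 : ψ ∈ (Finset.univ : Finset (E ≃ₐ[F] E)) := Finset.mem_univ _
    rw [huniv, Finset.mem_insert, Finset.mem_singleton] at h3
    rcases h3 with rfl | rfl
    · left; intro x; rfl
    · right; exact hφ

end H76.Bin
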