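import Mathlib
import Cfsg.Prelude.Def_Transfer

/-! `3^2 : D_8` acting on an `𝔽_2`-module. -/

set_option autoImplicit false
set_option linter.unusedSectionVars false
open Cfsg

namespace H76.D8Mod

open Subgroup

variable {S : Type*} [Group S] [Finite S] {M : Type*} [AddCommGroup M] [Module (ZMod 2) M]

theorem add_self (m : M) : m + m = 0 := by
  have h : (2 : ZMod 2) • m = m + m := by rw [two_smul]
  rw [← h, show (2 : ZMod 2) = 0 from rfl, zero_smul]

theorem eq_of_add (m n : M) (h : m + n = 0) : m = n := by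
  have h1 := add_self n
  calc m = m + (n + n) := by rw [h1, add_zero]
    _ = n := by rw [← add_assoc, h, zero_add]

/-- Data: `A` normal of exponent 3 and order 9, `s, s', z` generating a dihedral group. -/
structure Data (S : Type*) [Group S] (A : Subgroup S) (s s' z : S) : Prop where
  comm : ∀ a ∈ A, ∀ b ∈ A, a * b = b * a
  exp : ∀ a ∈ A, a ^ 3 = 1
  card : Nat.card A = 9
  ss : s * s = 1
  ss' : s' * s' = 1
  zz : z * z = 1
  sz : s * z = z * s
  sz' : s' * z = z * s'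
  rel : s' * s * s' = s * z
  norm : ∀ g : S, ∀ a ∈ A, g * a * g⁻¹ ∈ A
  gen : ∀ H : Subgroup S, A ≤ H → s ∈ H → s' ∈ H → H = ⊤
  cent : ∀ g : S, (∀ a ∈ A, g * a = a * g) → g ∈ A
  sne : s ≠ 1
  zne : z ≠ 1
  sne' : s' ≠ 1
  szne : s ≠ z
  szne' : s' ≠ z

variable {A : Subgroup S} {s s' z : S}

theorem Data.symm (D : Data S A s s' z) : Data S A s' s z := by
  refine ⟨D.comm, D.exp, D.card, D.ss', D.ss, D.zz, D.sz', D.sz, ?_, D.norm, ?_, D.cent, D.sne',
    D.zne, D.sne, D.szne', D.szne⟩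
  · have h1 := D.rel
    have h2 : s' * s = s * z * s' := by
      calc s' * s = (s' * s * s') * s' := by rw [mul_assoc (s' * s), D.ss', mul_one]
        _ = s * z * s' := by rw [h1]
    calc s * s' * s = s * (s' * s) := by rw [mul_assoc]
      _ = (s * s) * z * s' := by rw [h2]; simp only [mul_assoc]
      _ = s' * z := by rw [D.ss, one_mul, D.sz']
  · intro H h1 h2 h3
    exact D.gen H h1 h3 h2

theorem odd_sq (D : Data S A s s' z) {a : S} (ha : a ∈ A) (h : a⁻¹ = a) : a = 1 := by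
  have h1 : a * a = 1 := by nth_rewrite 1 [← h]; exact inv_mul_cancel a
  have h2 := D.exp a ha
  rw [pow_succ, pow_two, h1, one_mul] at h2
  exact h2

theorem inv_of_sq {x : S} (h : x * x = 1) : x⁻¹ = x := inv_eq_of_mul_eq_one_left h

/-- an involution centralizing `A` is trivial -/
theorem not_cent (D : Data S A s s' z) {x : S} (hx : x * x = 1)
    (h : ∀ a ∈ A, x * a * x⁻¹ = a) : x = 1 :=
  odd_sq D (D.cent x fun a ha => by
    have := h a ha
    rwa [mul_inv_eq_iff_eq_mul] at this) (inv_of_sq hx)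

/-- `z` inverts `A`. -/
theorem z_inv (D : Data S A s s' z) : ∀ a ∈ A, z * a * z⁻¹ = a⁻¹ := by
  have hzi := inv_of_sq D.zz
  have hsi := inv_of_sq D.ss
  have hsi' := inv_of_sq D.ss'
  let E : Subgroup S :=
    { carrier := {a | a ∈ A ∧ z * a * z⁻¹ = a⁻¹}
      mul_mem' := by
        rintro a b ⟨ha, ha'⟩ ⟨hb, hb'⟩
        refine ⟨A.mul_mem ha hb, ?_⟩
        have h1 : z * (a * b) * z⁻¹ = (z * a * z⁻¹) * (z * b * z⁻¹) := by group
        rw [h1, ha', hb', D.comm a ha b hb, mul_inv_rev]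
      one_mem' := ⟨A.one_mem, by simp⟩
      inv_mem' := by
        rintro a ⟨ha, ha'⟩
        refine ⟨A.inv_mem ha, ?_⟩
        have h1 : z * a⁻¹ * z⁻¹ = (z * a * z⁻¹)⁻¹ := by group
        rw [h1, ha'] }
  have hEA : E ≤ A := fun a ha => ha.1
  have hEinv : ∀ x : S, x * z = z * x → ∀ a ∈ E, x * a * x⁻¹ ∈ E := by
    rintro x hx a ⟨ha, ha'⟩
    refine ⟨D.norm x a ha, ?_⟩
    have h1 : z * (x * a * x⁻¹) * z⁻¹ = x * (z * a * z⁻¹) * x⁻¹ := by
      have h2 : z * x = x * z := hx.symm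
      have h3 : x⁻¹ * z⁻¹ = z⁻¹ * x⁻¹ := by rw [← mul_inv_rev, ← mul_inv_rev, h2]
      calc z * (x * a * x⁻¹) * z⁻¹ = (z * x) * a * (x⁻¹ * z⁻¹) := by group
        _ = (x * z) * a * (z⁻¹ * x⁻¹) := by rw [h2, h3]
        _ = _ := by group
    rw [h1, ha']
    group
  have hcard : Nat.card E ∣ 3 ^ 2 := by
    have := card_dvd_of_le hEA
    rwa [D.card] at this
  obtain ⟨k, hk, hE⟩ := (Nat.dvd_prime_pow Nat.prime_three).1 hcard
  by_cases hk2 : k = 2
  · have h1 : E = A := eq_of_le_of_card_ge hEA (by rw [hE, hk2, D.card]; norm_num)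
    intro a ha
    rw [← h1] at ha
    exact ha.2
  · -- `E` has order at most 3
    have hEt : ∀ a ∈ E, z * a * z⁻¹ = a := by
      have hcyc : ∀ a ∈ E, a ≠ 1 → ∀ b ∈ E, b = 1 ∨ b = a ∨ b = a⁻¹ := by
        intro a ha ha1 b hb
        have h1 : Nat.card E = 3 := by
          interval_cases k
          · rw [pow_zero] at hE
            rw [card_eq_one] at hE
            rw [hE, mem_bot] at ha
            exact absurd ha ha1
          · rw [hE, pow_one]
          · exact absurd rfl hk2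
        have h2 : zpowers a = E := by
          apply eq_of_le_of_card_ge (zpowers_le.mpr ha)
          rw [h1, Nat.card_zpowers]
          have h3 : orderOf a ∣ 3 := orderOf_dvd_of_pow_eq_one (D.exp a ha.1)
          rcases (Nat.dvd_prime Nat.prime_three).1 h3 with h4 | h4
          · exact absurd (orderOf_eq_one_iff.1 h4) ha1
          · rw [h4]
        rw [← h2] at hb
        obtain ⟨m, rfl⟩ := hb
        have h5 := D.exp a ha.1
        have h6 : a ^ m = a ^ (m % 3) := by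
          conv_lhs => rw [← Int.emod_add_mul_ediv m 3, zpow_add, zpow_mul]
          rw [show a ^ (3 : ℤ) = a ^ 3 by norm_cast, h5, one_zpow, mul_one]
        have h7 := Int.emod_nonneg m (by norm_num : (3 : ℤ) ≠ 0)
        have h8 := Int.emod_lt_of_pos m (by norm_num : (0 : ℤ) < 3)
        simp only
        rw [h6]
        have h9 : m % 3 = 0 ∨ m % 3 = 1 ∨ m % 3 = 2 := by omega
        rcases h9 with h | h | h <;> rw [h]
        · left; simp
        · right; left; simp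
        · right; right
          rw [eq_inv_iff_mul_eq_one]
          have : a ^ (2 : ℤ) * a = a ^ 3 := by rw [pow_succ a 2]; norm_cast
          rw [this, h5]
      intro a ha
      by_cases ha1 : a = 1
      · rw [ha1]; simp
      · have hs1 := hcyc a ha ha1 _ (hEinv s D.sz a ha)
        have hs2 := hcyc a ha ha1 _ (hEinv s' D.sz' a ha)
        have hz' : z = s * (s' * s * s') := by rw [D.rel, ← mul_assoc, D.ss, one_mul]
        have hgen : ∀ x : S, (x * a * x⁻¹ = 1 ∨ x * a * x⁻¹ = a ∨ x * a * x⁻¹ = a⁻¹) →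
            (x * a * x⁻¹ = a ∨ x * a * x⁻¹ = a⁻¹) := by
          rintro x (h | h)
          · exfalso
            apply ha1
            rw [mul_inv_eq_one] at h
            exact mul_eq_left.mp h
          · exact h
        have hs1' := hgen _ hs1
        have hs2' := hgen _ hs2
        have e1 : z * a * z⁻¹ = s * (s' * (s * (s' * a * s'⁻¹) * s⁻¹) * s'⁻¹) * s⁻¹ := by
          rw [hz']; group
        have hx : ∀ x : S, x * a⁻¹ * x⁻¹ = (x * a * x⁻¹)⁻¹ := fun x => by group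
        rw [e1]
        rcases hs1' with h1 | h1 <;> rcases hs2' with h2 | h2 <;>
          simp only [h1, h2, hx, inv_inv]
    exfalso
    apply D.zne
    apply not_cent D D.zz
    intro a ha
    have h1 : a⁻¹ * (z * a * z⁻¹) ∈ E := by
      refine ⟨A.mul_mem (A.inv_mem ha) (D.norm z a ha), ?_⟩
      have h2 : z * (a⁻¹ * (z * a * z⁻¹)) * z⁻¹ = (z * a * z⁻¹)⁻¹ * ((z * z) * a * (z⁻¹ * z⁻¹)) := by
        group
      rw [h2, D.zz, show z⁻¹ * z⁻¹ = 1 by rw [hzi, D.zz], one_mul, mul_one, mul_inv_rev a⁻¹, inv_inv]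
    have h2 := hEt _ h1
    rw [h1.2] at h2
    have h3 := odd_sq D h1.1 h2
    exact (inv_mul_eq_one.mp h3).symm

/-- `a * a^s` is fixed by `s` -/
theorem conj_s_mul (D : Data S A s s' z) {a : S} (ha : a ∈ A) :
    s * (a * (s * a * s⁻¹)) * s⁻¹ = a * (s * a * s⁻¹) := by
  have hsi := inv_of_sq D.ss
  have h1 : s * (a * (s * a * s⁻¹)) * s⁻¹ = (s * a * s⁻¹) * ((s * s) * a * (s⁻¹ * s⁻¹)) := by group
  rw [h1, D.ss, hsi, D.ss, one_mul, mul_one]
  exact (D.comm _ ha _ (by have := D.norm s a ha; rwa [hsi] at this)).symm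

theorem exists_fix (D : Data S A s s' z) : ∃ a ∈ A, a ≠ 1 ∧ s * a * s⁻¹ = a := by
  by_contra hcon
  push Not at hcon
  have h1 : ∀ a ∈ A, s * a * s⁻¹ = a⁻¹ := by
    intro a ha
    by_contra hne
    refine hcon (a * (s * a * s⁻¹)) (A.mul_mem ha (D.norm s a ha)) ?_ (conj_s_mul D ha)
    intro h
    exact hne (eq_inv_of_mul_eq_one_right h)
  apply D.szne
  have hx : (s * z) * (s * z) = 1 := by
    calc (s * z) * (s * z) = s * (z * s) * z := by group
      _ = (s * s) * (z * z) := by rw [← D.sz]; group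
      _ = 1 := by rw [D.ss, D.zz, one_mul]
  have h2 := not_cent D hx (by
    intro a ha
    have : s * z * a * (s * z)⁻¹ = s * (z * a * z⁻¹) * s⁻¹ := by group
    rw [this, z_inv D a ha, h1 _ (A.inv_mem ha), inv_inv])
  calc s = s * z * z⁻¹ := by group
    _ = z := by rw [h2, one_mul, inv_of_sq D.zz]

theorem rel_conj (D : Data S A s s' z) (a : S) :
    s' * (s * a * s⁻¹) * s'⁻¹ = (s * z) * (s' * a * s'⁻¹) * (s * z)⁻¹ := by
  have h2 : s' * s = s * z * s' := by
    calc s' * s = (s' * s * s') * s' := by rw [mul_assoc (s' * s), D.ss', mul_one]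
      _ = s * z * s' := by rw [D.rel]
  calc s' * (s * a * s⁻¹) * s'⁻¹ = (s' * s) * a * (s' * s)⁻¹ := by group
    _ = (s * z * s') * a * (s * z * s')⁻¹ := by rw [h2]
    _ = _ := by group

/-- `a ∈ C(s)` then `b = a^{s'}` is inverted by `s`. -/
theorem conj_s_b (D : Data S A s s' z) {a : S} (ha : a ∈ A) (has : s * a * s⁻¹ = a) :
    s * (s' * a * s'⁻¹) * s⁻¹ = (s' * a * s'⁻¹)⁻¹ := by
  have h1 := rel_conj D a
  rw [has] at h1
  have h2 : (s * z) * (s' * a * s'⁻¹) * (s * z)⁻¹ = s * (z * (s' * a * s'⁻¹) * z⁻¹) * s⁻¹ := by group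
  rw [h2, z_inv D _ (D.norm s' a ha)] at h1
  have h3 : s * (s' * a * s'⁻¹)⁻¹ * s⁻¹ = (s * (s' * a * s'⁻¹) * s⁻¹)⁻¹ := by group
  rw [h3] at h1
  exact (inv_eq_iff_eq_inv.mpr h1).symm

theorem fix_trichotomy (D : Data S A s s' z) {a : S} (ha : a ∈ A) (ha1 : a ≠ 1)
    (has : s * a * s⁻¹ = a) :
    ∀ x ∈ A, ∃ i j : ℕ, i < 3 ∧ j < 3 ∧ x = a ^ i * (s' * a * s'⁻¹) ^ j := by
  set b := s' * a * s'⁻¹ with hb
  have hbA : b ∈ A := D.norm s' a ha
  have hsb := conj_s_b D ha has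
  rw [← hb] at hsb
  have hb1 : b ≠ 1 := by
    intro h
    rw [hb, mul_inv_eq_one] at h
    exact ha1 (mul_eq_left.mp h)
  have ha3 := D.exp a ha
  have hb3 := D.exp b hbA
  -- count
  classical
  let f : Fin 3 × Fin 3 → A := fun q => ⟨a ^ (q.1 : ℕ) * b ^ (q.2 : ℕ),
    A.mul_mem (A.pow_mem ha _) (A.pow_mem hbA _)⟩
  have key : ∀ i j : ℕ, ∀ i' j' : ℕ, a ^ i * b ^ j = a ^ i' * b ^ j' →
      b ^ (2 * j) = b ^ (2 * j') := by
    intro i j i' j' h
    have hc : ∀ n : ℕ, s * (a ^ n) * s⁻¹ = a ^ n := fun n => by rw [← conj_pow, has]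
    have hcb : ∀ n : ℕ, s * (b ^ n) * s⁻¹ = (b ^ n)⁻¹ := fun n => by rw [← conj_pow, hsb, inv_pow]
    have h1 : s * (a ^ i * b ^ j) * s⁻¹ = s * (a ^ i' * b ^ j') * s⁻¹ := by rw [h]
    have h2 : ∀ n m : ℕ, s * (a ^ n * b ^ m) * s⁻¹ = a ^ n * (b ^ m)⁻¹ := by
      intro n m
      have : s * (a ^ n * b ^ m) * s⁻¹ = (s * (a ^ n) * s⁻¹) * (s * (b ^ m) * s⁻¹) := by group
      rw [this, hc, hcb]
    rw [h2, h2] at h1
    have h3 : (a ^ i * (b ^ j)⁻¹)⁻¹ * (a ^ i * b ^ j) = (a ^ i' * (b ^ j')⁻¹)⁻¹ * (a ^ i' * b ^ j') := by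
      rw [h, h1]
    have h4 : ∀ n m : ℕ, (a ^ n * (b ^ m)⁻¹)⁻¹ * (a ^ n * b ^ m) = b ^ (2 * m) := by
      intro n m
      rw [two_mul, pow_add]; group
    rwa [h4, h4] at h3
  have hlt : ∀ {c : S} {n m : ℕ}, c ≠ 1 → c ^ 3 = 1 → n < 3 → m < 3 → c ^ n = c ^ m → n = m := by
    intro c n m hc hc3 hn hm h
    have h3 : orderOf c = 3 := by
      rcases (Nat.dvd_prime Nat.prime_three).1 (orderOf_dvd_of_pow_eq_one hc3) with h4 | h4
      · exact absurd (orderOf_eq_one_iff.1 h4) hc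
      · exact h4
    rw [pow_inj_mod, h3, Nat.mod_eq_of_lt hn, Nat.mod_eq_of_lt hm] at h
    exact h
  have hinj : Function.Injective f := by
    rintro ⟨i, j⟩ ⟨i', j'⟩ h
    have h0 : a ^ (i : ℕ) * b ^ (j : ℕ) = a ^ (i' : ℕ) * b ^ (j' : ℕ) := congrArg Subtype.val h
    have h1 := key _ _ _ _ h0
    have h2 : b ^ (j : ℕ) = b ^ (j' : ℕ) := by
      have e : ∀ n : ℕ, b ^ n = (b ^ (2 * n)) ^ 2 := by
        intro n
        rw [← pow_mul, show 2 * n * 2 = n + 3 * n by ring, pow_add, pow_mul, hb3, one_pow, mul_one]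
      rw [e j, e j', h1]
    have h3 : a ^ (i : ℕ) = a ^ (i' : ℕ) := by
      rw [h2] at h0
      exact mul_right_cancel h0
    have h4 := hlt hb1 hb3 j.2 j'.2 h2
    have h5 := hlt ha1 ha3 i.2 i'.2 h3
    exact Prod.ext (Fin.ext h5) (Fin.ext h4)
  let _ := Fintype.ofFinite A
  have hbij := (Fintype.bijective_iff_injective_and_card f).2 ⟨hinj, by
    rw [← Nat.card_eq_fintype_card (α := A), D.card]; rfl⟩
  intro x hx
  obtain ⟨⟨i, j⟩, h⟩ := hbij.2 ⟨x, hx⟩
  exact ⟨i, j, i.2, j.2, (congrArg Subtype.val h).symm⟩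

variable (ρ : Representation (ZMod 2) S M)

theorem rho_mul (g h : S) (m : M) : ρ (g * h) m = ρ g (ρ h m) := by
  rw [map_mul]; rfl

theorem rho_one (m : M) : ρ 1 m = m := by rw [map_one]; rfl

/-- the stabilizer of a submodule -/
def stab (T : Submodule (ZMod 2) M) : Subgroup S where
  carrier := {g | (∀ m ∈ T, ρ g m ∈ T) ∧ ∀ m ∈ T, ρ g⁻¹ m ∈ T}
  mul_mem' := by
    rintro g h ⟨hg, hg'⟩ ⟨hh, hh'⟩
    refine ⟨fun m hm => ?_, fun m hm => ?_⟩
    · rw [rho_mul]; exact hg _ (hh _ hm)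
    · rw [mul_inv_rev, rho_mul]; exact hh' _ (hg' _ hm)
  one_mem' := ⟨fun m hm => by rwa [rho_one], fun m hm => by rwa [inv_one, rho_one]⟩
  inv_mem' := by
    rintro g ⟨hg, hg'⟩
    exact ⟨hg', fun m hm => by rw [inv_inv]; exact hg m hm⟩

/-- The four subgroups of order 3: one of them has a nonzero fixed vector. -/
theorem exists_fixed_vector (D : Data S A s s' z) {a : S} (ha : a ∈ A)
    (has : s * a * s⁻¹ = a) (ha1 : a ≠ 1) [Nontrivial M] :
    (∃ m : M, m ≠ 0 ∧ ∀ x ∈ A, s * x * s⁻¹ = x → ρ x m = m) ∨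
      (∃ m : M, m ≠ 0 ∧ ∀ x ∈ A, s' * x * s'⁻¹ = x → ρ x m = m) := by
  obtain ⟨m, hm⟩ := exists_ne (0 : M)
  set b := s' * a * s'⁻¹ with hb
  have hbA : b ∈ A := D.norm s' a ha
  have hsb := conj_s_b D ha has
  rw [← hb] at hsb
  have ha3 := D.exp a ha
  have hb3 := D.exp b hbA
  have hab : a * b = b * a := D.comm a ha b hbA
  have htri := fix_trichotomy D ha ha1 has
  rw [← hb] at htri
  have hss : s'⁻¹ = s' := inv_of_sq D.ss'
  have hsi : s⁻¹ = s := inv_of_sq D.ss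
  have hs'b : s' * b * s'⁻¹ = a := by
    rw [hb]
    have : s' * (s' * a * s'⁻¹) * s'⁻¹ = (s' * s') * a * (s'⁻¹ * s'⁻¹) := by group
    rw [this, D.ss', hss, D.ss', one_mul, mul_one]
  have hb1 : b ≠ 1 := by
    intro h
    rw [hb, mul_inv_eq_one] at h
    exact ha1 (mul_eq_left.mp h)
  have horder : ∀ c : S, c ≠ 1 → c ^ 3 = 1 → orderOf c = 3 := by
    intro c hc hc3
    rcases (Nat.dvd_prime Nat.prime_three).1 (orderOf_dvd_of_pow_eq_one hc3) with h4 | h4
    · exact absurd (orderOf_eq_one_iff.1 h4) hc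
    · exact h4
  -- fixed elements of `s`
  have hfs : ∀ x ∈ A, s * x * s⁻¹ = x → ∃ i : ℕ, x = a ^ i := by
    intro x hx hsx
    obtain ⟨i, j, hi, hj, rfl⟩ := htri x hx
    have h1 : s * (a ^ i * b ^ j) * s⁻¹ = a ^ i * (b ^ j)⁻¹ := by
      have : s * (a ^ i * b ^ j) * s⁻¹ = (s * a ^ i * s⁻¹) * (s * b ^ j * s⁻¹) := by group
      rw [this, ← conj_pow, ← conj_pow, has, hsb, inv_pow]
    rw [h1] at hsx
    have h2 := mul_left_cancel hsx
    have h3 := odd_sq D (A.pow_mem hbA j) h2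
    exact ⟨i, by rw [h3, mul_one]⟩
  have hfs' : ∀ x ∈ A, s' * x * s'⁻¹ = x → ∃ i : ℕ, x = (a * b) ^ i := by
    intro x hx hsx
    obtain ⟨i, j, hi, hj, rfl⟩ := htri x hx
    have h1 : s' * (a ^ i * b ^ j) * s'⁻¹ = b ^ i * a ^ j := by
      have : s' * (a ^ i * b ^ j) * s'⁻¹ = (s' * a ^ i * s'⁻¹) * (s' * b ^ j * s'⁻¹) := by group
      rw [this, ← conj_pow, ← conj_pow, ← hb, hs'b]
    rw [h1] at hsx
    -- apply `s`
    have h2 : s * (b ^ i * a ^ j) * s⁻¹ = s * (a ^ i * b ^ j) * s⁻¹ := by rw [hsx]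
    have h3 : s * (b ^ i * a ^ j) * s⁻¹ = (b ^ i)⁻¹ * a ^ j := by
      have : s * (b ^ i * a ^ j) * s⁻¹ = (s * b ^ i * s⁻¹) * (s * a ^ j * s⁻¹) := by group
      rw [this, ← conj_pow, ← conj_pow, has, hsb, inv_pow]
    have h4 : s * (a ^ i * b ^ j) * s⁻¹ = a ^ i * (b ^ j)⁻¹ := by
      have : s * (a ^ i * b ^ j) * s⁻¹ = (s * a ^ i * s⁻¹) * (s * b ^ j * s⁻¹) := by group
      rw [this, ← conj_pow, ← conj_pow, has, hsb, inv_pow]
    rw [h3, h4] at h2
    have cAB : ∀ n m : ℕ, a ^ n * b ^ m = b ^ m * a ^ n := fun n m =>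
      D.comm _ (A.pow_mem ha n) _ (A.pow_mem hbA m)
    -- b^i a^j = a^i b^j and b^{-i} a^j = a^i b^{-j}; so b^{2i} = b^{2j}
    have h5 : b ^ i * b ^ i = b ^ j * b ^ j := by
      have e1 : (b ^ i * a ^ j) * ((b ^ i)⁻¹ * a ^ j)⁻¹ = b ^ i * b ^ i := by
        rw [mul_inv_rev, inv_inv]
        calc b ^ i * a ^ j * ((a ^ j)⁻¹ * b ^ i) = b ^ i * b ^ i := by group
          _ = _ := rfl
      have e2 : (a ^ i * b ^ j) * (a ^ i * (b ^ j)⁻¹)⁻¹ = b ^ j * b ^ j := by
        rw [mul_inv_rev, inv_inv]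
        calc a ^ i * b ^ j * (b ^ j * (a ^ i)⁻¹) = a ^ i * (b ^ j * b ^ j) * (a ^ i)⁻¹ := by group
          _ = b ^ j * b ^ j := by
            rw [← pow_add, cAB, mul_inv_cancel_right]
      rw [← e1, ← e2, hsx, h2]
    have h6 : b ^ i = b ^ j := by
      have e : ∀ n : ℕ, b ^ n = (b ^ n * b ^ n) * (b ^ n * b ^ n) := by
        intro n
        rw [← pow_add, ← pow_add, show n + n + (n + n) = n + 3 * n by ring, pow_add, pow_mul, hb3,
          one_pow, mul_one]
      rw [e i, e j, h5]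
    have h7 : i = j := by
      rw [pow_inj_mod, horder b hb1 hb3, Nat.mod_eq_of_lt hi, Nat.mod_eq_of_lt hj] at h6
      exact h6
    refine ⟨i, ?_⟩
    rw [← h7, (show Commute a b from hab).mul_pow]
  have hpow : ∀ (c : S) (v : M), ρ c v = v → ∀ n : ℕ, ρ (c ^ n) v = v := by
    intro c v hc n
    induction n with
    | zero => rw [pow_zero, rho_one]
    | succ n ih => rw [pow_succ, rho_mul, hc, ih]
  -- fixed vectors of the four cyclic subgroups
  have hN : ∀ (c : S), c ^ 3 = 1 → ρ c (m + ρ c m + ρ (c * c) m) = m + ρ c m + ρ (c * c) m := by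
    intro c hc
    rw [map_add, map_add, ← rho_mul, ← rho_mul]
    have : c * (c * c) = 1 := by rw [← hc, pow_three]
    rw [this, rho_one]
    abel
  by_contra hcon
  push Not at hcon
  obtain ⟨hc1, hc2⟩ := hcon
  have k1 : ∀ v : M, ρ a v = v → v = 0 := by
    intro v hv
    by_contra hv0
    obtain ⟨x, hx, hsx, hne⟩ := hc1 v hv0
    obtain ⟨i, rfl⟩ := hfs x hx hsx
    exact hne (hpow a v hv i)
  have k2 : ∀ v : M, ρ b v = v → v = 0 := by
    intro v hv
    have h1 : ρ a (ρ s' v) = ρ s' v := by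
      have e : a * s' = s' * b := by
        calc a * s' = (s' * b * s'⁻¹) * s' := by rw [hs'b]
          _ = s' * b := by group
      rw [← rho_mul, e, rho_mul, hv]
    have h2 := k1 _ h1
    have h3 : ρ s' (ρ s' v) = v := by rw [← rho_mul, D.ss', rho_one]
    rw [← h3, h2, map_zero]
  have k3 : ∀ v : M, ρ (a * b) v = v → v = 0 := by
    intro v hv
    by_contra hv0
    obtain ⟨x, hx, hsx, hne⟩ := hc2 v hv0
    obtain ⟨i, rfl⟩ := hfs' x hx hsx
    exact hne (hpow (a * b) v hv i)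
  have k4 : ∀ v : M, ρ (a * (b * b)) v = v → v = 0 := by
    intro v hv
    have e0 : s * (a * (b * b)) * s⁻¹ = a * b := by
      have : s * (a * (b * b)) * s⁻¹ = (s * a * s⁻¹) * ((s * b * s⁻¹) * (s * b * s⁻¹)) := by group
      rw [this, has, hsb]
      congr 1
      rw [← mul_inv_rev, inv_eq_iff_mul_eq_one, ← hb3, pow_three']
    have h1 : ρ (a * b) (ρ s v) = ρ s v := by
      have e : (a * b) * s = s * (a * (b * b)) := by
        calc (a * b) * s = (s * (a * (b * b)) * s⁻¹) * s := by rw [e0]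
          _ = _ := by group
      rw [← rho_mul, e, rho_mul, hv]
    have h2 := k3 _ h1
    have h3 : ρ s (ρ s v) = v := by rw [← rho_mul, D.ss, rho_one]
    rw [← h3, h2, map_zero]
  have hb2 : b * b = b ^ 2 := (pow_two b).symm
  have q1 := k1 _ (hN a ha3)
  have q2 := k2 _ (hN b hb3)
  have q3 := k3 _ (hN (a * b) (by rw [(show Commute a b from hab).mul_pow, ha3, hb3, one_mul]))
  have q4 := k4 _ (hN (a * (b * b)) (by
    rw [(show Commute a (b * b) from (show Commute a b from hab).mul_right hab).mul_pow, ha3,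
      ← pow_two, ← pow_mul, mul_comm 2 3, pow_mul, hb3, one_pow, one_mul]))
  have e3 : (a * b) * (a * b) = (a * a) * (b * b) := by
    calc (a * b) * (a * b) = a * (b * a) * b := by group
      _ = a * (a * b) * b := by rw [hab]
      _ = _ := by group
  have e4 : (a * (b * b)) * (a * (b * b)) = (a * a) * b := by
    have hb4 : b * b * (b * b) = b := by
      have : b * b * (b * b) = b ^ 3 * b := by rw [pow_three', ← mul_assoc]
      rw [this, hb3, one_mul]
    have hc : (b * b) * a = a * (b * b) := by rw [mul_assoc, ← hab, ← mul_assoc, ← hab, mul_assoc]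
    calc (a * (b * b)) * (a * (b * b)) = a * ((b * b) * a) * (b * b) := by group
      _ = a * (a * (b * b)) * (b * b) := by rw [hc]
      _ = (a * a) * (b * b * (b * b)) := by group
      _ = _ := by rw [hb4]
  rw [e3] at q3
  rw [e4] at q4
  -- the full norm
  have q5 : (m + ρ a m + ρ (a * a) m) + ρ b (m + ρ a m + ρ (a * a) m) +
      ρ (b * b) (m + ρ a m + ρ (a * a) m) = 0 := by rw [q1]; simp
  have cb : b * a = a * b := hab.symm
  have cb2 : b * (a * a) = (a * a) * b := by rw [← mul_assoc, cb, mul_assoc, cb, ← mul_assoc]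
  have c2b : (b * b) * a = a * (b * b) := by rw [mul_assoc, cb, ← mul_assoc, cb, mul_assoc]
  have c2b2 : (b * b) * (a * a) = (a * a) * (b * b) := by
    rw [← mul_assoc, c2b, mul_assoc, c2b, ← mul_assoc]
  simp only [map_add, ← rho_mul, cb, cb2, c2b, c2b2] at q5
  apply hm
  have t1 : (m + ρ a m + ρ (a * a) m) + (m + ρ b m + ρ (b * b) m) +
      (m + ρ (a * b) m + ρ (a * a * (b * b)) m) + (m + ρ (a * (b * b)) m + ρ (a * a * b) m) = 0 := by
    rw [q1, q2, q3, q4]; simp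
  have t2 : (m + ρ a m + ρ (a * a) m) + (m + ρ b m + ρ (b * b) m) +
      (m + ρ (a * b) m + ρ (a * a * (b * b)) m) + (m + ρ (a * (b * b)) m + ρ (a * a * b) m) =
      (m + ρ a m + ρ (a * a) m + (ρ b m + ρ (a * b) m + ρ (a * a * b) m) +
        (ρ (b * b) m + ρ (a * (b * b)) m + ρ (a * a * (b * b)) m)) + (m + m) + m := by abel
  rw [t2, q5, add_self, zero_add, zero_add] at t1
  exact t1

theorem structure_thm (D : Data S A s s' z) [Finite M]
    (hirr : ∀ N : Submodule (ZMod 2) M, (∀ g : S, ∀ m ∈ N, ρ g m ∈ N) → N = ⊥ ∨ N = ⊤)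
    (hC : ∀ m : M, (∀ x ∈ A, ρ x m = m) → m = 0)
    (h0 : ∃ m : M, m ≠ 0 ∧ ∀ x ∈ A, s * x * s⁻¹ = x → ρ x m = m) :
    Nat.card M = 16 ∧ Nat.card {m : M // ρ s m = m ∧ ρ z m = m} = 4 ∧
      Nat.card {m : M // ρ s' m = m ∧ ρ z m = m} = 2 := by
  obtain ⟨a, ha, ha1, has⟩ := exists_fix D
  set b := s' * a * s'⁻¹ with hb
  have hbA : b ∈ A := D.norm s' a ha
  have hsb := conj_s_b D ha has
  rw [← hb] at hsb
  have ha3 := D.exp a ha
  have hb3 := D.exp b hbA
  have hab : a * b = b * a := D.comm a ha b hbA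
  have htri := fix_trichotomy D ha ha1 has
  rw [← hb] at htri
  have hss : s'⁻¹ = s' := inv_of_sq D.ss'
  have hsi : s⁻¹ = s := inv_of_sq D.ss
  have hzi : z⁻¹ = z := inv_of_sq D.zz
  have hza := z_inv D a ha
  have hzb := z_inv D b hbA
  have hs'b : s' * b * s'⁻¹ = a := by
    rw [hb]
    have : s' * (s' * a * s'⁻¹) * s'⁻¹ = (s' * s') * a * (s'⁻¹ * s'⁻¹) := by group
    rw [this, D.ss', hss, D.ss', one_mul, mul_one]
  -- commutation rules
  have cas : a * s = s * a := (mul_inv_eq_iff_eq_mul.mp has).symm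
  have cbs : b * s = s * (b * b) := by
    have h1 : s * b = b⁻¹ * s := mul_inv_eq_iff_eq_mul.mp hsb
    have h2 : b * b = b⁻¹ := by
      rw [eq_inv_iff_mul_eq_one, ← hb3, pow_three']
    rw [h2]
    have h3 : s * b⁻¹ = b * s := by
      have : s * b⁻¹ * s⁻¹ = b := by
        have e : s * b⁻¹ * s⁻¹ = (s * b * s⁻¹)⁻¹ := by group
        rw [e, hsb, inv_inv]
      rwa [mul_inv_eq_iff_eq_mul] at this
    exact h3.symm
  have caz : a * z = z * (a * a) := by
    have h2 : a * a = a⁻¹ := by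
      rw [eq_inv_iff_mul_eq_one, ← ha3, pow_three']
    rw [h2]
    have : z * a⁻¹ * z⁻¹ = a := by
      have e : z * a⁻¹ * z⁻¹ = (z * a * z⁻¹)⁻¹ := by group
      rw [e, hza, inv_inv]
    rw [mul_inv_eq_iff_eq_mul] at this
    exact this.symm
  have cbz : b * z = z * (b * b) := by
    have h2 : b * b = b⁻¹ := by
      rw [eq_inv_iff_mul_eq_one, ← hb3, pow_three']
    rw [h2]
    have : z * b⁻¹ * z⁻¹ = b := by
      have e : z * b⁻¹ * z⁻¹ = (z * b * z⁻¹)⁻¹ := by group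
      rw [e, hzb, inv_inv]
    rw [mul_inv_eq_iff_eq_mul] at this
    exact this.symm
  have cas' : a * s' = s' * b := by
    calc a * s' = (s' * b * s'⁻¹) * s' := by rw [hs'b]
      _ = s' * b := by group
  have cbs' : b * s' = s' * a := by rw [hb]; group
  have css' : s * s' = s' * (s * z) := by
    calc s * s' = (s' * s') * (s * s') := by rw [D.ss', one_mul]
      _ = s' * (s' * s * s') := by group
      _ = _ := by rw [D.rel]
  have czs' : z * s' = s' * z := D.sz'.symm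
  have cb2a : ∀ v : M, ρ a v = v → ρ (a * a) v = v := fun v hv => by rw [rho_mul, hv, hv]
  have rr : ∀ (g h : S) (v : M), ρ g (ρ h v) = ρ (g * h) v := fun g h v => (rho_mul ρ g h v).symm
  -- `M₁`
  let M₁ : Submodule (ZMod 2) M := LinearMap.eqLocus (ρ a) LinearMap.id
  have hM₁ : ∀ v, v ∈ M₁ ↔ ρ a v = v := fun v => Iff.rfl
  have M₁s : ∀ v ∈ M₁, ρ s v ∈ M₁ := by
    intro v hv
    rw [hM₁] at hv ⊢
    rw [rr, cas, ← rr, hv]
  have M₁z : ∀ v ∈ M₁, ρ z v ∈ M₁ := by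
    intro v hv
    rw [hM₁] at hv ⊢
    rw [rr, caz, ← rr, cb2a v hv]
  have M₁b : ∀ v ∈ M₁, ρ b v ∈ M₁ := by
    intro v hv
    rw [hM₁] at hv ⊢
    rw [rr, hab, ← rr, hv]
  have hpow : ∀ (c : S) (v : M), ρ c v = v → ∀ n : ℕ, ρ (c ^ n) v = v := by
    intro c v hc n
    induction n with
    | zero => rw [pow_zero, rho_one]
    | succ n ih => rw [pow_succ, rho_mul, hc, ih]
  have hCab : ∀ v : M, ρ a v = v → ρ b v = v → v = 0 := by
    intro v hva hvb
    apply hC
    intro x hx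
    obtain ⟨i, j, -, -, rfl⟩ := htri x hx
    rw [rho_mul, hpow b v hvb, hpow a v hva]
  -- every invariant nonzero submodule of `M₁` is `M₁`
  have lemG : ∀ L : Submodule (ZMod 2) M, L ≤ M₁ → L ≠ ⊥ → (∀ v ∈ L, ρ b v ∈ L) →
      (∀ v ∈ L, ρ s v ∈ L) → (∀ v ∈ L, ρ z v ∈ L) →
      L = M₁ ∧ ∀ v : M, ∃ l ∈ L, ∃ l' ∈ L, v = l + ρ s' l' := by
    intro L hL1 hL0 hLb hLs hLz
    let T : Submodule (ZMod 2) M := L ⊔ L.map (ρ s')
    have hT : ∀ g, (∀ l ∈ L, ρ g l ∈ T) → (∀ l ∈ L, ρ g (ρ s' l) ∈ T) → ∀ v ∈ T, ρ g v ∈ T := by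
      intro g h1 h2 v hv
      obtain ⟨l, hl, w, hw, rfl⟩ := Submodule.mem_sup.1 hv
      obtain ⟨l', hl', rfl⟩ := hw
      rw [map_add]
      exact T.add_mem (h1 l hl) (h2 l' hl')
    have hLT : ∀ l ∈ L, l ∈ T := fun l hl => Submodule.mem_sup_left hl
    have hLT' : ∀ l ∈ L, ρ s' l ∈ T := fun l hl => Submodule.mem_sup_right ⟨l, hl, rfl⟩
    have hab' : ∀ l ∈ L, ρ a l = l := fun l hl => (hM₁ l).1 (hL1 hl)
    have Ta : ∀ v ∈ T, ρ a v ∈ T := hT a (fun l hl => by rw [hab' l hl]; exact hLT l hl)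
      (fun l hl => by rw [rr, cas', ← rr]; exact hLT' _ (hLb l hl))
    have Tb : ∀ v ∈ T, ρ b v ∈ T := hT b (fun l hl => hLT _ (hLb l hl))
      (fun l hl => by rw [rr, cbs', ← rr, hab' l hl]; exact hLT' _ hl)
    have Ts : ∀ v ∈ T, ρ s v ∈ T := hT s (fun l hl => hLT _ (hLs l hl))
      (fun l hl => by rw [rr, css', ← rr, ← rr]; exact hLT' _ (hLs _ (hLz l hl)))
    have Ts' : ∀ v ∈ T, ρ s' v ∈ T := hT s' (fun l hl => hLT' _ hl)
      (fun l hl => by rw [rr, D.ss', rho_one]; exact hLT _ hl)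
    have Tpow : ∀ (c : S), (∀ v ∈ T, ρ c v ∈ T) → ∀ n : ℕ, ∀ v ∈ T, ρ (c ^ n) v ∈ T := by
      intro c hc n
      induction n with
      | zero => intro v hv; rw [pow_zero, rho_one]; exact hv
      | succ n ih => intro v hv; rw [pow_succ, rho_mul]; exact ih _ (hc v hv)
    have hstab : stab ρ T = ⊤ := by
      apply D.gen
      · intro x hx
        have hxx : ∀ x ∈ A, ∀ v ∈ T, ρ x v ∈ T := by
          intro x hx v hv
          obtain ⟨i, j, -, -, rfl⟩ := htri x hx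
          rw [rho_mul]
          exact Tpow a Ta i _ (Tpow b Tb j v hv)
        exact ⟨hxx x hx, hxx x⁻¹ (A.inv_mem hx)⟩
      · exact ⟨Ts, by rw [hsi]; exact Ts⟩
      · exact ⟨Ts', by rw [hss]; exact Ts'⟩
    have hTtop : T = ⊤ := by
      refine (hirr T (fun g m hm => ?_)).resolve_left ?_
      · have : g ∈ stab ρ T := by rw [hstab]; exact mem_top g
        exact this.1 m hm
      · intro h
        apply hL0
        rw [eq_bot_iff]
        exact le_trans le_sup_left (le_of_eq h)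
    have hdec : ∀ v : M, ∃ l ∈ L, ∃ l' ∈ L, v = l + ρ s' l' := by
      intro v
      have hv : v ∈ T := by rw [hTtop]; exact Submodule.mem_top
      obtain ⟨l, hl, w, hw, h⟩ := Submodule.mem_sup.1 hv
      obtain ⟨l', hl', rfl⟩ := hw
      exact ⟨l, hl, l', hl', h.symm⟩
    refine ⟨le_antisymm hL1 fun v hv => ?_, hdec⟩
    obtain ⟨l, hl, l', hl', rfl⟩ := hdec v
    have h1 : ρ s' l' ∈ M₁ := by
      have := M₁.sub_mem hv (hL1 hl)
      rwa [add_sub_cancel_left] at this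
    have h2 : ρ b (ρ s' l') = ρ s' l' := by rw [rr, cbs', ← rr, hab' l' hl']
    have h3 := hCab _ ((hM₁ _).1 h1) h2
    rw [h3, add_zero]
    exact hl
  obtain ⟨m₁, hm₁0, hm₁⟩ := h0
  have hm₁M : m₁ ∈ M₁ := (hM₁ _).2 (hm₁ a ha has)
  -- `sz` acts trivially
  let K : Submodule (ZMod 2) M := M₁ ⊓ LinearMap.eqLocus (ρ (s * z)) LinearMap.id
  have hK : ∀ v, v ∈ K ↔ v ∈ M₁ ∧ ρ (s * z) v = v := fun v => Iff.rfl
  have hsz2 : (s * z) * (s * z) = 1 := by
    calc (s * z) * (s * z) = s * (z * s) * z := by group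
      _ = (s * s) * (z * z) := by rw [← D.sz]; group
      _ = 1 := by rw [D.ss, D.zz, one_mul]
  have exists_fixed : ∀ c : S, c * c = 1 → (∀ v ∈ M₁, ρ c v ∈ M₁) →
      ∃ v ∈ M₁, v ≠ 0 ∧ ρ c v = v := by
    intro c hc hcM
    by_cases h : m₁ + ρ c m₁ = 0
    · exact ⟨m₁, hm₁M, hm₁0, (eq_of_add _ _ h).symm⟩
    · refine ⟨m₁ + ρ c m₁, M₁.add_mem hm₁M (hcM _ hm₁M), h, ?_⟩
      rw [map_add, rr, hc, rho_one, add_comm]
  obtain ⟨k, hk, hk0, hksz⟩ := exists_fixed (s * z) hsz2 (fun v hv => by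
    rw [← rr]; exact M₁s _ (M₁z _ hv))
  have hKM := (lemG K (fun v hv => hv.1) (fun h => hk0 (by
      have : k ∈ K := ⟨hk, hksz⟩
      rw [h] at this
      exact (Submodule.mem_bot _).1 this))
    (fun v hv => ⟨M₁b v hv.1, by
      have e : (s * z) * b = b * (s * z) := by
        have e1 : z * b = (b * b) * z := by
          have h1 : z * b * z⁻¹ = b * b := by
            rw [hzb]; symm; rw [eq_inv_iff_mul_eq_one, ← hb3, pow_three']
          rwa [mul_inv_eq_iff_eq_mul] at h1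
        calc (s * z) * b = s * (z * b) := by group
          _ = (s * (b * b)) * z := by rw [e1]; group
          _ = b * (s * z) := by rw [← cbs]; group
      show ρ (s * z) (ρ b v) = ρ b v
      rw [rr, e, ← rr, hv.2]; rfl⟩)
    (fun v hv => ⟨M₁s v hv.1, by
      have e : (s * z) * s = s * (s * z) := by rw [mul_assoc, ← D.sz]
      show ρ (s * z) (ρ s v) = ρ s v
      rw [rr, e, ← rr, hv.2]; rfl⟩)
    (fun v hv => ⟨M₁z v hv.1, by
      have e : (s * z) * z = z * (s * z) := by rw [← mul_assoc z, ← D.sz]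
      show ρ (s * z) (ρ z v) = ρ z v
      rw [rr, e, ← rr, hv.2]; rfl⟩)).1
  have hszM : ∀ v ∈ M₁, ρ (s * z) v = v := by
    intro v hv
    rw [← hKM] at hv
    exact hv.2
  have hs_eq : ∀ v ∈ M₁, ρ s v = ρ z v := by
    intro v hv
    have h1 := hszM (ρ z v) (M₁z v hv)
    rw [rr, mul_assoc, D.zz, mul_one] at h1
    exact h1
  obtain ⟨m₀, hm₀, hm₀0, hm₀z⟩ := exists_fixed z D.zz M₁z
  have hm₀a : ρ a m₀ = m₀ := (hM₁ _).1 hm₀
  have hN : m₀ + ρ b m₀ + ρ (b * b) m₀ = 0 := by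
    apply hCab
    · have e1 : ρ a (ρ b m₀) = ρ b m₀ := by
        rw [rr, hab, rho_mul ρ b a, hm₀a]
      have e2 : ρ a (ρ (b * b) m₀) = ρ (b * b) m₀ := by
        have : a * (b * b) = (b * b) * a := by rw [← mul_assoc, hab, mul_assoc, hab, ← mul_assoc]
        rw [rr, this, rho_mul ρ (b * b) a, hm₀a]
      rw [map_add, map_add, e1, e2, hm₀a]
    · rw [map_add, map_add, rr, rr]
      have : b * (b * b) = 1 := by rw [← hb3, pow_three]
      rw [this, rho_one]
      abel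
  have hbb : ρ (b * b) m₀ = m₀ + ρ b m₀ := (eq_of_add _ _ (by rw [hN])).symm
  -- `L`
  let L : Submodule (ZMod 2) M := Submodule.span (ZMod 2) {m₀, ρ b m₀}
  have hL : ∀ v, v ∈ L ↔ ∃ c d : ZMod 2, c • m₀ + d • ρ b m₀ = v := fun v =>
    Submodule.mem_span_pair
  have hLm : ∀ g : S, ρ g m₀ ∈ L → ρ g (ρ b m₀) ∈ L → ∀ v ∈ L, ρ g v ∈ L := by
    intro g h1 h2 v hv
    obtain ⟨c, d, rfl⟩ := (hL v).1 hv
    rw [map_add, map_smul, map_smul]
    exact L.add_mem (L.smul_mem _ h1) (L.smul_mem _ h2)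
  have hm₀L : m₀ ∈ L := Submodule.subset_span (by simp)
  have hbm₀L : ρ b m₀ ∈ L := Submodule.subset_span (by simp)
  have hzbm : ρ z (ρ b m₀) = m₀ + ρ b m₀ := by
    have e1 : z * b = (b * b) * z := by
      have h1 : z * b * z⁻¹ = b * b := by
        rw [hzb]; symm; rw [eq_inv_iff_mul_eq_one, ← hb3, pow_three']
      rwa [mul_inv_eq_iff_eq_mul] at h1
    rw [rr, e1, ← rr, hm₀z, hbb]
  have hLz : ∀ v ∈ L, ρ z v ∈ L := hLm z (by rw [hm₀z]; exact hm₀L)
    (by rw [hzbm]; exact L.add_mem hm₀L hbm₀L)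
  have hLM : L ≤ M₁ := by
    intro v hv
    obtain ⟨c, d, rfl⟩ := (hL v).1 hv
    exact M₁.add_mem (M₁.smul_mem _ hm₀) (M₁.smul_mem _ (M₁b _ hm₀))
  obtain ⟨hL1, hdec⟩ := lemG L hLM (fun h => hm₀0 (by
      rw [h] at hm₀L; exact (Submodule.mem_bot _).1 hm₀L))
    (hLm b hbm₀L (by rw [rr, hbb]; exact L.add_mem hm₀L hbm₀L))
    (fun v hv => by rw [hs_eq v (hLM hv)]; exact hLz v hv) hLz
  -- `L` has 4 elements
  have hbm0 : ρ b m₀ ≠ m₀ := fun h => hm₀0 (hCab _ hm₀a h)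
  have hbmne : ρ b m₀ ≠ 0 := by
    intro h
    apply hm₀0
    have h1 : ρ (b * b) (ρ b m₀) = m₀ := by
      rw [rr, ← pow_three', hb3, rho_one]
    rw [← h1, h, map_zero]
  have hfour : ∀ v, v ∈ L ↔ (v = 0 ∨ v = m₀ ∨ v = ρ b m₀ ∨ v = m₀ + ρ b m₀) := by
    intro v
    rw [hL]
    constructor
    · rintro ⟨c, d, rfl⟩
      have hc : c = 0 ∨ c = 1 := by revert c; decide
      have hd : d = 0 ∨ d = 1 := by revert d; decide
      rcases hc with h | h <;> rcases hd with h' | h' <;> rw [h, h']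
      · left; simp
      · right; right; left; simp
      · right; left; simp
      · right; right; right; simp
    · rintro (h | h | h | h) <;> rw [h]
      · exact ⟨0, 0, by simp⟩
      · exact ⟨1, 0, by simp⟩
      · exact ⟨0, 1, by simp⟩
      · exact ⟨1, 1, by simp⟩
  have hcardL : Nat.card L = 4 := by
    have h1 : (L : Set M) = {0, m₀, ρ b m₀, m₀ + ρ b m₀} := by
      ext v
      exact hfour v
    have h2 : Nat.card L = (L : Set M).ncard := rfl
    rw [h2, h1]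
    rw [Set.ncard_insert_of_notMem, Set.ncard_insert_of_notMem, Set.ncard_pair]
    · intro h
      exact hm₀0 (right_eq_add.mp h)
    · simp only [Set.mem_insert_iff, Set.mem_singleton_iff, not_or]
      refine ⟨fun h => hbm0 h.symm, fun h => ?_⟩
      exact hbmne (left_eq_add.mp h)
    · simp only [Set.mem_insert_iff, Set.mem_singleton_iff, not_or]
      refine ⟨fun h => hm₀0 h.symm, fun h => hbmne h.symm, fun h => ?_⟩
      exact hbm0 (eq_of_add _ _ h.symm).symm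
  -- unique decomposition
  have huniq : ∀ u ∈ L, ∀ v ∈ L, u + ρ s' v = 0 → u = 0 ∧ v = 0 := by
    intro u hu v hv h
    have h1 : u = ρ s' v := eq_of_add _ _ h
    have h2 : ρ a u = u := (hM₁ _).1 (hLM hu)
    have h3 : ρ b u = u := by
      rw [h1, rr, cbs', ← rr, (hM₁ _).1 (hLM hv)]
    have h4 := hCab u h2 h3
    refine ⟨h4, ?_⟩
    rw [h4] at h1
    have h5 : ρ s' (ρ s' v) = v := by rw [rr, D.ss', rho_one]
    rw [← h5, ← h1, map_zero]
  have hneg : ∀ v : M, -v = v := fun v => neg_eq_of_add_eq_zero_left (add_self v)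
  have hinj : ∀ u ∈ L, ∀ v ∈ L, ∀ u' ∈ L, ∀ v' ∈ L, u + ρ s' v = u' + ρ s' v' → u = u' ∧ v = v' := by
    intro u hu v hv u' hu' v' hv' h
    have h1 := huniq (u - u') (L.sub_mem hu hu') (v - v') (L.sub_mem hv hv') (by
      rw [map_sub]
      have : u - u' + (ρ s' v - ρ s' v') = (u + ρ s' v) - (u' + ρ s' v') := by abel
      rw [this, h, sub_self])
    exact ⟨sub_eq_zero.1 h1.1, sub_eq_zero.1 h1.2⟩
  have hzfix : ∀ v ∈ L, ρ z v = v ↔ (v = 0 ∨ v = m₀) := by
    intro v hv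
    constructor
    · intro h
      rcases (hfour v).1 hv with h1 | h1 | h1 | h1
      · exact Or.inl h1
      · exact Or.inr h1
      · exfalso
        rw [h1, hzbm] at h
        exact hm₀0 (add_eq_right.mp h)
      · exfalso
        rw [h1, map_add, hm₀z, hzbm, ← add_assoc, add_self, zero_add] at h
        exact hm₀0 (right_eq_add.mp h)
    · rintro (h | h) <;> rw [h]
      · exact map_zero _
      · exact hm₀z
  have hzs' : ∀ v, ρ z (ρ s' v) = ρ s' (ρ z v) := fun v => by rw [rr, czs', ← rr]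
  refine ⟨?_, ?_, ?_⟩
  · have e : L × L ≃ M := Equiv.ofBijective (fun q => (q.1 : M) + ρ s' q.2) ⟨by
      rintro ⟨u, v⟩ ⟨u', v'⟩ h
      have := hinj u u.2 v v.2 u' u'.2 v' v'.2 h
      exact Prod.ext (Subtype.ext this.1) (Subtype.ext this.2), by
      intro v
      obtain ⟨l, hl, l', hl', h⟩ := hdec v
      exact ⟨(⟨l, hl⟩, ⟨l', hl'⟩), h.symm⟩⟩
    rw [← Nat.card_congr e, Nat.card_prod, hcardL]
  · have h1 : {m : M | ρ s m = m ∧ ρ z m = m} = {0, m₀, ρ s' m₀, m₀ + ρ s' m₀} := by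
      ext v
      constructor
      · rintro ⟨-, hz⟩
        obtain ⟨l, hl, l', hl', rfl⟩ := hdec v
        rw [map_add, hzs'] at hz
        obtain ⟨h2, h3⟩ := hinj _ (hLz l hl) _ (hLz l' hl') _ hl _ hl' hz
        rcases (hzfix l hl).1 h2 with h4 | h4 <;> rcases (hzfix l' hl').1 h3 with h5 | h5 <;>
          rw [h4, h5]
        · left; simp
        · right; right; left; simp
        · right; left; simp
        · right; right; right; rfl
      · have hs'm : ρ s (ρ s' m₀) = ρ s' m₀ := by rw [rr, css', ← rr, hszM m₀ hm₀]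
        have hsm : ρ s m₀ = m₀ := by rw [hs_eq m₀ hm₀, hm₀z]
        have hz'm : ρ z (ρ s' m₀) = ρ s' m₀ := by rw [hzs', hm₀z]
        rintro (h | h | h | h) <;> rw [h]
        · exact ⟨map_zero _, map_zero _⟩
        · exact ⟨hsm, hm₀z⟩
        · exact ⟨hs'm, hz'm⟩
        · exact ⟨by rw [map_add, hsm, hs'm], by rw [map_add, hm₀z, hz'm]⟩
    have h2 : Nat.card {m : M // ρ s m = m ∧ ρ z m = m} = {m : M | ρ s m = m ∧ ρ z m = m}.ncard := rfl
    have hs'0 : ρ s' m₀ ≠ 0 := by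
      intro h
      apply hm₀0
      have h5 : ρ s' (ρ s' m₀) = m₀ := by rw [rr, D.ss', rho_one]
      rw [← h5, h, map_zero]
    have hne : m₀ ≠ ρ s' m₀ := by
      intro h
      exact hm₀0 (huniq m₀ hm₀L m₀ hm₀L (by nth_rewrite 1 [h]; exact add_self _)).1
    rw [h2, h1]
    rw [Set.ncard_insert_of_notMem, Set.ncard_insert_of_notMem, Set.ncard_pair]
    · intro h
      exact hm₀0 (right_eq_add.mp h)
    · simp only [Set.mem_insert_iff, Set.mem_singleton_iff, not_or]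
      exact ⟨hne, fun h => hs'0 (left_eq_add.mp h)⟩
    · simp only [Set.mem_insert_iff, Set.mem_singleton_iff, not_or]
      exact ⟨fun h => hm₀0 h.symm, fun h => hs'0 h.symm, fun h => hne (eq_of_add _ _ h.symm)⟩
  · have h1 : {m : M | ρ s' m = m ∧ ρ z m = m} = {0, m₀ + ρ s' m₀} := by
      ext v
      constructor
      · rintro ⟨hs, hz⟩
        obtain ⟨l, hl, l', hl', rfl⟩ := hdec v
        rw [map_add, hzs'] at hz
        obtain ⟨h2, h3⟩ := hinj _ (hLz l hl) _ (hLz l' hl') _ hl _ hl' hz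
        rw [map_add, rr, D.ss', rho_one, add_comm] at hs
        obtain ⟨h4, -⟩ := hinj _ hl' _ hl _ hl _ hl' hs
        rw [h4]
        rcases (hzfix l hl).1 h2 with h5 | h5 <;> rw [h5]
        · left; simp
        · right; rfl
      · have hz'm : ρ z (ρ s' m₀) = ρ s' m₀ := by rw [hzs', hm₀z]
        rintro (h | h) <;> rw [h]
        · exact ⟨map_zero _, map_zero _⟩
        · exact ⟨by rw [map_add, rr, D.ss', rho_one, add_comm], by rw [map_add, hm₀z, hz'm]⟩
    have h2 : Nat.card {m : M // ρ s' m = m ∧ ρ z m = m} = {m : M | ρ s' m = m ∧ ρ z m = m}.ncard := rfl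
    rw [h2, h1, Set.ncard_pair]
    intro h
    exact hm₀0 (huniq m₀ hm₀L m₀ hm₀L h.symm).1

end H76.D8Mod
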