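import Mathlib
import Cfsg.Agent.Lib.H76.D8Mod

/-! `3^2 : D_8` acting on an `𝔽_2`-module: the final count. -/

set_option autoImplicit false
set_option linter.unusedSectionVars false
open Cfsg

namespace H76.D8Mod

open Subgroup

variable {S : Type*} [Group S] [Finite S] {M : Type*} [AddCommGroup M] [Module (ZMod 2) M]

/-- the four-group generated by two commuting involutions -/
def four (x z : S) (hx : x * x = 1) (hz : z * z = 1) (hxz : x * z = z * x) : Subgroup S where
  carrier := {a | a = 1 ∨ a = z ∨ a = x ∨ a = x * z}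
  one_mem' := Or.inl rfl
  mul_mem' := by
    have e1 : z * (x * z) = x := by rw [hxz, ← mul_assoc, hz, one_mul]
    have e2 : x * (x * z) = z := by rw [← mul_assoc, hx, one_mul]
    have e3 : x * z * z = x := by rw [mul_assoc, hz, mul_one]
    have e4 : x * z * x = z := by rw [mul_assoc, ← hxz, e2]
    have e5 : x * z * (x * z) = 1 := by rw [← mul_assoc, e4, hz]
    rintro a b (rfl | rfl | rfl | rfl) (rfl | rfl | rfl | rfl) <;>
      simp [hx, hz, e1, e2, e3, e4, e5, ← hxz]
  inv_mem' := by
    have e5 : (x * z)⁻¹ = x * z := by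
      rw [inv_eq_iff_mul_eq_one]
      calc x * z * (x * z) = x * (z * x) * z := by group
        _ = (x * x) * (z * z) := by rw [← hxz]; group
        _ = 1 := by rw [hz, mul_one, hx]
    rintro a (rfl | rfl | rfl | rfl)
    · simp
    · rw [inv_of_sq hz]; simp
    · rw [inv_of_sq hx]; simp
    · rw [e5]; simp

theorem mem_four {x z : S} {hx : x * x = 1} {hz : z * z = 1} {hxz : x * z = z * x} {a : S} :
    a ∈ four x z hx hz hxz ↔ a = 1 ∨ a = z ∨ a = x ∨ a = x * z := Iff.rfl

theorem card_four {x z : S} {hx : x * x = 1} {hz : z * z = 1} {hxz : x * z = z * x}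
    (h1 : x ≠ 1) (h2 : z ≠ 1) (h3 : x ≠ z) : Nat.card (four x z hx hz hxz) = 4 := by
  have h : Nat.card (four x z hx hz hxz) = ({1, z, x, x * z} : Set S).ncard := by
    have h' : ((four x z hx hz hxz : Subgroup S) : Set S) = ({1, z, x, x * z} : Set S) := by
      ext a
      exact mem_four
    rw [← h']
    rfl
  rw [h, Set.ncard_insert_of_notMem, Set.ncard_insert_of_notMem, Set.ncard_pair]
  · intro h4
    exact h2 (left_eq_mul.mp h4)
  · simp only [Set.mem_insert_iff, Set.mem_singleton_iff, not_or]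
    exact ⟨fun h => h3 h.symm, fun h => h1 (right_eq_mul.mp h)⟩
  · simp only [Set.mem_insert_iff, Set.mem_singleton_iff, not_or]
    refine ⟨fun h => h2 h.symm, fun h => h1 h.symm, fun h => h3 ?_⟩
    rw [eq_comm, mul_eq_one_iff_eq_inv] at h
    rw [h, inv_of_sq hz]

theorem fix_four (ρ : Representation (ZMod 2) S M) {x z : S} {hx : x * x = 1} {hz : z * z = 1}
    {hxz : x * z = z * x} (m : M) :
    (∀ b ∈ four x z hx hz hxz, ρ b m = m) ↔ (ρ x m = m ∧ ρ z m = m) := by
  constructor
  · intro h
    exact ⟨h x (mem_four.2 (by simp)), h z (mem_four.2 (by simp))⟩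
  · rintro ⟨h1, h2⟩ b hb
    rcases mem_four.1 hb with rfl | rfl | rfl | rfl
    · exact rho_one ρ m
    · exact h2
    · exact h1
    · rw [rho_mul, h2, h1]

variable {A : Subgroup S} {s s' z : S}

/-- the final count, given the list of the four-subgroups of `X` -/
theorem final (D : Data S A s s' z) [Finite M] [Nontrivial M]
    (ρ : Representation (ZMod 2) S M)
    (hirr : ∀ N : Submodule (ZMod 2) M, (∀ g : S, ∀ m ∈ N, ρ g m ∈ N) → N = ⊥ ∨ N = ⊤)
    (hC : ∀ m : M, (∀ x ∈ A, ρ x m = m) → m = 0) (X : Subgroup S) (hs : s ∈ X) (hs' : s' ∈ X)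
    (hz : z ∈ X)
    (hX : ∀ B : Subgroup S, B ≤ X → Nat.card B = 4 → (∀ b ∈ B, b ^ 2 = 1) →
      B = four s z D.ss D.zz D.sz ∨ B = four s' z D.ss' D.zz D.sz') :
    Nat.card M = 16 ∧ ∃! B : Subgroup S, B ≤ X ∧ Nat.card ↥B = 4 ∧ (∀ b ∈ B, b ^ 2 = 1) ∧
        Nat.card {m : M // ∀ b ∈ B, ρ b m = m} = 2 := by
  have key : ∀ (s s' : S) (D : Data S A s s' z), s ∈ X → s' ∈ X →
      (∀ B : Subgroup S, B ≤ X → Nat.card B = 4 → (∀ b ∈ B, b ^ 2 = 1) →
      B = four s z D.ss D.zz D.sz ∨ B = four s' z D.ss' D.zz D.sz') →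
      (∃ m : M, m ≠ 0 ∧ ∀ x ∈ A, s * x * s⁻¹ = x → ρ x m = m) →
      Nat.card M = 16 ∧ ∃! B : Subgroup S, B ≤ X ∧ Nat.card ↥B = 4 ∧ (∀ b ∈ B, b ^ 2 = 1) ∧
        Nat.card {m : M // ∀ b ∈ B, ρ b m = m} = 2 := by
    intro s s' D hs hs' hX h0
    obtain ⟨h1, h2, h3⟩ := structure_thm ρ D hirr hC h0
    refine ⟨h1, four s' z D.ss' D.zz D.sz', ⟨?_, card_four D.sne' D.zne D.szne', ?_, ?_⟩, ?_⟩
    · intro b hb
      rcases mem_four.1 hb with rfl | rfl | rfl | rfl
      · exact X.one_mem
      · exact hz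
      · exact hs'
      · exact X.mul_mem hs' hz
    · intro b hb
      rw [pow_two]
      rcases mem_four.1 hb with rfl | rfl | rfl | rfl
      · exact mul_one _
      · exact D.zz
      · exact D.ss'
      · calc s' * z * (s' * z) = s' * (z * s') * z := by group
          _ = (s' * s') * (z * z) := by rw [← D.sz']; group
          _ = 1 := by rw [D.ss', D.zz, one_mul]
    · exact (Nat.card_congr (Equiv.subtypeEquivRight (fun m => fix_four ρ m))).trans h3
    · rintro B ⟨b1, b2, b3, b4⟩
      rcases hX B b1 b2 b3 with h | h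
      · exfalso
        rw [h] at b4
        rw [Nat.card_congr (Equiv.subtypeEquivRight (fun m => fix_four ρ m)), h2] at b4
        omega
      · exact h
  obtain ⟨a, ha, ha1, has⟩ := exists_fix D
  rcases exists_fixed_vector ρ D ha has ha1 with h0 | h0
  · exact key s s' D hs hs' hX h0
  · exact key s' s D.symm hs' hs (fun B h1 h2 h3 => (hX B h1 h2 h3).symm) h0

/-- setting up the data -/
theorem main (A : Subgroup S) [A.Normal] (hA : Cfsg.IsElementaryAbelian 3 A)
    (hA9 : Nat.card ↥A = 9) (hAC : Subgroup.centralizer (A : Set S) = A) (X : Subgroup S)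
    (hX : Nonempty (↥X ≃* DihedralGroup 4)) (hAX : A ⊔ X = ⊤) [Finite M]
    (ρ : Representation (ZMod 2) S M) (hfaith : Function.Injective ρ)
    (hirr : ∀ N : Submodule (ZMod 2) M, (∀ s : S, ∀ m ∈ N, ρ s m ∈ N) → N = ⊥ ∨ N = ⊤)
    (hM : Nontrivial M) :
    Nat.card M = 16 ∧
      ∃! B : Subgroup S, B ≤ X ∧ Nat.card ↥B = 4 ∧ (∀ b ∈ B, b ^ 2 = 1) ∧
        Nat.card {m : M // ∀ b ∈ B, ρ b m = m} = 2 := by
  obtain ⟨φ⟩ := hX
  let f : DihedralGroup 4 →* S := X.subtype.comp φ.symm.toMonoidHom
  have hf : Function.Injective f := by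
    intro a b h
    exact φ.symm.injective (Subtype.ext h)
  have hfX : ∀ d, f d ∈ X := fun d => (φ.symm d).2
  have hfs : ∀ x ∈ X, ∃ d, f d = x := by
    intro x hx
    exact ⟨φ ⟨x, hx⟩, by show ((φ.symm (φ ⟨x, hx⟩) : X) : S) = x; rw [MulEquiv.symm_apply_apply]⟩
  set s := f (DihedralGroup.sr 0) with hs
  set s' := f (DihedralGroup.sr 1) with hs'
  set z := f (DihedralGroup.r 2) with hz
  have D : Data S A s s' z := by
    refine ⟨?_, ?_, hA9, ?_, ?_, ?_, ?_, ?_, ?_, ?_, ?_, ?_, ?_, ?_, ?_, ?_, ?_⟩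
    · intro a ha b hb
      have hcomm := hA.1
      exact congrArg Subtype.val (hcomm.is_comm.comm (⟨a, ha⟩ : A) ⟨b, hb⟩)
    · exact hA.2
    · rw [hs, ← map_mul, ← map_one f]; congr 1
    · rw [hs', ← map_mul, ← map_one f]; congr 1
    · rw [hz, ← map_mul, ← map_one f]; congr 1
    · rw [hs, hz, ← map_mul, ← map_mul]; congr 1
    · rw [hs', hz, ← map_mul, ← map_mul]; congr 1
    · rw [hs, hs', hz, ← map_mul, ← map_mul, ← map_mul]; congr 1
    · intro g a ha
      exact Subgroup.Normal.conj_mem inferInstance a ha g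
    · intro H h1 h2 h3
      rw [eq_top_iff, ← hAX]
      refine sup_le h1 fun x hx => ?_
      obtain ⟨d, rfl⟩ := hfs x hx
      have hall : ∀ d : DihedralGroup 4, ∃ n : ℕ, d = (DihedralGroup.sr 0 * DihedralGroup.sr 1) ^ n ∨
          d = DihedralGroup.sr 0 * (DihedralGroup.sr 0 * DihedralGroup.sr 1) ^ n := by
        have : ∀ d : DihedralGroup 4, ∃ n : Fin 4, d = (DihedralGroup.sr 0 * DihedralGroup.sr 1) ^ (n : ℕ) ∨
          d = DihedralGroup.sr 0 * (DihedralGroup.sr 0 * DihedralGroup.sr 1) ^ (n : ℕ) := by decide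
        intro d
        obtain ⟨n, hn⟩ := this d
        exact ⟨n, hn⟩
      obtain ⟨n, h | h⟩ := hall d
      · rw [h, map_pow, map_mul]
        exact H.pow_mem (H.mul_mem h2 h3) n
      · rw [h, map_mul, map_pow, map_mul]
        exact H.mul_mem h2 (H.pow_mem (H.mul_mem h2 h3) n)
    · intro g hg
      rw [← hAC]
      rw [Subgroup.mem_centralizer_iff]
      intro a ha
      exact (hg a ha).symm
    · rw [hs, ← map_one f]; exact fun h => absurd (hf h) (by decide)
    · rw [hz, ← map_one f]; exact fun h => absurd (hf h) (by decide)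
    · rw [hs', ← map_one f]; exact fun h => absurd (hf h) (by decide)
    · exact fun h => absurd (hf h) (by decide)
    · exact fun h => absurd (hf h) (by decide)
  refine final D ρ hirr ?_ X (hfX _) (hfX _) (hfX _) ?_
  · -- no fixed vectors
    let N : Submodule (ZMod 2) M :=
      { carrier := {m | ∀ x ∈ A, ρ x m = m}
        add_mem' := by
          intro u v hu hv x hx
          rw [map_add, hu x hx, hv x hx]
        zero_mem' := by intro x hx; exact map_zero _
        smul_mem' := by
          intro c v hv x hx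
          rw [map_smul, hv x hx] }
    have hN : ∀ g : S, ∀ m ∈ N, ρ g m ∈ N := by
      intro g m hm x hx
      have h1 : g⁻¹ * x * g ∈ A := by
        have := Subgroup.Normal.conj_mem (H := A) inferInstance x hx g⁻¹
        rwa [inv_inv] at this
      have h2 : x * g = g * (g⁻¹ * x * g) := by group
      rw [← rho_mul, h2, rho_mul, hm _ h1]
    rcases hirr N hN with h | h
    · intro m hm
      have : m ∈ N := hm
      rw [h] at this
      exact (Submodule.mem_bot _).1 this
    · exfalso
      have hbot : A = ⊥ := by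
        rw [eq_bot_iff]
        intro x hx
        rw [Subgroup.mem_bot]
        apply hfaith
        ext m
        have hm : m ∈ N := by rw [h]; exact Submodule.mem_top
        rw [hm x hx, rho_one]
      rw [hbot, Subgroup.card_bot] at hA9
      omega
  · intro B hB hB4 hB2
    have key : ∀ d : DihedralGroup 4, d * d = 1 → d = 1 ∨ d = DihedralGroup.r 2 ∨
        d = DihedralGroup.sr 0 ∨ d = DihedralGroup.sr 0 * DihedralGroup.r 2 ∨
        d = DihedralGroup.sr 1 ∨ d = DihedralGroup.sr 1 * DihedralGroup.r 2 := by decide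
    have key2 : ∀ d e : DihedralGroup 4, (d = DihedralGroup.sr 0 ∨ d = DihedralGroup.sr 0 * DihedralGroup.r 2) →
        (e = DihedralGroup.sr 1 ∨ e = DihedralGroup.sr 1 * DihedralGroup.r 2) → (d * e) * (d * e) ≠ 1 := by decide
    have hmem : ∀ b ∈ B, ∃ d, f d = b ∧ d * d = 1 := by
      intro b hb
      obtain ⟨d, hd⟩ := hfs b (hB hb)
      refine ⟨d, hd, hf ?_⟩
      rw [map_mul, hd, map_one, ← pow_two, hB2 b hb]
    have hno : ∀ d e : DihedralGroup 4, f d ∈ B → f e ∈ B →
        (d = DihedralGroup.sr 0 ∨ d = DihedralGroup.sr 0 * DihedralGroup.r 2) →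
        (e = DihedralGroup.sr 1 ∨ e = DihedralGroup.sr 1 * DihedralGroup.r 2) → False := by
      intro d e hd he h1 h2
      apply key2 d e h1 h2
      apply hf
      have := hB2 _ (B.mul_mem hd he)
      rw [map_mul, map_mul, ← pow_two, this, map_one]
    by_cases hcase : ∃ e : DihedralGroup 4, f e ∈ B ∧ (e = DihedralGroup.sr 1 ∨ e = DihedralGroup.sr 1 * DihedralGroup.r 2)
    · obtain ⟨e, he, he'⟩ := hcase
      right
      apply Subgroup.eq_of_le_of_card_ge
      · intro b hb
        obtain ⟨d, rfl, hd⟩ := hmem b hb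
        rw [mem_four]
        rcases key d hd with h | h | h | h | h | h
        · left; rw [h, map_one]
        · right; left; rw [h]
        · exact (hno d e hb he (Or.inl h) he').elim
        · exact (hno d e hb he (Or.inr h) he').elim
        · right; right; left; rw [h]
        · right; right; right; rw [h, map_mul]
      · rw [hB4, card_four D.sne' D.zne D.szne']
    · left
      apply Subgroup.eq_of_le_of_card_ge
      · intro b hb
        obtain ⟨d, rfl, hd⟩ := hmem b hb
        rw [mem_four]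
        rcases key d hd with h | h | h | h | h | h
        · left; rw [h, map_one]
        · right; left; rw [h]
        · right; right; left; rw [h]
        · right; right; right; rw [h, map_mul]
        · exact (hcase ⟨d, hb, Or.inl h⟩).elim
        · exact (hcase ⟨d, hb, Or.inr h⟩).elim
      · rw [hB4, card_four D.sne D.zne D.szne]

end H76.D8Mod
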