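import Mathlib
import Cfsg.Agent.Lib.H72.PGroupCenter
import Cfsg.Agent.Lib.H3.UniqueSub

/-! Derived length of `p`-subgroups of `GL_n(q)`. -/

set_option autoImplicit false
set_option linter.unusedSectionVars false

namespace H76.DerLen

open Subgroup

universe u v w

section rep

variable {F : Type u} {V : Type v} {P : Type w} [Field F] [AddCommGroup V] [Module F V] [Group P]
variable (ρ : Representation F P V)

theorem rho_mul (g h : P) (m : V) : ρ (g * h) m = ρ g (ρ h m) := by
  rw [map_mul]; rfl

theorem rho_one (m : V) : ρ 1 m = m := by rw [map_one]; rfl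

theorem rho_pow_fix (g : P) (m : V) (h : ρ g m = m) (n : ℕ) : ρ (g ^ n) m = m := by
  induction n with
  | zero => rw [pow_zero, rho_one]
  | succ n ih => rw [pow_succ, rho_mul, h, ih]

/-- restriction to an invariant subspace -/
def sub (W : Submodule F V) (hW : ∀ g : P, ∀ w ∈ W, ρ g w ∈ W) : Representation F P W where
  toFun g := (ρ g).restrict (hW g)
  map_one' := by
    ext w
    exact rho_one ρ _
  map_mul' g h := by
    ext w
    exact rho_mul ρ g h _

theorem sub_apply (W : Submodule F V) (hW : ∀ g : P, ∀ w ∈ W, ρ g w ∈ W) (g : P) (w : W) :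
    ((sub ρ W hW g w : W) : V) = ρ g w := rfl

/-- the quotient by an invariant subspace -/
def quo (W : Submodule F V) (hW : ∀ g : P, ∀ w ∈ W, ρ g w ∈ W) : Representation F P (V ⧸ W) where
  toFun g := W.mapQ W (ρ g) (fun w hw => hW g w hw)
  map_one' := by
    ext w
    show Submodule.Quotient.mk (ρ 1 w) = Submodule.Quotient.mk w
    rw [rho_one ρ]
  map_mul' g h := by
    ext w
    show Submodule.Quotient.mk (ρ (g * h) w) = Submodule.Quotient.mk (ρ g (ρ h w))
    rw [rho_mul ρ]

theorem quo_apply (W : Submodule F V) (hW : ∀ g : P, ∀ w ∈ W, ρ g w ∈ W) (g : P) (v : V) :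
    quo ρ W hW g (Submodule.Quotient.mk v) = Submodule.Quotient.mk (ρ g v) := rfl

/-- fixed space of an element -/
def fix (x : P) : Submodule F V := LinearMap.eqLocus (ρ x) LinearMap.id

theorem mem_fix {x : P} {v : V} : v ∈ fix ρ x ↔ ρ x v = v := Iff.rfl

/-- unipotent elements of order prime to the characteristic are trivial -/
theorem trivial_of_unipotent (g : P) (n : ℕ) (hn : g ^ n = 1) (hnF : (n : F) ≠ 0)
    (h : ∀ v, ρ g (ρ g v - v) = ρ g v - v) (v : V) : ρ g v = v := by
  have h1 : ∀ k : ℕ, ρ (g ^ k) v = v + (k : F) • (ρ g v - v) := by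
    intro k
    induction k with
    | zero => rw [pow_zero, rho_one]; simp
    | succ k ih =>
      rw [pow_succ', rho_mul, ih, map_add, map_smul, h]
      push_cast
      rw [add_smul, one_smul]
      abel
  have h2 := h1 n
  rw [hn, rho_one] at h2
  have h3 : (n : F) • (ρ g v - v) = 0 := by
    have := left_eq_add.mp h2
    exact this
  rcases smul_eq_zero.1 h3 with h4 | h4
  · exact absurd h4 hnF
  · exact sub_eq_zero.1 h4

end rep

section fin

variable {F : Type u} {V : Type v} {P : Type w} [Field F] [AddCommGroup V] [Module F V] [Group P]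
variable (ρ : Representation F P V) [Finite P] [Finite F] [Module.Finite F V]
variable {p : ℕ} [hp : Fact p.Prime]

theorem pow_sub_eq_one {q e n m : ℕ} (hpq : ¬ p ∣ q) (he : e = orderOf (q : ZMod p)) (hmn : m ≤ n)
    (h : q ^ n ≡ q ^ m [MOD p]) : e ∣ n - m := by
  rw [he]
  apply orderOf_dvd_of_pow_eq_one
  have h1 : ((q ^ n : ℕ) : ZMod p) = ((q ^ m : ℕ) : ZMod p) := (ZMod.natCast_eq_natCast_iff _ _ _).2 h
  push_cast at h1
  have hq : (q : ZMod p) ≠ 0 := by
    intro h0
    exact hpq ((ZMod.natCast_eq_zero_iff _ _).1 h0)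
  have h2 : (q : ZMod p) ^ n = (q : ZMod p) ^ (n - m) * (q : ZMod p) ^ m := by
    rw [← pow_add, Nat.sub_add_cancel hmn]
  rw [h2] at h1
  exact mul_right_cancel₀ (pow_ne_zero m hq) (by rw [h1, one_mul])

/-- fixed points of the whole group -/
def fixAll : Submodule F V where
  carrier := {v | ∀ g : P, ρ g v = v}
  add_mem' := by intro a b ha hb g; rw [map_add, ha g, hb g]
  zero_mem' := fun g => map_zero _
  smul_mem' := by intro c a ha g; rw [map_smul, ha g]

/-- counting fixed points -/
theorem dvd_sub (hP : IsPGroup p P) {q e : ℕ} (hF : Nat.card F = q) (hpq : ¬ p ∣ q)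
    (he : e = orderOf (q : ZMod p)) :
    e ∣ Module.finrank F V - Module.finrank F (fixAll ρ) := by
  have hV : Finite V := Module.finite_of_finite F
  let _ : MulAction P V :=
    { smul := fun g v => ρ g v
      one_smul := fun v => rho_one ρ v
      mul_smul := fun g h v => rho_mul ρ g h v }
  have h1 := hP.card_modEq_card_fixedPoints V
  have h2 : Nat.card (MulAction.fixedPoints P V) = Nat.card (fixAll ρ) := rfl
  rw [h2, Module.natCard_eq_pow_finrank (K := F) (V := V),
    Module.natCard_eq_pow_finrank (K := F) (V := fixAll ρ), hF] at h1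
  exact pow_sub_eq_one hpq he (Submodule.finrank_le _) h1

/-- dimension less than `e`: trivial action -/
theorem trivial_of_lt (hP : IsPGroup p P) {q e : ℕ} (hF : Nat.card F = q) (hpq : ¬ p ∣ q)
    (he : e = orderOf (q : ZMod p)) (hlt : Module.finrank F V < e) (g : P) (v : V) : ρ g v = v := by
  have h1 := dvd_sub ρ hP hF hpq he
  have h2 : Module.finrank F V - Module.finrank F (fixAll ρ) = 0 := by
    by_contra h
    have := Nat.le_of_dvd (by omega) h1
    omega
  have h3 : fixAll ρ = ⊤ := Submodule.eq_top_of_finrank_eq (by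
    have := Submodule.finrank_le (fixAll ρ)
    omega)
  have h4 : v ∈ fixAll ρ := by rw [h3]; exact Submodule.mem_top
  exact h4 g

theorem center_fix (hfaith : Function.Injective ρ)
    (hirr : ∀ W : Submodule F V, (∀ g : P, ∀ w ∈ W, ρ g w ∈ W) → W = ⊥ ∨ W = ⊤)
    {z : P} (hz : z ∈ center P) (hz1 : z ≠ 1) (v : V) (hv : ρ z v = v) : v = 0 := by
  have h1 : ∀ g : P, ∀ w ∈ fix ρ z, ρ g w ∈ fix ρ z := by
    intro g w hw
    rw [mem_fix] at hw ⊢
    rw [← rho_mul, ← Subgroup.mem_center_iff.1 hz g, rho_mul, hw]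
  rcases hirr _ h1 with h | h
  · have : v ∈ fix ρ z := hv
    rw [h] at this
    exact (Submodule.mem_bot _).1 this
  · exfalso
    apply hz1
    apply hfaith
    ext w
    have : w ∈ fix ρ z := by rw [h]; exact Submodule.mem_top
    rw [mem_fix] at this
    rw [this, rho_one]

/-- dimension less than `2e`, irreducible and faithful: `P` is abelian -/
theorem comm_of_lt (hP : IsPGroup p P) {q e : ℕ} (hF : Nat.card F = q) (hpq : ¬ p ∣ q)
    (he : e = orderOf (q : ZMod p)) (hlt : Module.finrank F V < 2 * e)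
    (hfaith : Function.Injective ρ)
    (hirr : ∀ W : Submodule F V, (∀ g : P, ∀ w ∈ W, ρ g w ∈ W) → W = ⊥ ∨ W = ⊤) (g h : P) :
    g * h = h * g := by
  have hV : Finite V := Module.finite_of_finite F
  rcases subsingleton_or_nontrivial P with hs | hnt
  · exact Subsingleton.elim _ _
  have hC : Nontrivial (center P) := hP.center_nontrivial
  obtain ⟨⟨z, hz⟩, hz1⟩ := exists_ne (1 : center P)
  have hz1 : z ≠ 1 := fun h => hz1 (Subtype.ext h)
  have hzfix := center_fix ρ hfaith hirr hz hz1
  -- invariant subspaces of `z`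
  have key : ∀ W : Submodule F V, (∀ w ∈ W, ρ z w ∈ W) → e ∣ Module.finrank F W := by
    intro W hW
    have hW' : ∀ x : zpowers z, ∀ w ∈ W, (ρ.comp (zpowers z).subtype) x w ∈ W := by
      rintro ⟨x, hx⟩ w hw
      obtain ⟨n, rfl⟩ := (mem_powers_iff_mem_zpowers (x := z)).2 hx
      show ρ (z ^ n) w ∈ W
      clear hx
      induction n with
      | zero => rw [pow_zero, rho_one]; exact hw
      | succ n ih => rw [pow_succ', rho_mul]; exact hW _ ih
    have h1 := dvd_sub (sub (ρ.comp (zpowers z).subtype) W hW') (hP.to_subgroup _) hF hpq he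
    have h2 : fixAll (sub (ρ.comp (zpowers z).subtype) W hW') = ⊥ := by
      rw [eq_bot_iff]
      intro w hw
      have h3 := hw ⟨z, mem_zpowers z⟩
      rw [Submodule.mem_bot]
      apply Subtype.ext
      exact hzfix w (congrArg Subtype.val h3)
    rw [h2, finrank_bot, Nat.sub_zero] at h1
    exact h1
  have hinv : ∀ W : Submodule F V, (∀ w ∈ W, ρ z w ∈ W) → W = ⊥ ∨ W = ⊤ := by
    intro W hW
    have h1 := key W hW
    have h2 := key ⊤ (fun w _ => Submodule.mem_top)
    rw [finrank_top] at h2
    have h3 := Submodule.finrank_le W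
    rcases Nat.eq_zero_or_pos (Module.finrank F W) with h4 | h4
    · left; exact Submodule.finrank_eq_zero.1 h4
    · right
      apply Submodule.eq_top_of_finrank_eq
      obtain ⟨a, ha⟩ := h1
      obtain ⟨b, hb⟩ := h2
      have he0 : 0 < e := by
        rcases Nat.eq_zero_or_pos e with h5 | h5
        · rw [h5] at hlt; omega
        · exact h5
      have hb1 : b < 2 := by
        by_contra h6
        have : 2 * e ≤ e * b := by rw [mul_comm 2 e]; exact Nat.mul_le_mul_left e (by omega)
        omega
      have ha1 : 0 < a := by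
        rcases Nat.eq_zero_or_pos a with h5 | h5
        · rw [h5, mul_zero] at ha; omega
        · exact h5
      have hab : a ≤ b := by
        by_contra h6
        have : e * b < e * a := Nat.mul_lt_mul_of_pos_left (by omega) he0
        omega
      have : a = b := by omega
      rw [ha, hb, this]
  -- the centralizer of `ρ z` is a finite domain
  let C : Subring (Module.End F V) := Subring.centralizer {ρ z}
  have hmem : ∀ a : Module.End F V, a ∈ C ↔ ρ z * a = a * ρ z := by
    intro a
    rw [Subring.mem_centralizer_iff]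
    simp
  have hVn : Nontrivial V := by
    by_contra hn
    rw [not_nontrivial_iff_subsingleton] at hn
    apply hz1
    apply hfaith
    ext v
    exact Subsingleton.elim _ _
  have hnzd : NoZeroDivisors C := by
    constructor
    rintro ⟨a, ha⟩ ⟨b, hb⟩ hab
    have hab' : a * b = 0 := congrArg Subtype.val hab
    rw [hmem] at ha hb
    have hker : ∀ w ∈ LinearMap.ker a, ρ z w ∈ LinearMap.ker a := by
      intro w hw
      rw [LinearMap.mem_ker] at hw ⊢
      have h1 : a (ρ z w) = ρ z (a w) := by
        have := congrArg (fun f : Module.End F V => f w) ha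
        exact this.symm
      rw [h1, hw, map_zero]
    rcases hinv _ hker with h1 | h1
    · right
      apply Subtype.ext
      show b = 0
      ext v
      have h2 : b v ∈ LinearMap.ker a := by
        rw [LinearMap.mem_ker]
        exact congrArg (fun f : Module.End F V => f v) hab'
      rw [h1] at h2
      exact (Submodule.mem_bot _).1 h2
    · left
      apply Subtype.ext
      exact LinearMap.ker_eq_top.1 h1
  have hCn : Nontrivial C := inferInstance
  have hdom : IsDomain C := NoZeroDivisors.to_isDomain C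
  have hfin : Finite C := by
    apply Finite.of_injective (fun (c : C) (v : V) => (c : Module.End F V) v)
    intro a b hab
    apply Subtype.ext
    ext v
    exact congrFun hab v
  have hfield : IsField C := Finite.isDomain_to_isField C
  have hgC : ∀ g : P, ρ g ∈ C := by
    intro g
    rw [hmem, ← map_mul, ← map_mul, Subgroup.mem_center_iff.1 hz g]
  have := hfield.mul_comm ⟨ρ g, hgC g⟩ ⟨ρ h, hgC h⟩
  apply hfaith
  rw [map_mul, map_mul]
  exact congrArg Subtype.val this

end fin

section split

theorem pow_mod_of {P : Type*} [Group P] {z : P} {p : ℕ} (hz : z ^ p = 1) (n : ℕ) :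
    z ^ n = z ^ (n % p) := by
  conv_lhs => rw [← Nat.mod_add_div n p, pow_add, pow_mul, hz, one_pow, mul_one]

variable {F : Type u} {V : Type v} {P : Type w} [Field F] [AddCommGroup V] [Module F V] [Group P]
variable (ρ : Representation F P V)
variable {p : ℕ} [hp : Fact p.Prime]

/-- the norm of an element of order dividing `p` -/
def nrm (p : ℕ) (x : P) (v : V) : V := ∑ j ∈ Finset.range p, ρ (x ^ j) v

theorem nrm_fixed {x : P} (hx : x ^ p = 1) (v : V) : ρ x (nrm ρ p x v) = nrm ρ p x v := by
  unfold nrm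
  rw [map_sum]
  have h1 : ∀ j, ρ x (ρ (x ^ j) v) = ρ (x ^ (j + 1)) v := fun j => by rw [pow_succ', rho_mul]
  simp only [h1]
  have h2 := Finset.sum_range_succ (fun j => ρ (x ^ j) v) p
  have h3 := Finset.sum_range_succ' (fun j => ρ (x ^ j) v) p
  rw [hx] at h2
  rw [pow_zero] at h3
  rw [h2] at h3
  exact (add_right_cancel h3).symm

/-- the decomposition identity -/
theorem decomp {z w : P} (hzw : z * w = w * z) (hz : z ^ p = 1)
    (hfix : ∀ v, ρ z v = v → v = 0) (v : V) :
    (p : F) • v = ∑ i ∈ Finset.range p, nrm ρ p (z ^ i * w) v := by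
  have hcomm : ∀ i j : ℕ, (z ^ i * w) ^ j = (z ^ j) ^ i * w ^ j := by
    intro i j
    have hc : Commute (z ^ i) w := (show Commute z w from hzw).pow_left i
    rw [hc.mul_pow, ← pow_mul, ← pow_mul, mul_comm i j]
  unfold nrm
  rw [Finset.sum_comm]
  have h1 : ∀ j ∈ Finset.range p, j ≠ 0 → ∑ i ∈ Finset.range p, ρ ((z ^ i * w) ^ j) v = 0 := by
    intro j hj hj0
    rw [Finset.mem_range] at hj
    have hcop : Nat.Coprime j p :=
      ((Nat.Prime.coprime_iff_not_dvd hp.out).2 (fun h => by
        have := Nat.le_of_dvd (by omega) h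
        omega)).symm
    have h2 : ∑ i ∈ Finset.range p, ρ ((z ^ i * w) ^ j) v = nrm ρ p (z ^ j) (ρ (w ^ j) v) := by
      unfold nrm
      refine Finset.sum_congr rfl fun i _ => ?_
      rw [hcomm, rho_mul]
    rw [h2]
    have h3 := nrm_fixed ρ (p := p) (x := z ^ j) (by rw [← pow_mul, mul_comm, pow_mul, hz, one_pow])
      (ρ (w ^ j) v)
    apply hfix
    -- `z` is a power of `z^j`
    obtain ⟨k, -, hk⟩ := Nat.exists_mul_mod_eq_one_of_coprime hcop hp.out.one_lt
    have h4 : z = (z ^ j) ^ k := by
      rw [← pow_mul]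
      conv_lhs => rw [← pow_one z, ← hk]
      exact (pow_mod_of hz (j * k)).symm
    have h5 := rho_pow_fix ρ _ _ h3 k
    rwa [← h4] at h5
  rw [Finset.sum_eq_single_of_mem 0 (Finset.mem_range.2 hp.out.pos) h1]
  simp only [pow_zero, rho_one]
  rw [Finset.sum_const, Finset.card_range, Nat.cast_smul_eq_nsmul]

end split

section step

variable {F : Type u} {V : Type v} {P : Type w} [Field F] [AddCommGroup V] [Module F V] [Group P]
variable (ρ : Representation F P V) [Finite P] [Finite F] [Module.Finite F V]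
variable {p : ℕ} [hp : Fact p.Prime]

theorem finrank_conj_le (x g : P) :
    Module.finrank F (fix ρ x) ≤ Module.finrank F (fix ρ (g * x * g⁻¹)) := by
  have h1 : ∀ v : fix ρ x, ρ g v ∈ fix ρ (g * x * g⁻¹) := by
    intro v
    rw [mem_fix, ← rho_mul, inv_mul_cancel_right, rho_mul, (mem_fix ρ).1 v.2]
  let f : fix ρ x →ₗ[F] fix ρ (g * x * g⁻¹) := ((ρ g).domRestrict (fix ρ x)).codRestrict _ h1
  apply LinearMap.finrank_le_finrank_of_injective (f := f)
  intro a b hab
  have h2 : ρ g a = ρ g b := congrArg Subtype.val hab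
  apply Subtype.ext
  have h3 : ρ g⁻¹ (ρ g a) = ρ g⁻¹ (ρ g b) := by rw [h2]
  rwa [← rho_mul, ← rho_mul, inv_mul_cancel, rho_one, rho_one] at h3

theorem derived_le (M : Subgroup P) (hM : commutator P ≤ M) (k : ℕ) :
    derivedSeries P (k + 1) ≤ (derivedSeries M k).map M.subtype := by
  induction k with
  | zero =>
    rw [derivedSeries_zero, zero_add, derivedSeries_one, ← MonoidHom.range_eq_map, range_subtype]
    exact hM
  | succ k ih =>
    rw [derivedSeries_succ, derivedSeries_succ M, map_commutator]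
    exact commutator_mono ih ih

/-- the commutator subgroup centralizes a cyclic normal subgroup -/
theorem commutator_le_centralizer_cyclic (A : Subgroup P) [A.Normal] (hA : IsCyclic A) :
    commutator P ≤ centralizer (A : Set P) := by
  have key : ∀ g : P, ∃ i : ℤ, ∀ a ∈ A, g * a * g⁻¹ = a ^ i := by
    intro g
    obtain ⟨i, hi⟩ := MonoidHom.map_cyclic ((MulAut.conjNormal (H := A) g).toMonoidHom)
    refine ⟨i, fun a ha => ?_⟩
    have := congrArg Subtype.val (hi ⟨a, ha⟩)
    simpa using this
  rw [commutator_def, commutator_le]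
  intro g _ h _
  rw [mem_centralizer_iff]
  intro a ha
  obtain ⟨i, hi⟩ := key g
  obtain ⟨j, hj⟩ := key h
  have h1 : ∀ b ∈ A, g * (h * b * h⁻¹) * g⁻¹ = h * (g * b * g⁻¹) * h⁻¹ := by
    intro b hb
    rw [hj b hb, hi _ (A.zpow_mem hb j), hi b hb, hj _ (A.zpow_mem hb i), ← zpow_mul, ← zpow_mul,
      mul_comm]
  have h2 := h1 (g⁻¹ * (h⁻¹ * a * h⁻¹⁻¹) * g⁻¹⁻¹) (Subgroup.Normal.conj_mem inferInstance _
    (Subgroup.Normal.conj_mem inferInstance a ha h⁻¹) g⁻¹)
  rw [commutatorElement_def]
  have h3 : h * (g * (g⁻¹ * (h⁻¹ * a * h⁻¹⁻¹) * g⁻¹⁻¹) * g⁻¹) * h⁻¹ = a := by group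
  rw [h3] at h2
  have h4 : g * h * g⁻¹ * h⁻¹ * a * (g * h * g⁻¹ * h⁻¹)⁻¹ =
      g * (h * (g⁻¹ * (h⁻¹ * a * h⁻¹⁻¹) * g⁻¹⁻¹) * h⁻¹) * g⁻¹ := by group
  rw [← h4] at h2
  rw [mul_inv_eq_iff_eq_mul] at h2
  exact h2.symm

theorem step (hP : IsPGroup p P) (hpF : (p : F) ≠ 0) (hfaith : Function.Injective ρ)
    (hirr : ∀ W : Submodule F V, (∀ g : P, ∀ w ∈ W, ρ g w ∈ W) → W = ⊥ ∨ W = ⊤) (k : ℕ)
    (hk : 1 ≤ k)
    (IH : ∀ (M : Subgroup P) (W : Submodule F V) (_ : ∀ g : M, ∀ w ∈ W, ρ g w ∈ W),
      2 * Module.finrank F W ≤ Module.finrank F V →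
      ∀ g ∈ derivedSeries M k, ∀ w ∈ W, ρ (g : P) w = w) (g : P)
    (hg : g ∈ derivedSeries P (k + 1)) (v : V) : ρ g v = v := by
  obtain ⟨A, -, hAn, hAc, hAcent⟩ := H72.PGroupCenter.exists_self_centralizing hP (⊥ : Subgroup P)
    inferInstance inferInstance
  have hAcomm : ∀ a ∈ A, ∀ b ∈ A, a * b = b * a := by
    intro a ha b hb
    exact congrArg Subtype.val (hAc.is_comm.comm (⟨a, ha⟩ : A) ⟨b, hb⟩)
  by_cases hU : ∀ u ∈ A, u ^ p = 1 → u ∈ center P
  · by_cases hcyc : IsCyclic A
    · -- metabelian
      have h1 := commutator_le_centralizer_cyclic A hcyc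
      rw [hAcent] at h1
      have h2 : derivedSeries P 2 = ⊥ := by
        rw [derivedSeries_succ, derivedSeries_one, eq_bot_iff, commutator_le]
        intro a ha b hb
        rw [mem_bot, commutatorElement_eq_one_iff_mul_comm]
        exact hAcomm a (h1 ha) b (h1 hb)
      have h3 : g ∈ derivedSeries P 2 := derivedSeries_antitone P (show 2 ≤ k + 1 by omega) hg
      rw [h2, mem_bot] at h3
      rw [h3, rho_one]
    · -- noncyclic central: impossible
      have hcomm : ∀ a b : A, a * b = b * a := fun a b => Subtype.ext (hAcomm a a.2 b b.2)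
      have hz : ∃ z : A, z ^ p = 1 ∧ z ≠ 1 := by
        by_contra hno
        push Not at hno
        apply hcyc
        apply H3.UniqueSub.isCyclic_of_comm (hP.to_subgroup A) hcomm (⊥ : Subgroup A)
        · rw [Subgroup.card_bot]; exact hp.out.one_lt.le
        · intro x hx
          rw [Subgroup.mem_bot]
          exact hno x hx
      obtain ⟨z, hzp, hz1⟩ := hz
      have hw : ∃ w : A, w ^ p = 1 ∧ w ∉ zpowers z := by
        by_contra hno
        push Not at hno
        apply hcyc
        apply H3.UniqueSub.isCyclic_of_comm (hP.to_subgroup A) hcomm (zpowers z)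
        · rw [Nat.card_zpowers]
          exact Nat.le_of_dvd hp.out.pos (orderOf_dvd_of_pow_eq_one hzp)
        · exact hno
      obtain ⟨w, hwp, hwz⟩ := hw
      have hzp' : (z : P) ^ p = 1 := by
        have := congrArg Subtype.val hzp
        simpa using this
      have hwp' : (w : P) ^ p = 1 := by
        have := congrArg Subtype.val hwp
        simpa using this
      have hzZ := hU z z.2 hzp'
      have hwZ := hU w w.2 hwp'
      have hz1' : (z : P) ≠ 1 := fun h => hz1 (Subtype.ext h)
      have h1 := decomp ρ (p := p) (z := (z : P)) (w := (w : P)) (hAcomm z z.2 w w.2) hzp'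
        (center_fix ρ hfaith hirr hzZ hz1') v
      have h2 : ∀ i ∈ Finset.range p, nrm ρ p ((z : P) ^ i * (w : P)) v = 0 := by
        intro i _
        have hxZ : (z : P) ^ i * (w : P) ∈ center P := mul_mem (pow_mem hzZ i) hwZ
        have hx1 : (z : P) ^ i * (w : P) ≠ 1 := by
          intro h
          apply hwz
          have h3 : w = (z ^ i)⁻¹ := by
            apply Subtype.ext
            have := eq_inv_of_mul_eq_one_right h
            simpa using this
          rw [h3]
          exact inv_mem (pow_mem (mem_zpowers z) i)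
        have hxp : ((z : P) ^ i * (w : P)) ^ p = 1 := by
          have hc : Commute ((z : P) ^ i) (w : P) :=
            (show Commute (z : P) (w : P) from hAcomm z z.2 w w.2).pow_left i
          rw [hc.mul_pow, hwp', mul_one, ← pow_mul, mul_comm, pow_mul, hzp', one_pow]
        exact center_fix ρ hfaith hirr hxZ hx1 _ (nrm_fixed ρ hxp v)
      rw [Finset.sum_eq_zero h2] at h1
      have h3 : v = 0 := (smul_eq_zero.1 h1).resolve_left hpF
      rw [h3, map_zero]
  · -- the splitting case
    push Not at hU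
    obtain ⟨u, huA, hup, huZ⟩ := hU
    let U : Subgroup P :=
      { carrier := {a | a ∈ A ∧ a ^ p = 1}
        mul_mem' := by
          rintro a b ⟨ha, ha'⟩ ⟨hb, hb'⟩
          refine ⟨mul_mem ha hb, ?_⟩
          have hc : Commute a b := hAcomm a ha b hb
          rw [hc.mul_pow, ha', hb', one_mul]
        one_mem' := ⟨one_mem A, one_pow p⟩
        inv_mem' := by
          rintro a ⟨ha, ha'⟩
          exact ⟨inv_mem ha, by rw [inv_pow, ha', inv_one]⟩ }
    have hUn : U.Normal := by
      constructor
      rintro a ⟨ha, ha'⟩ g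
      exact ⟨hAn.conj_mem a ha g, by rw [conj_pow, ha', mul_one, mul_inv_cancel]⟩
    have hmk : Function.Surjective (QuotientGroup.mk' (center P)) := QuotientGroup.mk'_surjective _
    have hNn : (U.map (QuotientGroup.mk' (center P))).Normal := hUn.map _ hmk
    have hNb : U.map (QuotientGroup.mk' (center P)) ≠ ⊥ := by
      intro h
      apply huZ
      have h1 : QuotientGroup.mk' (center P) u ∈ U.map (QuotientGroup.mk' (center P)) :=
        ⟨u, ⟨huA, hup⟩, rfl⟩
      rw [h, mem_bot] at h1
      exact (QuotientGroup.eq_one_iff u).1 h1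
    have hPq : IsPGroup p (P ⧸ center P) := hP.to_quotient _
    have h1 := H72.PGroupCenter.normal_inf_center_ne_bot hPq _ hNb
    obtain ⟨⟨x, hx⟩, hx1⟩ := Subgroup.ne_bot_iff_exists_ne_one.1 h1
    obtain ⟨⟨w, ⟨hwA, hwp⟩, hwx⟩, hxZ⟩ := mem_inf.1 hx
    have hwZ : w ∉ center P := by
      intro h
      apply hx1
      apply Subtype.ext
      exact hwx.symm.trans ((QuotientGroup.eq_one_iff w).2 h)
    have hcw : ∀ g : P, g * w * g⁻¹ * w⁻¹ ∈ center P := by
      intro g
      have h2 := mem_center_iff.1 hxZ (QuotientGroup.mk' (center P) g)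
      rw [← hwx] at h2
      apply (QuotientGroup.eq_one_iff _).1
      show QuotientGroup.mk' (center P) (g * w * g⁻¹ * w⁻¹) = 1
      rw [map_mul, map_mul, map_mul, h2, map_inv, map_inv]
      group
    -- the commutator subgroup centralizes `w`
    let f : P →* center P :=
      { toFun := fun g => ⟨g * w * g⁻¹ * w⁻¹, hcw g⟩
        map_one' := by apply Subtype.ext; simp
        map_mul' := by
          intro g h
          apply Subtype.ext
          show g * h * w * (g * h)⁻¹ * w⁻¹ = (g * w * g⁻¹ * w⁻¹) * (h * w * h⁻¹ * w⁻¹)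
          have h3 := mem_center_iff.1 (hcw h) g
          calc g * h * w * (g * h)⁻¹ * w⁻¹ = (g * (h * w * h⁻¹ * w⁻¹)) * w * g⁻¹ * w⁻¹ := by group
            _ = (h * w * h⁻¹ * w⁻¹) * (g * w * g⁻¹ * w⁻¹) := by rw [h3]; group
            _ = _ := (mem_center_iff.1 (hcw h) _).symm }
    have hker : commutator P ≤ f.ker := by
      rw [commutator_def, commutator_le]
      intro a _ b _
      rw [MonoidHom.mem_ker, map_commutatorElement, commutatorElement_eq_one_iff_mul_comm]
      apply Subtype.ext
      exact (mem_center_iff.1 (f a).2 _).symm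
    have hkM : f.ker ≤ centralizer {w} := by
      intro g hg
      have h3 : g * w * g⁻¹ * w⁻¹ = 1 := congrArg Subtype.val hg
      rw [mem_centralizer_singleton_iff]
      rw [mul_inv_eq_one, mul_inv_eq_iff_eq_mul] at h3
      exact h3
    have hM : commutator P ≤ centralizer {w} := hker.trans hkM
    obtain ⟨g₀, hg₀⟩ : ∃ g₀ : P, g₀ * w * g₀⁻¹ * w⁻¹ ≠ 1 := by
      by_contra hno
      push Not at hno
      apply hwZ
      rw [mem_center_iff]
      intro g
      have h3 := hno g
      rwa [mul_inv_eq_one, mul_inv_eq_iff_eq_mul] at h3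
    set z := g₀ * w * g₀⁻¹ * w⁻¹ with hz
    have hzZ : z ∈ center P := hcw g₀
    have hwU : w ∈ U := ⟨hwA, hwp⟩
    have hzU : z ∈ U := mul_mem (hUn.conj_mem w hwU g₀) (inv_mem hwU)
    have hzp : z ^ p = 1 := hzU.2
    have hzw : z * w = w * z := (mem_center_iff.1 hzZ w).symm
    have hzfix := center_fix ρ hfaith hirr hzZ hg₀
    -- the fixed spaces
    have hrank : ∀ i : ℕ, 2 * Module.finrank F (fix ρ (z ^ i * w)) ≤ Module.finrank F V := by
      intro i
      have e1 : g₀ * (z ^ i * w) * g₀⁻¹ = z ^ (i + 1) * w := by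
        have e2 : g₀ * z ^ i = z ^ i * g₀ := mem_center_iff.1 (pow_mem hzZ i) g₀
        calc g₀ * (z ^ i * w) * g₀⁻¹ = (g₀ * z ^ i) * w * g₀⁻¹ := by group
          _ = z ^ i * ((g₀ * w * g₀⁻¹ * w⁻¹) * w) := by rw [e2]; group
          _ = z ^ (i + 1) * w := by rw [← hz, pow_succ]; group
      have e3 := finrank_conj_le ρ (z ^ i * w) g₀
      rw [e1] at e3
      have hdisj : Disjoint (fix ρ (z ^ i * w)) (fix ρ (z ^ (i + 1) * w)) := by
        rw [Submodule.disjoint_def]
        intro v hv hv'
        rw [mem_fix] at hv hv'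
        rw [pow_succ', mul_assoc, rho_mul, hv] at hv'
        exact hzfix v hv'
      have e4 := Submodule.finrank_add_finrank_le_of_disjoint hdisj
      omega
    obtain ⟨d, hd, rfl⟩ := derived_le (centralizer {w}) hM k hg
    have hinv : ∀ (i : ℕ) (g : centralizer ({w} : Set P)), ∀ u ∈ fix ρ (z ^ i * w),
        ρ (g : P) u ∈ fix ρ (z ^ i * w) := by
      intro i g u hu
      rw [mem_fix] at hu ⊢
      have e5 : z ^ i * w * (g : P) = g * (z ^ i * w) := by
        have e6 := mem_centralizer_singleton_iff.1 g.2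
        have e7 : (g : P) * z ^ i = z ^ i * g := mem_center_iff.1 (pow_mem hzZ i) g
        rw [← mul_assoc, e7, mul_assoc, mul_assoc, e6]
      rw [← rho_mul, e5, rho_mul, hu]
    have hfixd : ∀ i ∈ Finset.range p, ρ (d : P) (nrm ρ p (z ^ i * w) v) = nrm ρ p (z ^ i * w) v := by
      intro i _
      apply IH _ _ (hinv i) (hrank i) d hd
      rw [mem_fix]
      apply nrm_fixed
      have hc : Commute (z ^ i) w := (show Commute z w from hzw).pow_left i
      rw [hc.mul_pow, hwp, mul_one, ← pow_mul, mul_comm, pow_mul, hzp, one_pow]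
    have h5 := decomp ρ hzw hzp hzfix v
    have h6 : ρ (d : P) ((p : F) • v) = (p : F) • v := by
      rw [h5, map_sum]
      exact Finset.sum_congr rfl hfixd
    rw [map_smul] at h6
    have h7 : (p : F) • (ρ (d : P) v - v) = 0 := by rw [smul_sub, h6, sub_self]
    exact sub_eq_zero.1 ((smul_eq_zero.1 h7).resolve_left hpF)

end step

section main

variable {F : Type u} [Field F] [Finite F] {p : ℕ} [hp : Fact p.Prime]

theorem main {q e : ℕ} (hF : Nat.card F = q) (hpq : ¬ p ∣ q) (he : e = orderOf (q : ZMod p))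
    (hpF : (p : F) ≠ 0) (n : ℕ) :
    ∀ (V : Type v) [AddCommGroup V] [Module F V] [Module.Finite F V] (P : Type w) [Group P]
      [Finite P], IsPGroup p P → ∀ (ρ : Representation F P V) (k : ℕ), Module.finrank F V = n →
      n < 2 ^ k * e → ∀ g ∈ derivedSeries P k, ∀ v, ρ g v = v := by
  induction n using Nat.strong_induction_on with
  | _ n ih =>
    intro V _ _ _ P _ _ hP ρ k hn hk g hg v
    rcases Nat.eq_zero_or_pos k with rfl | hk0
    · rw [pow_zero, one_mul, ← hn] at hk
      exact trivial_of_lt ρ hP hF hpq he hk g v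
    obtain ⟨k, rfl⟩ : ∃ j, k = j + 1 := ⟨k - 1, by omega⟩
    by_cases hred : ∃ W : Submodule F V, (∀ g : P, ∀ w ∈ W, ρ g w ∈ W) ∧ W ≠ ⊥ ∧ W ≠ ⊤
    · -- reducible
      obtain ⟨W, hW, hW0, hW1⟩ := hred
      have h1 : Module.finrank F W < n := by
        rw [← hn]; exact Submodule.finrank_lt hW1
      have h2 : 0 < Module.finrank F W := by
        rw [Nat.pos_iff_ne_zero]
        intro h
        exact hW0 (Submodule.finrank_eq_zero.1 h)
      have h3 : Module.finrank F (V ⧸ W) < n := by
        have := Submodule.finrank_quotient_add_finrank W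
        omega
      have h4 := ih _ h1 W P hP (sub ρ W hW) (k + 1) rfl (by omega) g hg
      have h5 := ih _ h3 (V ⧸ W) P hP (quo ρ W hW) (k + 1) rfl (by omega) g hg
      obtain ⟨j, hj⟩ := IsPGroup.iff_card.1 hP
      apply trivial_of_unipotent ρ g (Nat.card P) pow_card_eq_one'
      · rw [hj]
        push_cast
        exact pow_ne_zero j hpF
      · intro v
        have h6 := h5 (Submodule.Quotient.mk v)
        rw [quo_apply] at h6
        have h7 : ρ g v - v ∈ W := (Submodule.Quotient.eq W).1 h6
        exact congrArg Subtype.val (h4 ⟨_, h7⟩)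
    · -- irreducible
      have hirr : ∀ W : Submodule F V, (∀ g : P, ∀ w ∈ W, ρ g w ∈ W) → W = ⊥ ∨ W = ⊤ := by
        intro W hW
        by_contra hno
        push Not at hno
        exact hred ⟨W, hW, hno.1, hno.2⟩
      let σ : Representation F (P ⧸ MonoidHom.ker ρ) V := QuotientGroup.lift (MonoidHom.ker ρ) ρ le_rfl
      have hσ : ∀ g : P, σ (QuotientGroup.mk g) = ρ g := fun g => rfl
      have hfaith : Function.Injective σ := by
        intro a b
        obtain ⟨a, rfl⟩ := QuotientGroup.mk_surjective a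
        obtain ⟨b, rfl⟩ := QuotientGroup.mk_surjective b
        rw [hσ, hσ]
        intro h
        apply QuotientGroup.eq.2
        rw [MonoidHom.mem_ker, map_mul, ← h, ← map_mul, inv_mul_cancel, map_one]
      have hPσ : IsPGroup p (P ⧸ MonoidHom.ker ρ) := hP.to_quotient _
      have hirrσ : ∀ W : Submodule F V, (∀ g : P ⧸ MonoidHom.ker ρ, ∀ w ∈ W, σ g w ∈ W) →
          W = ⊥ ∨ W = ⊤ := fun W hW => hirr W fun g w hw => hW (QuotientGroup.mk g) w hw
      have hgσ : (QuotientGroup.mk' (MonoidHom.ker ρ) g) ∈ derivedSeries (P ⧸ MonoidHom.ker ρ) (k + 1) :=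
        map_derivedSeries_le_derivedSeries (QuotientGroup.mk' (MonoidHom.ker ρ)) (k + 1)
          (mem_map_of_mem _ hg)
      have hgoal : σ (QuotientGroup.mk' (MonoidHom.ker ρ) g) v = v := by
        rcases Nat.eq_zero_or_pos k with rfl | hk1
        · have h1 := comm_of_lt σ hPσ hF hpq he (by rw [hn]; simpa using hk) hfaith hirrσ
          have h2 : derivedSeries (P ⧸ MonoidHom.ker ρ) 1 = ⊥ := by
            rw [derivedSeries_one, commutator_def, eq_bot_iff, commutator_le]
            intro a _ b _
            rw [mem_bot, commutatorElement_eq_one_iff_mul_comm]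
            exact h1 a b
          rw [zero_add, h2, mem_bot] at hgσ
          rw [hgσ, rho_one]
        · apply step σ hPσ hpF hfaith hirrσ k hk1 ?_ _ hgσ v
          intro M W hW hrank g hg w hw
          rcases Nat.eq_zero_or_pos n with h0 | h0
          · have h1 : Subsingleton V := by
              rw [h0] at hn
              exact Module.finrank_zero_iff.1 hn
            exact Subsingleton.elim _ _
          · have h1 := ih (Module.finrank F W) (by omega) W M (hPσ.to_subgroup M)
              (sub (σ.comp M.subtype) W hW) k rfl (by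
                rw [pow_succ] at hk
                have : 2 ^ k * 2 * e = 2 * (2 ^ k * e) := by ring
                omega) g hg ⟨w, hw⟩
            exact congrArg Subtype.val h1
      exact hgoal

theorem gl_main [Fintype F] (q : ℕ) (hF : Fintype.card F = q) (hpq : ¬ p ∣ q) (n e : ℕ)
    (he : e = orderOf (q : ZMod p)) (P : Subgroup (GL (Fin n) F)) (hP : IsPGroup p P) :
    derivedSeries ↥P (Nat.log 2 (n / e) + 1) = ⊥ := by
  have hF' : Nat.card F = q := by rw [Nat.card_eq_fintype_card, hF]
  have hpF : (p : F) ≠ 0 := by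
    intro h0
    have h1 : ringChar F ∣ p := (ringChar.spec F p).1 h0
    have h2 : (q : F) = 0 := by rw [← hF]; exact Nat.cast_card_eq_zero F
    have h3 : ringChar F ∣ q := (ringChar.spec F q).1 h2
    rcases (Nat.dvd_prime hp.out).1 h1 with h4 | h4
    · have : CharP F 1 := ringChar.of_eq h4
      exact CharP.char_ne_one F 1 rfl
    · exact hpq (h4 ▸ h3)
  have he0 : 0 < e := by
    rw [he, orderOf_pos_iff, isOfFinOrder_iff_pow_eq_one]
    refine ⟨p - 1, by have := hp.out.one_lt; omega, ZMod.pow_card_sub_one_eq_one ?_⟩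
    intro h0
    exact hpq ((ZMod.natCast_eq_zero_iff _ _).1 h0)
  let ρ : Representation F P (Fin n → F) :=
    (Matrix.toLinAlgEquiv' (R := F) (n := Fin n)).toAlgHom.toRingHom.toMonoidHom.comp
      ((Units.coeHom _).comp P.subtype)
  have hρ : ∀ g : P, ρ g = Matrix.toLinAlgEquiv' ((g : GL (Fin n) F) : Matrix (Fin n) (Fin n) F) :=
    fun g => rfl
  rw [eq_bot_iff]
  intro g hg
  rw [mem_bot]
  have h1 := main hF' hpq he hpF n (Fin n → F) P hP ρ (Nat.log 2 (n / e) + 1) (by simp)
    (by
      have h2 : n / e < 2 ^ (Nat.log 2 (n / e) + 1) := Nat.lt_pow_succ_log_self (by norm_num) _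
      exact (Nat.div_lt_iff_lt_mul he0).1 h2) g hg
  apply Subtype.ext
  apply Units.ext
  apply (Matrix.toLinAlgEquiv' (R := F) (n := Fin n)).injective
  rw [← hρ]
  ext v i
  simp [h1]

end main

end H76.DerLen
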