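import Mathlib
import Cfsg.Prelude.Def_Transfer
import Cfsg.Prelude.Def_Solvable
import Cfsg.Agent.Lib.H91.FourGroup
import Cfsg.Agent.Lib.H1.Solv
import Cfsg.Agent.Lib.H1.Cores
import Cfsg.Agent.Lib.H1.Coprime2
import Cfsg.Agent.Lib.H76.Commuting

/-! Elementary abelian 2-groups acting on groups of odd order: common eigen-elements. -/

set_option autoImplicit false
set_option linter.unusedSectionVars false
open Cfsg

namespace H76.Eigen

open Subgroup
open scoped commutatorElement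

variable {G : Type*} [Group G]

/-- `I` acts on `a` by `±1` -/
def Eig (I : Subgroup G) (a : G) : Prop := ∀ i ∈ I, i * a * i⁻¹ = a ∨ i * a * i⁻¹ = a⁻¹

theorem comm_of_sq {I : Subgroup G} (h : ∀ i ∈ I, i * i = 1) {i j : G} (hi : i ∈ I) (hj : j ∈ I) :
    i * j = j * i := by
  have h1 := h (i * j) (I.mul_mem hi hj)
  have h2 := h i hi
  have h3 := h j hj
  have hi' : i⁻¹ = i := inv_eq_of_mul_eq_one_left h2
  have hj' : j⁻¹ = j := inv_eq_of_mul_eq_one_left h3
  calc i * j = (i * j)⁻¹ := (inv_eq_of_mul_eq_one_left h1).symm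
    _ = j * i := by rw [mul_inv_rev, hi', hj']

theorem conj_pow' (i a : G) (n : ℕ) : i * a ^ n * i⁻¹ = (i * a * i⁻¹) ^ n := by
  rw [conj_pow]

theorem eig_pow {I : Subgroup G} {a : G} (h : Eig I a) (n : ℕ) : Eig I (a ^ n) := by
  intro i hi
  rcases h i hi with h | h
  · left; rw [conj_pow', h]
  · right; rw [conj_pow', h, inv_pow]

theorem sq_ne {X : Subgroup G} [Finite X] (hX : Odd (Nat.card X)) {a : G} (ha : a ∈ X)
    (h : a⁻¹ = a) : a = 1 := by
  have h1 : a ^ 2 = 1 := by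
    rw [pow_two]; nth_rewrite 1 [← h]; exact inv_mul_cancel a
  have h2 : orderOf (⟨a, ha⟩ : X) ∣ 2 := orderOf_dvd_of_pow_eq_one (Subtype.ext h1)
  have h3 : orderOf (⟨a, ha⟩ : X) ∣ Nat.card X := orderOf_dvd_natCard _
  have h4 : orderOf (⟨a, ha⟩ : X) = 1 := by
    have h5 := Nat.dvd_gcd h2 h3
    rw [Nat.coprime_two_left.2 hX] at h5
    exact Nat.dvd_one.1 h5
  exact congrArg Subtype.val (orderOf_eq_one_iff.1 h4)

/-- eigen-element inverted by `j` -/
theorem exists_eig [Finite G] {I X : Subgroup G} (hI : ∀ i ∈ I, i * i = 1)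
    (hX : Odd (Nat.card X)) (hIX : I ≤ normalizer (X : Set G)) {j : G} (hj : j ∈ I)
    (hne : ∃ x ∈ X, j * x ≠ x * j) :
    ∃ a ∈ X, Eig I a ∧ j * a * j⁻¹ = a⁻¹ ∧ (orderOf a).Prime ∧ a ≠ 1 := by
  obtain ⟨K, hK, hmax⟩ := (Set.toFinite {K : Subgroup G | K ≤ I ∧
    ∃ x ∈ X ⊓ centralizer (K : Set G), j * x ≠ x * j}).exists_maximal ⟨⊥, bot_le, by
      obtain ⟨x, hx, h⟩ := hne
      refine ⟨x, ⟨hx, ?_⟩, h⟩
      show x ∈ centralizer ((⊥ : Subgroup G) : Set G)
      rw [mem_centralizer_iff]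
      intro b hb
      rw [SetLike.mem_coe, mem_bot] at hb
      rw [hb, one_mul, mul_one]⟩
  obtain ⟨hKI, x, hx, hjx⟩ := hK
  have hmax' : ∀ k ∈ I, k ∉ K → ∀ y ∈ X, (∀ b ∈ K, b * y = y * b) → k * y = y * k →
      j * y = y * j := by
    intro k hk hkK y hy hyK hky
    by_contra hcon
    have h1 : K ⊔ zpowers k ≤ K := by
      apply hmax _ le_sup_left
      refine ⟨sup_le hKI (by rwa [zpowers_le]), y, ⟨hy, ?_⟩, hcon⟩
      have h2 : K ⊔ zpowers k ≤ centralizer {y} := by
        apply sup_le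
        · intro b hb
          exact mem_centralizer_singleton_iff.mpr (hyK b hb)
        · rw [zpowers_le]
          exact mem_centralizer_singleton_iff.mpr hky
      show y ∈ centralizer ((K ⊔ zpowers k : Subgroup G) : Set G)
      rw [mem_centralizer_iff]
      intro b hb
      exact mem_centralizer_singleton_iff.mp (h2 hb)
    exact hkK (h1 (mem_sup_right (mem_zpowers k)))
  have hxK : ∀ b ∈ K, b * x = x * b := fun b hb => (mem_centralizer_iff.mp hx.2) b hb
  -- hyperplane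
  have hyp : ∀ i ∈ I, i ∈ K ∨ i * j ∈ K := by
    intro i hi
    by_contra hcon
    push Not at hcon
    obtain ⟨h1, h2⟩ := hcon
    have hodd : Odd (Nat.card (X ⊓ centralizer (K : Set G) : Subgroup G)) :=
      Odd.of_dvd_nat hX (card_dvd_of_le inf_le_left)
    have hnorm : ∀ k ∈ I, k ∈ normalizer ((X ⊓ centralizer (K : Set G) : Subgroup G) : Set G) := by
      have h3 : I ≤ normalizer ((X ⊓ centralizer (K : Set G) : Subgroup G) : Set G) := by
        refine H1.Coprime2.le_normalizer_inf hIX (H1.Coprime2.le_normalizer_centralizer ?_)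
        apply H1.Coprime.le_normalizer_of_conj_mem
        intro a ha b hb
        rw [comm_of_sq hI ha (hKI hb), mul_inv_cancel_right]
        exact hb
      exact fun k hk => h3 hk
    have h4 := H91.FourGroup.le_of_centralizers (K := X ⊓ centralizer (K : Set G))
      (C := centralizer {j}) hodd (hI i hi) (hI j hj) (comm_of_sq hI hi hj) (hnorm i hi)
      (hnorm j hj) (fun k hk hik => mem_centralizer_singleton_iff.mpr
        (hmax' i hi h1 k hk.1 (mem_centralizer_iff.mp hk.2) hik).symm)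
      (fun k _ hjk => mem_centralizer_singleton_iff.mpr hjk.symm)
      (fun k hk hik => mem_centralizer_singleton_iff.mpr
        (hmax' (i * j) (I.mul_mem hi hj) h2 k hk.1 (mem_centralizer_iff.mp hk.2) hik).symm)
    exact hjx (mem_centralizer_singleton_iff.mp (h4 hx)).symm
  set a := x⁻¹ * (j * x * j⁻¹) with ha
  have hjj : j⁻¹ = j := inv_eq_of_mul_eq_one_left (hI j hj)
  have hja : j * a * j⁻¹ = a⁻¹ := by
    have h1 : j * a * j⁻¹ = (j * x⁻¹ * j⁻¹) * ((j * j) * x * (j⁻¹ * j⁻¹)) := by rw [ha]; group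
    rw [h1, hI j hj, hjj, hI j hj, ha, hjj]
    simp only [mul_inv_rev, inv_inv, hjj, one_mul, mul_one, mul_assoc]
  have haX : a ∈ X := X.mul_mem (X.inv_mem hx.1)
    (H1.Coprime.conj_mem_of_le_normalizer hIX hj hx.1)
  have ha1 : a ≠ 1 := by
    intro h
    rw [ha, inv_mul_eq_one] at h
    apply hjx
    exact (mul_inv_eq_iff_eq_mul.mp h.symm)
  have hKa : ∀ b ∈ K, b * a * b⁻¹ = a := by
    intro b hb
    have h1 := hxK b hb
    have h2 : b * j = j * b := comm_of_sq hI (hKI hb) hj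
    have h3 : Commute b x := h1
    have h4 : Commute b j := h2
    have h5 : Commute b a := h3.inv_right.mul_right ((h4.mul_right h3).mul_right h4.inv_right)
    rw [h5.eq, mul_inv_cancel_right]
  have hEig : Eig I a := by
    intro i hi
    rcases hyp i hi with h | h
    · exact Or.inl (hKa i h)
    · right
      have h1 := hKa _ h
      have h2 : i * a * i⁻¹ = (i * j) * (j⁻¹ * a * j) * (i * j)⁻¹ := by group
      have h3 : j⁻¹ * a * j = a⁻¹ := by
        rw [hjj]; nth_rewrite 2 [← hjj]; exact hja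
      have h4 : (i * j) * a⁻¹ * (i * j)⁻¹ = ((i * j) * a * (i * j)⁻¹)⁻¹ := by group
      rw [h2, h3, h4, h1]
  -- prime order
  have hoa : orderOf a ≠ 1 := fun h => ha1 (orderOf_eq_one_iff.1 h)
  obtain ⟨q, hq, hqd⟩ := Nat.exists_prime_and_dvd hoa
  have hord : orderOf (a ^ (orderOf a / q)) = q := by
    rw [orderOf_pow_of_dvd (Nat.div_pos (Nat.le_of_dvd (orderOf_pos a) hqd) hq.pos).ne'
      (Nat.div_dvd_of_dvd hqd), Nat.div_div_self hqd (orderOf_pos a).ne']
  refine ⟨a ^ (orderOf a / q), X.pow_mem haX _, eig_pow hEig _, ?_, ?_, ?_⟩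
  · rw [conj_pow', hja, inv_pow]
  · rw [hord]; exact hq
  · intro h
    rw [h, orderOf_one] at hord
    exact hq.one_lt.ne hord

theorem exists_eig' [Finite G] {I X : Subgroup G} (hI : ∀ i ∈ I, i * i = 1)
    (hX : Odd (Nat.card X)) (hIX : I ≤ normalizer (X : Set G)) (hne : X ≠ ⊥) :
    ∃ a ∈ X, Eig I a ∧ (orderOf a).Prime ∧ a ≠ 1 := by
  by_cases h : ∃ j ∈ I, ∃ x ∈ X, j * x ≠ x * j
  · obtain ⟨j, hj, h⟩ := h
    obtain ⟨a, h1, h2, -, h3, h4⟩ := exists_eig hI hX hIX hj h
    exact ⟨a, h1, h2, h3, h4⟩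
  · push Not at h
    obtain ⟨a, ha, ha1⟩ := (Subgroup.bot_or_exists_ne_one X).resolve_left hne
    have hoa : orderOf (a : G) ≠ 1 := fun h => ha1 (orderOf_eq_one_iff.1 h)
    obtain ⟨q, hq, hqd⟩ := Nat.exists_prime_and_dvd hoa
    have hord : orderOf ((a : G) ^ (orderOf (a : G) / q)) = q := by
      rw [orderOf_pow_of_dvd (Nat.div_pos (Nat.le_of_dvd (orderOf_pos _) hqd) hq.pos).ne'
        (Nat.div_dvd_of_dvd hqd), Nat.div_div_self hqd (orderOf_pos _).ne']
    refine ⟨(a : G) ^ (orderOf (a : G) / q), X.pow_mem ha _, ?_, ?_, ?_⟩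
    · intro i hi
      left
      rw [h i hi _ (X.pow_mem ha _), mul_inv_cancel_right]
    · rw [hord]; exact hq
    · intro h
      rw [h, orderOf_one] at hord
      exact hq.one_lt.ne hord

/-- `A × B`-lemma for an involution acting on a nilpotent group of odd order. -/
theorem axb {F A : Subgroup G} [Finite F] (hnil : Group.IsNilpotent F) (hA : A ≤ F)
    (hodd : Odd (Nat.card F)) {j : G} (hjj : j * j = 1) (hjF : j ∈ normalizer (F : Set G))
    (hjA : ∀ a ∈ A, j * a = a * j)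
    (h : ∀ x ∈ F, (∀ a ∈ A, x * a = a * x) → j * x = x * j) : ∀ x ∈ F, j * x = x * j := by
  obtain ⟨n, hn⟩ := Subgroup.nilpotent_iff_lowerCentralSeries.mp hnil
  have hji : j⁻¹ = j := inv_eq_of_mul_eq_one_left hjj
  have key : ∀ m : ℕ, m ≤ n → ∀ x ∈ (⊤ : Subgroup F).lowerCentralSeries (n - m),
      j * (x : G) = x * j := by
    intro m
    induction m with
    | zero =>
      intro _ x hx
      rw [Nat.sub_zero, hn, mem_bot] at hx
      rw [hx, OneMemClass.coe_one, mul_one, one_mul]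
    | succ m ih =>
      intro hm x hx
      have ih' := ih (by omega)
      have hs : n - m = (n - (m + 1)) + 1 := by omega
      rw [hs] at ih'
      set c := (x : G)⁻¹ * (j * x * j⁻¹) with hc
      have hjx : j * (x : G) * j⁻¹ ∈ F := (mem_normalizer_iff.mp hjF _).mp x.2
      have hcF : c ∈ F := F.mul_mem (F.inv_mem x.2) hjx
      have hcA : ∀ a ∈ A, c * a = a * c := by
        intro a ha
        have h1 : (⁅x, ⟨a, hA ha⟩⁆ : F) ∈ (⊤ : Subgroup F).lowerCentralSeries (n - (m + 1) + 1) := by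
          rw [Subgroup.lowerCentralSeries_succ]
          exact commutator_mem_commutator hx (mem_top _)
        have h2 := ih' _ h1
        have h3 : ((⁅x, ⟨a, hA ha⟩⁆ : F) : G) = (x : G) * a * (x : G)⁻¹ * a⁻¹ := rfl
        rw [h3] at h2
        have h4 := hjA a ha
        have h5 : j * a * j⁻¹ = a := by rw [h4, mul_inv_cancel_right]
        have h6 : (j * x * j⁻¹) * a * (j * x * j⁻¹)⁻¹ = (x : G) * a * (x : G)⁻¹ := by
          have h7 : j * ((x : G) * a * (x : G)⁻¹ * a⁻¹) * j⁻¹ = (x : G) * a * (x : G)⁻¹ * a⁻¹ := by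
            rw [h2, mul_inv_cancel_right]
          have h8 : j * ((x : G) * a * (x : G)⁻¹ * a⁻¹) * j⁻¹ =
              (j * x * j⁻¹) * (j * a * j⁻¹) * (j * x * j⁻¹)⁻¹ * (j * a * j⁻¹)⁻¹ := by group
          rw [h8, h5] at h7
          exact mul_right_cancel h7
        have h9 : a = (x : G)⁻¹ * ((j * x * j⁻¹) * a * (j * x * j⁻¹)⁻¹) * x := by
          rw [h6]; group
        calc c * a = (x : G)⁻¹ * (j * x * j⁻¹) * a := by rw [hc]
          _ = ((x : G)⁻¹ * ((j * x * j⁻¹) * a * (j * x * j⁻¹)⁻¹) * x) * c := by rw [hc]; group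
          _ = a * c := by rw [← h9]
      have h10 := h c hcF hcA
      have h11 : j * c * j⁻¹ = c⁻¹ := by
        have h1 : j * c * j⁻¹ = (j * (x : G)⁻¹ * j⁻¹) * ((j * j) * x * (j⁻¹ * j⁻¹)) := by
          rw [hc]; group
        rw [h1, hji, hjj, hc, hji]
        simp only [mul_inv_rev, inv_inv, hji, one_mul, mul_one, mul_assoc]
      rw [h10, mul_inv_cancel_right] at h11
      have h12 := sq_ne hodd hcF h11.symm
      rw [hc, inv_mul_eq_one] at h12
      exact (mul_inv_eq_iff_eq_mul.mp h12.symm)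
  intro x hx
  have := key n le_rfl ⟨x, hx⟩ (by rw [Nat.sub_self]; exact mem_top _)
  exact this

end H76.Eigen
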