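import Mathlib
import Cfsg.Agent.Lib.H76.Eigen

/-! Elementary abelian 2-groups of automorphisms of groups of odd order. -/

set_option autoImplicit false
set_option linter.unusedSectionVars false
open Cfsg

namespace H76.EigenAut

open Subgroup

variable {P : Type*} [Group P] [Finite P]

/-- the holomorph -/
abbrev Hol (P : Type*) [Group P] := SemidirectProduct P (MulAut P) (MonoidHom.id _)

instance : Finite (Hol P) := Finite.of_equiv _ SemidirectProduct.equivProd.symm

theorem conj_eq (i : MulAut P) (x : P) :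
    (SemidirectProduct.inr i : Hol P) * SemidirectProduct.inl x * (SemidirectProduct.inr i)⁻¹ =
      SemidirectProduct.inl (i x) := by
  rw [← map_inv, ← SemidirectProduct.inl_aut]
  rfl

theorem exists_eig_aut (hP : Odd (Nat.card P)) {I : Subgroup (MulAut P)} (hI : ∀ i ∈ I, i * i = 1)
    {X : Subgroup P} (hX : ∀ i ∈ I, ∀ x ∈ X, i x ∈ X) {j : MulAut P} (hj : j ∈ I)
    (hne : ∃ x ∈ X, j x ≠ x) :
    ∃ a ∈ X, (∀ i ∈ I, i a = a ∨ i a = a⁻¹) ∧ j a = a⁻¹ ∧ (orderOf a).Prime ∧ a ≠ 1 := by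
  let inl : P →* Hol P := SemidirectProduct.inl
  let inr : MulAut P →* Hol P := SemidirectProduct.inr
  have hinl : Function.Injective inl := SemidirectProduct.inl_injective
  obtain ⟨x, hx, hxj⟩ := hne
  obtain ⟨a, ha, h1, h2, h3, h4⟩ := H76.Eigen.exists_eig (I := I.map inr) (X := X.map inl)
    (by
      rintro _ ⟨i, hi, rfl⟩
      rw [← map_mul, hI i hi, map_one])
    (by
      rw [card_map_of_injective hinl]
      exact Odd.of_dvd_nat hP (card_subgroup_dvd_card X))
    (by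
      apply H1.Coprime.le_normalizer_of_conj_mem
      rintro _ ⟨i, hi, rfl⟩ _ ⟨x, hx, rfl⟩
      rw [show inr i * inl x * (inr i)⁻¹ = inl (i x) from conj_eq i x]
      exact ⟨i x, hX i hi x hx, rfl⟩)
    (j := inr j) ⟨j, hj, rfl⟩
    ⟨inl x, ⟨x, hx, rfl⟩, fun h => hxj (by
      apply hinl
      rw [← conj_eq j x]
      exact mul_inv_eq_of_eq_mul h)⟩
  obtain ⟨a, haX, rfl⟩ := ha
  refine ⟨a, haX, ?_, ?_, ?_, ?_⟩
  · intro i hi
    rcases h1 (inr i) ⟨i, hi, rfl⟩ with h | h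
    · left
      apply hinl
      rw [← h]
      exact (conj_eq i a).symm
    · right
      apply hinl
      rw [map_inv, ← h]
      exact (conj_eq i a).symm
  · apply hinl
    rw [map_inv, ← h2]
    exact (conj_eq j a).symm
  · rwa [orderOf_injective inl hinl] at h3
  · rintro rfl
    exact h4 (map_one _)

theorem exists_eig_aut' (hP : Odd (Nat.card P)) {I : Subgroup (MulAut P)} (hI : ∀ i ∈ I, i * i = 1)
    {X : Subgroup P} (hX : ∀ i ∈ I, ∀ x ∈ X, i x ∈ X) (hne : X ≠ ⊥) :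
    ∃ a ∈ X, (∀ i ∈ I, i a = a ∨ i a = a⁻¹) ∧ (orderOf a).Prime ∧ a ≠ 1 := by
  by_cases h : ∃ j ∈ I, ∃ x ∈ X, j x ≠ x
  · obtain ⟨j, hj, h⟩ := h
    obtain ⟨a, h1, h2, -, h3, h4⟩ := exists_eig_aut hP hI hX hj h
    exact ⟨a, h1, h2, h3, h4⟩
  · push Not at h
    obtain ⟨a, ha, ha1⟩ := (Subgroup.bot_or_exists_ne_one X).resolve_left hne
    have hoa : orderOf (a : P) ≠ 1 := fun h => ha1 (orderOf_eq_one_iff.1 h)
    obtain ⟨q, hq, hqd⟩ := Nat.exists_prime_and_dvd hoa
    have hord : orderOf ((a : P) ^ (orderOf (a : P) / q)) = q := by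
      rw [orderOf_pow_of_dvd (Nat.div_pos (Nat.le_of_dvd (orderOf_pos _) hqd) hq.pos).ne'
        (Nat.div_dvd_of_dvd hqd), Nat.div_div_self hqd (orderOf_pos _).ne']
    refine ⟨(a : P) ^ (orderOf (a : P) / q), X.pow_mem ha _, ?_, ?_, ?_⟩
    · intro i hi
      left
      exact h i hi _ (X.pow_mem ha _)
    · rw [hord]; exact hq
    · intro h
      rw [h, orderOf_one] at hord
      exact hq.one_lt.ne hord

/-- generation by the fixed points of a four-group. -/
theorem eq_top_of_fixed (hP : Odd (Nat.card P)) {s t : MulAut P} (hs : s * s = 1) (ht : t * t = 1)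
    (hst : s * t = t * s) {C : Subgroup P} (h1 : ∀ x, s x = x → x ∈ C) (h2 : ∀ x, t x = x → x ∈ C)
    (h3 : ∀ x, (s * t) x = x → x ∈ C) : C = ⊤ := by
  rw [eq_top_iff]
  intro x _
  have hs' : ∀ x, s (s x) = x := fun x => by rw [← MulAut.mul_apply, hs, MulAut.one_apply]
  have ht' : ∀ x, t (t x) = x := fun x => by rw [← MulAut.mul_apply, ht, MulAut.one_apply]
  obtain ⟨c, j, d, hc, hj, hd, rfl⟩ := H91.FourGroup.exists_decomp hP s.toMonoidHom t.toMonoidHom
    hs' ht' (fun x => by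
      have := congrArg (fun f : MulAut P => f x) hst
      exact this) x
  exact C.mul_mem (C.mul_mem (C.mul_mem (h1 c hc) (h3 j hj)) (h2 d hd)) (h3 j hj)

/-- cyclic fixed points -/
def Cyc (T : MulAut P) : Prop := ∃ g : P, ∀ x : P, (T x = x ↔ x ∈ zpowers g)

theorem mem_zpowers_of_cyclic {C : Type*} [Group C] [Finite C] [IsCyclic C] {p : ℕ}
    (hp : p.Prime) {x y : C} (hox : orderOf x = p) (hoy : orderOf y = p) : y ∈ zpowers x := by
  classical
  let _ := Fintype.ofFinite C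
  have h1 := IsCyclic.card_pow_eq_one_le (α := C) hp.pos
  have h2 : (zpowers x : Set C).toFinset ⊆ Finset.univ.filter (fun a : C => a ^ p = 1) := by
    intro a ha
    rw [Set.mem_toFinset] at ha
    rw [Finset.mem_filter]
    refine ⟨Finset.mem_univ _, ?_⟩
    obtain ⟨m, rfl⟩ := ha
    simp only
    rw [← zpow_natCast, ← zpow_mul, mul_comm, zpow_mul, zpow_natCast, ← hox, pow_orderOf_eq_one,
      one_zpow]
  have h3 : ((zpowers x : Set C).toFinset).card = p := by
    rw [Set.toFinset_card, ← Nat.card_eq_fintype_card, ← hox]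
    exact Nat.card_zpowers x
  have h4 := Finset.eq_of_subset_of_card_le h2 (by rw [h3]; exact h1)
  have h5 : y ∈ Finset.univ.filter (fun a : C => a ^ p = 1) := by
    rw [Finset.mem_filter]
    exact ⟨Finset.mem_univ _, by rw [← hoy, pow_orderOf_eq_one]⟩
  rw [← h4, Set.mem_toFinset] at h5
  exact h5

theorem mem_zpowers_of_orderOf_eq {g x y : P} {p : ℕ} (hp : p.Prime) (hx : x ∈ zpowers g)
    (hy : y ∈ zpowers g) (hox : orderOf x = p) (hoy : orderOf y = p) : y ∈ zpowers x := by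
  have h1 := mem_zpowers_of_cyclic (C := zpowers g) hp (x := ⟨x, hx⟩) (y := ⟨y, hy⟩)
    (by rw [Subgroup.orderOf_mk]; exact hox) (by rw [Subgroup.orderOf_mk]; exact hoy)
  obtain ⟨m, hm⟩ := h1
  exact ⟨m, congrArg Subtype.val hm⟩

theorem not_cyc {p : ℕ} (hp : p.Prime) (hp2 : p ≠ 2) {T T' : MulAut P} {x y : P} (hx : T x = x)
    (hy : T y = y) (hox : orderOf x = p) (hoy : orderOf y = p) (hx' : T' x = x)
    (hy' : T' y = y⁻¹) : ¬ Cyc T := by
  rintro ⟨g, hg⟩
  have h1 := mem_zpowers_of_orderOf_eq hp ((hg x).1 hx) ((hg y).1 hy) hox hoy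
  obtain ⟨m, rfl⟩ := h1
  have h2 : T' (x ^ m) = x ^ m := by rw [map_zpow, hx']
  simp only at hy'
  rw [h2] at hy'
  have h3 : (x ^ m) ^ 2 = 1 := by
    rw [pow_two]
    nth_rewrite 1 [hy']
    exact inv_mul_cancel _
  have h4 := orderOf_dvd_of_pow_eq_one h3
  simp only at hoy
  rw [hoy] at h4
  exact hp2 ((Nat.prime_dvd_prime_iff_eq hp Nat.prime_two).1 h4)

end H76.EigenAut
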