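import Mathlib

/-! Free modules for a group `H` acting semilinearly over a commutative ring with trivial inertia. -/

set_option autoImplicit false
set_option linter.unusedSectionVars false

namespace H76.FreeOp

universe u v w

section op

variable {k : Type u} {V : Type v} [Field k] [AddCommGroup V] [Module k V]
variable {H : Type w} [Group H] [Fintype H]

/-- operator form of freeness -/
def Free (T : Representation k H V) : Prop :=
  ∃ π : V →ₗ[k] V, (∀ v, ∑ h : H, T h (π (T h⁻¹ v)) = v) ∧ ∀ h, h ≠ 1 → ∀ v, π (T h (π v)) = 0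

theorem T_mul (T : Representation k H V) (g h : H) (v : V) : T (g * h) v = T g (T h v) := by
  rw [map_mul]; rfl

theorem T_one (T : Representation k H V) (v : V) : T 1 v = v := by rw [map_one]; rfl

theorem idem {T : Representation k H V} {π : V →ₗ[k] V}
    (h1 : ∀ v, ∑ h : H, T h (π (T h⁻¹ v)) = v) (h2 : ∀ h, h ≠ 1 → ∀ v, π (T h (π v)) = 0) (v : V) :
    π (π v) = π v := by
  have h3 := h1 (π v)
  rw [Fintype.sum_eq_single 1] at h3
  · rw [inv_one, T_one, T_one] at h3
    exact h3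
  · intro h hh
    rw [h2 h⁻¹ (inv_ne_one.2 hh), map_zero]

theorem exists_internal [DecidableEq H] (T : Representation k H V) (hT : Free T) :
    ∃ W : Submodule k V, DirectSum.IsInternal (fun h : H => W.map (T h)) := by
  obtain ⟨π, h1, h2⟩ := hT
  have h3 := idem h1 h2
  refine ⟨LinearMap.range π, ?_⟩
  rw [DirectSum.isInternal_submodule_iff_iSupIndep_and_iSup_eq_top]
  constructor
  · rw [iSupIndep_iff_finsetSum_eq_zero_imp_eq_zero]
    intro s v hv hs g hg
    have h4 : ∀ h : H, h ∈ s → ∃ w, v h = T h (π w) := by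
      intro h hh
      obtain ⟨y, ⟨w, rfl⟩, hw⟩ := hv h hh
      exact ⟨w, hw.symm⟩
    obtain ⟨w, hw⟩ := h4 g hg
    have h5 := congrArg (fun y => π (T g⁻¹ y)) hs
    simp only [map_sum, map_zero] at h5
    rw [Finset.sum_eq_single g] at h5
    · rw [hw, ← T_mul, inv_mul_cancel, T_one, h3] at h5
      rw [hw, h5, map_zero]
    · intro h hh hne
      obtain ⟨w', hw'⟩ := h4 h hh
      rw [hw', ← T_mul]
      apply h2
      intro h6
      exact hne (inv_mul_eq_one.1 h6).symm
    · intro hno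
      exact absurd hg hno
  · rw [eq_top_iff]
    intro v _
    rw [← h1 v]
    refine Submodule.sum_mem _ fun h _ => ?_
    exact Submodule.mem_iSup_of_mem h ⟨_, ⟨_, rfl⟩, rfl⟩

/-- gluing along an equivariant idempotent -/
theorem glue (T : Representation k H V) (e : V →ₗ[k] V) (he : ∀ v, e (e v) = e v)
    (hcomm : ∀ h v, e (T h v) = T h (e v))
    (V₀ V₁ : Submodule k V) (h0 : ∀ v, v ∈ V₀ ↔ e v = v) (h1 : ∀ v, v ∈ V₁ ↔ e v = 0)
    (T₀ : Representation k H V₀) (T₁ : Representation k H V₁)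
    (hT0 : ∀ h (v : V₀), ((T₀ h v : V₀) : V) = T h v) (hT1 : ∀ h (v : V₁), ((T₁ h v : V₁) : V) = T h v)
    (hf0 : Free T₀) (hf1 : Free T₁) : Free T := by
  obtain ⟨π₀, a0, b0⟩ := hf0
  obtain ⟨π₁, a1, b1⟩ := hf1
  have m0 : ∀ v, e v ∈ V₀ := fun v => by rw [h0, he]
  have m1 : ∀ v, v - e v ∈ V₁ := fun v => by
    rw [h1, map_sub, he, sub_self]
  let p0 : V →ₗ[k] V₀ := e.codRestrict V₀ m0
  let p1 : V →ₗ[k] V₁ := (LinearMap.id - e).codRestrict V₁ m1
  have hp0 : ∀ v, ((p0 v : V₀) : V) = e v := fun v => rfl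
  have hp1 : ∀ v, ((p1 v : V₁) : V) = v - e v := fun v => rfl
  have e0 : ∀ v : V₀, e v = v := fun v => (h0 v).1 v.2
  have e1 : ∀ v : V₁, e v = 0 := fun v => (h1 v).1 v.2
  have q00 : ∀ v : V₀, p0 v = v := fun v => Subtype.ext (by rw [hp0, e0])
  have q01 : ∀ v : V₁, p0 v = 0 := fun v => Subtype.ext (by rw [hp0, e1]; rfl)
  have q10 : ∀ v : V₀, p1 v = 0 := fun v => Subtype.ext (by rw [hp1, e0, sub_self]; rfl)
  have q11 : ∀ v : V₁, p1 v = v := fun v => Subtype.ext (by rw [hp1, e1, sub_zero])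
  have c0 : ∀ h v, p0 (T h v) = T₀ h (p0 v) := fun h v => Subtype.ext (by
    rw [hp0, hT0, hp0, hcomm])
  have c1 : ∀ h v, p1 (T h v) = T₁ h (p1 v) := fun h v => Subtype.ext (by
    rw [hp1, hT1, hp1, hcomm, map_sub])
  let π : V →ₗ[k] V := V₀.subtype ∘ₗ π₀ ∘ₗ p0 + V₁.subtype ∘ₗ π₁ ∘ₗ p1
  have hπ : ∀ v, π v = (π₀ (p0 v) : V) + (π₁ (p1 v) : V) := fun v => rfl
  refine ⟨π, ?_, ?_⟩
  · intro v
    have s0 : ∑ h : H, T h ((π₀ (p0 (T h⁻¹ v)) : V₀) : V) = e v := by
      have := congrArg (V₀.subtype) (a0 (p0 v))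
      rw [map_sum] at this
      rw [← hp0, ← Submodule.subtype_apply, ← this]
      refine Finset.sum_congr rfl fun h _ => ?_
      rw [c0, Submodule.subtype_apply, hT0]
    have s1 : ∑ h : H, T h ((π₁ (p1 (T h⁻¹ v)) : V₁) : V) = v - e v := by
      have := congrArg (V₁.subtype) (a1 (p1 v))
      rw [map_sum] at this
      rw [← hp1, ← Submodule.subtype_apply, ← this]
      refine Finset.sum_congr rfl fun h _ => ?_
      rw [c1, Submodule.subtype_apply, hT1]
    have : ∀ h : H, T h (π (T h⁻¹ v)) =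
        T h ((π₀ (p0 (T h⁻¹ v)) : V₀) : V) + T h ((π₁ (p1 (T h⁻¹ v)) : V₁) : V) := by
      intro h
      rw [hπ, map_add]
    simp only [this]
    rw [Finset.sum_add_distrib, s0, s1]
    abel
  · intro h hh v
    have t0 : p0 (T h (π v)) = T₀ h (π₀ (p0 v)) := by
      rw [c0, hπ, map_add, q00, q01, add_zero]
    have t1 : p1 (T h (π v)) = T₁ h (π₁ (p1 v)) := by
      rw [c1, hπ, map_add, q10, q11, zero_add]
    rw [hπ, t0, t1, b0 h hh, b1 h hh]
    simp

end op

section ring

variable {R : Type u} [CommRing R] {H : Type w} [Group H] [Fintype H] [DecidableEq H]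
  [MulSemiringAction H R]

/-- the group matrix -/
def gm (θ : R) : Matrix H H R := Matrix.of fun γ δ => (γ * δ) • θ

theorem exists_dual (θ : R) (hθ : IsUnit (gm (H := H) θ).det) :
    ∃ η : R, (∀ ε : H, ∑ γ : H, (γ • η) * ((γ * ε) • θ) = if ε = 1 then 1 else 0) ∧
      (∀ ε : H, ∑ δ : H, (δ • θ) * ((ε * δ) • η) = if ε = 1 then 1 else 0) := by
  have hu : IsUnit (gm (H := H) θ) := (Matrix.isUnit_iff_isUnit_det _).2 hθ
  obtain ⟨N, hN⟩ := hu.exists_left_inv
  have hN1 : ∀ δ : H, ∑ γ : H, N 1 γ * ((γ * δ) • θ) = if δ = 1 then 1 else 0 := by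
    intro δ
    have := congrFun (congrFun hN 1) δ
    rw [Matrix.mul_apply, Matrix.one_apply] at this
    simp only [gm, Matrix.of_apply] at this
    rw [this]
    simp only [eq_comm]
  -- uniqueness of the row
  have huniq : ∀ y : H → R, (∀ δ : H, ∑ γ : H, y γ * ((γ * δ) • θ) = if δ = 1 then 1 else 0) →
      y = N 1 := by
    intro y hy
    obtain ⟨N', hN'⟩ := hu.exists_right_inv
    have h1 : Matrix.vecMul y (gm θ) = Matrix.vecMul (N 1) (gm θ) := by
      ext δ
      simp only [Matrix.vecMul, dotProduct, gm, Matrix.of_apply]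
      rw [hy δ, hN1 δ]
    have h2 := congrArg (fun z => Matrix.vecMul z N') h1
    simp only [Matrix.vecMul_vecMul, hN', Matrix.vecMul_one] at h2
    exact h2
  have hrow : ∀ α : H, N 1 α = α • (N 1 1) := by
    intro α
    have h1 := huniq (fun γ => α • N 1 (α⁻¹ * γ)) (by
      intro δ
      have h2 := congrArg (fun r => α • r) (hN1 δ)
      simp only [Finset.smul_sum, smul_mul'] at h2
      have h3 : ∑ γ : H, α • N 1 (α⁻¹ * γ) * (γ * δ) • θ =
          ∑ γ : H, α • N 1 γ * α • (γ * δ) • θ := by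
        symm
        refine Fintype.sum_equiv (Equiv.mulLeft α) _ _ fun γ => ?_
        simp only [Equiv.coe_mulLeft, inv_mul_cancel_left, smul_smul, mul_assoc]
      rw [h3, h2]
      split_ifs
      · rw [smul_one]
      · rw [smul_zero])
    have h4 := congrFun h1 α
    simp only [inv_mul_cancel] at h4
    exact h4.symm
  refine ⟨N 1 1, ?_, ?_⟩
  · intro ε
    rw [← hN1 ε]
    refine Finset.sum_congr rfl fun γ _ => ?_
    rw [← hrow]
  · have hP : (Matrix.of fun δ γ : H => (γ * δ) • (N 1 1)) * gm (H := H) θ = 1 := by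
      ext δ δ'
      rw [Matrix.mul_apply, Matrix.one_apply]
      simp only [gm, Matrix.of_apply]
      have h5 : ∑ γ : H, γ • N 1 1 * (γ * (δ⁻¹ * δ')) • θ = if δ⁻¹ * δ' = 1 then 1 else 0 := by
        rw [← hN1 (δ⁻¹ * δ')]
        refine Finset.sum_congr rfl fun γ _ => ?_
        rw [← hrow]
      have h6 : ∑ γ : H, (γ * δ) • N 1 1 * (γ * δ') • θ =
          ∑ γ : H, γ • N 1 1 * (γ * (δ⁻¹ * δ')) • θ := by
        refine Fintype.sum_equiv (Equiv.mulRight δ) _ _ fun γ => ?_
        simp only [Equiv.coe_mulRight]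
        congr 2
        group
      rw [h6, h5]
      simp only [inv_mul_eq_one]
    have hP' := mul_eq_one_comm.1 hP
    intro ε
    have h7 := congrFun (congrFun hP' 1) ε
    rw [Matrix.mul_apply, Matrix.one_apply] at h7
    simp only [gm, Matrix.of_apply, one_mul] at h7
    rw [h7]
    simp only [eq_comm]

variable {k : Type*} {V : Type*} [Field k] [AddCommGroup V] [Module k V] [Module R V]
  [SMulCommClass k R V]

theorem free_of_dual (T : Representation k H V) (hT : ∀ h (r : R) v, T h (r • v) = (h • r) • T h v)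
    (θ η : R) (h1 : ∀ ε : H, ∑ γ : H, (γ • η) * ((γ * ε) • θ) = if ε = 1 then 1 else 0)
    (h2 : ∀ ε : H, ∑ δ : H, (δ • θ) * ((ε * δ) • η) = if ε = 1 then 1 else 0) : Free T := by
  let u : V →ₗ[k] V :=
    { toFun := fun v => ∑ γ : H, (γ • η) • T γ v
      map_add' := by
        intro v w
        rw [← Finset.sum_add_distrib]
        refine Finset.sum_congr rfl fun γ _ => ?_
        rw [map_add, smul_add]
      map_smul' := by
        intro c v
        rw [RingHom.id_apply, Finset.smul_sum]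
        refine Finset.sum_congr rfl fun γ _ => ?_
        rw [map_smul, ← smul_comm] }
  let π : V →ₗ[k] V :=
    { toFun := fun v => θ • u v
      map_add' := by intro v w; rw [map_add, smul_add]
      map_smul' := by intro c v; rw [map_smul, RingHom.id_apply, ← smul_comm] }
  have hu : ∀ v, u v = ∑ γ : H, (γ • η) • T γ v := fun v => rfl
  have hπ : ∀ v, π v = θ • u v := fun v => rfl
  have hinv : ∀ g v, T g (u v) = u v := by
    intro g v
    rw [hu, map_sum]
    refine Fintype.sum_equiv (Equiv.mulLeft g) _ _ fun γ => ?_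
    rw [hT, smul_smul, ← T_mul]
    rfl
  refine ⟨π, ?_, ?_⟩
  · intro v
    have h3 : ∀ h : H, T h (π (T h⁻¹ v)) = ∑ γ : H, ((h • θ) * ((γ * h) • η)) • T γ v := by
      intro h
      rw [hπ, hT, hinv, hu, Finset.smul_sum]
      refine Fintype.sum_equiv (Equiv.mulRight h⁻¹) _ _ fun γ => ?_
      rw [← T_mul, smul_smul]
      simp only [Equiv.coe_mulRight, inv_mul_cancel_right]
    simp only [h3]
    rw [Finset.sum_comm]
    simp only [← Finset.sum_smul]
    simp only [h2]
    rw [Fintype.sum_eq_single 1]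
    · rw [if_pos rfl, one_smul, T_one]
    · intro γ hγ
      rw [if_neg hγ, zero_smul]
  · intro h hh v
    have h4 : u (T h (π v)) = 0 := by
      rw [hu]
      have h5 : ∀ γ : H, (γ • η) • T γ (T h (π v)) = ((γ • η) * ((γ * h) • θ)) • u v := by
        intro γ
        rw [← T_mul, hπ, hT, hinv, smul_smul]
      simp only [h5]
      rw [← Finset.sum_smul, h1, if_neg hh, zero_smul]
    rw [hπ, h4, smul_zero]

end ring

end H76.FreeOp
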