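import Mathlib
import Cfsg.Agent.Lib.H76.FreeOp

/-! Existence of a "normal basis element" in a commutative ring with finitely many maximal ideals
on which a finite group acts with trivial inertia. -/

set_option autoImplicit false
set_option linter.unusedSectionVars false

namespace H76.FreeOp

universe u v w

open scoped Pointwise

/-- normal bases for a finite group of automorphisms of a field -/
theorem exists_normal (L : Type u) [Field L] (D : Type w) [Group D] [Fintype D]
    [MulSemiringAction D L] [FaithfulSMul D L] :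
    ∃ θ : L, ∀ c : D → L, (∀ d' : D, ∑ d : D, c d * ((d * d') • θ) = 0) → ∀ d, c d = 0 := by
  let b := IsGalois.normalBasis (FixedPoints.subfield D L) L
  refine ⟨b 1, fun c hc => ?_⟩
  let Φ : L →ₗ[FixedPoints.subfield D L] L :=
    ∑ d : D, c d • (MulSemiringAction.toAlgHom (FixedPoints.subfield D L) L d).toLinearMap
  have hΦ : ∀ y, Φ y = ∑ d : D, c d * (d • y) := by
    intro y
    simp [Φ, LinearMap.sum_apply]
  have h0 : Φ = 0 := by
    apply b.ext
    intro σ
    obtain ⟨d', hd'⟩ := FixedPoints.toAlgAut_surjective D L σ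
    have h1 : b σ = d' • b 1 := by
      rw [IsGalois.normalBasis_apply σ, ← hd']
      rfl
    rw [hΦ, h1, LinearMap.zero_apply, ← hc d']
    refine Finset.sum_congr rfl fun d _ => ?_
    rw [smul_smul]
  have hli : LinearIndependent L (fun d : D => ((MulSemiringAction.toRingHom D L d : L →* L) : L → L)) := by
    have h2 := linearIndependent_monoidHom L L
    have h3 : Function.Injective (fun d : D => (MulSemiringAction.toRingHom D L d : L →* L)) := by
      intro d d' h
      apply FaithfulSMul.eq_of_smul_eq_smul (α := L)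
      intro y
      exact DFunLike.congr_fun h y
    exact h2.comp _ h3
  rw [Fintype.linearIndependent_iff] at hli
  apply hli c
  ext y
  have h4 := hΦ y
  rw [h0, LinearMap.zero_apply] at h4
  rw [Finset.sum_apply, Pi.zero_apply, h4]
  refine Finset.sum_congr rfl fun d _ => ?_
  rfl

section quot

variable {R : Type u} [CommRing R] {H : Type w} [Group H] [Fintype H] [MulSemiringAction H R]

/-- the decomposition group acts on the residue field -/
noncomputable def decHom (m : Ideal R) : MulAction.stabilizer H m →* RingAut (R ⧸ m) where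
  toFun d := Ideal.quotientEquiv m m (MulSemiringAction.toRingEquiv H R d) (by
    have := d.2
    rw [MulAction.mem_stabilizer_iff, Ideal.pointwise_smul_def] at this
    exact this.symm)
  map_one' := by
    ext x
    obtain ⟨r, rfl⟩ := Ideal.Quotient.mk_surjective x
    show Ideal.Quotient.mk m ((1 : H) • r) = Ideal.Quotient.mk m r
    rw [one_smul]
  map_mul' d e := by
    ext x
    obtain ⟨r, rfl⟩ := Ideal.Quotient.mk_surjective x
    show Ideal.Quotient.mk m (((d : H) * (e : H)) • r) = Ideal.Quotient.mk m ((d : H) • (e : H) • r)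
    rw [mul_smul]

theorem decHom_mk (m : Ideal R) (d : MulAction.stabilizer H m) (r : R) :
    decHom m d (Ideal.Quotient.mk m r) = Ideal.Quotient.mk m ((d : H) • r) := rfl

theorem exists_normal_quot (m : Ideal R) [m.IsMaximal]
    (hin : ∀ d : H, d • m = m → d ≠ 1 → ∃ r : R, d • r - r ∉ m) [Fintype (MulAction.stabilizer H m)] :
    ∃ θ : R, ∀ c : MulAction.stabilizer H m → R ⧸ m,
      (∀ d' : MulAction.stabilizer H m, ∑ d : MulAction.stabilizer H m,
        c d * Ideal.Quotient.mk m (((d * d' : MulAction.stabilizer H m) : H) • θ) = 0) →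
      ∀ d, c d = 0 := by
  let _ : Field (R ⧸ m) := Ideal.Quotient.field m
  let _ : MulSemiringAction (MulAction.stabilizer H m) (R ⧸ m) :=
    MulSemiringAction.compHom (R ⧸ m) (decHom m)
  have hsm : ∀ (d : MulAction.stabilizer H m) (r : R),
      d • (Ideal.Quotient.mk m r) = Ideal.Quotient.mk m ((d : H) • r) := fun d r => rfl
  have : FaithfulSMul (MulAction.stabilizer H m) (R ⧸ m) := by
    constructor
    intro d e hde
    by_contra hne
    have h1 : ((e⁻¹ * d : MulAction.stabilizer H m) : H) ≠ 1 := by
      intro h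
      apply hne
      have : e⁻¹ * d = 1 := Subtype.ext h
      exact (inv_mul_eq_one.1 this).symm
    obtain ⟨r, hr⟩ := hin _ (e⁻¹ * d : MulAction.stabilizer H m).2 h1
    apply hr
    rw [← Ideal.Quotient.eq, ← hsm, mul_smul, hde, inv_smul_smul]
  obtain ⟨θ, hθ⟩ := exists_normal (R ⧸ m) (MulAction.stabilizer H m)
  obtain ⟨t, rfl⟩ := Ideal.Quotient.mk_surjective θ
  refine ⟨t, fun c hc => hθ c fun d' => ?_⟩
  rw [← hc d']
  rfl

/-- **Theorem D**: existence of a good element -/
theorem exists_theta [DecidableEq H] [Finite (MaximalSpectrum R)]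
    (hin : ∀ m : Ideal R, m.IsMaximal → ∀ d : H, d • m = m → d ≠ 1 → ∃ r : R, d • r - r ∉ m) :
    ∃ θ : R, IsUnit (gm (H := H) θ).det := by
  classical
  -- orbit relation on maximal ideals
  have hmax : ∀ (g : H) (m : Ideal R), m.IsMaximal → (g • m).IsMaximal := by
    intro g m hm
    rw [Ideal.pointwise_smul_eq_comap]
    exact Ideal.comap_isMaximal_of_equiv _
  let act : H → MaximalSpectrum R → MaximalSpectrum R := fun g m => ⟨g • m.asIdeal, hmax g _ m.isMaximal⟩
  let rel : Setoid (MaximalSpectrum R) :=
    { r := fun m n => ∃ g : H, g • m.asIdeal = n.asIdeal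
      iseqv := ⟨fun m => ⟨1, one_smul _ _⟩, fun {m n} ⟨g, hg⟩ => ⟨g⁻¹, by rw [← hg, inv_smul_smul]⟩,
        fun {l m n} ⟨g, hg⟩ ⟨h, hh⟩ => ⟨h * g, by rw [mul_smul, hg, hh]⟩⟩ }
  let rep : MaximalSpectrum R → MaximalSpectrum R := fun m => (Quotient.mk rel m).out
  have hrep : ∀ m, ∃ g : H, g • (rep m).asIdeal = m.asIdeal := fun m => Quotient.mk_out (s := rel) m
  have hrep2 : ∀ m n : MaximalSpectrum R, (∃ g : H, g • m.asIdeal = n.asIdeal) → rep m = rep n := by
    intro m n h
    have : Quotient.mk rel m = Quotient.mk rel n := Quotient.sound h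
    show (Quotient.mk rel m).out = (Quotient.mk rel n).out
    rw [this]
  -- local elements
  have hloc : ∀ m : MaximalSpectrum R, ∃ θ : R, ∀ c : MulAction.stabilizer H m.asIdeal → R ⧸ m.asIdeal,
      (∀ d' : MulAction.stabilizer H m.asIdeal, ∑ d : MulAction.stabilizer H m.asIdeal,
        c d * Ideal.Quotient.mk m.asIdeal (((d * d' : MulAction.stabilizer H m.asIdeal) : H) • θ) = 0) →
      ∀ d, c d = 0 := by
    intro m
    have := m.isMaximal
    exact exists_normal_quot m.asIdeal (hin m.asIdeal m.isMaximal)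
  choose t ht using hloc
  have hcop : Pairwise (fun m n : MaximalSpectrum R => IsCoprime m.asIdeal n.asIdeal) := by
    intro m n hmn
    rw [Ideal.isCoprime_iff_sup_eq]
    exact m.isMaximal.coprime_of_ne n.isMaximal (fun h => hmn (MaximalSpectrum.ext h))
  obtain ⟨θ, hθ⟩ := Ideal.exists_forall_sub_mem_ideal (I := fun m : MaximalSpectrum R => m.asIdeal)
    hcop (fun m => if rep m = m then t m else 0)
  refine ⟨θ, ?_⟩
  -- the determinant is outside every maximal ideal
  have hshift : ∀ (g : H), g • (gm (H := H) θ).det ∈ ({(gm (H := H) θ).det, -(gm (H := H) θ).det} : Set R) := by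
    intro g
    have h1 : g • (gm (H := H) θ).det = (Matrix.submatrix (gm (H := H) θ) (Equiv.mulLeft g) id).det := by
      have h2 := RingHom.map_det (MulSemiringAction.toRingHom H R g) (gm (H := H) θ)
      have h3 : (MulSemiringAction.toRingHom H R g) (gm (H := H) θ).det = g • (gm (H := H) θ).det := rfl
      rw [← h3, h2]
      congr 1
      ext γ δ
      show g • (γ * δ) • θ = (g * γ * δ) • θ
      rw [smul_smul, mul_assoc]
    rw [h1, Matrix.det_permute]
    rcases Int.units_eq_one_or (Equiv.Perm.sign (Equiv.mulLeft g)) with h | h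
    · rw [h]; left; simp
    · rw [h]; right; simp
  have hshift' : ∀ (g : H) (m : Ideal R), (gm (H := H) θ).det ∈ g • m → (gm (H := H) θ).det ∈ m := by
    intro g m h
    rw [Ideal.mem_pointwise_smul_iff_inv_smul_mem] at h
    rcases hshift g⁻¹ with h2 | h2
    · rwa [h2] at h
    · rw [Set.mem_singleton_iff] at h2
      rw [h2] at h
      exact neg_mem_iff.1 h
  have key : ∀ m : MaximalSpectrum R, rep m = m → (gm (H := H) θ).det ∉ m.asIdeal := by
    intro m hm hdet
    have := m.isMaximal
    let _ : Field (R ⧸ m.asIdeal) := Ideal.Quotient.field m.asIdeal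
    have h1 : ((gm (H := H) θ).map (Ideal.Quotient.mk m.asIdeal)).det = 0 := by
      have h2 := RingHom.map_det (Ideal.Quotient.mk m.asIdeal) (gm (H := H) θ)
      rw [Ideal.Quotient.eq_zero_iff_mem.2 hdet] at h2
      exact h2.symm
    obtain ⟨c, hc0, hc⟩ := Matrix.exists_vecMul_eq_zero_iff.2 h1
    apply hc0
    have hc' : ∀ δ : H, ∑ γ : H, c γ * Ideal.Quotient.mk m.asIdeal ((γ * δ) • θ) = 0 := by
      intro δ
      have := congrFun hc δ
      simpa [Matrix.vecMul, dotProduct, gm] using this
    -- values of `θ` modulo `m`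
    have hin' : ∀ g : H, g • m.asIdeal = m.asIdeal →
        Ideal.Quotient.mk m.asIdeal (g • θ) = Ideal.Quotient.mk m.asIdeal (g • t m) := by
      intro g hg
      rw [Ideal.Quotient.eq, ← smul_sub, ← hg, Ideal.smul_mem_pointwise_smul_iff]
      have := hθ m
      rwa [if_pos hm] at this
    have hout : ∀ g : H, g • m.asIdeal ≠ m.asIdeal → Ideal.Quotient.mk m.asIdeal (g • θ) = 0 := by
      intro g hg
      rw [Ideal.Quotient.eq_zero_iff_mem]
      let n : MaximalSpectrum R := act g⁻¹ m
      have hn : n.asIdeal = g⁻¹ • m.asIdeal := rfl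
      have h3 : rep n = m := by
        rw [← hrep2 m n ⟨g⁻¹, rfl⟩]
        exact hm
      have h4 : rep n ≠ n := by
        rw [h3]
        intro h
        apply hg
        have h5 : m.asIdeal = g⁻¹ • m.asIdeal := by rw [← hn, ← h]
        conv_lhs => rw [h5]
        rw [smul_inv_smul]
      have h6 := hθ n
      rw [if_neg h4, sub_zero, hn, Ideal.mem_inv_pointwise_smul_iff] at h6
      exact h6
    have hz : ∀ δ₀ : H, ∀ d : MulAction.stabilizer H m.asIdeal, c ((d : H) * δ₀⁻¹) = 0 := by
      intro δ₀
      apply ht m (fun d => c ((d : H) * δ₀⁻¹))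
      intro d'
      have h7 := hc' (δ₀ * d')
      rw [← Fintype.sum_equiv (Equiv.mulRight δ₀⁻¹) (fun g : H => c (g * δ₀⁻¹) *
        Ideal.Quotient.mk m.asIdeal ((g * d') • θ)) _ (by
          intro g
          simp only [Equiv.coe_mulRight]
          congr 3
          group)] at h7
      rw [← h7]
      symm
      have h8 : ∑ g : H, c (g * δ₀⁻¹) * Ideal.Quotient.mk m.asIdeal ((g * d') • θ) =
          ∑ g ∈ Finset.univ.filter (fun g : H => g ∈ MulAction.stabilizer H m.asIdeal),
            c (g * δ₀⁻¹) * Ideal.Quotient.mk m.asIdeal ((g * d') • θ) := by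
        symm
        apply Finset.sum_subset (Finset.filter_subset _ _)
        intro g _ hg
        rw [Finset.mem_filter, not_and] at hg
        have hg' := hg (Finset.mem_univ _)
        rw [hout, mul_zero]
        intro h9
        apply hg'
        rw [MulAction.mem_stabilizer_iff]
        have h10 := d'.2
        rw [MulAction.mem_stabilizer_iff] at h10
        rwa [mul_smul, h10] at h9
      rw [h8]
      rw [Finset.sum_subtype (p := fun g => g ∈ MulAction.stabilizer H m.asIdeal) _ (by simp)]
      refine Finset.sum_congr rfl fun d _ => ?_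
      rw [hin']
      · rfl
      · exact MulAction.mem_stabilizer_iff.1 (mul_mem d.2 d'.2)
    funext γ
    have h9 := hz γ⁻¹ 1
    simpa using h9
  by_contra hnu
  obtain ⟨m, hm, hdm⟩ := exists_max_ideal_of_mem_nonunits hnu
  obtain ⟨g, hg⟩ := hrep ⟨m, hm⟩
  have h1 : (gm (H := H) θ).det ∈ g • (rep ⟨m, hm⟩).asIdeal := by rw [hg]; exact hdm
  refine key (rep ⟨m, hm⟩) ?_ (hshift' g _ h1)
  exact hrep2 _ _ ⟨g, hg⟩

end quot

end H76.FreeOp
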