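import Mathlib
import Cfsg.Agent.Lib.H76.FreeTheta
import Cfsg.Agent.Lib.H19.PSum
import Cfsg.Agent.Lib.H30.Nil

/-! Free modules for a group acting fixed-point-freely on a nilpotent group. -/

set_option autoImplicit false
set_option linter.unusedSectionVars false

namespace H76.FreeOp

universe u v w x

section ab

variable {k : Type u} {V : Type v} [Field k] [AddCommGroup V] [Module k V] [FiniteDimensional k V]
variable {F : Type w} [Group F] [Finite F] {H : Type x} [Group H] [Fintype H] [DecidableEq H]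
  [MulDistribMulAction H F]
variable (σ : Representation k F V) (T : Representation k H V)

/-- the double centralizer of `σ(E)` -/
def RR (E : Subgroup F) : Subalgebra k (Module.End k V) :=
  Subalgebra.centralizer k ((Subalgebra.centralizer k (σ '' (E : Set F)) :
    Subalgebra k (Module.End k V)) : Set (Module.End k V))

theorem mem_RR {E : Subgroup F} {a : Module.End k V} :
    a ∈ RR σ E ↔ ∀ c : Module.End k V, (∀ x ∈ E, σ x * c = c * σ x) → c * a = a * c := by
  unfold RR
  rw [Subalgebra.mem_centralizer_iff]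
  constructor
  · intro h c hc
    apply h
    rw [SetLike.mem_coe, Subalgebra.mem_centralizer_iff]
    rintro _ ⟨x, hx, rfl⟩
    exact hc x hx
  · intro h c hc
    apply h
    rw [SetLike.mem_coe, Subalgebra.mem_centralizer_iff] at hc
    intro x hx
    exact hc _ ⟨x, hx, rfl⟩

variable {σ} in
theorem sigma_mem {E : Subgroup F}
    {x : F} (hx : x ∈ E) : σ x ∈ RR σ E := by
  rw [mem_RR]
  intro c hc
  exact (hc x hx).symm

variable {σ} in
theorem RR_comm {E : Subgroup F} (hE : ∀ x ∈ E, ∀ y ∈ E, σ (x * y) = σ (y * x))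
    {a b : Module.End k V} (ha : a ∈ RR σ E) (hb : b ∈ RR σ E) : a * b = b * a := by
  have h1 : ∀ x ∈ E, σ x * b = b * σ x := by
    intro x hx
    apply (mem_RR σ).1 hb
    intro y hy
    rw [← map_mul, ← map_mul, hE y hy x hx]
  exact ((mem_RR σ).1 ha b h1).symm

theorem T_inv_mul (h : H) : T h⁻¹ * T h = 1 := by rw [← map_mul, inv_mul_cancel, map_one]

theorem T_mul_inv (h : H) : T h * T h⁻¹ = 1 := by rw [← map_mul, mul_inv_cancel, map_one]

variable {σ T}

theorem T_sigma (hTσ : ∀ h x v, T h (σ x v) = σ (h • x) (T h v)) (h : H) (x : F) :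
    T h * σ x = σ (h • x) * T h := by
  ext v
  exact hTσ h x v

theorem conj_mem_RR (hTσ : ∀ h x v, T h (σ x v) = σ (h • x) (T h v)) {E : Subgroup F}
    (hEH : ∀ h : H, ∀ x ∈ E, h • x ∈ E) (h : H) {a : Module.End k V} (ha : a ∈ RR σ E) :
    T h * a * T h⁻¹ ∈ RR σ E := by
  rw [mem_RR]
  intro c hc
  have h1 : ∀ x ∈ E, σ x * (T h⁻¹ * c * T h) = (T h⁻¹ * c * T h) * σ x := by
    intro x hx
    have e1 : σ x * T h⁻¹ = T h⁻¹ * σ (h • x) := by
      have := T_sigma hTσ h⁻¹ (h • x)
      rw [inv_smul_smul] at this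
      exact this.symm
    calc σ x * (T h⁻¹ * c * T h) = (σ x * T h⁻¹) * c * T h := by simp only [mul_assoc]
      _ = T h⁻¹ * (σ (h • x) * c) * T h := by rw [e1]; simp only [mul_assoc]
      _ = T h⁻¹ * c * (σ (h • x) * T h) := by rw [hc _ (hEH h x hx)]; simp only [mul_assoc]
      _ = (T h⁻¹ * c * T h) * σ x := by rw [← T_sigma hTσ]; simp only [mul_assoc]
  have h2 := (mem_RR σ).1 ha _ h1
  calc c * (T h * a * T h⁻¹) = (T h * T h⁻¹) * c * (T h * a * T h⁻¹) := by
        rw [T_mul_inv, one_mul]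
    _ = T h * ((T h⁻¹ * c * T h) * a) * T h⁻¹ := by simp only [mul_assoc]
    _ = T h * (a * (T h⁻¹ * c * T h)) * T h⁻¹ := by rw [h2]
    _ = (T h * a * T h⁻¹) * c * (T h * T h⁻¹) := by simp only [mul_assoc]
    _ = _ := by rw [T_mul_inv, mul_one]

/-- the commutative ring structure -/
@[instance_reducible]
def ringRR {E : Subgroup F} (hE : ∀ x ∈ E, ∀ y ∈ E, σ (x * y) = σ (y * x)) : CommRing (RR σ E) :=
  { (inferInstance : Ring (RR σ E)) with
    mul_comm := fun a b => Subtype.ext (RR_comm hE a.2 b.2) }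

/-- the action of `H` -/
@[instance_reducible]
def actRR (hTσ : ∀ h x v, T h (σ x v) = σ (h • x) (T h v)) {E : Subgroup F}
    (hEH : ∀ h : H, ∀ x ∈ E, h • x ∈ E) : MulSemiringAction H (RR σ E) where
  smul h a := ⟨T h * a * T h⁻¹, conj_mem_RR hTσ hEH h a.2⟩
  one_smul a := by
    apply Subtype.ext
    show T 1 * (a : Module.End k V) * T (1 : H)⁻¹ = a
    rw [inv_one, map_one, one_mul, mul_one]
  mul_smul g h a := by
    apply Subtype.ext
    show T (g * h) * (a : Module.End k V) * T (g * h)⁻¹ = T g * (T h * a * T h⁻¹) * T g⁻¹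
    rw [mul_inv_rev, map_mul, map_mul]
    simp only [mul_assoc]
  smul_zero h := by
    apply Subtype.ext
    show T h * (0 : Module.End k V) * T h⁻¹ = 0
    rw [mul_zero, zero_mul]
  smul_add h a b := by
    apply Subtype.ext
    show T h * ((a : Module.End k V) + b) * T h⁻¹ = T h * a * T h⁻¹ + T h * b * T h⁻¹
    rw [mul_add, add_mul]
  smul_one h := by
    apply Subtype.ext
    show T h * (1 : Module.End k V) * T h⁻¹ = 1
    rw [mul_one, T_mul_inv]
  smul_mul h a b := by
    apply Subtype.ext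
    show T h * ((a : Module.End k V) * b) * T h⁻¹ = (T h * a * T h⁻¹) * (T h * b * T h⁻¹)
    calc T h * ((a : Module.End k V) * b) * T h⁻¹ = T h * a * 1 * b * T h⁻¹ := by
          rw [mul_one]; simp only [mul_assoc]
      _ = _ := by rw [← T_inv_mul T h]; simp only [mul_assoc]

/-- **Theorem B** -/
theorem free_ab (hTσ : ∀ h x v, T h (σ x v) = σ (h • x) (T h v)) {E : Subgroup F}
    (hEH : ∀ h : H, ∀ x ∈ E, h • x ∈ E) (hE : ∀ x ∈ E, ∀ y ∈ E, σ (x * y) = σ (y * x))
    (r : ℕ) (hr : (r : k) ≠ 0) (hexp : ∀ x ∈ E, σ (x ^ r) = 1)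
    (hfix : ∀ v, (∀ x ∈ E, σ x v = v) → v = 0)
    (hfree : ∀ h : H, h ≠ 1 → ∀ x ∈ E, h • x = x → x = 1) : Free T := by
  classical
  let _ : CommRing (RR σ E) := ringRR hE
  let _ : MulSemiringAction H (RR σ E) := actRR hTσ hEH
  have hfin : Module.Finite k (RR σ E) := inferInstance
  have hart : IsArtinianRing (RR σ E) := IsArtinianRing.of_finite k _
  have hms : Finite (MaximalSpectrum (RR σ E)) := inferInstance
  let s : E → RR σ E := fun x => ⟨σ x, sigma_mem x.2⟩
  have hs : ∀ (h : H) (x : E), h • s x = s ⟨h • x, hEH h x x.2⟩ := by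
    intro h x
    apply Subtype.ext
    show T h * σ x * T h⁻¹ = σ (h • (x : F))
    rw [T_sigma hTσ, mul_assoc, T_mul_inv, mul_one]
  have hsmul : ∀ x y : E, s (x * y) = s x * s y := by
    intro x y
    apply Subtype.ext
    exact map_mul σ _ _
  have hsone : s 1 = 1 := Subtype.ext (map_one σ)
  have hpow : ∀ x : E, s x ^ r = 1 := by
    intro x
    apply Subtype.ext
    show (s x : Module.End k V) ^ r = 1
    rw [← hexp x x.2, map_pow]
  have hin : ∀ m : Ideal (RR σ E), m.IsMaximal → ∀ d : H, Ideal.map (MulSemiringAction.toRingHom H (RR σ E) d) m = m →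
      d ≠ 1 → ∃ a : RR σ E, d • a - a ∉ m := by
    intro m hm d _ hd1
    by_contra hno
    push Not at hno
    -- every `s y` is `1` modulo `m`
    have h1 : ∀ y : E, s y - 1 ∈ m := by
      intro y
      let φ : E → E := fun x => ⟨d • (x : F) * (x : F)⁻¹, mul_mem (hEH d x x.2) (inv_mem x.2)⟩
      have hφ : Function.Injective φ := by
        intro a b hab
        have h2 : d • (a : F) * (a : F)⁻¹ = d • (b : F) * (b : F)⁻¹ := congrArg Subtype.val hab
        have h3 : d • ((b : F)⁻¹ * a) = (b : F)⁻¹ * a := by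
          rw [smul_mul', smul_inv']
          rw [mul_inv_eq_iff_eq_mul] at h2
          rw [h2]
          group
        have h4 := hfree d hd1 ((b : F)⁻¹ * a) (mul_mem (inv_mem b.2) a.2) h3
        exact Subtype.ext (inv_mul_eq_one.1 h4).symm
      obtain ⟨a, rfl⟩ := (Finite.injective_iff_surjective.1 hφ) y
      have h5 : s (φ a) = d • s a * s a⁻¹ := by
        rw [hs, ← hsmul]
        rfl
      have h6 : s (φ a) - 1 = (d • s a - s a) * s a⁻¹ := by
        rw [h5, sub_mul, ← hsmul a, mul_inv_cancel, hsone]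
      rw [h6]
      exact Ideal.mul_mem_right _ _ (hno (s a))
    let n : E → RR σ E := fun y => ∑ i ∈ Finset.range r, s y ^ i
    have hrm : ((r : ℕ) : RR σ E) ∉ m := by
      intro h
      apply hm.ne_top
      rw [Ideal.eq_top_iff_one]
      have h2 : (algebraMap k (RR σ E) (r : k)⁻¹) * ((r : ℕ) : RR σ E) = 1 := by
        rw [← map_natCast (algebraMap k (RR σ E)), ← map_mul, inv_mul_cancel₀ hr, map_one]
      rw [← h2]
      exact Ideal.mul_mem_left _ _ h
    have h2 : ∀ y, n y ∉ m := by
      intro y hy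
      apply hrm
      have h3 : ((r : ℕ) : RR σ E) - n y ∈ m := by
        have h4 : ((r : ℕ) : RR σ E) - n y = ∑ i ∈ Finset.range r, (1 - s y ^ i) := by
          rw [Finset.sum_sub_distrib, Finset.sum_const, Finset.card_range, nsmul_eq_mul, mul_one]
        rw [h4]
        refine Ideal.sum_mem _ fun i _ => ?_
        have h5 : (1 : RR σ E) - s y ^ i = -((s y - 1) * ∑ j ∈ Finset.range i, s y ^ j) := by
          rw [mul_geom_sum]; ring
        rw [h5]
        exact neg_mem (Ideal.mul_mem_right _ _ (h1 y))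
      have := add_mem h3 hy
      rwa [sub_add_cancel] at this
    have : Fintype E := Fintype.ofFinite E
    have h3 : ∏ y : E, n y ∉ m := by
      have hmp := hm.isPrime
      intro h
      obtain ⟨y, -, hy⟩ := (Ideal.IsPrime.prod_mem_iff).1 h
      exact h2 y hy
    apply h3
    have h4 : ∏ y : E, n y = 0 := by
      apply Subtype.ext
      ext v
      show ((∏ y : E, n y : RR σ E) : Module.End k V) v = 0
      apply hfix
      intro x hx
      have h5 : s ⟨x, hx⟩ * ∏ y : E, n y = ∏ y : E, n y := by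
        rw [← Finset.mul_prod_erase Finset.univ n (Finset.mem_univ (⟨x, hx⟩ : E)), ← mul_assoc]
        congr 1
        have h6 : (s ⟨x, hx⟩ - 1) * n ⟨x, hx⟩ = 0 := by
          rw [mul_geom_sum, hpow, sub_self]
        rw [sub_mul, one_mul, sub_eq_zero] at h6
        exact h6
      have h7 := congrArg (fun a : RR σ E => (a : Module.End k V) v) h5
      exact h7
    rw [h4]
    exact m.zero_mem
  obtain ⟨θ, hθ⟩ := exists_theta (R := RR σ E) (H := H) hin
  obtain ⟨η, h1, h2⟩ := exists_dual θ hθ
  have hsc : SMulCommClass k (RR σ E) V := by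
    constructor
    intro c a v
    show c • ((a : Module.End k V) v) = (a : Module.End k V) (c • v)
    rw [map_smul]
  refine free_of_dual (R := RR σ E) T ?_ θ η h1 h2
  intro h a v
  show T h ((a : Module.End k V) v) = (T h * (a : Module.End k V) * T h⁻¹) (T h v)
  rw [Module.End.mul_apply, Module.End.mul_apply, ← T_mul, inv_mul_cancel, T_one]

end ab

end H76.FreeOp
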