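import Mathlib
import Cfsg.Agent.Lib.H76.FreeAb
import Cfsg.Prelude.Def_Solvable

/-! Free modules for complements of Frobenius groups. -/

set_option autoImplicit false
set_option linter.unusedSectionVars false
open Cfsg

namespace H76.FreeOp

universe u v w x

/-- restriction to an invariant subspace -/
def subRep {k : Type u} {V : Type v} {P : Type w} [Field k] [AddCommGroup V] [Module k V] [Group P]
    (ρ : Representation k P V) (W : Submodule k V) (hW : ∀ g : P, ∀ w ∈ W, ρ g w ∈ W) :
    Representation k P W where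
  toFun g := (ρ g).restrict (hW g)
  map_one' := by
    ext w
    show ρ 1 (w : V) = w
    rw [map_one]; rfl
  map_mul' g h := by
    ext w
    show ρ (g * h) (w : V) = ρ g (ρ h w)
    rw [map_mul]; rfl

theorem subRep_apply {k : Type u} {V : Type v} {P : Type w} [Field k] [AddCommGroup V] [Module k V]
    [Group P] (ρ : Representation k P V) (W : Submodule k V) (hW : ∀ g : P, ∀ w ∈ W, ρ g w ∈ W)
    (g : P) (w : W) : ((subRep ρ W hW g w : W) : V) = ρ g w := rfl

section exist

variable {k : Type u} {V : Type v} [Field k] [AddCommGroup V] [Module k V]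
variable {F : Type w} [Group F] [Finite F] [Group.IsNilpotent F]
variable (σ : Representation k F V)

/-- an element central modulo the kernel, of prime order `r ≠ char k` -/
theorem exists_central [Nontrivial V] (hfix : ∀ v, (∀ f, σ f v = v) → v = 0) :
    ∃ (r : ℕ) (f : F), r.Prime ∧ (r : k) ≠ 0 ∧ (∀ g, σ (f * g) = σ (g * f)) ∧ σ (f ^ r) = 1 ∧
      σ f ≠ 1 := by
  let K := MonoidHom.ker σ
  let τ : (F ⧸ K) →* Module.End k V := QuotientGroup.lift K σ le_rfl
  have hτ : ∀ f : F, τ (QuotientGroup.mk f) = σ f := fun f => rfl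
  have hτinj : ∀ x : F ⧸ K, τ x = 1 → x = 1 := by
    intro x
    obtain ⟨f, rfl⟩ := QuotientGroup.mk_surjective x
    intro h
    exact (QuotientGroup.eq_one_iff f).2 h
  have hnil : Group.IsNilpotent (F ⧸ K) := inferInstance
  have hprime : ∃ r : ℕ, r.Prime ∧ r ∣ Nat.card (F ⧸ K) ∧ (r : k) ≠ 0 := by
    by_contra hno
    push Not at hno
    have h1 : Nat.card (F ⧸ K) ≠ 1 := by
      intro h1
      have h2 : Subsingleton (F ⧸ K) := (Nat.card_eq_one_iff_unique.1 h1).1
      obtain ⟨v, hv⟩ := exists_ne (0 : V)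
      apply hv
      apply hfix
      intro f
      rw [← hτ, Subsingleton.elim (QuotientGroup.mk f : F ⧸ K) 1, map_one]
      rfl
    obtain ⟨p, hp, hpd⟩ := Nat.exists_prime_and_dvd h1
    have hp0 := hno p hp hpd
    have : Fact p.Prime := ⟨hp⟩
    have hPG : IsPGroup p (F ⧸ K) := by
      rw [IsPGroup.iff_card]
      apply (Nat.eq_prime_pow_of_unique_prime_dvd Nat.card_pos.ne' ?_) |> fun h => ⟨_, h⟩
      intro q hq hqd
      have hq0 := hno q hq hqd
      by_contra hne
      have hcop := (Nat.coprime_primes hq hp).2 hne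
      have h2 : ((1 : ℤ) : k) = 0 := by
        have h3 := Nat.isCoprime_iff_coprime.2 hcop
        obtain ⟨a, b, hab⟩ := h3
        rw [← hab]
        push_cast
        rw [hp0, hq0, mul_zero, mul_zero, add_zero]
      rw [Int.cast_one] at h2
      exact one_ne_zero h2
    let _ : DistribMulAction (F ⧸ K) V :=
      { smul := fun x v => τ x v
        one_smul := fun v => by show τ 1 v = v; rw [map_one]; rfl
        mul_smul := fun x y v => by show τ (x * y) v = τ x (τ y v); rw [map_mul]; rfl
        smul_zero := fun x => map_zero _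
        smul_add := fun x v w => map_add _ _ _ }
    obtain ⟨w, hw0, hw⟩ := H19.PSum.exists_fixed_ne_zero (p := p) (P := F ⧸ K) (W := V) hPG (by
      intro v
      rw [← Nat.cast_smul_eq_nsmul k, hp0, zero_smul])
    exact hw0 (hfix w fun f => hw (QuotientGroup.mk f))
  obtain ⟨r, hr, hrd, hrk⟩ := hprime
  have : Fact r.Prime := ⟨hr⟩
  obtain ⟨R⟩ : Nonempty (Sylow r (F ⧸ K)) := inferInstance
  have hRn : (R : Subgroup (F ⧸ K)).Normal := by
    have := Group.isNilpotent_of_finite_tfae (G := F ⧸ K)
    have h1 := (this.out 0 3).1 hnil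
    exact h1 r ⟨hr⟩ R
  have hR1 : (R : Subgroup (F ⧸ K)) ≠ ⊥ := by
    intro h
    have h1 := R.card_eq_multiplicity
    have h2 : Nat.card R = 1 := by
      have : Nat.card (R : Subgroup (F ⧸ K)) = 1 := by rw [h]; exact Subgroup.card_bot
      exact this
    rw [h2] at h1
    have h3 : 0 < (Nat.card (F ⧸ K)).factorization r :=
      hr.factorization_pos_of_dvd Nat.card_pos.ne' hrd
    have h4 := Nat.one_lt_pow h3.ne' hr.one_lt
    omega
  have h1 := H30.Nil.inf_center_ne_bot (R : Subgroup (F ⧸ K)) hR1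
  set N := (R : Subgroup (F ⧸ K)) ⊓ Subgroup.center (F ⧸ K) with hN
  have hNr : IsPGroup r N := R.isPGroup'.to_le inf_le_left
  have hNd : r ∣ Nat.card N := by
    rcases hNr.card_eq_or_dvd with h | h
    · exact absurd (Subgroup.card_eq_one.1 h) h1
    · exact h
  obtain ⟨z, hz⟩ := exists_prime_orderOf_dvd_card' r hNd
  have hzZ := (Subgroup.mem_inf.1 z.2).2
  obtain ⟨f, hf⟩ := QuotientGroup.mk_surjective (z : F ⧸ K)
  have hz1 : (z : F ⧸ K) ≠ 1 := by
    intro h
    have : z = 1 := Subtype.ext h
    rw [this, orderOf_one] at hz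
    exact hr.one_lt.ne hz
  have hzr : (z : F ⧸ K) ^ r = 1 := by
    have := pow_orderOf_eq_one z
    rw [hz] at this
    exact congrArg Subtype.val this
  refine ⟨r, f, hr, hrk, ?_, ?_, ?_⟩
  · intro g
    rw [← hτ, ← hτ]
    congr 1
    show (QuotientGroup.mk f : F ⧸ K) * QuotientGroup.mk g = QuotientGroup.mk g * QuotientGroup.mk f
    have h2 : (QuotientGroup.mk f : F ⧸ K) = z := hf
    rw [h2]
    exact (Subgroup.mem_center_iff.1 hzZ _).symm
  · rw [← hτ]
    have h2 : (QuotientGroup.mk (f ^ r) : F ⧸ K) = (z : F ⧸ K) ^ r := by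
      rw [← hf]; rfl
    rw [h2, hzr, map_one]
  · intro h
    apply hz1
    rw [← hf]
    exact hτinj _ h

end exist

section thmA

variable {k : Type u} [Field k]
variable {F : Type w} [Group F] [Finite F] {H : Type x} [Group H] [Fintype H] [DecidableEq H]
  [MulDistribMulAction H F]

/-- the projection onto the fixed space of `E` -/
theorem exists_projection {V : Type v} [AddCommGroup V] [Module k V] [FiniteDimensional k V]
    {σ : Representation k F V} {T : Representation k H V}
    (hTσ : ∀ h x v, T h (σ x v) = σ (h • x) (T h v)) {E : Subgroup F}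
    (hEH : ∀ h : H, ∀ x ∈ E, h • x ∈ E) (hEF : ∀ x ∈ E, ∀ y, σ (x * y) = σ (y * x))
    (r : ℕ) (hr : (r : k) ≠ 0) (hexp : ∀ x ∈ E, σ (x ^ r) = 1) :
    ∃ e : V →ₗ[k] V, (∀ x ∈ E, ∀ v, σ x (e v) = e v) ∧ (∀ v, (∀ x ∈ E, σ x v = v) → e v = v) ∧
      (∀ h v, e (T h v) = T h (e v)) ∧ (∀ f v, e (σ f v) = σ f (e v)) := by
  classical
  have hE : ∀ x ∈ E, ∀ y ∈ E, σ (x * y) = σ (y * x) := fun x hx y _ => hEF x hx y
  let _ : CommRing (RR σ E) := ringRR hE
  let _ : MulSemiringAction H (RR σ E) := actRR hTσ hEH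
  have : Fintype E := Fintype.ofFinite E
  let s : E → RR σ E := fun x => ⟨σ x, sigma_mem x.2⟩
  have hs : ∀ (h : H) (x : E), h • s x = s ⟨h • x, hEH h x x.2⟩ := by
    intro h x
    apply Subtype.ext
    show T h * σ x * T h⁻¹ = σ (h • (x : F))
    rw [T_sigma hTσ, mul_assoc, T_mul_inv, mul_one]
  have hpow : ∀ x : E, s x ^ r = 1 := by
    intro x
    apply Subtype.ext
    show (s x : Module.End k V) ^ r = 1
    rw [← hexp x x.2, map_pow]
  have halg : ∀ (h : H) (c : k), h • (algebraMap k (RR σ E) c) = algebraMap k (RR σ E) c := by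
    intro h c
    apply Subtype.ext
    show T h * (algebraMap k (Module.End k V) c) * T h⁻¹ = algebraMap k (Module.End k V) c
    rw [← Algebra.commutes, mul_assoc, T_mul_inv, mul_one]
  let u : E → RR σ E := fun y => algebraMap k (RR σ E) (r : k)⁻¹ * ∑ i ∈ Finset.range r, s y ^ i
  have hsu : ∀ y, s y * u y = u y := by
    intro y
    have h6 : (s y - 1) * ∑ i ∈ Finset.range r, s y ^ i = 0 := by
      rw [mul_geom_sum, hpow, sub_self]
    rw [sub_mul, one_mul, sub_eq_zero] at h6
    show s y * (algebraMap k (RR σ E) (r : k)⁻¹ * ∑ i ∈ Finset.range r, s y ^ i) = _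
    rw [mul_left_comm, h6]
  have huv : ∀ y : E, ∀ v, (∀ x ∈ E, σ x v = v) → ((u y : RR σ E) : Module.End k V) v = v := by
    intro y v hv
    have h1 : ∀ i : ℕ, (((s y) ^ i : RR σ E) : Module.End k V) v = v := by
      intro i
      induction i with
      | zero => rw [pow_zero]; rfl
      | succ i ih =>
        rw [pow_succ']
        show (σ y) ((((s y) ^ i : RR σ E) : Module.End k V) v) = v
        rw [ih, hv y y.2]
    have h2 : ((∑ i ∈ Finset.range r, s y ^ i : RR σ E) : Module.End k V) v = (r : k) • v := by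
      have h3 : ((∑ i ∈ Finset.range r, s y ^ i : RR σ E) : Module.End k V) =
          ∑ i ∈ Finset.range r, (((s y) ^ i : RR σ E) : Module.End k V) :=
        map_sum (RR σ E).val _ _
      rw [h3, LinearMap.sum_apply]
      simp only [h1]
      rw [Finset.sum_const, Finset.card_range, Nat.cast_smul_eq_nsmul]
    show (algebraMap k (Module.End k V) (r : k)⁻¹)
      (((∑ i ∈ Finset.range r, s y ^ i : RR σ E) : Module.End k V) v) = v
    rw [h2, Module.algebraMap_end_apply, smul_smul, inv_mul_cancel₀ hr, one_smul]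
  let eR : RR σ E := ∏ y : E, u y
  have h1 : ∀ x : E, s x * eR = eR := by
    intro x
    show s x * ∏ y : E, u y = ∏ y : E, u y
    rw [← Finset.mul_prod_erase Finset.univ u (Finset.mem_univ x), ← mul_assoc, hsu]
  have h2 : ∀ S : Finset E, ∀ v, (∀ x ∈ E, σ x v = v) →
      ((∏ y ∈ S, u y : RR σ E) : Module.End k V) v = v := by
    intro S v hv
    induction S using Finset.induction_on with
    | empty => rw [Finset.prod_empty]; rfl
    | insert a S ha ih =>
      rw [Finset.prod_insert ha]
      show ((u a : RR σ E) : Module.End k V) (((∏ y ∈ S, u y : RR σ E) : Module.End k V) v) = v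
      rw [ih, huv a v hv]
  have h3 : ∀ h : H, h • eR = eR := by
    intro h
    show h • ∏ y : E, u y = ∏ y : E, u y
    rw [Finset.smul_prod']
    let φ : E ≃ E :=
      { toFun := fun x => ⟨h • (x : F), hEH h x x.2⟩
        invFun := fun x => ⟨h⁻¹ • (x : F), hEH h⁻¹ x x.2⟩
        left_inv := fun x => Subtype.ext (inv_smul_smul h (x : F))
        right_inv := fun x => Subtype.ext (smul_inv_smul h (x : F)) }
    refine Fintype.prod_equiv φ _ _ fun y => ?_
    show h • (algebraMap k (RR σ E) (r : k)⁻¹ * ∑ i ∈ Finset.range r, s y ^ i) = u (φ y)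
    rw [smul_mul', halg, Finset.smul_sum]
    congr 1
    refine Finset.sum_congr rfl fun i _ => ?_
    rw [smul_pow', hs]
    rfl
  refine ⟨(eR : Module.End k V), ?_, ?_, ?_, ?_⟩
  · intro x hx v
    have := congrArg (fun a : RR σ E => (a : Module.End k V) v) (h1 ⟨x, hx⟩)
    exact this
  · exact h2 Finset.univ
  · intro h v
    have h4 : T h * (eR : Module.End k V) * T h⁻¹ = eR := congrArg Subtype.val (h3 h)
    have h5 : (eR : Module.End k V) * T h = T h * eR := by
      conv_lhs => rw [← h4]
      rw [mul_assoc, T_inv_mul, mul_one]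
    exact congrArg (fun a : Module.End k V => a v) h5
  · intro f v
    have h4 := (mem_RR σ).1 eR.2 (σ f) (fun x hx => by rw [← map_mul, ← map_mul, hEF x hx f])
    exact (congrArg (fun a : Module.End k V => a v) h4).symm

/-- **Theorem A** -/
theorem free_nil [Group.IsNilpotent F] (hfree : ∀ h : H, h ≠ 1 → ∀ x : F, h • x = x → x = 1)
    (n : ℕ) :
    ∀ (V : Type v) [AddCommGroup V] [Module k V] [FiniteDimensional k V]
      (σ : Representation k F V) (T : Representation k H V),
      (∀ h x v, T h (σ x v) = σ (h • x) (T h v)) → Module.finrank k V = n →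
      (∀ v, (∀ x, σ x v = v) → v = 0) → Free T := by
  induction n using Nat.strong_induction_on with
  | _ n ih =>
    intro V _ _ _ σ T hTσ hn hfix
    rcases subsingleton_or_nontrivial V with hs | hnt
    · exact ⟨0, fun v => Subsingleton.elim _ _, fun h _ v => Subsingleton.elim _ _⟩
    obtain ⟨r, f₀, hr, hrk, hf₀, hf₀r, hf₀1⟩ := exists_central σ hfix
    let E : Subgroup F :=
      { carrier := {f | (∀ g, σ (f * g) = σ (g * f)) ∧ σ (f ^ r) = 1}
        mul_mem' := by
          rintro a b ⟨ha, ha'⟩ ⟨hb, hb'⟩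
          constructor
          · intro g
            calc σ (a * b * g) = σ a * σ (b * g) := by rw [mul_assoc, map_mul]
              _ = σ (a * g) * σ b := by rw [hb, map_mul, ← mul_assoc, ← map_mul]
              _ = σ (g * (a * b)) := by rw [ha, ← map_mul, mul_assoc]
          · have hc : Commute (σ a) (σ b) := by
              show σ a * σ b = σ b * σ a
              rw [← map_mul, ← map_mul, ha]
            rw [map_pow, map_mul, hc.mul_pow, ← map_pow, ← map_pow, ha', hb', one_mul]
        one_mem' := ⟨fun g => by rw [one_mul, mul_one], by rw [one_pow, map_one]⟩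
        inv_mem' := by
          rintro a ⟨ha, ha'⟩
          constructor
          · intro g
            have h1 := ha (a⁻¹ * g * a⁻¹)
            have e1 : a * (a⁻¹ * g * a⁻¹) = g * a⁻¹ := by group
            have e2 : a⁻¹ * g * a⁻¹ * a = a⁻¹ * g := by group
            rw [e1, e2] at h1
            exact h1.symm
          · rw [inv_pow]
            have h1 : σ (a ^ r) * σ (a ^ r)⁻¹ = 1 := by rw [← map_mul, mul_inv_cancel, map_one]
            rwa [ha', one_mul] at h1 }
    have hmem : ∀ x, x ∈ E ↔ (∀ g, σ (x * g) = σ (g * x)) ∧ σ (x ^ r) = 1 := fun x => Iff.rfl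
    have hEH : ∀ h : H, ∀ x ∈ E, h • x ∈ E := by
      intro h x hx
      rw [hmem] at hx ⊢
      have hconj : ∀ y, σ (h • y) = T h * σ y * T h⁻¹ := by
        intro y
        rw [T_sigma hTσ, mul_assoc, T_mul_inv, mul_one]
      constructor
      · intro g
        have h1 : h • x * g = h • (x * h⁻¹ • g) := by rw [smul_mul', smul_inv_smul]
        have h2 : g * h • x = h • ((h⁻¹ • g) * x) := by rw [smul_mul', smul_inv_smul]
        rw [h1, h2, hconj, hconj, hx.1]
      · rw [← smul_pow', hconj, hx.2, mul_one, T_mul_inv]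
    have hEF : ∀ x ∈ E, ∀ y, σ (x * y) = σ (y * x) := fun x hx => ((hmem x).1 hx).1
    have hexp : ∀ x ∈ E, σ (x ^ r) = 1 := fun x hx => ((hmem x).1 hx).2
    have hEn : ∀ (f x : F), x ∈ E → f⁻¹ * x * f ∈ E := by
      intro f x hx
      rw [hmem] at hx ⊢
      have h1 : σ (f⁻¹ * x * f) = σ x := by
        rw [mul_assoc, map_mul, hx.1, ← map_mul]
        congr 1
        group
      constructor
      · intro g
        rw [map_mul, h1, ← map_mul, hx.1, map_mul, ← h1, ← map_mul]
      · rw [map_pow, h1, ← map_pow, hx.2]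
    obtain ⟨e, e1, e2, e3, e4⟩ := exists_projection hTσ hEH hEF r hrk hexp
    have hee : ∀ v, e (e v) = e v := fun v => e2 _ (fun x hx => e1 x hx v)
    let V₀ : Submodule k V := LinearMap.eqLocus e LinearMap.id
    let V₁ : Submodule k V := LinearMap.ker e
    have m0 : ∀ v, v ∈ V₀ ↔ e v = v := fun v => Iff.rfl
    have m1 : ∀ v, v ∈ V₁ ↔ e v = 0 := fun v => Iff.rfl
    have a0 : ∀ f : F, ∀ w ∈ V₀, σ f w ∈ V₀ := fun f w hw => by
      rw [m0] at hw ⊢; rw [e4, hw]
    have a1 : ∀ f : F, ∀ w ∈ V₁, σ f w ∈ V₁ := fun f w hw => by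
      rw [m1] at hw ⊢; rw [e4, hw, map_zero]
    have b0 : ∀ h : H, ∀ w ∈ V₀, T h w ∈ V₀ := fun h w hw => by
      rw [m0] at hw ⊢; rw [e3, hw]
    have b1 : ∀ h : H, ∀ w ∈ V₁, T h w ∈ V₁ := fun h w hw => by
      rw [m1] at hw ⊢; rw [e3, hw, map_zero]
    refine glue T e hee e3 V₀ V₁ m0 m1 (subRep T V₀ b0) (subRep T V₁ b1) (fun _ _ => rfl)
      (fun _ _ => rfl) ?_ ?_
    · -- induction
      have hlt : Module.finrank k V₀ < n := by
        rw [← hn]
        apply Submodule.finrank_lt
        intro htop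
        apply hf₀1
        ext v
        have h1 : v ∈ V₀ := by rw [htop]; exact Submodule.mem_top
        rw [m0] at h1
        rw [← h1, e1 f₀ ⟨hf₀, hf₀r⟩]
        rfl
      refine ih _ hlt V₀ (subRep σ V₀ a0) (subRep T V₀ b0) ?_ rfl ?_
      · intro h x v
        exact Subtype.ext (hTσ h x v)
      · intro v hv
        exact Subtype.ext (hfix v (fun x => congrArg Subtype.val (hv x)))
    · refine free_ab (σ := subRep σ V₁ a1) (E := E) ?_ hEH ?_ r hrk ?_ ?_
        (fun h hh x _ hx => hfree h hh x hx)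
      · intro h x v
        exact Subtype.ext (hTσ h x v)
      · intro x hx y _
        ext v
        have := congrArg (fun a : Module.End k V => a v) (hEF x hx y)
        exact this
      · intro x hx
        ext v
        have := congrArg (fun a : Module.End k V => a v) (hexp x hx)
        exact this
      · intro v hv
        have h1 : ∀ x ∈ E, σ x v = v := fun x hx => congrArg Subtype.val (hv x hx)
        have h2 := e2 v h1
        have h3 := (m1 v).1 v.2
        apply Subtype.ext
        rw [← h2, h3]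
        rfl

end thmA

end H76.FreeOp
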