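import Mathlib

/-!
# Groups of order at most 168 generated by elements of orders 2 and 3 with product of order 7
-/

set_option autoImplicit false
set_option linter.all false

namespace H76.Hur7

open Subgroup

/-- a (2,3,7)-generated group -/
structure Hur (G : Type*) [Group G] (a b : G) : Prop where
  gen : Subgroup.closure {a, b} = ⊤
  a2 : a ^ 2 = 1
  b3 : b ^ 3 = 1
  ab7 : (a * b) ^ 7 = 1

theorem Hur.map {G Q : Type*} [Group G] [Group Q] {a b : G} (h : Hur G a b) (f : G →* Q)
    (hf : Function.Surjective f) : Hur Q (f a) (f b) := by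
  refine ⟨?_, ?_, ?_, ?_⟩
  · have h1 := congrArg (Subgroup.map f) h.gen
    rw [MonoidHom.map_closure, Subgroup.map_top_of_surjective f hf, Set.image_pair] at h1
    exact h1
  · rw [← map_pow, h.a2, map_one]
  · rw [← map_pow, h.b3, map_one]
  · rw [← map_mul, ← map_pow, h.ab7, map_one]

theorem Hur.triv {G : Type*} [Group G] {a b : G} (h : Hur G a b) (ha : a = 1) (hb : b = 1) :
    Subsingleton G := by
  have h1 := h.gen
  rw [ha, hb] at h1
  have h2 : (⊤ : Subgroup G) = ⊥ := by
    rw [← h1]; simp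
  exact Subgroup.subsingleton_iff.1 (subsingleton_of_bot_eq_top h2.symm)

theorem eq_one_of_coprime {G : Type*} [Group G] {x : G} {m n : ℕ} (hm : x ^ m = 1) (hn : x ^ n = 1)
    (h : Nat.Coprime m n) : x = 1 := by
  have h1 : orderOf x ∣ 1 := by
    rw [← h]
    exact Nat.dvd_gcd (orderOf_dvd_of_pow_eq_one hm) (orderOf_dvd_of_pow_eq_one hn)
  exact orderOf_eq_one_iff.1 (Nat.dvd_one.1 h1)

theorem Hur.a_ne {G : Type*} [Group G] [Nontrivial G] {a b : G} (h : Hur G a b) : a ≠ 1 := by
  intro ha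
  have h1 := h.ab7
  rw [ha, one_mul] at h1
  have hb : b = 1 := eq_one_of_coprime h.b3 h1 (by norm_num)
  exact not_subsingleton G (h.triv ha hb)

theorem Hur.b_ne {G : Type*} [Group G] [Nontrivial G] {a b : G} (h : Hur G a b) : b ≠ 1 := by
  intro hb
  have h1 := h.ab7
  rw [hb, mul_one] at h1
  have ha : a = 1 := eq_one_of_coprime h.a2 h1 (by norm_num)
  exact not_subsingleton G (h.triv ha hb)

theorem Hur.ab_ne {G : Type*} [Group G] [Nontrivial G] {a b : G} (h : Hur G a b) : a * b ≠ 1 := by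
  intro hab
  have h1 : b = a⁻¹ := (inv_eq_of_mul_eq_one_right hab).symm
  apply h.b_ne
  refine eq_one_of_coprime h.b3 (n := 2) ?_ (by norm_num)
  rw [h1, inv_pow, h.a2, inv_one]

theorem Hur.dvd {G : Type*} [Group G] [Finite G] [Nontrivial G] {a b : G} (h : Hur G a b) :
    42 ∣ Nat.card G := by
  have h2 : 2 ∣ Nat.card G := by
    have := orderOf_dvd_natCard (G := G) a
    rwa [orderOf_eq_prime h.a2 h.a_ne] at this
  have h3 : 3 ∣ Nat.card G := by
    haveI : Fact (Nat.Prime 3) := ⟨Nat.prime_three⟩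
    have := orderOf_dvd_natCard (G := G) b
    rwa [orderOf_eq_prime h.b3 h.b_ne] at this
  have h7 : 7 ∣ Nat.card G := by
    haveI : Fact (Nat.Prime 7) := ⟨by norm_num⟩
    have := orderOf_dvd_natCard (G := G) (a * b)
    rwa [orderOf_eq_prime h.ab7 h.ab_ne] at this
  omega

theorem card_syl {G : Type*} [Group G] [Finite G] {m : ℕ} (hcard : Nat.card G = 7 * m) (hpm : ¬ 7 ∣ m)
    (P : Sylow 7 G) : Nat.card P = 7 := by
  have hp : Nat.Prime 7 := by norm_num
  have := Fact.mk hp
  have hm : m ≠ 0 := by rintro rfl; exact hpm (dvd_zero 7)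
  rw [P.card_eq_multiplicity, hcard, Nat.factorization_mul hp.ne_zero hm]
  simp [Nat.factorization_eq_zero_of_not_dvd hpm, hp.factorization_self]

theorem Hur.not_small {G : Type*} [Group G] [Finite G] {a b : G} (h : Hur G a b) {m : ℕ}
    (hc : Nat.card G = 7 * m) (hm : m = 6 ∨ m = 12) : False := by
  haveI : Nontrivial G := by
    rw [← Finite.one_lt_card_iff_nontrivial]; omega
  haveI : Fact (Nat.Prime 7) := ⟨by norm_num⟩
  obtain ⟨P⟩ : Nonempty (Sylow 7 G) := inferInstance
  have hP : Nat.card P = 7 := card_syl hc (by omega) P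
  have hi : (P : Subgroup G).index = m := by
    have h1 := Subgroup.card_mul_index (P : Subgroup G)
    have h2 : Nat.card (P : Subgroup G) = 7 := hP
    rw [h2, hc] at h1
    omega
  have h3 : Nat.card (Sylow 7 G) ∣ m := by rw [← hi]; exact P.card_dvd_index
  have h4 := card_sylow_modEq_one 7 G
  have h5 : Nat.card (Sylow 7 G) = 1 := by
    have h6 : Nat.card (Sylow 7 G) ≤ 12 := (Nat.le_of_dvd (by omega) h3).trans (by omega)
    have h7 : Nat.card (Sylow 7 G) % 7 = 1 := h4
    have h8 : Nat.card (Sylow 7 G) = 1 ∨ Nat.card (Sylow 7 G) = 8 := by omega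
    rcases h8 with h8 | h8
    · exact h8
    · rw [h8] at h3
      omega
  have hN : (P : Subgroup G).Normal := by
    rw [P.card_eq_index_normalizer, Subgroup.index_eq_one] at h5
    exact Subgroup.normalizer_eq_top_iff.1 h5
  have hz : IsPGroup 7 (Subgroup.zpowers (a * b)) := by
    apply IsPGroup.of_card (n := 1)
    rw [Nat.card_zpowers, orderOf_eq_prime h.ab7 h.ab_ne, pow_one]
  obtain ⟨R, hR⟩ := hz.exists_le_sylow
  have hsub : Subsingleton (Sylow 7 G) := (Nat.card_eq_one_iff_unique.1 h5).1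
  have hRP : R = P := Subsingleton.elim _ _
  subst hRP
  have hab : a * b ∈ (R : Subgroup G) := hR (Subgroup.mem_zpowers _)
  have hq := h.map (QuotientGroup.mk' (R : Subgroup G)) (QuotientGroup.mk'_surjective _)
  haveI : Nontrivial (G ⧸ (R : Subgroup G)) := by
    rw [← Finite.one_lt_card_iff_nontrivial, ← Subgroup.index_eq_card, hi]
    omega
  apply hq.ab_ne
  rw [← map_mul]
  exact (QuotientGroup.eq_one_iff _).2 hab

theorem Hur.card {G : Type*} [Group G] [Finite G] [Nontrivial G] {a b : G} (h : Hur G a b) {x : G}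
    (hx : orderOf x = 4) (hle : Nat.card G ≤ 168) : Nat.card G = 168 := by
  have h1 := h.dvd
  have h2 : 4 ∣ Nat.card G := by rw [← hx]; exact orderOf_dvd_natCard x
  have h3 : Nat.card G ≠ 84 := fun h4 => h.not_small (m := 12) (by rw [h4]) (Or.inr rfl)
  have h4 : 0 < Nat.card G := Nat.card_pos
  omega

theorem Hur.simple {G : Type*} [Group G] [Finite G] [Nontrivial G] {a b : G} (h : Hur G a b)
    (hc : Nat.card G = 168) : IsSimpleGroup G := by
  refine ⟨fun N hN => ?_⟩
  by_cases hT : N = ⊤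
  · exact Or.inr hT
  left
  have hq := h.map (QuotientGroup.mk' N) (QuotientGroup.mk'_surjective _)
  have hi : N.index ≠ 1 := fun h1 => hT (Subgroup.index_eq_one.1 h1)
  have hi0 : 0 < N.index := Nat.pos_of_ne_zero Subgroup.index_ne_zero_of_finite
  haveI : Nontrivial (G ⧸ N) := by
    rw [← Finite.one_lt_card_iff_nontrivial, ← Subgroup.index_eq_card]
    omega
  have h1 := hq.dvd
  have h2 := Subgroup.card_mul_index N
  rw [hc] at h2
  rw [← Subgroup.index_eq_card] at h1
  have h3 : ∀ m, (m = 6 ∨ m = 12) → N.index ≠ 7 * m := fun m hm h4 => hq.not_small (m := m)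
    (by rw [← Subgroup.index_eq_card, h4]) hm
  have h4 := h3 6 (Or.inl rfl)
  have h5 := h3 12 (Or.inr rfl)
  have h6 : N.index ∣ 168 := ⟨_, by rw [mul_comm]; exact h2.symm⟩
  have h7 : N.index = 168 := by
    obtain ⟨k, hk⟩ := h1
    rw [hk] at h6 h4 h5 ⊢
    have h8 : k ∣ 4 := by
      have : 42 * k ∣ 42 * 4 := h6
      exact Nat.dvd_of_mul_dvd_mul_left (by norm_num) this
    have h9 : k ≤ 4 := Nat.le_of_dvd (by norm_num) h8
    interval_cases k <;> omega
  rw [h7] at h2
  have h8 : Nat.card N = 1 := by omega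
  exact Subgroup.card_eq_one.1 h8

end H76.Hur7
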