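import Mathlib
import Cfsg.Prelude.Def_Solvable
import Cfsg.Prelude.Def_Transfer
import Cfsg.Agent.Lib.H76.D8Mod2
import Cfsg.Agent.Lib.H5.InvTools

/-! Noncyclic abelian subgroups of order 8. -/

set_option autoImplicit false
set_option linter.unusedSectionVars false
open Cfsg

namespace H76.NoAb8

open Subgroup H76.D8Mod

variable {S : Type*} [Group S] [Finite S]

/-- `Y` contains a noncyclic abelian subgroup of order 8 -/
def Bad (Y : Subgroup S) : Prop :=
  ∃ A : Subgroup S, A ≤ Y ∧ IsMulCommutative A ∧ ¬ IsCyclic A ∧ Nat.card A = 8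

theorem Bad.mono {Y Z : Subgroup S} (h : Bad Y) (hYZ : Y ≤ Z) : Bad Z := by
  obtain ⟨A, h1, h2, h3, h4⟩ := h
  exact ⟨A, h1.trans hYZ, h2, h3, h4⟩

/-- adjoin an element with square in the four-group -/
def ext (V : Subgroup S) (c : S) (hc : ∀ v ∈ V, c * v = v * c) (hc2 : c * c ∈ V) : Subgroup S where
  carrier := {x | x ∈ V ∨ x * c⁻¹ ∈ V}
  one_mem' := Or.inl V.one_mem
  mul_mem' := by
    have hci : ∀ v ∈ V, c⁻¹ * v = v * c⁻¹ := fun v hv => by
      rw [inv_mul_eq_iff_eq_mul, ← mul_assoc, hc v hv, mul_inv_cancel_right]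
    rintro x y (hx | hx) (hy | hy)
    · exact Or.inl (mul_mem hx hy)
    · right
      rw [mul_assoc]
      exact mul_mem hx hy
    · right
      have : x * y * c⁻¹ = (x * c⁻¹) * y := by rw [mul_assoc, ← hci y hy, ← mul_assoc]
      rw [this]
      exact mul_mem hx hy
    · left
      have : x * y = (x * c⁻¹) * (y * c⁻¹) * (c * c) := by
        have h1 := hc _ hy
        calc x * y = x * c⁻¹ * (c * (y * c⁻¹)) * c := by group
          _ = _ := by rw [h1]; group
      rw [this]
      exact mul_mem (mul_mem hx hy) hc2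
  inv_mem' := by
    have hci : ∀ v ∈ V, c⁻¹ * v = v * c⁻¹ := fun v hv => by
      rw [inv_mul_eq_iff_eq_mul, ← mul_assoc, hc v hv, mul_inv_cancel_right]
    rintro x (hx | hx)
    · exact Or.inl (inv_mem hx)
    · right
      have h1 : x⁻¹ * c⁻¹ = (c * c)⁻¹ * (x * c⁻¹)⁻¹ := by
        have h2 := hc _ hx
        have h3 : c * x = x * c := by
          calc c * x = c * (x * c⁻¹) * c := by group
            _ = x * c⁻¹ * c * c := by rw [h2]
            _ = x * c := by group
        calc x⁻¹ * c⁻¹ = (c * x)⁻¹ := by group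
          _ = (x * c)⁻¹ := by rw [h3]
          _ = _ := by group
      rw [h1]
      exact mul_mem (inv_mem hc2) (inv_mem hx)

theorem mem_ext {V : Subgroup S} {c : S} {hc : ∀ v ∈ V, c * v = v * c} {hc2 : c * c ∈ V} {x : S} :
    x ∈ ext V c hc hc2 ↔ x ∈ V ∨ x * c⁻¹ ∈ V := Iff.rfl

theorem card_ext {V : Subgroup S} {c : S} {hc : ∀ v ∈ V, c * v = v * c} {hc2 : c * c ∈ V}
    (hcV : c ∉ V) : Nat.card (ext V c hc hc2) = 2 * Nat.card V := by
  have h1 : ((ext V c hc hc2 : Subgroup S) : Set S) = (V : Set S) ∪ (fun v => v * c) '' (V : Set S) := by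
    ext x
    rw [SetLike.mem_coe, mem_ext]
    constructor
    · rintro (h | h)
      · exact Or.inl h
      · exact Or.inr ⟨x * c⁻¹, h, by simp⟩
    · rintro (h | ⟨v, hv, rfl⟩)
      · exact Or.inl h
      · right
        simpa using hv
  have h2 : Disjoint (V : Set S) ((fun v => v * c) '' (V : Set S)) := by
    rw [Set.disjoint_left]
    rintro x hx ⟨v, hv, rfl⟩
    apply hcV
    have : c = v⁻¹ * (v * c) := by group
    rw [this]
    exact mul_mem (inv_mem hv) hx
  have h3 : Nat.card (ext V c hc hc2) = ((ext V c hc hc2 : Subgroup S) : Set S).ncard := rfl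
  have h4 : Nat.card V = (V : Set S).ncard := rfl
  rw [h3, h1, Set.ncard_union_eq h2, Set.ncard_image_of_injective _ (mul_left_injective c), ← h4]
  ring

theorem comm_ext {V : Subgroup S} {c : S} {hc : ∀ v ∈ V, c * v = v * c} {hc2 : c * c ∈ V}
    (hV : ∀ x ∈ V, ∀ y ∈ V, x * y = y * x) : IsMulCommutative (ext V c hc hc2) := by
  have hcc : ∀ x ∈ ext V c hc hc2, c * x = x * c := by
    rintro x (hx | hx)
    · exact hc x hx
    · have h2 := hc _ hx
      calc c * x = c * (x * c⁻¹) * c := by group
        _ = x * c⁻¹ * c * c := by rw [h2]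
        _ = x * c := by group
  have hVx : ∀ v ∈ V, ∀ x ∈ ext V c hc hc2, v * x = x * v := by
    rintro v hv x (hx | hx)
    · exact hV v hv x hx
    · calc v * x = v * (x * c⁻¹) * c := by group
        _ = x * c⁻¹ * (v * c) := by rw [hV v hv _ hx]; group
        _ = x * v := by rw [← hc v hv]; group
  refine ⟨⟨?_⟩⟩
  rintro ⟨x, hx⟩ ⟨y, hy⟩
  apply Subtype.ext
  show x * y = y * x
  rcases mem_ext.1 hx with h | h
  · exact hVx x h y hy
  · have h1 := hVx _ h y hy
    calc x * y = x * c⁻¹ * (c * y) := by group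
      _ = (x * c⁻¹) * y * c := by rw [hcc y hy]; group
      _ = y * x := by rw [h1]; group

theorem bad_of_four {Y : Subgroup S} {u v b : S} (hu : u ∈ Y) (hv : v ∈ Y) (hb : b ∈ Y)
    (hu2 : u * u = 1) (hv2 : v * v = 1) (hu1 : u ≠ 1) (hv1 : v ≠ 1) (huv : u ≠ v)
    (huvc : u * v = v * u) (hbu : b * u = u * b) (hbv : b * v = v * b) (hb2 : ∃ n : ℕ, b ^ 2 ^ n = 1)
    (hb1 : b ≠ 1) (hbu' : b ≠ u) (hbv' : b ≠ v) (hbuv : b ≠ u * v) : Bad Y := by
  classical
  set V := four u v hu2 hv2 huvc with hV
  have hVcomm : ∀ x ∈ V, ∀ y ∈ V, x * y = y * x := by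
    have e1 : u * (u * v) = v := by rw [← mul_assoc, hu2, one_mul]
    have e2 : u * v * u = v := by rw [huvc, mul_assoc, hu2, mul_one]
    have e3 : v * (u * v) = u := by rw [huvc, ← mul_assoc, hv2, one_mul]
    have e4 : u * v * v = u := by rw [mul_assoc, hv2, mul_one]
    intro x hx y hy
    rcases mem_four.1 hx with rfl | rfl | rfl | rfl <;> rcases mem_four.1 hy with rfl | rfl | rfl | rfl <;>
      simp [huvc]
    all_goals first
      | rw [← huvc, e3, e4]
      | rw [← huvc, e1, e2]
  have hVY : V ≤ Y := by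
    intro x hx
    rcases mem_four.1 hx with rfl | rfl | rfl | rfl
    · exact Y.one_mem
    · exact hv
    · exact hu
    · exact Y.mul_mem hu hv
  have hbV : b ∉ V := by
    intro h
    rcases mem_four.1 h with h | h | h | h
    · exact hb1 h
    · exact hbv' h
    · exact hbu' h
    · exact hbuv h
  have hex : ∃ n : ℕ, b ^ 2 ^ n ∈ V := by
    obtain ⟨n, hn⟩ := hb2
    exact ⟨n, by rw [hn]; exact V.one_mem⟩
  have hspec := Nat.find_spec hex
  have hmin := fun m => Nat.find_min (H := hex) (m := m)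
  set n := Nat.find hex with hn
  have hn0 : n ≠ 0 := by
    intro h
    rw [h, pow_zero, pow_one] at hspec
    exact hbV hspec
  obtain ⟨m, hm⟩ : ∃ m, n = m + 1 := ⟨n - 1, by omega⟩
  have hc0 : b ^ 2 ^ m ∉ V := hmin m (by omega)
  set c := b ^ 2 ^ m with hc
  have hcc : c * c ∈ V := by
    rw [hm, pow_succ, pow_mul, pow_two] at hspec
    exact hspec
  have hcu : Commute c u := (show Commute b u from hbu).pow_left _
  have hcv : Commute c v := (show Commute b v from hbv).pow_left _
  have hcV : ∀ x ∈ V, c * x = x * c := by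
    intro x hx
    rcases mem_four.1 hx with rfl | rfl | rfl | rfl
    · rw [one_mul, mul_one]
    · exact hcv
    · exact hcu
    · exact hcu.mul_right hcv
  refine ⟨ext V c hcV hcc, ?_, comm_ext hVcomm, ?_, ?_⟩
  · rintro x (hx | hx)
    · exact hVY hx
    · have : x = x * c⁻¹ * c := by group
      rw [this]
      exact mul_mem (hVY hx) (pow_mem hb _)
  · intro hcyc
    have h1 : u ∈ ext V c hcV hcc := Or.inl (mem_four.2 (by simp))
    have h2 : v ∈ ext V c hcV hcc := Or.inl (mem_four.2 (by simp))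
    exact huv (H5.InvTools.cyclic_involution_unique_mem _ hcyc h1 h2
      (orderOf_eq_prime (by rw [pow_two]; exact hu2) hu1)
      (orderOf_eq_prime (by rw [pow_two]; exact hv2) hv1))
  · rw [card_ext hc0, card_four hu1 hv1 huv]

/-- quaternion group data -/
structure QD (D : Subgroup S) (z a b : S) : Prop where
  aa : a * a = z
  bb : b * b = z
  zz : z * z = 1
  z1 : z ≠ 1
  ba : b * a = z * (a * b)
  mem : ∀ x, x ∈ D ↔ x = 1 ∨ x = z ∨ x = a ∨ x = a * z ∨ x = b ∨ x = b * z ∨ x = a * b ∨ x = a * b * z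

namespace QD

variable {D : Subgroup S} {z a b : S}

theorem az (h : QD D z a b) : a * z = z * a := by rw [← h.aa, mul_assoc]

theorem bz (h : QD D z a b) : b * z = z * b := by rw [← h.bb, mul_assoc]

theorem a_mem (h : QD D z a b) : a ∈ D := (h.mem a).2 (by simp)
theorem b_mem (h : QD D z a b) : b ∈ D := (h.mem b).2 (by simp)
theorem z_mem (h : QD D z a b) : z ∈ D := (h.mem z).2 (by simp)

theorem a1 (h : QD D z a b) : a ≠ 1 := by
  rintro rfl
  exact h.z1 (by rw [← h.aa, one_mul])

theorem az' (h : QD D z a b) : a ≠ z := by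
  rintro rfl
  exact h.z1 (by rw [← h.aa, h.zz])

theorem b1 (h : QD D z a b) : b ≠ 1 := by
  rintro rfl
  exact h.z1 (by rw [← h.bb, one_mul])

theorem bz' (h : QD D z a b) : b ≠ z := by
  rintro rfl
  exact h.z1 (by rw [← h.bb, h.zz])

theorem z_comm (h : QD D z a b) : ∀ d ∈ D, d * z = z * d := by
  intro d hd
  have h1 := h.az
  have h2 := h.bz
  have h3 : a * b * z = z * (a * b) := by rw [mul_assoc, h2, ← mul_assoc, h1, mul_assoc]
  rcases (h.mem d).1 hd with rfl | rfl | rfl | rfl | rfl | rfl | rfl | rfl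
  · rw [one_mul, mul_one]
  · rfl
  · exact h1
  · rw [mul_assoc, ← mul_assoc z, ← h1, mul_assoc]
  · exact h2
  · rw [mul_assoc, ← mul_assoc z, ← h2, mul_assoc]
  · exact h3
  · calc a * b * z * z = (z * (a * b)) * z := by rw [h3]
      _ = z * (a * b * z) := by group

theorem abab (h : QD D z a b) : a * b * (a * b) = z := by
  calc a * b * (a * b) = a * (b * a) * b := by group
    _ = a * z * (a * (b * b)) := by rw [h.ba]; group
    _ = z * (a * a) * z := by rw [h.az, h.bb]; group
    _ = z := by rw [h.aa, h.zz, one_mul]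

theorem sq (h : QD D z a b) : ∀ d ∈ D, d = 1 ∨ d = z ∨ d * d = z := by
  have key : ∀ x ∈ D, x * x = z → (x * z) * (x * z) = z := by
    intro x hx hxx
    calc (x * z) * (x * z) = x * (z * x) * z := by group
      _ = (x * x) * (z * z) := by rw [← h.z_comm x hx]; group
      _ = z := by rw [hxx, h.zz, mul_one]
  have hab : a * b ∈ D := mul_mem h.a_mem h.b_mem
  intro d hd
  rcases (h.mem d).1 hd with rfl | rfl | rfl | rfl | rfl | rfl | rfl | rfl
  · exact Or.inl rfl
  · exact Or.inr (Or.inl rfl)
  · exact Or.inr (Or.inr h.aa)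
  · exact Or.inr (Or.inr (key _ h.a_mem h.aa))
  · exact Or.inr (Or.inr h.bb)
  · exact Or.inr (Or.inr (key _ h.b_mem h.bb))
  · exact Or.inr (Or.inr h.abab)
  · exact Or.inr (Or.inr (key _ hab h.abab))

theorem comm_a (h : QD D z a b) : ∀ d ∈ D, d * a = a * d → d = 1 ∨ d = z ∨ d = a ∨ d = a * z := by
  have hne : ∀ x : S, z * x ≠ x := fun x hx => h.z1 (by simpa using hx)
  have hba := h.ba
  intro d hd hda
  rcases (h.mem d).1 hd with rfl | rfl | rfl | rfl | rfl | rfl | rfl | rfl
  · simp
  · simp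
  · simp
  · simp
  · exfalso
    rw [hba] at hda
    exact hne _ hda
  · exfalso
    have e1 : b * z * a = a * b := by
      calc b * z * a = b * (z * a) := by group
        _ = (b * a) * z := by rw [← h.az]; group
        _ = z * z * (a * b) := by
            rw [hba, mul_assoc z, h.z_comm _ (mul_mem h.a_mem h.b_mem)]; group
        _ = a * b := by rw [h.zz, one_mul]
    have e2 : a * (b * z) = z * (a * b) := by
      rw [← mul_assoc, h.z_comm _ (mul_mem h.a_mem h.b_mem)]
    rw [e1, e2] at hda
    exact hne _ hda.symm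
  · exfalso
    have e1 : a * b * a = z * (a * (a * b)) := by
      calc a * b * a = a * (b * a) := by group
        _ = (a * z) * (a * b) := by rw [hba]; group
        _ = _ := by rw [h.az]; group
    rw [e1] at hda
    exact hne _ hda
  · exfalso
    have e1 : a * b * z * a = a * (a * b) := by
      calc a * b * z * a = a * (b * (z * a)) := by group
        _ = a * (b * a) * z := by rw [← h.az]; group
        _ = (a * z) * (a * b) * z := by rw [hba]; group
        _ = z * a * (a * b * z) := by rw [h.az]; group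
        _ = z * (a * z) * (a * b) := by
            rw [h.z_comm _ (mul_mem h.a_mem h.b_mem)]; group
        _ = (z * z) * (a * (a * b)) := by rw [h.az]; group
        _ = _ := by rw [h.zz, one_mul]
    have e2 : a * (a * b * z) = z * (a * (a * b)) := by
      calc a * (a * b * z) = a * z * (a * b) := by
            rw [h.z_comm _ (mul_mem h.a_mem h.b_mem)]; group
        _ = _ := by rw [h.az]; group
    rw [e1, e2] at hda
    exact hne _ hda.symm

end QD

theorem bad_of_quat {D Y : Subgroup S} {z a b : S} (h : QD D z a b) (hDY : D ≤ Y) {e : S}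
    (he : e ∈ Y) (heD : e ∉ D) (hea : ∀ d ∈ D, e * d = d * e) (he2 : ∃ n : ℕ, e ^ 2 ^ n = 1) :
    Bad Y := by
  classical
  have hex : ∃ n : ℕ, e ^ 2 ^ n ∈ D := by
    obtain ⟨n, hn⟩ := he2
    exact ⟨n, by rw [hn]; exact D.one_mem⟩
  have hspec := Nat.find_spec hex
  have hmin := fun m => Nat.find_min (H := hex) (m := m)
  set n := Nat.find hex with hn
  have hn0 : n ≠ 0 := by
    intro h
    rw [h, pow_zero, pow_one] at hspec
    exact heD hspec
  obtain ⟨m, hm⟩ : ∃ m, n = m + 1 := ⟨n - 1, by omega⟩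
  have hc0 : e ^ 2 ^ m ∉ D := hmin m (by omega)
  set c := e ^ 2 ^ m with hc
  have hcc : c * c ∈ D := by
    rw [hm, pow_succ, pow_mul, pow_two] at hspec
    exact hspec
  have hcY : c ∈ Y := pow_mem he _
  have hcD : ∀ d ∈ D, c * d = d * c := fun d hd => (show Commute e d from hea d hd).pow_left _
  have hca := hcD a h.a_mem
  have hcz := hcD z h.z_mem
  -- `c * c` is central in `D`
  have hcc' : c * c = 1 ∨ c * c = z := by
    have h1 : (c * c) * a = a * (c * c) := by rw [mul_assoc, hca, ← mul_assoc, hca, mul_assoc]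
    have h2 : (c * c) * b = b * (c * c) := by
      have hcb := hcD b h.b_mem
      rw [mul_assoc, hcb, ← mul_assoc, hcb, mul_assoc]
    rcases h.comm_a _ hcc h1 with h3 | h3 | h3 | h3
    · exact Or.inl h3
    · exact Or.inr h3
    · exfalso
      rw [h3, h.ba] at h2
      exact h.z1 (by simpa using h2)
    · exfalso
      rw [h3] at h2
      have e1 : b * (a * z) = a * b := by
        calc b * (a * z) = (b * a) * z := by group
          _ = z * (a * b * z) := by rw [h.ba]; group
          _ = (z * z) * (a * b) := by rw [h.z_comm _ (mul_mem h.a_mem h.b_mem)]; group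
          _ = _ := by rw [h.zz, one_mul]
      have e2 : a * z * b = z * (a * b) := by rw [h.az]; group
      rw [e1, e2] at h2
      exact h.z1 (by simpa using h2)
  have ha4 : ∃ n : ℕ, a ^ 2 ^ n = 1 := ⟨2, by
    have : a ^ 2 ^ 2 = (a * a) * (a * a) := by
      rw [show 2 ^ 2 = 4 from rfl, pow_succ, pow_succ, pow_two]; group
    rw [this, h.aa, h.zz]⟩
  have hzY := hDY h.z_mem
  have haY := hDY h.a_mem
  rcases hcc' with h1 | h1
  · refine bad_of_four (u := z) (v := c) (b := a) hzY hcY haY h.zz h1 h.z1 ?_ ?_ hcz.symm h.az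
      hca.symm ha4 h.a1 h.az' ?_ ?_
    · rintro h2; exact hc0 (by rw [h2]; exact D.one_mem)
    · rintro h2; exact hc0 (by rw [← h2]; exact h.z_mem)
    · rintro h2; exact hc0 (by rw [← h2]; exact h.a_mem)
    · intro h2
      apply hc0
      have : c = z⁻¹ * a := by rw [h2]; group
      rw [this]
      exact mul_mem (inv_mem h.z_mem) h.a_mem
  · have h2 : (a * c) * (a * c) = 1 := by
      calc (a * c) * (a * c) = a * (c * a) * c := by group
        _ = (a * a) * (c * c) := by rw [hca]; group
        _ = 1 := by rw [h.aa, h1, h.zz]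
    refine bad_of_four (u := z) (v := a * c) (b := a) hzY (mul_mem haY hcY) haY h.zz h2 h.z1 ?_ ?_ ?_
      h.az ?_ ha4 h.a1 h.az' ?_ ?_
    · intro h3
      apply hc0
      have : c = a⁻¹ * 1 := by rw [← h3]; group
      rw [this, mul_one]
      exact inv_mem h.a_mem
    · intro h3
      apply hc0
      have : c = a⁻¹ * z := by rw [h3]; group
      rw [this]
      exact mul_mem (inv_mem h.a_mem) h.z_mem
    · rw [mul_assoc, hcz, ← mul_assoc, ← mul_assoc, h.az]
    · rw [mul_assoc, hca]
    · intro h3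
      apply hc0
      have : c = 1 := by simpa using h3
      rw [this]; exact D.one_mem
    · intro h3
      apply hc0
      have : c = (z * a)⁻¹ * a := by
        have h4 : z * a * c = a := by rw [mul_assoc]; exact h3.symm
        rw [eq_inv_mul_iff_mul_eq]; exact h4
      rw [this]
      exact mul_mem (inv_mem (mul_mem h.z_mem h.a_mem)) h.a_mem

end H76.NoAb8
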