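import Mathlib
import Cfsg.Prelude.Def_Solvable
import Cfsg.Prelude.Def_Transfer
import Cfsg.Agent.Lib.H76.NoAb8
import Cfsg.Agent.Lib.H1.Coprime2
import Cfsg.Agent.Lib.H1.Frat
import Cfsg.Agent.Lib.H65.HallHigman

/-! Minimal invariant subgroups without noncyclic abelian subgroups of order 8. -/

set_option autoImplicit false
set_option linter.unusedSectionVars false
open Cfsg

namespace H76.NoAb8

open Subgroup H76.D8Mod

variable {S : Type*} [Group S] [Finite S]

theorem two_pow_of {D : Subgroup S} (hD : IsPGroup 2 D) {x : S} (hx : x ∈ D) :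
    ∃ n : ℕ, x ^ 2 ^ n = 1 := by
  obtain ⟨n, hn⟩ := hD ⟨x, hx⟩
  exact ⟨n, congrArg Subtype.val hn⟩

/-- conjugation by elements of a normalizing subgroup -/
theorem conj_mem_of {K D : Subgroup S} (hKD : K ≤ normalizer (D : Set S)) {k d : S} (hk : k ∈ K)
    (hd : d ∈ D) : k * d * k⁻¹ ∈ D := (mem_normalizer_iff.1 (hKD hk) d).1 hd

theorem le_normalizer_of {K U : Subgroup S} (h : ∀ k ∈ K, ∀ u ∈ U, k * u * k⁻¹ ∈ U) :
    K ≤ normalizer (U : Set S) := by
  intro k hk
  rw [mem_normalizer_iff]
  intro u
  constructor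
  · exact h k hk u
  · intro hu
    have := h k⁻¹ (inv_mem hk) _ hu
    have e : k⁻¹ * (k * u * k⁻¹) * k⁻¹⁻¹ = u := by group
    rwa [e] at this

/-- The elementary abelian case. -/
theorem elementary_case {K D : Subgroup S} (hKD : K ≤ normalizer (D : Set S))
    (hD : IsPGroup 2 D) (hnt : ⁅D, K⁆ ≠ ⊥) (hG : ¬ Bad D) (hE : IsElementaryAbelian 2 D) :
    Nat.card D = 4 := by
  have hcomm : ∀ x ∈ D, ∀ y ∈ D, x * y = y * x := fun x hx y hy =>
    congrArg Subtype.val (hE.1.is_comm.comm (⟨x, hx⟩ : D) ⟨y, hy⟩)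
  have hsq : ∀ x ∈ D, x * x = 1 := fun x hx => by rw [← pow_two]; exact hE.2 x hx
  obtain ⟨n, hn⟩ := IsPGroup.iff_card.1 hD
  have h2 : 4 ≤ Nat.card D := by
    by_contra hlt
    have hn2 : n < 2 := by
      by_contra h
      have : 2 ^ 2 ≤ 2 ^ n := Nat.pow_le_pow_right (by norm_num) (by omega)
      omega
    apply hnt
    rw [commutator_eq_bot_iff_le_centralizer]
    intro d hd
    rw [mem_centralizer_iff]
    intro k hk
    by_cases hd1 : d = 1
    · rw [hd1, mul_one, one_mul]
    have hkd := conj_mem_of hKD hk hd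
    by_cases heq : k * d * k⁻¹ = d
    · rwa [mul_inv_eq_iff_eq_mul] at heq
    exfalso
    have h3 : 3 ≤ Nat.card D := by
      have hs : ({1, d, k * d * k⁻¹} : Set S) ⊆ D := by
        rintro x (rfl | rfl | rfl)
        · exact D.one_mem
        · exact hd
        · exact hkd
      have hc : ({1, d, k * d * k⁻¹} : Set S).ncard = 3 := by
        rw [Set.ncard_insert_of_notMem, Set.ncard_pair]
        · exact fun h => heq h.symm
        · simp only [Set.mem_insert_iff, Set.mem_singleton_iff, not_or]
          refine ⟨fun h => hd1 h.symm, fun h => hd1 ?_⟩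
          have : d = k⁻¹ * (k * d * k⁻¹) * k := by group
          rw [this, ← h]; group
      have := Set.ncard_le_ncard hs (Set.toFinite _)
      rw [hc] at this
      exact this
    interval_cases n <;> omega
  by_contra hne
  have h5 : 4 < Nat.card D := by omega
  apply hG
  -- choose elements
  obtain ⟨u, hu, hu1⟩ : ∃ u ∈ D, u ≠ 1 := by
    by_contra hno
    push Not at hno
    have : D = ⊥ := by rw [eq_bot_iff]; intro x hx; exact hno x hx
    rw [this, Subgroup.card_bot] at h5
    omega
  obtain ⟨v, hv, hvu⟩ : ∃ v ∈ D, v ∉ ({1, u} : Set S) := by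
    by_contra hno
    push Not at hno
    have hsub : (D : Set S) ⊆ {1, u} := fun x hx => hno x hx
    have := Set.ncard_le_ncard hsub (Set.toFinite _)
    rw [Set.ncard_pair (Ne.symm hu1)] at this
    have h6 : Nat.card D = (D : Set S).ncard := rfl
    omega
  simp only [Set.mem_insert_iff, Set.mem_singleton_iff, not_or] at hvu
  obtain ⟨b, hb, hbV⟩ : ∃ b ∈ D, b ∉ ({1, u, v, u * v} : Set S) := by
    by_contra hno
    push Not at hno
    have hsub : (D : Set S) ⊆ {1, u, v, u * v} := fun x hx => hno x hx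
    have h7 := Set.ncard_le_ncard hsub (Set.toFinite _)
    have h8 : ({1, u, v, u * v} : Set S).ncard ≤ 4 := by
      refine (Set.ncard_insert_le _ _).trans ?_
      have := Set.ncard_insert_le u ({v, u * v} : Set S)
      have := Set.ncard_insert_le v ({u * v} : Set S)
      have h9 : ({u * v} : Set S).ncard = 1 := Set.ncard_singleton _
      omega
    have h6 : Nat.card D = (D : Set S).ncard := rfl
    omega
  simp only [Set.mem_insert_iff, Set.mem_singleton_iff, not_or] at hbV
  exact bad_of_four hu hv hb (hsq u hu) (hsq v hv) hu1 hvu.1 (fun h => hvu.2 h.symm)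
    (hcomm u hu v hv) (hcomm b hb u hu) (hcomm b hb v hv) (two_pow_of hD hb) hbV.1 hbV.2.1 hbV.2.2.1
    hbV.2.2.2

/-- Class two, centre of order 2: the order is 8. -/
theorem card_eight {D : Subgroup S} (hD : IsPGroup 2 D) (hG : ¬ Bad D) {z : S} (hz : z ∈ D)
    (hz1 : z ≠ 1) (hzz : z * z = 1) (hzc : ∀ d ∈ D, d * z = z * d)
    (hcommz : ∀ x ∈ D, ∀ y ∈ D, x * y = y * x ∨ x * y = z * (y * x))
    (hsq : ∀ x ∈ D, x * x = 1 ∨ x * x = z) (hnc : ∃ x ∈ D, ∃ y ∈ D, x * y ≠ y * x) :
    Nat.card D = 8 := by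
  obtain ⟨x, hx, y₀, hy₀, hxy⟩ := hnc
  obtain ⟨n, hn⟩ := IsPGroup.iff_card.1 hD
  have hx1 : x ≠ 1 := by
    rintro rfl
    exact hxy (by rw [one_mul, mul_one])
  have hxz : x ≠ z := by
    rintro rfl
    exact hxy (hzc y₀ hy₀).symm
  -- the centralizer of `x` has index at most 2
  have hle : Nat.card D ≤ 2 * Nat.card (D ⊓ centralizer {x} : Subgroup S) := by
    have hsub : (D : Set S) ⊆ ((D ⊓ centralizer {x} : Subgroup S) : Set S) ∪
        (fun c => y₀ * c) '' ((D ⊓ centralizer {x} : Subgroup S) : Set S) := by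
      intro d hd
      by_cases hdx : d * x = x * d
      · left
        exact mem_inf.2 ⟨hd, mem_centralizer_singleton_iff.2 hdx⟩
      · right
        refine ⟨y₀⁻¹ * d, ?_, by simp⟩
        refine mem_inf.2 ⟨mul_mem (inv_mem hy₀) hd, mem_centralizer_singleton_iff.2 ?_⟩
        have h1 : d * x = z * (x * d) := (hcommz d hd x hx).resolve_left hdx
        have h2 : y₀ * x = z * (x * y₀) := (hcommz y₀ hy₀ x hx).resolve_left (fun h => hxy h.symm)
        have h3 : y₀⁻¹ * z = z * y₀⁻¹ := by
          rw [inv_mul_eq_iff_eq_mul, ← mul_assoc, hzc y₀ hy₀, mul_inv_cancel_right]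
        have h4 : x * y₀⁻¹ = z * (y₀⁻¹ * x) := by
          calc x * y₀⁻¹ = y₀⁻¹ * (y₀ * x) * y₀⁻¹ := by group
            _ = (y₀⁻¹ * z) * x := by rw [h2]; group
            _ = _ := by rw [h3]; group
        calc y₀⁻¹ * d * x = y₀⁻¹ * (d * x) := by group
          _ = (y₀⁻¹ * z) * (x * d) := by rw [h1]; group
          _ = (z * (y₀⁻¹ * x)) * d := by rw [h3]; group
          _ = x * (y₀⁻¹ * d) := by rw [← h4]; group
    have h5 := Set.ncard_le_ncard hsub (Set.toFinite _)
    have h6 := Set.ncard_union_le ((D ⊓ centralizer {x} : Subgroup S) : Set S)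
      ((fun c => y₀ * c) '' ((D ⊓ centralizer {x} : Subgroup S) : Set S))
    rw [Set.ncard_image_of_injective _ (mul_right_injective y₀)] at h6
    have h7 : Nat.card D = (D : Set S).ncard := rfl
    have h8 : Nat.card (D ⊓ centralizer {x} : Subgroup S) =
      ((D ⊓ centralizer {x} : Subgroup S) : Set S).ncard := rfl
    omega
  have hxx : x * x = 1 ∨ x * x = z := hsq x hx
  -- lower bound
  have h8 : 8 ≤ Nat.card D := by
    have hxzD : x * z ∈ D := mul_mem hx hz
    -- elements 1 z x xz y0 are distinct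
    have hne : ∀ c ∈ ({1, z, x, x * z} : Set S), c * x = x * c := by
      rintro c (rfl | rfl | rfl | rfl)
      · rw [one_mul, mul_one]
      · exact (hzc x hx).symm
      · rfl
      · rw [mul_assoc, ← hzc x hx]
    have hy₀n : y₀ ∉ ({1, z, x, x * z} : Set S) := fun h => hxy (hne _ h).symm
    have hc : (insert y₀ ({1, z, x, x * z} : Set S)).ncard = 5 := by
      rw [Set.ncard_insert_of_notMem hy₀n, Set.ncard_insert_of_notMem, Set.ncard_insert_of_notMem,
        Set.ncard_pair]
      · intro h; exact hz1 (by simpa using h)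
      · simp only [Set.mem_insert_iff, Set.mem_singleton_iff, not_or]
        exact ⟨fun h => hxz h.symm, fun h => hx1 (by simpa using h)⟩
      · simp only [Set.mem_insert_iff, Set.mem_singleton_iff, not_or]
        refine ⟨fun h => hz1 h.symm, fun h => hx1 h.symm, fun h => hxz ?_⟩
        have : x = z⁻¹ := eq_inv_of_mul_eq_one_left h.symm
        rw [this]
        exact inv_of_sq hzz
    have hsub : insert y₀ ({1, z, x, x * z} : Set S) ⊆ D := by
      rintro c (rfl | rfl | rfl | rfl | rfl)
      · exact hy₀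
      · exact D.one_mem
      · exact hz
      · exact hx
      · exact hxzD
    have h9 := Set.ncard_le_ncard hsub (Set.toFinite _)
    rw [hc] at h9
    have h10 : Nat.card D = (D : Set S).ncard := rfl
    have hn3 : 3 ≤ n := by
      by_contra h
      have : 2 ^ n ≤ 2 ^ 2 := Nat.pow_le_pow_right (by norm_num) (by omega)
      omega
    have : 2 ^ 3 ≤ 2 ^ n := Nat.pow_le_pow_right (by norm_num) hn3
    omega
  by_contra hne8
  have h16 : 4 < Nat.card (D ⊓ centralizer {x} : Subgroup S) := by omega
  apply hG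
  obtain ⟨y, hyC, hyn⟩ : ∃ y ∈ (D ⊓ centralizer {x} : Subgroup S), y ∉ ({1, z, x, z * x} : Set S) := by
    by_contra hno
    push Not at hno
    have hsub : ((D ⊓ centralizer {x} : Subgroup S) : Set S) ⊆ {1, z, x, z * x} := fun c hc => hno c hc
    have h7 := Set.ncard_le_ncard hsub (Set.toFinite _)
    have h8 : ({1, z, x, z * x} : Set S).ncard ≤ 4 := by
      refine (Set.ncard_insert_le _ _).trans ?_
      have := Set.ncard_insert_le z ({x, z * x} : Set S)
      have := Set.ncard_insert_le x ({z * x} : Set S)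
      have h9 : ({z * x} : Set S).ncard = 1 := Set.ncard_singleton _
      omega
    have h6 : Nat.card (D ⊓ centralizer {x} : Subgroup S) =
      ((D ⊓ centralizer {x} : Subgroup S) : Set S).ncard := rfl
    omega
  simp only [Set.mem_insert_iff, Set.mem_singleton_iff, not_or] at hyn
  obtain ⟨hy1, hyz, hyx, hyzx⟩ := hyn
  have hy : y ∈ D := (mem_inf.1 hyC).1
  have hyx' : y * x = x * y := mem_centralizer_singleton_iff.1 (mem_inf.1 hyC).2
  rcases hxx with hx2 | hx2
  · -- `x` involution
    exact bad_of_four hz hx hy hzz hx2 hz1 hx1 (fun h => hxz h.symm) (hzc x hx).symm (hzc y hy) hyx'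
      (two_pow_of hD hy) hy1 hyz hyx hyzx
  · rcases hsq y hy with hy2 | hy2
    · refine bad_of_four hz hy hx hzz hy2 hz1 hy1 (fun h => hyz h.symm) (hzc y hy).symm (hzc x hx)
        hyx'.symm (two_pow_of hD hx) hx1 hxz (fun h => hyx h.symm) ?_
      intro h
      apply hyzx
      rw [h, ← mul_assoc, hzz, one_mul]
    · have h11 : (x * y) * (x * y) = 1 := by
        calc (x * y) * (x * y) = x * (y * x) * y := by group
          _ = (x * x) * (y * y) := by rw [hyx']; group
          _ = 1 := by rw [hx2, hy2, hzz]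
      refine bad_of_four hz (mul_mem hx hy) hx hzz h11 hz1 ?_ ?_ (hzc _ (mul_mem hx hy)).symm
        (hzc x hx) ?_ (two_pow_of hD hx) hx1 hxz ?_ ?_
      · intro h
        apply hyzx
        have h12 : y = x⁻¹ := eq_inv_of_mul_eq_one_right h
        have h13 : x⁻¹ = z * x := by
          rw [inv_eq_iff_mul_eq_one, ← mul_assoc, hzc x hx, mul_assoc, hx2, hzz]
        rw [h12, h13]
      · intro h
        apply hyx
        have h12 : x * y = x * x := by rw [← h, hx2]
        exact mul_left_cancel h12
      · rw [mul_assoc, hyx']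
      · intro h
        apply hy1
        simpa using h
      · intro h
        apply hyz
        have h12 : x = x * (z * y) := by
          rw [← mul_assoc, hzc x hx, mul_assoc]; exact h
        have h13 : z * y = 1 := by simpa using h12.symm
        have h14 : y = z⁻¹ := eq_inv_of_mul_eq_one_right h13
        rw [h14, inv_of_sq hzz]

end H76.NoAb8
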