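import Mathlib
import Cfsg.Prelude.Def_Solvable
import Cfsg.Prelude.Def_Transfer
import Cfsg.Agent.Lib.H76.NoAb8b
import Cfsg.Agent.Lib.H1.Coprime2
import Cfsg.Agent.Lib.H1.Frat
import Cfsg.Agent.Lib.H65.HallHigman
import Cfsg.Agent.Lib.H71.PChains

/-! Structure of minimal invariant subgroups, and growth. -/

set_option autoImplicit false
set_option linter.unusedSectionVars false
open Cfsg

namespace H76.NoAb8

open Subgroup H76.D8Mod
open scoped commutatorElement

variable {S : Type*} [Group S] [Finite S]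

/-- four-group data -/
structure VD (D : Subgroup S) (u v : S) : Prop where
  uu : u * u = 1
  vv : v * v = 1
  u1 : u ≠ 1
  v1 : v ≠ 1
  uv : u ≠ v
  comm : u * v = v * u
  mem : ∀ x, x ∈ D ↔ x = 1 ∨ x = u ∨ x = v ∨ x = u * v

theorem VD.u_mem {D : Subgroup S} {u v : S} (h : VD D u v) : u ∈ D := (h.mem u).2 (by simp)
theorem VD.v_mem {D : Subgroup S} {u v : S} (h : VD D u v) : v ∈ D := (h.mem v).2 (by simp)

theorem VD.comm_all {D : Subgroup S} {u v : S} (h : VD D u v) : ∀ x ∈ D, ∀ y ∈ D, x * y = y * x := by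
  have e1 : u * (u * v) = v := by rw [← mul_assoc, h.uu, one_mul]
  have e2 : u * v * u = v := by rw [h.comm, mul_assoc, h.uu, mul_one]
  have e3 : v * (u * v) = u := by rw [h.comm, ← mul_assoc, h.vv, one_mul]
  have e4 : u * v * v = u := by rw [mul_assoc, h.vv, mul_one]
  have huvc := h.comm
  intro x hx y hy
  rcases (h.mem x).1 hx with rfl | rfl | rfl | rfl <;> rcases (h.mem y).1 hy with rfl | rfl | rfl | rfl <;>
    simp [huvc]
  all_goals first
    | rw [← huvc, e3, e4]
    | rw [← huvc, e1, e2]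

/-- D is a four-group or a quaternion group and invariant proper subgroups are small -/
def Good (K D : Subgroup S) : Prop :=
  (∃ u v, VD D u v ∧ ∀ U : Subgroup S, U < D → K ≤ normalizer (U : Set S) → U = ⊥) ∨
  (∃ z a b, QD D z a b ∧ ∀ U : Subgroup S, U < D → K ≤ normalizer (U : Set S) → ∀ x ∈ U, x = 1 ∨ x = z)

theorem vd_of_card {D : Subgroup S} (hE : IsElementaryAbelian 2 D) (hc : Nat.card D = 4) :
    ∃ u v, VD D u v := by
  have hcomm : ∀ x ∈ D, ∀ y ∈ D, x * y = y * x := fun x hx y hy =>
    congrArg Subtype.val (hE.1.is_comm.comm (⟨x, hx⟩ : D) ⟨y, hy⟩)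
  have hsq : ∀ x ∈ D, x * x = 1 := fun x hx => by rw [← pow_two]; exact hE.2 x hx
  obtain ⟨u, hu, hu1⟩ : ∃ u ∈ D, u ≠ 1 := by
    by_contra hno
    push Not at hno
    have : D = ⊥ := by rw [eq_bot_iff]; intro x hx; exact hno x hx
    rw [this, Subgroup.card_bot] at hc
    omega
  obtain ⟨v, hv, hvu⟩ : ∃ v ∈ D, v ∉ ({1, u} : Set S) := by
    by_contra hno
    push Not at hno
    have hsub : (D : Set S) ⊆ {1, u} := fun x hx => hno x hx
    have := Set.ncard_le_ncard hsub (Set.toFinite _)
    rw [Set.ncard_pair (Ne.symm hu1)] at this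
    have h6 : Nat.card D = (D : Set S).ncard := rfl
    omega
  simp only [Set.mem_insert_iff, Set.mem_singleton_iff, not_or] at hvu
  have hle : four u v (hsq u hu) (hsq v hv) (hcomm u hu v hv) ≤ D := by
    intro x hx
    rcases mem_four.1 hx with rfl | rfl | rfl | rfl
    · exact D.one_mem
    · exact hv
    · exact hu
    · exact mul_mem hu hv
  have heq : four u v (hsq u hu) (hsq v hv) (hcomm u hu v hv) = D := by
    apply eq_of_le_of_card_ge hle
    rw [hc, card_four hu1 hvu.1 (fun h => hvu.2 h.symm)]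
  refine ⟨u, v, hsq u hu, hsq v hv, hu1, hvu.1, fun h => hvu.2 h.symm, hcomm u hu v hv, ?_⟩
  intro x
  rw [← heq, mem_four]
  tauto

/-- The special case. -/
theorem special_case {K D : Subgroup S} (hKD : K ≤ normalizer (D : Set S)) (hD : IsPGroup 2 D)
    (hG : ¬ Bad D) (h1 : ⁅D, K⁆ = D)
    (h2 : ∀ U : Subgroup S, U < D → K ≤ normalizer (U : Set S) → U ≤ ⁅D, D⁆)
    (hDab : ¬ ∀ x ∈ D, ∀ y ∈ D, x * y = y * x)
    (hS : IsSpecial 2 D) :
    ∃ z a b, QD D z a b ∧ ∀ U : Subgroup S, U < D → K ≤ normalizer (U : Set S) → ∀ x ∈ U, x = 1 ∨ x = z := by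
  classical
  have htop : (⊤ : Subgroup D).map D.subtype = D := by rw [← MonoidHom.range_eq_map, range_subtype]
  have hcomm : (commutator D).map D.subtype = ⁅D, D⁆ := by
    rw [_root_.commutator_def, map_commutator, htop]
  -- centre
  set Z : Subgroup S := (center D).map D.subtype with hZ
  have hZD : Z ≤ D := map_subtype_le _
  have hZcomm : Z = ⁅D, D⁆ := by rw [hZ, ← hS.2.2, hcomm]
  have hmemZ : ∀ x, x ∈ Z ↔ x ∈ D ∧ ∀ d ∈ D, d * x = x * d := by
    intro x
    constructor
    · rintro ⟨y, hy, rfl⟩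
      refine ⟨y.2, fun d hd => ?_⟩
      exact congrArg Subtype.val (mem_center_iff.1 hy ⟨d, hd⟩)
    · rintro ⟨hx, hc⟩
      refine ⟨⟨x, hx⟩, ?_, rfl⟩
      rw [SetLike.mem_coe, mem_center_iff]
      intro d
      exact Subtype.ext (hc d d.2)
  have hcZ : ∀ x ∈ D, ∀ y ∈ D, ⁅x, y⁆ ∈ Z := by
    intro x hx y hy
    rw [hZcomm]
    exact commutator_mem_commutator hx hy
  have hsqZ : ∀ x ∈ D, x * x ∈ Z := by
    intro x hx
    have h3 := H1.Frat.pow_mem_frattini hD ⟨x, hx⟩
    rw [hS.2.1] at h3
    refine ⟨_, h3, ?_⟩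
    show x ^ 2 = x * x
    exact pow_two x
  -- centre has exponent 2
  have hcommsq : ∀ x ∈ D, ∀ y ∈ D, ⁅x, y⁆ * ⁅x, y⁆ = 1 := by
    intro x hx y hy
    have h3 := ((hmemZ _).1 (hcZ x hx y hy)).2
    have h4 := ((hmemZ _).1 (hsqZ x hx)).2 y hy
    have e1 : x * y = ⁅x, y⁆ * y * x := by rw [commutatorElement_def]; group
    -- x x y = c c y x x
    have e2 : x * x * y = ⁅x, y⁆ * ⁅x, y⁆ * (y * (x * x)) := by
      calc x * x * y = x * (x * y) := by group
        _ = (x * ⁅x, y⁆) * y * x := by rw [e1]; group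
        _ = ⁅x, y⁆ * (x * y) * x := by rw [h3 x hx]; group
        _ = ⁅x, y⁆ * (⁅x, y⁆ * y * x) * x := by rw [← e1]
        _ = _ := by group
    rw [h4] at e2
    have e3 : ⁅x, y⁆ * ⁅x, y⁆ * (x * x * y) = x * x * y := e2.symm
    simpa using e3
  have hZsq : ∀ x ∈ Z, x * x = 1 := by
    intro x hx
    rw [hZcomm] at hx
    have key : ⁅D, D⁆ ≤ ({ carrier := {x | x ∈ Z ∧ x * x = 1}
                           one_mem' := ⟨Z.one_mem, mul_one 1⟩
                           mul_mem' := by
                            rintro x y ⟨hx, hx2⟩ ⟨hy, hy2⟩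
                            refine ⟨mul_mem hx hy, ?_⟩
                            have h3 := ((hmemZ _).1 hx).2 y (hZD hy)
                            calc (x * y) * (x * y) = x * (y * x) * y := by group
                              _ = (x * x) * (y * y) := by rw [h3]; group
                              _ = 1 := by rw [hx2, hy2, mul_one]
                           inv_mem' := by
                            rintro x ⟨hx, hx2⟩
                            refine ⟨inv_mem hx, ?_⟩
                            rw [inv_of_sq hx2, hx2] } : Subgroup S) := by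
      rw [commutator_le]
      intro a ha b hb
      exact ⟨hcZ a ha b hb, hcommsq a ha b hb⟩
    exact (key hx).2
  -- noncentral element
  obtain ⟨p, hp, q, hq, hpq⟩ : ∃ x ∈ D, ∃ y ∈ D, x * y ≠ y * x := by
    by_contra hno
    push Not at hno
    exact hDab hno
  have hpZ : p ∉ Z := fun h => hpq (((hmemZ p).1 h).2 q hq).symm
  -- the centre has order 2
  have hzc : ⁅p, q⁆ ≠ 1 := by
    intro h
    exact hpq (commutatorElement_eq_one_iff_mul_comm.1 h)
  set z := ⁅p, q⁆ with hz
  have hzZ : z ∈ Z := hcZ p hp q hq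
  have hzz : z * z = 1 := hZsq z hzZ
  have hz1 : z ≠ 1 := hzc
  have hzD : z ∈ D := hZD hzZ
  have hzcen : ∀ d ∈ D, d * z = z * d := ((hmemZ z).1 hzZ).2
  have hZ2 : ∀ w ∈ Z, w = 1 ∨ w = z := by
    intro w hw
    by_contra hno
    push Not at hno
    apply hG
    refine bad_of_four (u := z) (v := w) (b := p) hzD (hZD hw) hp hzz (hZsq w hw) hz1 hno.1 hno.2.symm
      ((((hmemZ w).1 hw).2) z hzD) (hzcen p hp) (((hmemZ w).1 hw).2 p hp) (two_pow_of hD hp) ?_ ?_ ?_ ?_
    · rintro rfl; exact hpZ Z.one_mem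
    · intro h; exact hpZ (h ▸ hzZ)
    · intro h; exact hpZ (h ▸ hw)
    · intro h; exact hpZ (h ▸ mul_mem hzZ hw)
  have hcz : ∀ x ∈ D, ∀ y ∈ D, x * y = y * x ∨ x * y = z * (y * x) := by
    intro x hx y hy
    rcases hZ2 _ (hcZ x hx y hy) with h | h
    · exact Or.inl (commutatorElement_eq_one_iff_mul_comm.1 h)
    · right
      rw [← h, commutatorElement_def]; group
  have hsq : ∀ x ∈ D, x * x = 1 ∨ x * x = z := fun x hx => hZ2 _ (hsqZ x hx)
  have hcard := card_eight hD hG hzD hz1 hzz hzcen hcz hsq ⟨p, hp, q, hq, hpq⟩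
  -- K fixes z
  have hKZ : K ≤ normalizer (Z : Set S) := by
    rw [hZ]; exact H65.HallHigman.le_normalizer_map_char hKD (center D)
  have hkz : ∀ k ∈ K, k * z * k⁻¹ = z := by
    intro k hk
    rcases hZ2 _ (conj_mem_of hKZ hk hzZ) with h | h
    · exfalso
      apply hz1
      have : z = k⁻¹ * (k * z * k⁻¹) * k := by group
      rw [this, h]; group
    · exact h
  -- a moved element
  obtain ⟨k, hk, x, hx, hkx⟩ : ∃ k ∈ K, ∃ x ∈ D, x⁻¹ * (k * x * k⁻¹) ∉ Z := by
    by_contra hno
    push Not at hno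
    have h3 : ⁅D, K⁆ ≤ Z := by
      rw [commutator_le]
      intro x hx k hk
      have h4 := hno k hk x⁻¹ (inv_mem hx)
      rw [commutatorElement_def]
      have e : x * k * x⁻¹ * k⁻¹ = x⁻¹⁻¹ * (k * x⁻¹ * k⁻¹) := by group
      rw [e]; exact h4
    rw [h1] at h3
    exact hpZ (h3 hp)
  set y := k * x * k⁻¹ with hy
  have hyD : y ∈ D := conj_mem_of hKD hk hx
  have hxZ : x ∉ Z := by
    intro h
    apply hkx
    exact mul_mem (inv_mem h) (conj_mem_of hKZ hk h)
  have hyZ : y ∉ Z := by
    intro h
    apply hxZ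
    have := conj_mem_of hKZ (inv_mem hk) h
    have e : k⁻¹ * y * k⁻¹⁻¹ = x := by rw [hy]; group
    rwa [e] at this
  have hxyZ : x * y ∉ Z := by
    intro h
    apply hkx
    have h3 : x⁻¹ * y = (x * x)⁻¹ * (x * y) := by group
    rw [h3]
    exact mul_mem (inv_mem (hsqZ x hx)) h
  have hyy : y * y = x * x := by
    have e : y * y = k * (x * x) * k⁻¹ := by rw [hy]; group
    rw [e]
    rcases hsq x hx with h | h
    · rw [h]; group
    · rw [h, hkz k hk]
  -- members
  have hzx := hzcen x hx
  have hzy := hzcen y hyD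
  have hmem : ∀ w, w ∈ D ↔ w = 1 ∨ w = z ∨ w = x ∨ w = x * z ∨ w = y ∨ w = y * z ∨ w = x * y ∨ w = x * y * z := by
    set s : Set S := {1, z, x, x * z, y, y * z, x * y, x * y * z} with hs
    have hZ' : ∀ w ∈ Z, ∀ t ∈ D, t ∉ Z → ∀ w' ∈ Z, t * w' ≠ w := by
      intro w hw t _ htZ w' hw' h
      apply htZ
      have : t = w * w'⁻¹ := by rw [← h]; group
      rw [this]; exact mul_mem hw (inv_mem hw')
    have hcs : s.ncard = 8 := by
      have hne1 : x * z ≠ x := fun h => hz1 (by simpa using h)
      have hne2 : y * z ≠ y := fun h => hz1 (by simpa using h)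
      have hne3 : x * y * z ≠ x * y := fun h => hz1 (by simpa using h)
      have hxy : ∀ w ∈ Z, ∀ w' ∈ Z, x * w ≠ y * w' := by
        intro w hw w' hw' h
        apply hkx
        have : x⁻¹ * y = w * w'⁻¹ := by
          rw [inv_mul_eq_iff_eq_mul, ← mul_assoc, h]; group
        rw [this]; exact mul_mem hw (inv_mem hw')
      have hxxy : ∀ w ∈ Z, ∀ w' ∈ Z, x * w ≠ x * y * w' := by
        intro w hw w' hw' h
        apply hyZ
        have h5 : w = y * w' := by
          rw [mul_assoc] at h; exact mul_left_cancel h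
        have : y = w * w'⁻¹ := by rw [h5]; group
        rw [this]; exact mul_mem hw (inv_mem hw')
      have hyxy : ∀ w ∈ Z, ∀ w' ∈ Z, y * w ≠ x * y * w' := by
        intro w hw w' hw' h
        apply hxZ
        have h6 := ((hmemZ w).1 hw).2 y hyD
        have h7 := ((hmemZ w').1 hw').2 y hyD
        have h5 : x = w * w'⁻¹ := by
          have : x * (y * w') = y * w := by rw [h]; group
          rw [h6, h7] at this
          rw [eq_mul_inv_iff_mul_eq]
          have h8 : (x * w') * y = w * y := by rw [← this]; group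
          exact mul_right_cancel h8
        rw [h5]; exact mul_mem hw (inv_mem hw')
      have one := Z.one_mem
      have hz' := hzZ
      rw [hs]
      rw [Set.ncard_insert_of_notMem, Set.ncard_insert_of_notMem, Set.ncard_insert_of_notMem,
        Set.ncard_insert_of_notMem, Set.ncard_insert_of_notMem, Set.ncard_insert_of_notMem,
        Set.ncard_pair]
      · exact hne3.symm
      · simp only [Set.mem_insert_iff, Set.mem_singleton_iff, not_or]
        refine ⟨fun h => hyxy z hz' 1 one (by rw [h, mul_one]), hyxy z hz' z hz'⟩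
      · simp only [Set.mem_insert_iff, Set.mem_singleton_iff, not_or]
        refine ⟨hne2.symm, fun h => hyxy 1 one 1 one (by rw [mul_one, mul_one]; exact h),
          fun h => hyxy 1 one z hz' (by rw [mul_one]; exact h)⟩
      · simp only [Set.mem_insert_iff, Set.mem_singleton_iff, not_or]
        refine ⟨fun h => hxy z hz' 1 one (by rw [mul_one]; exact h), hxy z hz' z hz',
          fun h => hxxy z hz' 1 one (by rw [mul_one]; exact h), hxxy z hz' z hz'⟩
      · simp only [Set.mem_insert_iff, Set.mem_singleton_iff, not_or]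
        refine ⟨hne1.symm, fun h => hxy 1 one 1 one (by rw [mul_one, mul_one]; exact h),
          fun h => hxy 1 one z hz' (by rw [mul_one]; exact h),
          fun h => hxxy 1 one 1 one (by rw [mul_one, mul_one]; exact h),
          fun h => hxxy 1 one z hz' (by rw [mul_one]; exact h)⟩
      · simp only [Set.mem_insert_iff, Set.mem_singleton_iff, not_or]
        refine ⟨fun h => hxZ (h ▸ hz'), fun h => hZ' z hz' x hx hxZ z hz' h.symm, fun h => hyZ (h ▸ hz'),
          fun h => hZ' z hz' y hyD hyZ z hz' h.symm, fun h => hxyZ (h ▸ hz'),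
          fun h => hZ' z hz' (x * y) (mul_mem hx hyD) hxyZ z hz' h.symm⟩
      · simp only [Set.mem_insert_iff, Set.mem_singleton_iff, not_or]
        refine ⟨fun h => hz1 h.symm, fun h => hxZ (h ▸ one), fun h => hZ' 1 one x hx hxZ z hz' h.symm,
          fun h => hyZ (h ▸ one),
          fun h => hZ' 1 one y hyD hyZ z hz' h.symm, fun h => hxyZ (h ▸ one),
          fun h => hZ' 1 one (x * y) (mul_mem hx hyD) hxyZ z hz' h.symm⟩
    have hsub : s ⊆ D := by
      rintro w (rfl | rfl | rfl | rfl | rfl | rfl | rfl | rfl)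
      · exact D.one_mem
      · exact hzD
      · exact hx
      · exact mul_mem hx hzD
      · exact hyD
      · exact mul_mem hyD hzD
      · exact mul_mem hx hyD
      · exact mul_mem (mul_mem hx hyD) hzD
    have heq : s = D := by
      apply Set.eq_of_subset_of_ncard_le hsub _ (Set.toFinite _)
      rw [hcs, ← hcard]; rfl
    intro w
    have : w ∈ D ↔ w ∈ s := by rw [heq]; rfl
    rw [this, hs]
    simp only [Set.mem_insert_iff, Set.mem_singleton_iff]
  -- x and y do not commute
  have hxy : x * y ≠ y * x := by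
    intro h
    apply hxZ
    rw [hmemZ]
    refine ⟨hx, ?_⟩
    have hx' : Commute x y := h
    have hxz' : Commute x z := hzx
    intro d hd
    have key : Commute x d := by
      rcases (hmem d).1 hd with rfl | rfl | rfl | rfl | rfl | rfl | rfl | rfl
      · exact Commute.one_right _
      · exact hxz'
      · exact Commute.refl _
      · exact (Commute.refl _).mul_right hxz'
      · exact hx'
      · exact hx'.mul_right hxz'
      · exact (Commute.refl _).mul_right hx'
      · exact ((Commute.refl _).mul_right hx').mul_right hxz'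
    exact key.symm
  have hyx : y * x = z * (x * y) := (hcz y hyD x hx).resolve_left (fun h => hxy h.symm)
  have hsmall : ∀ U : Subgroup S, U < D → K ≤ normalizer (U : Set S) → ∀ w ∈ U, w = 1 ∨ w = z := by
    intro U hU hKU w hw
    apply hZ2
    rw [hZcomm]
    exact h2 U hU hKU hw
  rcases hsq x hx with hxx | hxx
  · exfalso
    -- dihedral case
    have hyy1 : y * y = 1 := by rw [hyy, hxx]
    have hw2 : (x * y) * (x * y) = z := by
      calc (x * y) * (x * y) = x * (y * x) * y := by group
        _ = (x * z) * x * (y * y) := by rw [hyx]; group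
        _ = z * (x * x) * (y * y) := by rw [hzx]; group
        _ = z := by rw [hxx, hyy1, mul_one, mul_one]
    have hmulz : ∀ t ∈ D, (t * z) * (t * z) = t * t := by
      intro t ht
      calc (t * z) * (t * z) = t * (z * t) * z := by group
        _ = (t * t) * (z * z) := by rw [← hzcen t ht]; group
        _ = t * t := by rw [hzz, mul_one]
    have hw4 : ∀ d ∈ D, d * d = z → d ∈ zpowers (x * y) := by
      intro d hd hdd
      have hz1' : (1 : S) ≠ z := hz1.symm
      rcases (hmem d).1 hd with rfl | rfl | rfl | rfl | rfl | rfl | rfl | rfl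
      · exfalso; rw [mul_one] at hdd; exact hz1' hdd
      · exfalso; rw [hzz] at hdd; exact hz1' hdd
      · exfalso; rw [hxx] at hdd; exact hz1' hdd
      · exfalso; rw [hmulz x hx, hxx] at hdd; exact hz1' hdd
      · exfalso; rw [hyy1] at hdd; exact hz1' hdd
      · exfalso; rw [hmulz y hyD, hyy1] at hdd; exact hz1' hdd
      · exact mem_zpowers _
      · have : x * y * z = (x * y) * ((x * y) * (x * y)) := by rw [hw2]
        rw [this]
        exact mul_mem (mem_zpowers _) (mul_mem (mem_zpowers _) (mem_zpowers _))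
    have hxyD : x * y ∈ D := mul_mem hx hyD
    have hU : zpowers (x * y) ≤ D := by rw [zpowers_le]; exact hxyD
    have hKU : K ≤ normalizer ((zpowers (x * y) : Subgroup S) : Set S) := by
      apply le_normalizer_of
      intro k' hk' u hu
      obtain ⟨i, rfl⟩ := mem_zpowers_iff.1 hu
      rw [← conj_zpow]
      apply zpow_mem
      apply hw4 _ (conj_mem_of hKD hk' hxyD)
      have e : k' * (x * y) * k'⁻¹ * (k' * (x * y) * k'⁻¹) = k' * ((x * y) * (x * y)) * k'⁻¹ := by group
      rw [e, hw2, hkz k' hk']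
    have hUlt : zpowers (x * y) < D := by
      refine lt_of_le_of_ne hU ?_
      intro h
      have hx' : x ∈ zpowers (x * y) := by rw [h]; exact hx
      have hy' : y ∈ zpowers (x * y) := by rw [h]; exact hyD
      obtain ⟨i, hi⟩ := mem_zpowers_iff.1 hx'
      obtain ⟨j, hj⟩ := mem_zpowers_iff.1 hy'
      apply hxy
      have hcc := (Commute.refl (x * y)).zpow_zpow i j
      rw [hi, hj] at hcc
      exact hcc
    apply hxyZ
    rcases hsmall _ hUlt hKU (x * y) (mem_zpowers _) with h | h
    · rw [h]; exact Z.one_mem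
    · rw [h]; exact hzZ
  · exact ⟨z, x, y, ⟨hxx, by rw [hyy, hxx], hzz, hz1, hyx, hmem⟩, hsmall⟩

/-- structure of the minimal invariant subgroups -/
theorem min_struct {K D : Subgroup S} (hK : (Nat.card K).Coprime 2) (hKD : K ≤ normalizer (D : Set S))
    (hD : IsPGroup 2 D) (hnt : ⁅D, K⁆ ≠ ⊥)
    (hmin : ∀ U : Subgroup S, U < D → K ≤ normalizer (U : Set S) → ⁅U, K⁆ = ⊥) (hG : ¬ Bad D) :
    Good K D := by
  obtain ⟨h1, h2, h3, h4, -, -⟩ := H65.HallHigman.minimal_action K K D hD hKD le_rfl
    le_normalizer hK hnt hmin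
  rcases h4 with h4 | h4
  · left
    have hc := elementary_case hKD hD hnt hG h4
    obtain ⟨u, v, huv⟩ := vd_of_card h4 hc
    refine ⟨u, v, huv, fun U hU hKU => ?_⟩
    have h5 := h2 U hU hKU
    have h6 : ⁅D, D⁆ = ⊥ := by
      rw [eq_bot_iff, commutator_le]
      intro x hx y hy
      rw [mem_bot, commutatorElement_eq_one_iff_mul_comm]
      exact huv.comm_all x hx y hy
    rw [h6] at h5
    exact le_bot_iff.1 h5
  · by_cases hab : ∀ x ∈ D, ∀ y ∈ D, x * y = y * x
    · left
      -- abelian and special : trivial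
      exfalso
      have h6 : ⁅D, D⁆ = ⊥ := by
        rw [eq_bot_iff, commutator_le]
        intro x hx y hy
        rw [mem_bot, commutatorElement_eq_one_iff_mul_comm]
        exact hab x hx y hy
      have h7 : center D = ⊤ := by
        rw [eq_top_iff]
        intro x _
        rw [mem_center_iff]
        intro y
        exact Subtype.ext (hab y y.2 x x.2)
      have h8 : (frattini D).map D.subtype = D := by
        rw [h4.2.1, h7, ← MonoidHom.range_eq_map, range_subtype]
      rw [h3, h6] at h8
      apply hnt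
      rw [← h8, commutator_bot_left]
    · right
      exact special_case hKD hD hG h1 h2 hab h4

/-- existence of minimal invariant subgroups -/
theorem exists_min {K T : Subgroup S} (hKT : K ≤ normalizer (T : Set S)) (hnt : ⁅T, K⁆ ≠ ⊥) :
    ∃ D ≤ T, K ≤ normalizer (D : Set S) ∧ ⁅D, K⁆ ≠ ⊥ ∧
      ∀ U : Subgroup S, U < D → K ≤ normalizer (U : Set S) → ⁅U, K⁆ = ⊥ := by
  classical
  let s : Set (Subgroup S) := {D | D ≤ T ∧ K ≤ normalizer (D : Set S) ∧ ⁅D, K⁆ ≠ ⊥}
  have hs : s.Finite := Set.toFinite _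
  obtain ⟨D, hDs, hDmin⟩ := hs.exists_minimal ⟨T, le_rfl, hKT, hnt⟩
  refine ⟨D, hDs.1, hDs.2.1, hDs.2.2, ?_⟩
  intro U hU hKU
  by_contra hne
  exact hU.not_ge (hDmin ⟨hU.le.trans hDs.1, hKU, hne⟩ hU.le)

/-- growth -/
theorem grow {K D N : Subgroup S} (hKD : K ≤ normalizer (D : Set S)) (hD : IsPGroup 2 D) (h : Good K D)
    (hN : IsPGroup 2 N) (hDN : D < N) (hKN : K ≤ normalizer (N : Set S)) :
    ∃ e ∈ N, e ∉ D ∧ ∀ d ∈ D, e * d = d * e := by
  have hlt := H71.PChains.lt_normalizer_inf (p := 2) hN hDN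
  set N' := normalizer (D : Set S) ⊓ N with hN'
  have hKN' : K ≤ normalizer (N' : Set S) :=
    H1.Coprime2.le_normalizer_inf (H1.Coprime2.le_normalizer_normalizer hKD) hKN
  have hN'p : IsPGroup 2 N' := hN.to_le inf_le_right
  obtain ⟨n, hn, hnD⟩ := SetLike.exists_of_lt hlt
  have hnN : n ∈ N := (mem_inf.1 hn).2
  have hnn : n ∈ normalizer (D : Set S) := (mem_inf.1 hn).1
  have hDne : D ≠ ⊥ := by
    rintro rfl
    rcases h with ⟨u, v, hV, -⟩ | ⟨z, a, b, hQ, -⟩
    · exact hV.u1 ((mem_bot).1 hV.u_mem)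
    · exact hQ.z1 ((mem_bot).1 hQ.z_mem)
  have hclt : ⁅D, N'⁆ < D :=
    H1.Coprime2.commutator_lt_of_isPGroup (p := 2) hN'p hD inf_le_left hDne
  have hKc : K ≤ normalizer ((⁅D, N'⁆ : Subgroup S) : Set S) :=
    H1.Coprime2.le_normalizer_commutator hKD hKN'
  rcases h with ⟨u, v, hV, hsm⟩ | ⟨z, a, b, hQ, hsm⟩
  · refine ⟨n, hnN, hnD, ?_⟩
    have h1 := hsm _ hclt hKc
    rw [commutator_eq_bot_iff_le_centralizer] at h1
    intro d hd
    exact (mem_centralizer_iff.1 (h1 hd)) n hn
  · have hcom : ∀ d ∈ D, n * d * n⁻¹ = d ∨ n * d * n⁻¹ = z * d := by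
      intro d hd
      have h1 : ⁅d, n⁆ ∈ ⁅D, N'⁆ := commutator_mem_commutator hd hn
      have e : n * d * n⁻¹ = ⁅d, n⁆⁻¹ * d := by rw [commutatorElement_def]; group
      rcases hsm _ hclt hKc _ h1 with h2 | h2
      · left; rw [e, h2]; group
      · right; rw [e, h2, inv_of_sq hQ.zz]
    have hnz : n * z * n⁻¹ = z := by
      rcases hcom z hQ.z_mem with h1 | h1
      · exact h1
      · exfalso
        rw [hQ.zz] at h1
        apply hQ.z1
        have : z = n⁻¹ * (n * z * n⁻¹) * n := by group
        rw [this, h1]; group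
    -- it suffices to centralize a and b
    have hsuff : ∀ e : S, e * a = a * e → e * b = b * e → ∀ d ∈ D, e * d = d * e := by
      intro e hea heb d hd
      have h1 : Commute e a := hea
      have h2 : Commute e b := heb
      have h3 : Commute e z := by rw [← hQ.aa]; exact h1.mul_right h1
      have key : Commute e d := by
        rcases (hQ.mem d).1 hd with rfl | rfl | rfl | rfl | rfl | rfl | rfl | rfl
        · exact Commute.one_right _
        · exact h3
        · exact h1
        · exact h1.mul_right h3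
        · exact h2
        · exact h2.mul_right h3
        · exact h1.mul_right h2
        · exact (h1.mul_right h2).mul_right h3
      exact key
    have hba := hQ.ba
    have hzb := hQ.bz
    have hza := hQ.az
    have hab : a * b = z * (b * a) := by rw [hba, ← mul_assoc, hQ.zz, one_mul]
    have hconj : ∀ d w : S, n * d * n⁻¹ = w → n * d = w * n := by
      intro d w h1; rw [← h1]; group
    have hnz' := hconj _ _ hnz
    have hout : ∀ d ∈ D, n * d ∉ D := by
      intro d hd h1
      apply hnD
      have : n = n * d * d⁻¹ := by group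
      rw [this]; exact mul_mem h1 (inv_mem hd)
    have hmemN : ∀ d ∈ D, n * d ∈ N := fun d hd => mul_mem hnN (hDN.le hd)
    rcases hcom a hQ.a_mem with h1 | h1 <;> rcases hcom b hQ.b_mem with h2 | h2
    · exact ⟨n, hnN, hnD, hsuff n (hconj _ _ h1) (hconj _ _ h2)⟩
    · -- a ↦ a, b ↦ z b : use n * a
      refine ⟨n * a, hmemN a hQ.a_mem, hout a hQ.a_mem, hsuff _ ?_ ?_⟩
      · calc n * a * a = (n * a) * a := rfl
          _ = a * n * a := by rw [hconj _ _ h1]
          _ = a * (n * a) := by group
      · calc n * a * b = n * (a * b) := by group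
          _ = (n * z) * b * a := by rw [hab]; group
          _ = z * (n * b) * a := by rw [hnz']; group
          _ = (z * z) * b * (n * a) := by rw [hconj _ _ h2]; group
          _ = b * (n * a) := by rw [hQ.zz, one_mul]
    · -- a ↦ z a, b ↦ b : use n * b
      refine ⟨n * b, hmemN b hQ.b_mem, hout b hQ.b_mem, hsuff _ ?_ ?_⟩
      · calc n * b * a = n * (b * a) := by group
          _ = (n * z) * a * b := by rw [hba]; group
          _ = z * (n * a) * b := by rw [hnz']; group
          _ = (z * z) * a * (n * b) := by rw [hconj _ _ h1]; group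
          _ = a * (n * b) := by rw [hQ.zz, one_mul]
      · calc n * b * b = (n * b) * b := rfl
          _ = b * n * b := by rw [hconj _ _ h2]
          _ = b * (n * b) := by group
    · -- a ↦ z a, b ↦ z b : use n * (a * b)
      have hab' : a * b ∈ D := mul_mem hQ.a_mem hQ.b_mem
      refine ⟨n * (a * b), hmemN _ hab', hout _ hab', hsuff _ ?_ ?_⟩
      · calc n * (a * b) * a = n * a * (b * a) := by group
          _ = (n * a * z) * (a * b) := by rw [hba]; group
          _ = (n * (a * z)) * (a * b) := by group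
          _ = (n * z) * a * (a * b) := by rw [hza]; group
          _ = z * (n * a) * (a * b) := by rw [hnz']; group
          _ = (z * z) * a * (n * (a * b)) := by rw [hconj _ _ h1]; group
          _ = a * (n * (a * b)) := by rw [hQ.zz, one_mul]
      · calc n * (a * b) * b = n * (a * b) * b := rfl
          _ = (n * z) * b * (a * b) := by nth_rewrite 1 [hab]; group
          _ = z * (n * b) * (a * b) := by rw [hnz']; group
          _ = (z * z) * b * (n * (a * b)) := by rw [hconj _ _ h2]; group
          _ = b * (n * (a * b)) := by rw [hQ.zz, one_mul]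

/-- centralizing elements outside make things bad -/
theorem bad_of_good {K D Y : Subgroup S} (h : Good K D) (hDY : D ≤ Y) {e : S} (he : e ∈ Y) (heD : e ∉ D)
    (hec : ∀ d ∈ D, e * d = d * e) (he2 : ∃ n : ℕ, e ^ 2 ^ n = 1) : Bad Y := by
  rcases h with ⟨u, v, hV, -⟩ | ⟨z, a, b, hQ, -⟩
  · refine bad_of_four (hDY hV.u_mem) (hDY hV.v_mem) he hV.uu hV.vv hV.u1 hV.v1 hV.uv hV.comm
      (hec u hV.u_mem) (hec v hV.v_mem) he2 ?_ ?_ ?_ ?_
    · rintro rfl; exact heD D.one_mem
    · rintro rfl; exact heD hV.u_mem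
    · rintro rfl; exact heD hV.v_mem
    · rintro rfl; exact heD (mul_mem hV.u_mem hV.v_mem)
  · exact bad_of_quat hQ hDY he heD hec he2

theorem bad_of_lt {K D Y : Subgroup S} (hKD : K ≤ normalizer (D : Set S)) (hD : IsPGroup 2 D)
    (h : Good K D) (hY : IsPGroup 2 Y) (hDY : D < Y) (hKY : K ≤ normalizer (Y : Set S)) : Bad Y := by
  obtain ⟨e, he, heD, hec⟩ := grow hKD hD h hY hDY hKY
  exact bad_of_good h hDY.le he heD hec (two_pow_of hY he)

end H76.NoAb8
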