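import Mathlib
import Cfsg.Prelude.Def_Solvable
import Cfsg.Prelude.Def_Transfer
import Cfsg.Agent.Lib.H76.NoAb8c

/-! Contradictions: a noncyclic abelian subgroup of order 8 acting on `V4` or `Q8`. -/

set_option autoImplicit false
set_option linter.unusedSectionVars false
open Cfsg

namespace H76.NoAb8

open Subgroup H76.D8Mod
open scoped commutatorElement

variable {S : Type*} [Group S] [Finite S]

theorem VD.card {D : Subgroup S} {u v : S} (h : VD D u v) : Nat.card D = 4 := by
  have heq : D = four u v h.uu h.vv h.comm := by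
    ext x
    rw [h.mem, mem_four]
    tauto
  rw [heq, card_four h.u1 h.v1 h.uv]

/-- the eight elements -/
theorem mem_eight {D : Subgroup S} (hcard : Nat.card D = 8) {z x y : S} (hz : z ∈ D) (hx : x ∈ D)
    (hy : y ∈ D) (hz1 : z ≠ 1) (hzz : z * z = 1) (hzx : x * z = z * x) (hzy : y * z = z * y)
    (hxZ : x ≠ 1 ∧ x ≠ z) (hyZ : y ≠ 1 ∧ y ≠ z) (hxyZ : x * y ≠ 1 ∧ x * y ≠ z)
    (hyx : y ≠ x ∧ y ≠ x * z) :
    ∀ w, w ∈ D ↔ w = 1 ∨ w = z ∨ w = x ∨ w = x * z ∨ w = y ∨ w = y * z ∨ w = x * y ∨ w = x * y * z := by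
  set s : Set S := {1, z, x, x * z, y, y * z, x * y, x * y * z} with hs
  have hzt : ∀ t : S, t * z = z → t = 1 := fun t h => by simpa using h
  have hcs : s.ncard = 8 := by
    have hne1 : x * z ≠ x := fun h => hz1 (by simpa using h)
    have hne2 : y * z ≠ y := fun h => hz1 (by simpa using h)
    have hne3 : x * y * z ≠ x * y := fun h => hz1 (by simpa using h)
    have hcan : ∀ s t : S, s * z = t * z → s = t := fun s t h => mul_right_cancel h
    have hflip : ∀ s t : S, s * z = t → s = t * z := fun s t h => by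
      rw [← h, mul_assoc, hzz, mul_one]
    have a1 : y ≠ x * y := fun h => hxZ.1 (by
      have : 1 * y = x * y := by rw [one_mul]; exact h
      exact (mul_right_cancel this).symm)
    have a2 : y ≠ x * y * z := fun h => hxZ.2 (by
      have : z * y = x * y := by
        rw [← hzy]; exact (hflip _ _ h.symm).symm
      exact (mul_right_cancel this).symm)
    have a3 : x ≠ x * y := fun h => hyZ.1 (by simpa using h.symm)
    have a4 : x ≠ x * y * z := fun h => hyZ.2 (by
      have h5 : x * y = x * z := hflip _ _ h.symm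
      exact mul_left_cancel h5)
    rw [hs]
    rw [Set.ncard_insert_of_notMem, Set.ncard_insert_of_notMem, Set.ncard_insert_of_notMem,
      Set.ncard_insert_of_notMem, Set.ncard_insert_of_notMem, Set.ncard_insert_of_notMem,
      Set.ncard_pair]
    · exact hne3.symm
    · simp only [Set.mem_insert_iff, Set.mem_singleton_iff, not_or]
      exact ⟨fun h => a2 (hflip _ _ h), fun h => a1 (hcan _ _ h)⟩
    · simp only [Set.mem_insert_iff, Set.mem_singleton_iff, not_or]
      exact ⟨hne2.symm, a1, a2⟩
    · simp only [Set.mem_insert_iff, Set.mem_singleton_iff, not_or]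
      exact ⟨fun h => hyx.2 h.symm, fun h => hyx.1 (hcan _ _ h).symm, fun h => a4 (hflip _ _ h),
        fun h => a3 (hcan _ _ h)⟩
    · simp only [Set.mem_insert_iff, Set.mem_singleton_iff, not_or]
      exact ⟨hne1.symm, fun h => hyx.1 h.symm, fun h => hyx.2 (hflip _ _ h.symm), a3, a4⟩
    · simp only [Set.mem_insert_iff, Set.mem_singleton_iff, not_or]
      exact ⟨fun h => hxZ.2 h.symm, fun h => hxZ.1 (hzt _ h.symm), fun h => hyZ.2 h.symm,
        fun h => hyZ.1 (hzt _ h.symm), fun h => hxyZ.2 h.symm, fun h => hxyZ.1 (hzt _ h.symm)⟩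
    · simp only [Set.mem_insert_iff, Set.mem_singleton_iff, not_or]
      refine ⟨fun h => hz1 h.symm, fun h => hxZ.1 h.symm, fun h => hxZ.2 ?_,
        fun h => hyZ.1 h.symm, fun h => hyZ.2 ?_, fun h => hxyZ.1 h.symm, fun h => hxyZ.2 ?_⟩
      · rw [hflip _ _ h.symm, one_mul]
      · rw [hflip _ _ h.symm, one_mul]
      · rw [hflip _ _ h.symm, one_mul]
  have hsub : s ⊆ D := by
    rintro w (rfl | rfl | rfl | rfl | rfl | rfl | rfl | rfl)
    · exact D.one_mem
    · exact hz
    · exact hx
    · exact mul_mem hx hz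
    · exact hy
    · exact mul_mem hy hz
    · exact mul_mem hx hy
    · exact mul_mem (mul_mem hx hy) hz
  have heq : s = D := by
    apply Set.eq_of_subset_of_ncard_le hsub _ (Set.toFinite _)
    rw [hcs, ← hcard]; rfl
  intro w
  have : w ∈ D ↔ w ∈ s := by rw [heq]; rfl
  rw [this, hs]
  simp only [Set.mem_insert_iff, Set.mem_singleton_iff]

namespace QD

variable {D : Subgroup S} {z a b : S}

theorem card_le (h : QD D z a b) : Nat.card D ≤ 8 := by
  have hsub : (D : Set S) ⊆ {1, z, a, a * z, b, b * z, a * b, a * b * z} := by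
    intro x hx
    simpa using (h.mem x).1 hx
  have h1 := Set.ncard_le_ncard hsub (Set.toFinite _)
  have h2 : Nat.card D = (D : Set S).ncard := rfl
  rw [← h2] at h1
  refine h1.trans ?_
  refine (Set.ncard_insert_le _ _).trans (Nat.succ_le_succ ?_)
  refine (Set.ncard_insert_le _ _).trans (Nat.succ_le_succ ?_)
  refine (Set.ncard_insert_le _ _).trans (Nat.succ_le_succ ?_)
  refine (Set.ncard_insert_le _ _).trans (Nat.succ_le_succ ?_)
  refine (Set.ncard_insert_le _ _).trans (Nat.succ_le_succ ?_)
  refine (Set.ncard_insert_le _ _).trans (Nat.succ_le_succ ?_)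
  refine (Set.ncard_insert_le _ _).trans (Nat.succ_le_succ ?_)
  exact (Set.ncard_singleton _).le

theorem not_comm (h : QD D z a b) : a * b ≠ b * a := by
  intro h1
  rw [h.ba] at h1
  exact h.z1 (by simpa using h1.symm)

/-- relabel -/
theorem relabel (h : QD D z a b) (hcard : Nat.card D = 8) {x y : S} (hx : x ∈ D) (hy : y ∈ D)
    (hx1 : x ≠ 1) (hxz : x ≠ z) (hy1 : y ≠ 1) (hyz : y ≠ z) (hyx : y ≠ x) (hyxz : y ≠ x * z) :
    QD D z x y := by
  have hxx : x * x = z := by
    rcases h.sq x hx with h1 | h1 | h1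
    · exact absurd h1 hx1
    · exact absurd h1 hxz
    · exact h1
  have hyy : y * y = z := by
    rcases h.sq y hy with h1 | h1 | h1
    · exact absurd h1 hy1
    · exact absurd h1 hyz
    · exact h1
  have hzx := h.z_comm x hx
  have hzy := h.z_comm y hy
  have hxinv : x⁻¹ = x * z := by
    rw [inv_eq_iff_mul_eq_one, ← mul_assoc, hxx, h.zz]
  have hyinv : y⁻¹ = y * z := by
    rw [inv_eq_iff_mul_eq_one, ← mul_assoc, hyy, h.zz]
  have hxy1 : x * y ≠ 1 := by
    intro h1
    apply hyxz
    rw [← hxinv]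
    exact eq_inv_of_mul_eq_one_right h1
  have hxyz : x * y ≠ z := by
    intro h1
    apply hyx
    rw [← hxx] at h1
    exact mul_left_cancel h1
  have hxyxy : x * y * (x * y) = z := by
    rcases h.sq _ (mul_mem hx hy) with h1 | h1 | h1
    · exact absurd h1 hxy1
    · exact absurd h1 hxyz
    · exact h1
  refine ⟨hxx, hyy, h.zz, h.z1, ?_, ?_⟩
  · have h1 : y * x = x⁻¹ * z * y⁻¹ := by
      rw [← hxyxy]; group
    rw [h1, hxinv, hyinv]
    calc x * z * z * (y * z) = x * (z * z) * (y * z) := by group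
      _ = x * y * z := by rw [h.zz]; group
      _ = z * (x * y) := h.z_comm _ (mul_mem hx hy)
  · exact mem_eight hcard h.z_mem hx hy h.z1 h.zz hzx hzy ⟨hx1, hxz⟩ ⟨hy1, hyz⟩ ⟨hxy1, hxyz⟩
      ⟨hyx, hyxz⟩

theorem card (h : QD D z a b) : Nat.card D = 8 := by
  have h1 := h.card_le
  -- nonabelian of order 2^n
  have hD : IsPGroup 2 D := by
    rintro ⟨x, hx⟩
    refine ⟨2, Subtype.ext ?_⟩
    show x ^ 2 ^ 2 = 1
    have e : x ^ 2 ^ 2 = (x * x) * (x * x) := by
      rw [show 2 ^ 2 = 4 from rfl, pow_succ, pow_succ, pow_two]; group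
    rw [e]
    rcases h.sq x hx with h1 | h1 | h1
    · rw [h1]; group
    · rw [h1, h.zz, mul_one]
    · rw [h1, h.zz]
  obtain ⟨n, hn⟩ := IsPGroup.iff_card.1 hD
  by_contra hne
  have hn3 : n < 3 := by
    by_contra hlt
    have : 2 ^ 3 ≤ 2 ^ n := Nat.pow_le_pow_right (by norm_num) (by omega)
    omega
  have hcomm : IsMulCommutative D := by
    interval_cases n
    · have : Nat.card D = 1 := by rw [hn]; norm_num
      have : Subsingleton D := (Nat.card_eq_one_iff_unique.1 this).1
      exact ⟨⟨fun x y => Subsingleton.elim _ _⟩⟩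
    · have : Nat.card D = 2 := by rw [hn]; norm_num
      have := isCyclic_of_prime_card this
      exact ⟨⟨fun x y => IsCyclic.commGroup.mul_comm x y⟩⟩
    · exact ⟨⟨fun x y => (IsPGroup.commGroupOfCardEqPrimeSq hn).mul_comm x y⟩⟩
  exact h.not_comm (congrArg Subtype.val (hcomm.is_comm.comm (⟨a, h.a_mem⟩ : D) ⟨b, h.b_mem⟩))

/-- elements acting trivially modulo `z` are inner times centralizing -/
theorem exists_cent (hQ : QD D z a b) {n : S} (h1 : n * a * n⁻¹ = a ∨ n * a * n⁻¹ = z * a)
    (h2 : n * b * n⁻¹ = b ∨ n * b * n⁻¹ = z * b) :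
    ∃ d0 ∈ D, ∀ d ∈ D, (n * d0) * d = d * (n * d0) := by
  have hnz : n * z * n⁻¹ = z := by
    have e : n * z * n⁻¹ = (n * a * n⁻¹) * (n * a * n⁻¹) := by
      rw [← hQ.aa]; group
    rw [e]
    rcases h1 with h1 | h1
    · rw [h1, hQ.aa]
    · rw [h1]
      calc z * a * (z * a) = z * (a * z) * a := by group
        _ = (z * z) * (a * a) := by rw [hQ.az]; group
        _ = z := by rw [hQ.zz, one_mul, hQ.aa]
  have hsuff : ∀ e : S, e * a = a * e → e * b = b * e → ∀ d ∈ D, e * d = d * e := by
    intro e hea heb d hd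
    have h1 : Commute e a := hea
    have h2 : Commute e b := heb
    have h3 : Commute e z := by rw [← hQ.aa]; exact h1.mul_right h1
    have key : Commute e d := by
      rcases (hQ.mem d).1 hd with rfl | rfl | rfl | rfl | rfl | rfl | rfl | rfl
      · exact Commute.one_right _
      · exact h3
      · exact h1
      · exact h1.mul_right h3
      · exact h2
      · exact h2.mul_right h3
      · exact h1.mul_right h2
      · exact (h1.mul_right h2).mul_right h3
    exact key
  have hba := hQ.ba
  have hzb := hQ.bz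
  have hza := hQ.az
  have hab : a * b = z * (b * a) := by rw [hba, ← mul_assoc, hQ.zz, one_mul]
  have hconj : ∀ d w : S, n * d * n⁻¹ = w → n * d = w * n := by
    intro d w h1; rw [← h1]; group
  have hnz' := hconj _ _ hnz
  rcases h1 with h1 | h1 <;> rcases h2 with h2 | h2
  · exact ⟨1, D.one_mem, by rw [mul_one]; exact hsuff n (hconj _ _ h1) (hconj _ _ h2)⟩
  · -- a ↦ a, b ↦ z b : use n * a
    refine ⟨a, hQ.a_mem, hsuff _ ?_ ?_⟩
    · calc n * a * a = (n * a) * a := rfl
        _ = a * n * a := by rw [hconj _ _ h1]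
        _ = a * (n * a) := by group
    · calc n * a * b = n * (a * b) := by group
        _ = (n * z) * b * a := by rw [hab]; group
        _ = z * (n * b) * a := by rw [hnz']; group
        _ = (z * z) * b * (n * a) := by rw [hconj _ _ h2]; group
        _ = b * (n * a) := by rw [hQ.zz, one_mul]
  · -- a ↦ z a, b ↦ b : use n * b
    refine ⟨b, hQ.b_mem, hsuff _ ?_ ?_⟩
    · calc n * b * a = n * (b * a) := by group
        _ = (n * z) * a * b := by rw [hba]; group
        _ = z * (n * a) * b := by rw [hnz']; group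
        _ = (z * z) * a * (n * b) := by rw [hconj _ _ h1]; group
        _ = a * (n * b) := by rw [hQ.zz, one_mul]
    · calc n * b * b = (n * b) * b := rfl
        _ = b * n * b := by rw [hconj _ _ h2]
        _ = b * (n * b) := by group
  · -- a ↦ z a, b ↦ z b : use n * (a * b)
    have hab' : a * b ∈ D := mul_mem hQ.a_mem hQ.b_mem
    refine ⟨a * b, hab', hsuff _ ?_ ?_⟩
    · calc n * (a * b) * a = n * a * (b * a) := by group
        _ = (n * a * z) * (a * b) := by rw [hba]; group
        _ = (n * (a * z)) * (a * b) := by group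
        _ = (n * z) * a * (a * b) := by rw [hza]; group
        _ = z * (n * a) * (a * b) := by rw [hnz']; group
        _ = (z * z) * a * (n * (a * b)) := by rw [hconj _ _ h1]; group
        _ = a * (n * (a * b)) := by rw [hQ.zz, one_mul]
    · calc n * (a * b) * b = n * (a * b) * b := rfl
        _ = (n * z) * b * (a * b) := by nth_rewrite 1 [hab]; group
        _ = z * (n * b) * (a * b) := by rw [hnz']; group
        _ = (z * z) * b * (n * (a * b)) := by rw [hconj _ _ h2]; group
        _ = b * (n * (a * b)) := by rw [hQ.zz, one_mul]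

end QD

theorem noA_V {D A : Subgroup S} {u v : S} (hD : VD D u v) (hDn : D.Normal)
    (hC : centralizer (D : Set S) ≤ D) (hAc : IsMulCommutative A) (hA8 : Nat.card A = 8) : False := by
  have hDp : IsPGroup 2 D := IsPGroup.of_card (n := 2) (by rw [hD.card]; norm_num)
  have hAp : IsPGroup 2 A := IsPGroup.of_card (n := 3) (by rw [hA8]; norm_num)
  have hAD : A ≤ normalizer (D : Set S) := by rw [normalizer_eq_top D]; exact le_top
  have hDne : D ≠ ⊥ := by rintro rfl; exact hD.u1 (mem_bot.1 hD.u_mem)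
  have hlt := H1.Coprime2.commutator_lt_of_isPGroup (p := 2) hAp hDp hAD hDne
  obtain ⟨w, hw, hwC⟩ := SetLike.exists_of_lt hlt
  -- the commutator subgroup has order at most 2
  have hC2 : Nat.card (⁅D, A⁆ : Subgroup S) ≤ 2 := by
    have h1 := Subgroup.card_dvd_of_le hlt.le
    rw [hD.card] at h1
    have h2 : Nat.card (⁅D, A⁆ : Subgroup S) ≠ 4 := by
      intro h
      apply hlt.ne
      apply eq_of_le_of_card_ge hlt.le
      rw [h, hD.card]
    have h3 : Nat.card (⁅D, A⁆ : Subgroup S) ≤ 4 := Nat.le_of_dvd (by norm_num) h1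
    interval_cases h : Nat.card (⁅D, A⁆ : Subgroup S) <;> omega
  -- if all of A centralizes w ...
  have hcentC : ∀ c ∈ (⁅D, A⁆ : Subgroup S), ∀ α ∈ A, α * c = c * α := by
    intro c hc α hα
    by_cases hc1 : c = 1
    · rw [hc1, mul_one, one_mul]
    have h1 : α * c * α⁻¹ ∈ (⁅D, A⁆ : Subgroup S) :=
      (mem_normalizer_iff.1 ((H1.Coprime2.le_normalizer_commutator_right D A) hα) c).1 hc
    by_contra hne
    have h2 : α * c * α⁻¹ ≠ c := fun h => hne (by rwa [mul_inv_eq_iff_eq_mul] at h)
    have h3 : ({1, c, α * c * α⁻¹} : Set S) ⊆ (⁅D, A⁆ : Subgroup S) := by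
      rintro x (rfl | rfl | rfl)
      · exact one_mem _
      · exact hc
      · exact h1
    have h4 : ({1, c, α * c * α⁻¹} : Set S).ncard = 3 := by
      rw [Set.ncard_insert_of_notMem, Set.ncard_pair]
      · exact fun h => h2 h.symm
      · simp only [Set.mem_insert_iff, Set.mem_singleton_iff, not_or]
        refine ⟨fun h => hc1 h.symm, fun h => hc1 ?_⟩
        have : c = α⁻¹ * (α * c * α⁻¹) * α := by group
        rw [this, ← h]; group
    have h5 := Set.ncard_le_ncard h3 (Set.toFinite _)
    rw [h4] at h5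
    have h6 : Nat.card (⁅D, A⁆ : Subgroup S) = ((⁅D, A⁆ : Subgroup S) : Set S).ncard := rfl
    omega
  have hconjw : ∀ α ∈ A, α * w * α⁻¹ * w⁻¹ ∈ (⁅D, A⁆ : Subgroup S) := by
    intro α hα
    have h1 : ⁅w, α⁆⁻¹ ∈ (⁅D, A⁆ : Subgroup S) := inv_mem (commutator_mem_commutator hw hα)
    rwa [commutatorElement_inv, commutatorElement_def] at h1
  -- an element of A centralizing w lies in D
  have hin : ∀ α ∈ A, α * w = w * α → α ∈ D := by
    intro α hα hαw
    apply hC
    rw [mem_centralizer_iff]
    intro d hd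
    -- d = c or d = c * w
    by_cases hdC : d ∈ (⁅D, A⁆ : Subgroup S)
    · exact (hcentC d hdC α hα).symm
    · -- D = C ∪ C w : need index 2
      -- d * w⁻¹ ∈ C
      have h1 : d * w⁻¹ ∈ (⁅D, A⁆ : Subgroup S) ∨ ⁅D, A⁆ = ⊥ := by
        by_cases hb : ⁅D, A⁆ = ⊥
        · exact Or.inr hb
        left
        -- index 2
        have hidx : (⁅D, A⁆ : Subgroup S).relIndex D = 2 := by
          have h2 := Subgroup.card_mul_index ((⁅D, A⁆ : Subgroup S).subgroupOf D)
          rw [hD.card, Nat.card_congr (Subgroup.subgroupOfEquivOfLe hlt.le).toEquiv] at h2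
          change _ * (⁅D, A⁆ : Subgroup S).relIndex D = 4 at h2
          have h3 : Nat.card (⁅D, A⁆ : Subgroup S) ≠ 1 := fun h => hb (Subgroup.card_eq_one.1 h)
          have h4 : 0 < Nat.card (⁅D, A⁆ : Subgroup S) := Nat.card_pos
          have h5 : Nat.card (⁅D, A⁆ : Subgroup S) = 2 := by omega
          rw [h5] at h2
          omega
        have h6 := Subgroup.mul_mem_iff_of_index_two (H := (⁅D, A⁆ : Subgroup S).subgroupOf D) hidx
          (a := ⟨d, hd⟩) (b := ⟨w⁻¹, inv_mem hw⟩)
        have h7 : (⟨d, hd⟩ * ⟨w⁻¹, inv_mem hw⟩ : D) ∈ (⁅D, A⁆ : Subgroup S).subgroupOf D := by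
          rw [h6]
          rw [mem_subgroupOf, mem_subgroupOf]
          constructor
          · intro h; exact absurd h hdC
          · intro h; exact absurd (by simpa using inv_mem h) hwC
        exact h7
      rcases h1 with h1 | h1
      · have h2 := hcentC _ h1 α hα
        calc d * α = (d * w⁻¹) * (w * α) := by group
          _ = (d * w⁻¹ * α) * w := by rw [← hαw]; group
          _ = α * d := by rw [← h2]; group
      · rw [commutator_eq_bot_iff_le_centralizer] at h1
        exact ((mem_centralizer_iff.1 (h1 hd)) α hα).symm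
  -- counting
  have hle : Nat.card A ≤ 2 * Nat.card (A ⊓ D : Subgroup S) := by
    by_cases hall : A ≤ D
    · rw [inf_eq_left.2 hall]; omega
    obtain ⟨α₀, hα₀, hα₀D⟩ := SetLike.not_le_iff_exists.1 hall
    have hsub : (A : Set S) ⊆ ((A ⊓ D : Subgroup S) : Set S) ∪
        (fun c => α₀ * c) '' ((A ⊓ D : Subgroup S) : Set S) := by
      intro α hα
      by_cases hαD : α ∈ D
      · exact Or.inl (mem_inf.2 ⟨hα, hαD⟩)
      · right
        refine ⟨α₀⁻¹ * α, mem_inf.2 ⟨mul_mem (inv_mem hα₀) hα, ?_⟩, by simp⟩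
        apply hin _ (mul_mem (inv_mem hα₀) hα)
        -- both move w by the same element
        have h1 := hconjw α hα
        have h2 := hconjw α₀ hα₀
        have hne1 : α * w * α⁻¹ * w⁻¹ ≠ 1 := by
          intro h
          apply hαD
          apply hin α hα
          rw [mul_inv_eq_one] at h
          rwa [mul_inv_eq_iff_eq_mul] at h
        have hne2 : α₀ * w * α₀⁻¹ * w⁻¹ ≠ 1 := by
          intro h
          apply hα₀D
          apply hin α₀ hα₀
          rw [mul_inv_eq_one] at h
          rwa [mul_inv_eq_iff_eq_mul] at h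
        have h3 : α * w * α⁻¹ * w⁻¹ = α₀ * w * α₀⁻¹ * w⁻¹ := by
          by_contra hne
          have h3 : ({1, α * w * α⁻¹ * w⁻¹, α₀ * w * α₀⁻¹ * w⁻¹} : Set S) ⊆ (⁅D, A⁆ : Subgroup S) := by
            rintro x (rfl | rfl | rfl)
            · exact one_mem _
            · exact h1
            · exact h2
          have h4 : ({1, α * w * α⁻¹ * w⁻¹, α₀ * w * α₀⁻¹ * w⁻¹} : Set S).ncard = 3 := by
            rw [Set.ncard_insert_of_notMem, Set.ncard_pair hne]
            simp only [Set.mem_insert_iff, Set.mem_singleton_iff, not_or]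
            exact ⟨hne1.symm, hne2.symm⟩
          have h5 := Set.ncard_le_ncard h3 (Set.toFinite _)
          rw [h4] at h5
          have h6 : Nat.card (⁅D, A⁆ : Subgroup S) = ((⁅D, A⁆ : Subgroup S) : Set S).ncard := rfl
          omega
        have h4 : α * w * α⁻¹ = α₀ * w * α₀⁻¹ := mul_right_cancel h3
        calc α₀⁻¹ * α * w = α₀⁻¹ * (α * w * α⁻¹) * α := by group
          _ = w * (α₀⁻¹ * α) := by rw [h4]; group
    have h5 := Set.ncard_le_ncard hsub (Set.toFinite _)
    have h6 := Set.ncard_union_le ((A ⊓ D : Subgroup S) : Set S)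
      ((fun c => α₀ * c) '' ((A ⊓ D : Subgroup S) : Set S))
    rw [Set.ncard_image_of_injective _ (mul_right_injective α₀)] at h6
    have h7 : Nat.card A = (A : Set S).ncard := rfl
    have h8 : Nat.card (A ⊓ D : Subgroup S) = ((A ⊓ D : Subgroup S) : Set S).ncard := rfl
    omega
  have hDA : D ≤ A := by
    have h1 : (A ⊓ D : Subgroup S) = D := by
      apply eq_of_le_of_card_ge inf_le_right
      rw [hD.card]; omega
    rw [← h1]; exact inf_le_left
  have hAD' : A ≤ D := by
    refine le_trans ?_ hC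
    intro α hα
    rw [mem_centralizer_iff]
    intro d hd
    exact congrArg Subtype.val (hAc.is_comm.comm (⟨d, hDA hd⟩ : A) ⟨α, hα⟩)
  have h1 := Subgroup.card_le_of_le hAD'
  rw [hD.card] at h1
  omega

theorem noA_Q {D A : Subgroup S} {z a b : S} (hD : QD D z a b) (hDn : D.Normal)
    (hC : centralizer (D : Set S) ≤ D) (hAc : IsMulCommutative A) (hAcyc : ¬ IsCyclic A)
    (hA8 : Nat.card A = 8) : False := by
  have hcard := hD.card
  have hAcomm : ∀ x ∈ A, ∀ y ∈ A, x * y = y * x := fun x hx y hy =>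
    congrArg Subtype.val (hAc.is_comm.comm (⟨x, hx⟩ : A) ⟨y, hy⟩)
  have hDp : IsPGroup 2 D := IsPGroup.of_card (n := 3) (by rw [hcard]; norm_num)
  have hAp : IsPGroup 2 A := IsPGroup.of_card (n := 3) (by rw [hA8]; norm_num)
  have hAD : A ≤ normalizer (D : Set S) := by rw [normalizer_eq_top D]; exact le_top
  have hDne : D ≠ ⊥ := by rintro rfl; exact hD.z1 (mem_bot.1 hD.z_mem)
  -- centralizing elements
  have hin : ∀ {x y n : S}, QD D z x y → (n * x * n⁻¹ = x ∨ n * x * n⁻¹ = z * x) →
      (n * y * n⁻¹ = y ∨ n * y * n⁻¹ = z * y) → n ∈ D := by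
    intro x y n hQ h1 h2
    obtain ⟨d0, hd0, h3⟩ := hQ.exists_cent h1 h2
    have h4 : n * d0 ∈ D := by
      apply hC
      rw [mem_centralizer_iff]
      intro d hd
      exact (h3 d hd).symm
    have e : n = n * d0 * d0⁻¹ := by group
    rw [e]; exact mul_mem h4 (inv_mem hd0)
  have hAneD : ¬ A ≤ D := by
    intro h
    have h1 : A = D := eq_of_le_of_card_ge h (by rw [hcard, hA8])
    exact hD.not_comm (hAcomm a (h1 ▸ hD.a_mem) b (h1 ▸ hD.b_mem))
  -- z is centralized by everything
  have hzS : ∀ s : S, s * z * s⁻¹ = z := by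
    intro s
    have h1 : s * z * s⁻¹ ∈ D := hDn.conj_mem z hD.z_mem s
    have h2 : (s * z * s⁻¹) * (s * z * s⁻¹) = 1 := by
      have : (s * z * s⁻¹) * (s * z * s⁻¹) = s * (z * z) * s⁻¹ := by group
      rw [this, hD.zz]; group
    rcases hD.sq _ h1 with h3 | h3 | h3
    · exfalso
      apply hD.z1
      have : z = s⁻¹ * (s * z * s⁻¹) * s := by group
      rw [this, h3]; group
    · exact h3
    · exfalso
      rw [h2] at h3
      exact hD.z1 h3.symm
  have hzS' : ∀ s : S, s * z = z * s := fun s => by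
    have := hzS s
    rwa [mul_inv_eq_iff_eq_mul] at this
  -- P = D ⊔ A
  have hPp : IsPGroup 2 (A ⊔ D : Subgroup S) := IsPGroup.to_sup_of_normal_right' hAp hDp hAD
  have hPD : (A ⊔ D : Subgroup S) ≤ normalizer (D : Set S) := by
    rw [normalizer_eq_top D]; exact le_top
  have hlt := H1.Coprime2.commutator_lt_of_isPGroup (p := 2) hPp hDp hPD hDne
  set C := ⁅D, (A ⊔ D : Subgroup S)⁆ with hCdef
  obtain ⟨y, hy, hyC⟩ := SetLike.exists_of_lt hlt
  have hzC : z ∈ C := by
    have h1 : ⁅b, a⁆ ∈ C := commutator_mem_commutator hD.b_mem (le_sup_right (a := A) hD.a_mem)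
    have h2 : ⁅b, a⁆ = z := by
      rw [commutatorElement_def, hD.ba]; group
    rwa [h2] at h1
  have hcomC : ∀ d ∈ D, ∀ α ∈ A, α * d * α⁻¹ * d⁻¹ ∈ C := by
    intro d hd α hα
    have h1 : ⁅d, α⁆⁻¹ ∈ C := inv_mem (commutator_mem_commutator hd (le_sup_left (b := D) hα))
    rwa [commutatorElement_inv, commutatorElement_def] at h1
  have hyn1 : y ≠ 1 := fun h => hyC (h ▸ C.one_mem)
  have hynz : y ≠ z := fun h => hyC (h ▸ hzC)
  -- card bound
  have hle : Nat.card A ≤ 2 * Nat.card (A ⊓ D : Subgroup S) := by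
    obtain ⟨α₀, hα₀, hα₀D⟩ := SetLike.not_le_iff_exists.1 hAneD
    have key : ∀ α ∈ A, α ∉ D → α₀⁻¹ * α ∈ D := by
      intro α hα hαD
      by_cases hCz : ∀ c ∈ C, c = 1 ∨ c = z
      · exfalso
        apply hαD
        have h1 : ∀ d ∈ D, α * d * α⁻¹ = d ∨ α * d * α⁻¹ = z * d := by
          intro d hd
          rcases hCz _ (hcomC d hd α hα) with h | h
          · left; rwa [mul_inv_eq_one] at h
          · right; rwa [mul_inv_eq_iff_eq_mul] at h
        exact hin hD (h1 a hD.a_mem) (h1 b hD.b_mem)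
      · push Not at hCz
        obtain ⟨c, hc, hc1, hcz⟩ := hCz
        have hcD : c ∈ D := hlt.le hc
        have hQ : QD D z c y := hD.relabel hcard hcD hy hc1 hcz hyn1 hynz
          (fun h => hyC (h ▸ hc)) (fun h => hyC (h ▸ mul_mem hc hzC))
        have hCmem : ∀ w ∈ C, w = 1 ∨ w = z ∨ w = c ∨ w = c * z := by
          intro w hw
          rcases (hQ.mem w).1 (hlt.le hw) with h | h | h | h | h | h | h | h
          · exact Or.inl h
          · exact Or.inr (Or.inl h)
          · exact Or.inr (Or.inr (Or.inl h))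
          · exact Or.inr (Or.inr (Or.inr h))
          · exact absurd (h ▸ hw) hyC
          · exfalso
            apply hyC
            have : y = w * z⁻¹ := by rw [h]; group
            rw [this]; exact mul_mem hw (inv_mem hzC)
          · exfalso
            apply hyC
            have : y = c⁻¹ * w := by rw [h]; group
            rw [this]; exact mul_mem (inv_mem hc) hw
          · exfalso
            apply hyC
            have : y = c⁻¹ * (w * z⁻¹) := by rw [h]; group
            rw [this]; exact mul_mem (inv_mem hc) (mul_mem hw (inv_mem hzC))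
        -- action on c
        have hactc : ∀ β ∈ A, β * c * β⁻¹ = c ∨ β * c * β⁻¹ = z * c := by
          intro β hβ
          have h1 : β * c * β⁻¹ ∈ C := by
            have h2 := hcomC c hcD β hβ
            have e : β * c * β⁻¹ = β * c * β⁻¹ * c⁻¹ * c := by group
            rw [e]; exact mul_mem h2 hc
          have h2 : (β * c * β⁻¹) * (β * c * β⁻¹) = z := by
            have e : (β * c * β⁻¹) * (β * c * β⁻¹) = β * (c * c) * β⁻¹ := by group
            rw [e, hQ.aa, hzS]
          rcases hCmem _ h1 with h | h | h | h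
          · exfalso; rw [h, mul_one] at h2; exact hD.z1 h2.symm
          · exfalso; rw [h, hD.zz] at h2; exact hD.z1 h2.symm
          · exact Or.inl h
          · right; rw [h, hzS']
        -- action on y
        have hacty : ∀ β ∈ A, β ∉ D → β * y * β⁻¹ = c * y ∨ β * y * β⁻¹ = z * (c * y) := by
          intro β hβ hβD
          rcases hCmem _ (hcomC y hy β hβ) with h | h | h | h
          · exfalso
            exact hβD (hin hQ (hactc β hβ) (Or.inl (by rwa [mul_inv_eq_one] at h)))
          · exfalso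
            exact hβD (hin hQ (hactc β hβ) (Or.inr (by rwa [mul_inv_eq_iff_eq_mul] at h)))
          · left; rwa [mul_inv_eq_iff_eq_mul] at h
          · right
            rw [mul_inv_eq_iff_eq_mul] at h
            rw [h, hzS' c]; group
        -- combine
        have hinvz : ∀ β s t : S, β * s * β⁻¹ = z * t → β⁻¹ * t * β = z * s := by
          intro β s t h
          have h1 : t = z * (β * s * β⁻¹) := by rw [h, ← mul_assoc, hD.zz, one_mul]
          rw [h1]
          calc β⁻¹ * (z * (β * s * β⁻¹)) * β = (β⁻¹ * z) * β * s := by group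
            _ = z * s := by rw [hzS' β⁻¹]; group
        have hinv1 : ∀ β s t : S, β * s * β⁻¹ = t → β⁻¹ * t * β = s := by
          intro β s t h
          rw [← h]; group
        have hconjz : ∀ s t : S, s⁻¹ * (z * t) * s = z * (s⁻¹ * t * s) := by
          intro s t
          calc s⁻¹ * (z * t) * s = (s⁻¹ * z) * t * s := by group
            _ = z * (s⁻¹ * t * s) := by rw [hzS' s⁻¹]; group
        have hzzt : ∀ t : S, z * (z * t) = t := fun t => by rw [← mul_assoc, hD.zz, one_mul]
        apply hin hQ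
        · have e : α₀⁻¹ * α * c * (α₀⁻¹ * α)⁻¹ = α₀⁻¹ * (α * c * α⁻¹) * α₀ := by group
          rw [e]
          rcases hactc α hα with h | h <;> rcases hactc α₀ hα₀ with h' | h'
          · left; rw [h, hinv1 _ _ _ h']
          · right; rw [h, hinvz _ _ _ h']
          · right; rw [h, hconjz, hinv1 _ _ _ h']
          · left; rw [h, hconjz, hinvz _ _ _ h', hzzt]
        · have e : α₀⁻¹ * α * y * (α₀⁻¹ * α)⁻¹ = α₀⁻¹ * (α * y * α⁻¹) * α₀ := by group
          rw [e]
          rcases hacty α hα hαD with h | h <;> rcases hacty α₀ hα₀ hα₀D with h' | h'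
          · left; rw [h, hinv1 _ _ _ h']
          · right; rw [h, hinvz _ _ _ h']
          · right; rw [h, hconjz, hinv1 _ _ _ h']
          · left; rw [h, hconjz, hinvz _ _ _ h', hzzt]
    have hsub : (A : Set S) ⊆ ((A ⊓ D : Subgroup S) : Set S) ∪
        (fun c => α₀ * c) '' ((A ⊓ D : Subgroup S) : Set S) := by
      intro α hα
      by_cases hαD : α ∈ D
      · exact Or.inl (mem_inf.2 ⟨hα, hαD⟩)
      · right
        exact ⟨α₀⁻¹ * α, mem_inf.2 ⟨mul_mem (inv_mem hα₀) hα, key α hα hαD⟩, by simp⟩
    have h5 := Set.ncard_le_ncard hsub (Set.toFinite _)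
    have h6 := Set.ncard_union_le ((A ⊓ D : Subgroup S) : Set S)
      ((fun c => α₀ * c) '' ((A ⊓ D : Subgroup S) : Set S))
    rw [Set.ncard_image_of_injective _ (mul_right_injective α₀)] at h6
    have h7 : Nat.card A = (A : Set S).ncard := rfl
    have h8 : Nat.card (A ⊓ D : Subgroup S) = ((A ⊓ D : Subgroup S) : Set S).ncard := rfl
    omega
  -- x ∈ A ∩ D noncentral in D
  obtain ⟨x, hx, hx1, hxz⟩ : ∃ x ∈ (A ⊓ D : Subgroup S), x ≠ 1 ∧ x ≠ z := by
    by_contra hno
    push Not at hno
    have hsub : ((A ⊓ D : Subgroup S) : Set S) ⊆ {1, z} := by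
      intro w hw
      by_cases h : w = 1
      · exact Or.inl h
      · exact Or.inr (hno w hw h)
    have h1 := Set.ncard_le_ncard hsub (Set.toFinite _)
    rw [Set.ncard_pair hD.z1.symm] at h1
    have h8 : Nat.card (A ⊓ D : Subgroup S) = ((A ⊓ D : Subgroup S) : Set S).ncard := rfl
    omega
  have hxA : x ∈ A := (mem_inf.1 hx).1
  have hxD : x ∈ D := (mem_inf.1 hx).2
  -- y' outside ⟨x⟩
  obtain ⟨y', hy', hy'n⟩ : ∃ y' ∈ D, y' ∉ ({1, z, x, x * z} : Set S) := by
    by_contra hno
    push Not at hno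
    have hsub : (D : Set S) ⊆ {1, z, x, x * z} := fun w hw => hno w hw
    have h1 := Set.ncard_le_ncard hsub (Set.toFinite _)
    have h8 : Nat.card D = (D : Set S).ncard := rfl
    have h9 : ({1, z, x, x * z} : Set S).ncard ≤ 4 := by
      refine (Set.ncard_insert_le _ _).trans (Nat.succ_le_succ ?_)
      refine (Set.ncard_insert_le _ _).trans (Nat.succ_le_succ ?_)
      refine (Set.ncard_insert_le _ _).trans (Nat.succ_le_succ ?_)
      exact (Set.ncard_singleton _).le
    omega
  simp only [Set.mem_insert_iff, Set.mem_singleton_iff, not_or] at hy'n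
  have hQ : QD D z x y' := hD.relabel hcard hxD hy' hx1 hxz hy'n.1 hy'n.2.1 hy'n.2.2.1 hy'n.2.2.2
  obtain ⟨α, hα, hαD⟩ := SetLike.not_le_iff_exists.1 hAneD
  have hαx : α * x = x * α := hAcomm α hα x hxA
  have hαx' : α * x * α⁻¹ = x := by rw [mul_inv_eq_iff_eq_mul]; exact hαx
  have hαy : α * y' * α⁻¹ ∈ D := hDn.conj_mem y' hy' α
  have hαy2 : α * y' * α⁻¹ = x * y' ∨ α * y' * α⁻¹ = z * (x * y') := by
    have hnx : ∀ w : S, w = 1 ∨ w = z ∨ w = x ∨ w = x * z → α * y' * α⁻¹ ≠ w := by
      intro w hw h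
      -- then y' commutes with x
      have h1 : w * x = x * w := by
        rcases hw with rfl | rfl | rfl | rfl
        · rw [one_mul, mul_one]
        · rw [hzS']
        · rfl
        · rw [mul_assoc, ← hzS' x]
      have h2 : y' * x = x * y' := by
        have h3 : y' = α⁻¹ * w * α := by rw [← h]; group
        rw [h3]
        have h4 : α⁻¹ * x = x * α⁻¹ := by
          rw [inv_mul_eq_iff_eq_mul, ← mul_assoc, hαx, mul_inv_cancel_right]
        calc α⁻¹ * w * α * x = α⁻¹ * w * (α * x) := by group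
          _ = α⁻¹ * (w * x) * α := by rw [hαx]; group
          _ = (α⁻¹ * x) * w * α := by rw [h1]; group
          _ = x * (α⁻¹ * w * α) := by rw [h4]; group
      exact hQ.not_comm h2.symm
    rcases (hQ.mem _).1 hαy with h | h | h | h | h | h | h | h
    · exact absurd h (hnx _ (by simp))
    · exact absurd h (hnx _ (by simp))
    · exact absurd h (hnx _ (by simp))
    · exact absurd h (hnx _ (by simp))
    · exact absurd (hin hQ (Or.inl hαx') (Or.inl h)) hαD
    · exact absurd (hin hQ (Or.inl hαx') (Or.inr (by rw [h, hzS']))) hαD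
    · exact Or.inl h
    · right; rw [h, hzS']
  have hα2y : (α * α) * y' * (α * α)⁻¹ = z * y' := by
    have e : (α * α) * y' * (α * α)⁻¹ = α * (α * y' * α⁻¹) * α⁻¹ := by group
    rw [e]
    have e2 : ∀ t : S, α * (x * t) * α⁻¹ = x * (α * t * α⁻¹) := by
      intro t
      calc α * (x * t) * α⁻¹ = (α * x) * t * α⁻¹ := by group
        _ = _ := by rw [hαx]; group
    have e3 : ∀ t : S, α * (z * t) * α⁻¹ = z * (α * t * α⁻¹) := by
      intro t
      calc α * (z * t) * α⁻¹ = (α * z) * t * α⁻¹ := by group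
        _ = _ := by rw [hzS']; group
    rcases hαy2 with h | h
    · rw [h, e2, h, ← mul_assoc, hQ.aa]
    · rw [h, e3, e2, h]
      calc z * (x * (z * (x * y'))) = z * (x * z) * (x * y') := by group
        _ = (z * z) * (x * x) * y' := by rw [hzS' x]; group
        _ = z * y' := by rw [hD.zz, hQ.aa, one_mul]
  have hα2x : (α * α) * x * (α * α)⁻¹ = x := by
    have e : (α * α) * x * (α * α)⁻¹ = α * (α * x * α⁻¹) * α⁻¹ := by group
    rw [e, hαx', hαx']
  have hα2D : α * α ∈ D := hin hQ (Or.inl hα2x) (Or.inr hα2y)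
  have hα2c : (α * α) * x = x * (α * α) := by rwa [mul_inv_eq_iff_eq_mul] at hα2x
  have hα4 : (α * α) * (α * α) = z := by
    rcases hQ.comm_a _ hα2D hα2c with h | h | h | h
    · exfalso
      rw [h] at hα2y
      apply hD.z1
      have h1 : y' = z * y' := by simpa using hα2y
      simpa using h1.symm
    · exfalso
      rw [h] at hα2y
      apply hD.z1
      have h1 : z * y' * z⁻¹ = y' := by rw [← hzS']; group
      rw [h1] at hα2y
      simpa using hα2y.symm
    · rw [h, hQ.aa]
    · rw [h]
      calc x * z * (x * z) = x * (z * x) * z := by group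
        _ = (x * x) * (z * z) := by rw [← hzS' x]; group
        _ = z := by rw [hQ.aa, hD.zz, mul_one]
  -- order 8
  apply hAcyc
  have ho : orderOf α = 2 ^ (2 + 1) := by
    apply orderOf_eq_prime_pow
    · intro h
      have e : α ^ 2 ^ 2 = (α * α) * (α * α) := by
        rw [show 2 ^ 2 = 4 from rfl, pow_succ, pow_succ, pow_two]; group
      rw [e, hα4] at h
      exact hD.z1 h
    · have e : α ^ 2 ^ (2 + 1) = ((α * α) * (α * α)) * ((α * α) * (α * α)) := by
        rw [show 2 ^ (2 + 1) = 8 from rfl]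
        simp only [pow_succ, pow_zero, one_mul]
        group
      rw [e, hα4, hD.zz]
  refine isCyclic_of_orderOf_eq_card (⟨α, hα⟩ : A) ?_
  rw [hA8, Subgroup.orderOf_mk, ho]
  norm_num

end H76.NoAb8
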