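import Mathlib
import Cfsg.Prelude.Def_Solvable
import Cfsg.Prelude.Def_Transfer
import Cfsg.Agent.Lib.H76.NoAb8d
import Cfsg.Agent.Lib.H26.Basic
import Cfsg.Agent.Lib.H25.DQ
import Cfsg.Agent.Lib.H1.Hall
import Cfsg.Agent.Lib.H1.Solv
import Cfsg.Agent.Lib.H3.Extraspecial

/-! Solvable groups minimal with a noncyclic abelian subgroup of order 8. -/

set_option autoImplicit false
set_option linter.unusedSectionVars false
open Cfsg

namespace H76.NoAb8

open Subgroup H76.D8Mod
open scoped commutatorElement Pointwise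

variable {S : Type*} [Group S] [Finite S]

/-- a commuting subgroup of exponent 4 and order at least 8 is bad -/
theorem bad_of_exp4 {Y : Subgroup S} (hc : ∀ x ∈ Y, ∀ y ∈ Y, x * y = y * x)
    (h4 : ∀ y ∈ Y, y ^ 4 = 1) (h8 : 8 ≤ Nat.card Y) : Bad Y := by
  have hY : IsPGroup 2 Y := by
    rintro ⟨y, hy⟩
    exact ⟨2, Subtype.ext (h4 y hy)⟩
  obtain ⟨n, hn⟩ := IsPGroup.iff_card.1 hY
  have hn3 : 3 ≤ n := by
    by_contra h
    have : 2 ^ n ≤ 2 ^ 2 := Nat.pow_le_pow_right (by norm_num) (by omega)
    omega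
  obtain ⟨B, hB⟩ := Sylow.exists_subgroup_card_pow_prime 2 (G := Y) (n := 3)
    (by rw [hn]; exact pow_dvd_pow 2 hn3)
  have hcard : Nat.card (B.map Y.subtype) = 8 := by
    rw [Nat.card_congr (B.equivMapOfInjective Y.subtype Y.subtype_injective).symm.toEquiv, hB]
    norm_num
  refine ⟨B.map Y.subtype, map_subtype_le _, ?_, ?_, hcard⟩
  · refine ⟨⟨?_⟩⟩
    rintro ⟨x, hx⟩ ⟨y, hy⟩
    exact Subtype.ext (hc x (map_subtype_le _ hx) y (map_subtype_le _ hy))
  · intro hcyc
    obtain ⟨g, hg⟩ := hcyc.exists_generator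
    have h1 : orderOf g = 8 := by
      rw [orderOf_eq_card_of_forall_mem_zpowers hg, hcard]
    have h2 : g ^ 4 = 1 := Subtype.ext (h4 g (map_subtype_le _ g.2))
    have h3 := orderOf_dvd_of_pow_eq_one h2
    rw [h1] at h3
    omega

/-- the centre of a special 2-group has exponent 2 -/
theorem center_sq {P : Type*} [Group P] [Finite P] (hS : IsSpecial 2 P) :
    ∀ z ∈ center P, z * z = 1 := by
  have hcZ : ∀ x y : P, ⁅x, y⁆ ∈ center P := by
    intro x y
    rw [← hS.2.2]
    exact commutator_mem_commutator (mem_top x) (mem_top y)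
  have hsqZ : ∀ x : P, x * x ∈ center P := by
    intro x
    have h3 := H1.Frat.pow_mem_frattini hS.1 x
    rw [hS.2.1, pow_two] at h3
    exact h3
  have hcommsq : ∀ x y : P, ⁅x, y⁆ * ⁅x, y⁆ = 1 := by
    intro x y
    have h3 := mem_center_iff.1 (hcZ x y)
    have h4 := mem_center_iff.1 (hsqZ x) y
    have e1 : x * y = ⁅x, y⁆ * y * x := by rw [commutatorElement_def]; group
    have e2 : x * x * y = ⁅x, y⁆ * ⁅x, y⁆ * (y * (x * x)) := by
      calc x * x * y = x * (x * y) := by group
        _ = (x * ⁅x, y⁆) * y * x := by rw [e1]; group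
        _ = ⁅x, y⁆ * (x * y) * x := by rw [h3 x]; group
        _ = ⁅x, y⁆ * (⁅x, y⁆ * y * x) * x := by rw [← e1]
        _ = _ := by group
    rw [h4] at e2
    have e3 : ⁅x, y⁆ * ⁅x, y⁆ * (x * x * y) = x * x * y := e2.symm
    simpa using e3
  have key : (commutator P) ≤ ({ carrier := {x | x ∈ center P ∧ x * x = 1}
                                 one_mem' := ⟨one_mem _, mul_one 1⟩
                                 mul_mem' := by
                                  rintro x y ⟨hx, hx2⟩ ⟨hy, hy2⟩
                                  refine ⟨mul_mem hx hy, ?_⟩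
                                  have h3 := mem_center_iff.1 hx y
                                  calc (x * y) * (x * y) = x * (y * x) * y := by group
                                    _ = (x * x) * (y * y) := by rw [h3]; group
                                    _ = 1 := by rw [hx2, hy2, mul_one]
                                 inv_mem' := by
                                  rintro x ⟨hx, hx2⟩
                                  refine ⟨inv_mem hx, ?_⟩
                                  rw [inv_of_sq hx2, hx2] } : Subgroup P) := by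
    rw [_root_.commutator_def, commutator_le]
    intro a _ b _
    exact ⟨hcZ a b, hcommsq a b⟩
  intro z hz
  rw [← hS.2.2] at hz
  exact (key hz).2

theorem coprime_eq_bot {K P : Subgroup S} (hK : (Nat.card K).Coprime 2) (hP : IsPGroup 2 P)
    (hKP : K ≤ P) : K = ⊥ := by
  obtain ⟨n, hn⟩ := IsPGroup.iff_card.1 (hP.to_le hKP)
  rw [← Subgroup.card_eq_one]
  have h1 : (Nat.card K).Coprime (2 ^ n) := Nat.Coprime.pow_right n hK
  rw [← hn, Nat.coprime_self] at h1
  exact h1

theorem QD.center_mem {D : Subgroup S} {z a b : S} (h : QD D z a b) {d : S} (hd : d ∈ D)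
    (hc : ∀ e ∈ D, d * e = e * d) : d = 1 ∨ d = z := by
  rcases h.comm_a d hd (hc a h.a_mem) with h1 | h1 | h1 | h1
  · exact Or.inl h1
  · exact Or.inr h1
  · exfalso
    have h2 := hc b h.b_mem
    rw [h1] at h2
    exact h.not_comm h2
  · exfalso
    have h2 := hc b h.b_mem
    rw [h1] at h2
    apply h.not_comm
    have e1 : a * z * b = z * (a * b) := by rw [h.az]; group
    have e2 : b * (a * z) = z * (b * a) := by
      rw [← mul_assoc, h.z_comm _ (mul_mem h.b_mem h.a_mem)]
    rw [e1, e2] at h2
    exact mul_left_cancel h2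

theorem zpow_mod_four {a : S} (ho : orderOf a = 2 * 2) {i : ℤ} : a ^ i = a ^ (i % 4) := by
  have h1 := zpow_mod_orderOf a i
  rw [ho] at h1
  exact_mod_cast h1.symm

theorem QD.equiv {D : Subgroup S} {z a b : S} (h : QD D z a b) : Nonempty (D ≃* QuaternionGroup 2) := by
  have ha2 : a ^ 2 = z := by rw [pow_two, h.aa]
  have ha4 : a ^ 4 = 1 := by
    have : a ^ 4 = (a ^ 2) * (a ^ 2) := by rw [← pow_add]
    rw [this, ha2, h.zz]
  have ho : orderOf a = 2 * 2 := by
    have : orderOf a = 2 ^ (1 + 1) := by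
      apply orderOf_eq_prime_pow
      · rw [pow_one, ha2]; exact h.z1
      · norm_num; exact ha4
    rw [this]; norm_num
  have hainv : a⁻¹ = z * a := by
    rw [inv_eq_iff_mul_eq_one, ← mul_assoc, h.az, mul_assoc, h.aa, h.zz]
  refine H25.DQ.nonempty_quaternion 2 a b D ho (by rw [h.bb, ha2]) ?_ ?_ ?_
  · rw [hainv, h.ba]
    group
  · intro hb
    obtain ⟨i, hi⟩ := mem_zpowers_iff.1 hb
    apply h.not_comm
    rw [← hi]
    exact ((Commute.refl a).zpow_right i)
  · intro g
    have hz2 : z = a ^ (2 : ℤ) := by rw [← ha2]; norm_cast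
    rw [h.mem]
    constructor
    · rintro (rfl | rfl | rfl | rfl | rfl | rfl | rfl | rfl)
      · exact Or.inl ⟨0, by simp⟩
      · exact Or.inl ⟨2, hz2⟩
      · exact Or.inl ⟨1, by simp⟩
      · exact Or.inl ⟨3, by rw [hz2, show (3 : ℤ) = 1 + 2 by norm_num, zpow_add, zpow_one]⟩
      · exact Or.inr ⟨0, by simp⟩
      · exact Or.inr ⟨2, by rw [hz2]⟩
      · refine Or.inr ⟨3, ?_⟩
        rw [show (3 : ℤ) = 1 + 2 by norm_num, zpow_add, zpow_one, ← hz2, ← mul_assoc, h.ba,
          mul_assoc z, h.z_comm _ (mul_mem h.a_mem h.b_mem), ← mul_assoc, h.zz, one_mul]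
      · refine Or.inr ⟨1, ?_⟩
        rw [zpow_one, h.ba, h.z_comm _ (mul_mem h.a_mem h.b_mem)]
    · have key : ∀ i : ℤ, a ^ i = 1 ∨ a ^ i = z ∨ a ^ i = a ∨ a ^ i = a * z := by
        intro i
        have h1 : a ^ i = a ^ (i % 4) := zpow_mod_four ho
        rw [h1]
        have h2 : 0 ≤ i % 4 := Int.emod_nonneg _ (by norm_num)
        have h3 : i % 4 < 4 := Int.emod_lt_of_pos _ (by norm_num)
        interval_cases i % 4
        · simp
        · simp
        · right; left; rw [hz2]
        · right; right; right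
          rw [hz2, show (3 : ℤ) = 1 + 2 by norm_num, zpow_add, zpow_one]
      rintro (⟨i, rfl⟩ | ⟨i, rfl⟩)
      · have := key i
        tauto
      · rcases key i with h1 | h1 | h1 | h1
        · rw [h1, mul_one]; tauto
        · rw [h1]; tauto
        · rw [h1, h.ba, ← h.z_comm _ (mul_mem h.a_mem h.b_mem)]; tauto
        · rw [h1, ← mul_assoc, h.ba, mul_assoc z, h.z_comm _ (mul_mem h.a_mem h.b_mem), ← mul_assoc,
            h.zz, one_mul]
          tauto

/-- Part 2: the normal Sylow subgroup. -/
theorem part2 {K P : Subgroup S} (hPn : P.Normal) (hP : IsPGroup 2 P)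
    (hC : centralizer (P : Set S) ≤ P) (hK : (Nat.card K).Coprime 2)
    (hY : ∀ Y : Subgroup S, Y < P → K ≤ normalizer (Y : Set S) → ¬ Bad Y) (hbad : Bad P)
    (hnab : ¬ ∀ x ∈ P, ∀ y ∈ P, x * y = y * x) :
    (Cfsg.IsExtraspecial 2 P ∧ 32 ≤ Nat.card P) ∨
      (∃ X₀ : Subgroup S, X₀ ≤ P ∧ X₀.relIndex P = 2 ∧ Nonempty (X₀ ≃* QuaternionGroup 2) ∧
        X₀ ⊔ (P ⊓ centralizer (X₀ : Set S)) = P) ∨
      (Cfsg.IsSpecial 2 P ∧ Nat.card (center P) = 4) := by
  classical
  have hKP : K ≤ normalizer (P : Set S) := by rw [normalizer_eq_top P]; exact le_top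
  obtain ⟨A, hAP, hAc, hAcyc, hA8⟩ := hbad
  have hAneP : A ≠ P := by
    intro h
    apply hnab
    intro x hx y hy
    exact congrArg Subtype.val (hAc.is_comm.comm (⟨x, h ▸ hx⟩ : A) ⟨y, h ▸ hy⟩)
  have hAlt : A < P := lt_of_le_of_ne hAP hAneP
  have hbad : Bad P := ⟨A, hAP, hAc, hAcyc, hA8⟩
  have hPK : ⁅P, K⁆ ≠ ⊥ := by
    intro h
    have h1 : K ≤ P := by
      rw [commutator_comm, commutator_eq_bot_iff_le_centralizer] at h
      exact h.trans hC
    have h2 := coprime_eq_bot hK hP h1
    refine hY A hAlt (by rw [h2]; exact bot_le) ⟨A, le_rfl, hAc, hAcyc, hA8⟩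
  have htop : (⊤ : Subgroup P).map P.subtype = P := by rw [← MonoidHom.range_eq_map, range_subtype]
  have hcommP : (commutator P).map P.subtype = ⁅P, P⁆ := by
    rw [_root_.commutator_def, map_commutator, htop]
  have hnabP : ∃ x y : P, ⁅x, y⁆ ≠ 1 := by
    by_contra hno
    push Not at hno
    apply hnab
    intro x hx y hy
    have := hno ⟨x, hx⟩ ⟨y, hy⟩
    rw [commutatorElement_eq_one_iff_mul_comm] at this
    exact congrArg Subtype.val this
  -- order at least 32 for extraspecial
  have hExt : Cfsg.IsExtraspecial 2 P → 32 ≤ Nat.card P := by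
    intro hE
    obtain ⟨n, hn1, hn⟩ := H3.Extraspecial.card_eq_of_isExtraspecial hE
    have hlt8 : 8 < Nat.card P := by
      have h1 := Subgroup.card_le_of_le hAP
      have h2 : Nat.card P ≠ 8 := by
        intro h
        exact hAneP (eq_of_le_of_card_ge hAP (by rw [h, hA8]))
      omega
    have hn2 : 2 ≤ n := by
      by_contra h
      have h1 : n = 1 := by omega
      rw [h1] at hn
      norm_num at hn
      omega
    rw [hn]
    calc 32 = 2 ^ 5 := by norm_num
      _ ≤ 2 ^ (2 * n + 1) := Nat.pow_le_pow_right (by norm_num) (by omega)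
  -- centre as a subgroup of S
  set Zc : Subgroup S := (center P).map P.subtype with hZc
  have hZcard : Nat.card Zc = Nat.card (center P) :=
    Nat.card_congr ((center P).equivMapOfInjective P.subtype P.subtype_injective).symm.toEquiv
  have hZP : Zc ≤ P := map_subtype_le _
  have hKZ : K ≤ normalizer (Zc : Set S) := H65.HallHigman.le_normalizer_map_char hKP (center P)
  have hmemZ : ∀ x, x ∈ Zc ↔ x ∈ P ∧ ∀ d ∈ P, d * x = x * d := by
    intro x
    constructor
    · rintro ⟨y, hy, rfl⟩
      refine ⟨y.2, fun d hd => ?_⟩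
      exact congrArg Subtype.val (mem_center_iff.1 hy ⟨d, hd⟩)
    · rintro ⟨hx, hc⟩
      refine ⟨⟨x, hx⟩, ?_, rfl⟩
      rw [SetLike.mem_coe, mem_center_iff]
      intro d
      exact Subtype.ext (hc d d.2)
  have hZneP : Zc ≠ P := by
    intro h
    apply hnab
    intro x hx y hy
    rw [← h] at hy
    exact ((hmemZ y).1 hy).2 x hx
  have hZlt : Zc < P := lt_of_le_of_ne hZP hZneP
  have hPne : Nontrivial P := by
    obtain ⟨x, y, hxy⟩ := hnabP
    exact ⟨⟨⁅x, y⁆, 1, hxy⟩⟩
  have hZ1 : Nat.card (center P) ≠ 1 := by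
    intro h
    have h1 := hP.center_nontrivial
    rw [Subgroup.card_eq_one] at h
    exact (nontrivial_iff_ne_bot (center P)).1 h1 h
  obtain ⟨cz, hcz⟩ := IsPGroup.iff_card.1 (hP.to_subgroup (center P))
  obtain ⟨D, hDP, hKD, hDK, hDmin⟩ := exists_min hKP hPK
  have hD2 : IsPGroup 2 D := hP.to_le hDP
  by_cases hDeq : D = P
  · -- `P` itself is minimal
    subst hDeq
    obtain ⟨h1, h2, h3, h4, -, -⟩ := H65.HallHigman.minimal_action K K D hP hKP le_rfl
      le_normalizer hK hDK hDmin
    rcases h4 with h4 | h4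
    · exfalso
      apply hnab
      intro x hx y hy
      exact congrArg Subtype.val (h4.1.is_comm.comm (⟨x, hx⟩ : D) ⟨y, hy⟩)
    · have hsq := center_sq h4
      have hZ8 : Nat.card (center D) < 8 := by
        by_contra hlt
        apply hY Zc hZlt hKZ
        apply bad_of_exp4
        · intro x hx y hy
          exact ((hmemZ y).1 hy).2 x (hZP hx)
        · rintro _ ⟨y, hy, rfl⟩
          have e : y ^ 4 = (y * y) * (y * y) := by
            simp only [pow_succ, pow_zero, one_mul]; group
          show ((y ^ 4 : D) : S) = 1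
          rw [e, hsq y hy, mul_one]; rfl
        · rw [hZcard]; omega
      have hcz3 : cz < 3 := by
        by_contra h
        have : 2 ^ 3 ≤ 2 ^ cz := Nat.pow_le_pow_right (by norm_num) (by omega)
        omega
      interval_cases cz
      · exfalso; apply hZ1; rw [hcz]; norm_num
      · have hE : Cfsg.IsExtraspecial 2 D := ⟨h4, by rw [hcz]; norm_num⟩
        exact Or.inl ⟨hE, hExt hE⟩
      · exact Or.inr (Or.inr ⟨h4, by rw [hcz]; norm_num⟩)
  -- `D < P`
  have hDlt : D < P := lt_of_le_of_ne hDP hDeq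
  have hgood : Good K D := min_struct hK hKD hD2 hDK hDmin (hY D hDlt hKD)
  have hmax : ∀ Y : Subgroup S, D < Y → Y ≤ P → K ≤ normalizer (Y : Set S) → Y = P := by
    intro Y h1 h2 h3
    by_contra hne
    exact hY Y (lt_of_le_of_ne h2 hne) h3 (bad_of_lt hKD hD2 hgood (hP.to_le h2) h1 h3)
  have hsup : ∀ U : Subgroup S, U ≤ P → K ≤ normalizer (U : Set S) → ¬ U ≤ D → D ⊔ U = P := by
    intro U h1 h2 h3
    apply hmax _ _ (sup_le hDP h1) (H1.Coprime2.le_normalizer_sup hKD h2)
    refine lt_of_le_of_ne le_sup_left ?_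
    intro h
    exact h3 (h ▸ le_sup_right)
  -- Frattini subgroup
  set F : Subgroup S := (frattini P).map P.subtype with hF
  have hKF : K ≤ normalizer (F : Set S) := H65.HallHigman.le_normalizer_map_char hKP (frattini P)
  have hFD : F ≤ D := by
    by_contra hno
    have h1 := hsup F (map_subtype_le _) hKF hno
    have h2 : D.subgroupOf P ⊔ frattini P = ⊤ := by
      apply map_injective P.subtype_injective
      rw [Subgroup.map_sup, htop, subgroupOf_map_subtype, inf_eq_left.2 hDP]
      exact h1
    have h3 := frattini_nongenerating h2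
    exact hDeq (le_antisymm hDP (subgroupOf_eq_top.1 h3))
  have hsqD : ∀ x ∈ P, x * x ∈ D := by
    intro x hx
    have h3 := H1.Frat.pow_mem_frattini hP ⟨x, hx⟩
    apply hFD
    refine ⟨_, h3, ?_⟩
    show x ^ 2 = x * x
    exact pow_two x
  have hcomF : commutator P ≤ frattini P := by
    have := hP.isNilpotent
    exact H1.Frat.commutator_le_frattini
  have hcomD : ∀ x ∈ P, ∀ y ∈ P, ⁅x, y⁆ ∈ D := by
    intro x hx y hy
    apply hFD
    refine map_mono hcomF ?_
    rw [hcommP]
    exact commutator_mem_commutator hx hy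
  obtain ⟨e, he, heD, hec⟩ := grow hKD hD2 hgood hP hDlt hKP
  obtain ⟨nP, hnP⟩ := IsPGroup.iff_card.1 hP
  rcases hgood with ⟨u, v, hV, hsm⟩ | ⟨z, a, b, hQ, hsm⟩
  · -- four-group
    right; right
    have h1 : centralizer (D : Set S) ⊓ P = P := by
      apply hmax _ _ inf_le_right
        (H1.Coprime2.le_normalizer_inf (H1.Coprime2.le_normalizer_centralizer hKD) hKP)
      refine lt_of_le_of_ne ?_ ?_
      · refine le_inf ?_ hDP
        intro x hx
        rw [mem_centralizer_iff]
        intro y hy
        exact hV.comm_all y hy x hx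
      · intro h
        apply heD
        rw [h]
        refine mem_inf.2 ⟨?_, he⟩
        rw [mem_centralizer_iff]
        intro y hy
        exact (hec y hy).symm
    have hPD : P ≤ centralizer (D : Set S) := inf_eq_right.1 h1
    have hDZ : D ≤ Zc := by
      intro x hx
      rw [hmemZ]
      refine ⟨hDP hx, fun d hd => ?_⟩
      exact (mem_centralizer_iff.1 (hPD hd) x hx).symm
    have hDZ' : Zc = D := by
      by_contra hne
      exact hZneP (hmax Zc (lt_of_le_of_ne hDZ (fun h => hne h.symm)) hZP hKZ)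
    have hPP : ⁅P, P⁆ = D := by
      have h2 : ⁅P, P⁆ ≤ D := by
        rw [commutator_le]
        exact hcomD
      by_contra hne
      have h3 := hsm ⁅P, P⁆ (lt_of_le_of_ne h2 hne) (H1.Coprime2.le_normalizer_commutator hKP hKP)
      apply hnab
      intro x hx y hy
      have h4 : ⁅x, y⁆ ∈ ⁅P, P⁆ := commutator_mem_commutator hx hy
      rw [h3, mem_bot, commutatorElement_eq_one_iff_mul_comm] at h4
      exact h4
    have h5 : commutator P = center P := by
      apply map_injective P.subtype_injective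
      rw [hcommP, hPP]
      exact hDZ'.symm
    refine ⟨⟨hP, le_antisymm ?_ ?_, h5⟩, ?_⟩
    · have h6 : F ≤ Zc := by rw [hDZ']; exact hFD
      exact (map_le_map_iff_of_injective P.subtype_injective).mp h6
    · rw [← h5]; exact hcomF
    · rw [← hZcard, hDZ', hV.card]
  · -- quaternion
    have hcD := hQ.card
    have hZD : ∀ x ∈ Zc, x ∈ D → x = 1 ∨ x = z := by
      intro x hx hxD
      exact hQ.center_mem hxD (fun d hd => (((hmemZ x).1 hx).2 d (hDP hd)).symm)
    have hlt8 : 8 < Nat.card P := by
      have h1 := Subgroup.card_le_of_le hDP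
      have h2 : Nat.card P ≠ 8 := by
        intro h
        exact hDeq (eq_of_le_of_card_ge hDP (by rw [h, hcD]))
      omega
    by_cases hcase : Zc ≤ D
    · -- extraspecial
      left
      -- P = D C_P(D)
      set E : Subgroup S := centralizer (D : Set S) ⊓ P with hE
      have hKE : K ≤ normalizer (E : Set S) :=
        H1.Coprime2.le_normalizer_inf (H1.Coprime2.le_normalizer_centralizer hKD) hKP
      have heE : e ∈ E := by
        refine mem_inf.2 ⟨?_, he⟩
        rw [mem_centralizer_iff]
        intro y hy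
        exact (hec y hy).symm
      have hDE : D ⊔ E = P := hsup E inf_le_right hKE (fun h => heD (h heE))
      have hED : E ≤ normalizer (D : Set S) := inf_le_left.trans (centralizer_le_normalizer _)
      have hfac : ∀ x ∈ P, ∃ d ∈ D, ∃ c ∈ E, d * c = x := by
        intro x hx
        rw [← hDE] at hx
        exact (H26.Basic.mem_sup_of_le_normalizer' hED).1 hx
      have hEc : ∀ c ∈ E, ∀ d ∈ D, c * d = d * c := by
        intro c hc d hd
        exact (mem_centralizer_iff.1 (mem_inf.1 hc).1 d hd).symm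
      have hDEz : ∀ x ∈ D, x ∈ E → x = 1 ∨ x = z := fun x hx hxE => hQ.center_mem hx (hEc x hxE)
      have hzP : ∀ x ∈ P, x * z = z * x := by
        intro x hx
        obtain ⟨d, hd, c, hc, rfl⟩ := hfac x hx
        rw [mul_assoc, hEc c hc z hQ.z_mem, ← mul_assoc, hQ.z_comm d hd, mul_assoc]
      have hzZ : z ∈ Zc := (hmemZ z).2 ⟨hDP hQ.z_mem, hzP⟩
      have hcomz : ∀ x ∈ P, ∀ y ∈ P, ⁅x, y⁆ = 1 ∨ ⁅x, y⁆ = z := by
        intro x hx y hy
        obtain ⟨d, hd, c, hc, rfl⟩ := hfac x hx
        obtain ⟨d', hd', c', hc', rfl⟩ := hfac y hy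
        have e1 : ⁅d * c, d' * c'⁆ = ⁅d, d'⁆ * ⁅c, c'⁆ := by
          have k1 := hEc c hc d' hd'
          have k2 : c' * d⁻¹ = d⁻¹ * c' := hEc c' hc' _ (inv_mem hd)
          have k3 : c * c' * c⁻¹ * d'⁻¹ = d'⁻¹ * (c * c' * c⁻¹) :=
            hEc _ (mul_mem (mul_mem hc hc') (inv_mem hc)) _ (inv_mem hd')
          have k4 : c * c' * c⁻¹ * d⁻¹ = d⁻¹ * (c * c' * c⁻¹) :=
            hEc _ (mul_mem (mul_mem hc hc') (inv_mem hc)) _ (inv_mem hd)
          simp only [commutatorElement_def]
          calc d * c * (d' * c') * (d * c)⁻¹ * (d' * c')⁻¹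
              = d * (c * d') * c' * c⁻¹ * d⁻¹ * c'⁻¹ * d'⁻¹ := by group
            _ = d * d' * (c * c' * c⁻¹ * d⁻¹) * c'⁻¹ * d'⁻¹ := by rw [k1]; group
            _ = d * d' * d⁻¹ * (c * c' * c⁻¹ * c'⁻¹ * d'⁻¹) := by rw [k4]; group
            _ = d * d' * d⁻¹ * (d'⁻¹ * (c * c' * c⁻¹ * c'⁻¹)) := by
                rw [hEc _ (mul_mem (mul_mem (mul_mem hc hc') (inv_mem hc)) (inv_mem hc')) _ (inv_mem hd')]
            _ = d * d' * d⁻¹ * d'⁻¹ * (c * c' * c⁻¹ * c'⁻¹) := by group
        have e2 : ⁅c, c'⁆ = 1 ∨ ⁅c, c'⁆ = z := by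
          apply hDEz
          · exact hcomD c (mem_inf.1 hc).2 c' (mem_inf.1 hc').2
          · rw [commutatorElement_def]
            exact mul_mem (mul_mem (mul_mem hc hc') (inv_mem hc)) (inv_mem hc')
        have e3 : ⁅d, d'⁆ = 1 ∨ ⁅d, d'⁆ = z := by
          have hcom1 : ∀ s ∈ D, ∀ t ∈ D, ⁅s, t⁆ ∈ D := fun s hs t ht => by
            rw [commutatorElement_def]
            exact mul_mem (mul_mem (mul_mem hs ht) (inv_mem hs)) (inv_mem ht)
          -- `⁅d, d'⁆` : use squares
          have hsqz : ∀ s ∈ D, s * s = 1 ∨ s * s = z := by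
            intro s hs
            rcases hQ.sq s hs with h | h | h
            · left; rw [h, mul_one]
            · left; rw [h, hQ.zz]
            · exact Or.inr h
          have hzi : z⁻¹ = z := inv_of_sq hQ.zz
          have e4 : ⁅d, d'⁆ = (d * d') * (d * d') * ((d' * d') * (d * d) )⁻¹ := by
            have hz1 : d' * d' * d = d * (d' * d') := by
              rcases hsqz d' hd' with h | h
              · rw [h, one_mul, mul_one]
              · rw [h, hQ.z_comm d hd]
            have hz2 : d * d * d' = d' * (d * d) := by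
              rcases hsqz d hd with h | h
              · rw [h, one_mul, mul_one]
              · rw [h, hQ.z_comm d' hd']
            have hz3 : (d' * d')⁻¹ * d⁻¹ = d⁻¹ * (d' * d')⁻¹ := by
              rw [← mul_inv_rev, ← mul_inv_rev, hz1]
            rw [commutatorElement_def]
            calc d * d' * d⁻¹ * d'⁻¹ = d * d' * (d * (d * d)⁻¹) * (d' * (d' * d')⁻¹) := by group
              _ = d * d' * d * ((d * d)⁻¹ * d') * (d' * d')⁻¹ := by group
              _ = d * d' * d * (d' * (d * d)⁻¹) * (d' * d')⁻¹ := by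
                  rw [show (d * d)⁻¹ * d' = d' * (d * d)⁻¹ by
                    rw [inv_mul_eq_iff_eq_mul, ← mul_assoc, hz2, mul_inv_cancel_right]]
              _ = d * d' * (d * d') * ((d' * d') * (d * d))⁻¹ := by group
          rw [e4]
          rcases hsqz _ (mul_mem hd hd') with h | h <;> rcases hsqz d hd with h' | h' <;>
            rcases hsqz d' hd' with h'' | h'' <;> rw [h, h', h''] <;> simp [hzi, hQ.zz]
        rw [e1]
        rcases e3 with h | h <;> rcases e2 with h' | h' <;> rw [h, h'] <;> simp [hQ.zz]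
      have hE' : Cfsg.IsExtraspecial 2 P := by
        apply H3.Extraspecial.isExtraspecial_of
        · rw [_root_.commutator_def, commutator_le]
          intro x _ y _
          rw [mem_center_iff]
          intro w
          apply Subtype.ext
          show (w : S) * ⁅(x : S), (y : S)⁆ = ⁅(x : S), (y : S)⁆ * w
          rcases hcomz x x.2 y y.2 with h | h
          · rw [h, mul_one, one_mul]
          · rw [h]; exact hzP w w.2
        · rw [← hZcard]
          have h1 : (Zc : Set S) = {1, z} := by
            ext x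
            constructor
            · intro hx
              exact hZD x hx (hcase hx)
            · rintro (rfl | rfl)
              · exact Zc.one_mem
              · exact hzZ
          have h2 : Nat.card Zc = (Zc : Set S).ncard := rfl
          rw [h2, h1, Set.ncard_pair hQ.z1.symm]
        · exact hnabP
      exact ⟨hE', hExt hE'⟩
    · -- centre not contained in D
      right; left
      have hDZ : D ⊔ Zc = P := hsup Zc hZP hKZ hcase
      have hZn : Zc ≤ normalizer (D : Set S) := by
        intro x hx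
        rw [mem_normalizer_iff]
        intro y
        have h1 : ∀ y ∈ D, x * y * x⁻¹ = y := by
          intro y hy
          rw [← ((hmemZ x).1 hx).2 y (hDP hy)]; group
        constructor
        · intro hy; rw [h1 y hy]; exact hy
        · intro hy
          have h2 := h1 _ hy
          have h3 : y = x * y * x⁻¹ := by
            have : x⁻¹ * (x * (x * y * x⁻¹) * x⁻¹) * x = x⁻¹ * (x * y * x⁻¹) * x := by rw [h2]
            have e1 : x⁻¹ * (x * (x * y * x⁻¹) * x⁻¹) * x = x * y * x⁻¹ := by group
            have e2 : x⁻¹ * (x * y * x⁻¹) * x = y := by group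
            rw [e1, e2] at this
            exact this.symm
          rw [h3]; exact hy
      have hfac : ∀ x ∈ P, ∃ d ∈ D, ∃ c ∈ Zc, d * c = x := by
        intro x hx
        rw [← hDZ] at hx
        exact (H26.Basic.mem_sup_of_le_normalizer' hZn).1 hx
      have hcommZ : ∀ x ∈ Zc, ∀ y ∈ Zc, x * y = y * x := fun x hx y hy =>
        ((hmemZ y).1 hy).2 x (hZP hx)
      have hzP : ∀ x ∈ P, x * z = z * x := by
        intro x hx
        obtain ⟨d, hd, c, hc, rfl⟩ := hfac x hx
        have h1 : z * c = c * z := ((hmemZ c).1 hc).2 z (hDP hQ.z_mem)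
        rw [mul_assoc, ← h1, ← mul_assoc, hQ.z_comm d hd, mul_assoc]
      have hzZ : z ∈ Zc := (hmemZ z).2 ⟨hDP hQ.z_mem, hzP⟩
      have hsqZ : ∀ x ∈ Zc, x * x = 1 ∨ x * x = z := fun x hx =>
        hZD _ (mul_mem hx hx) (hsqD x (hZP hx))
      have hZ8 : Nat.card (center P) < 8 := by
        by_contra hlt
        apply hY Zc hZlt hKZ
        apply bad_of_exp4 hcommZ
        · intro y hy
          have e : y ^ 4 = (y * y) * (y * y) := by
            simp only [pow_succ, pow_zero, one_mul]; group
          rw [e]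
          rcases hsqZ y hy with h | h
          · rw [h, mul_one]
          · rw [h, hQ.zz]
        · rw [hZcard]; omega
      obtain ⟨c0, hc0, hc0D⟩ := SetLike.not_le_iff_exists.1 hcase
      have h4 : ({1, z, c0, z * c0} : Set S).ncard = 4 := by
        have n1 : c0 ≠ 1 := by rintro rfl; exact hc0D D.one_mem
        have n2 : c0 ≠ z := by rintro rfl; exact hc0D hQ.z_mem
        rw [Set.ncard_insert_of_notMem, Set.ncard_insert_of_notMem, Set.ncard_pair]
        · intro h; exact hQ.z1 (by simpa using h)
        · simp only [Set.mem_insert_iff, Set.mem_singleton_iff, not_or]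
          exact ⟨n2.symm, fun h => n1 (by simpa using h)⟩
        · simp only [Set.mem_insert_iff, Set.mem_singleton_iff, not_or]
          refine ⟨fun h => hQ.z1 h.symm, fun h => n1 h.symm, fun h => n2 ?_⟩
          have : c0 = z⁻¹ := eq_inv_of_mul_eq_one_right h.symm
          rw [this, inv_of_sq hQ.zz]
      have hsubZ : ({1, z, c0, z * c0} : Set S) ⊆ Zc := by
        rintro x (rfl | rfl | rfl | rfl)
        · exact Zc.one_mem
        · exact hzZ
        · exact hc0
        · exact mul_mem hzZ hc0
      have h5 := Set.ncard_le_ncard hsubZ (Set.toFinite _)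
      have h6 : Nat.card Zc = (Zc : Set S).ncard := rfl
      have hcz3 : cz < 3 := by
        by_contra h
        have : 2 ^ 3 ≤ 2 ^ cz := Nat.pow_le_pow_right (by norm_num) (by omega)
        omega
      have hZ4 : Nat.card Zc = 4 := by
        rw [← h6, h4] at h5
        interval_cases cz <;> omega
      have hZeq : ({1, z, c0, z * c0} : Set S) = Zc := by
        apply Set.eq_of_subset_of_ncard_le hsubZ _ (Set.toFinite _)
        rw [h4, ← h6, hZ4]
      -- P ⊆ D ∪ D c0
      have hsubP : (P : Set S) ⊆ (D : Set S) ∪ (fun d => d * c0) '' (D : Set S) := by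
        intro x hx
        obtain ⟨d, hd, c, hc, rfl⟩ := hfac x hx
        have hc' : c ∈ ({1, z, c0, z * c0} : Set S) := by rw [hZeq]; exact hc
        rcases hc' with rfl | rfl | rfl | rfl
        · left; rw [mul_one]; exact hd
        · left; exact mul_mem hd hQ.z_mem
        · right; exact ⟨d, hd, rfl⟩
        · right; exact ⟨d * z, mul_mem hd hQ.z_mem, by simp [mul_assoc]⟩
      have h7 := Set.ncard_le_ncard hsubP (Set.toFinite _)
      have h8 := Set.ncard_union_le (D : Set S) ((fun d => d * c0) '' (D : Set S))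
      rw [Set.ncard_image_of_injective _ (mul_left_injective c0)] at h8
      have h9 : Nat.card D = (D : Set S).ncard := rfl
      have h10 : Nat.card P = (P : Set S).ncard := rfl
      have hP16 : Nat.card P = 16 := by
        have h11 : Nat.card P ≤ 16 := by omega
        have hn4 : nP < 5 := by
          by_contra h
          have : 2 ^ 5 ≤ 2 ^ nP := Nat.pow_le_pow_right (by norm_num) (by omega)
          omega
        interval_cases nP <;> omega
      refine ⟨D, hDP, ?_, hQ.equiv, ?_⟩
      · have h2 := Subgroup.card_mul_index (D.subgroupOf P)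
        rw [hP16, Nat.card_congr (Subgroup.subgroupOfEquivOfLe hDP).toEquiv, hcD] at h2
        change _ * D.relIndex P = 16 at h2
        omega
      · apply le_antisymm (sup_le hDP inf_le_left)
        rw [← hDZ]
        refine sup_le le_sup_left (le_trans ?_ le_sup_right)
        intro x hx
        have h1 := (hmemZ x).1 hx
        rw [hDZ]
        refine mem_inf.2 ⟨h1.1, ?_⟩
        rw [mem_centralizer_iff]
        intro d hd
        exact h1.2 d (hDP hd)

/-- The Sylow 2-subgroup is normal. -/
theorem main (hs : Group.IsSolvable S) (hO : Cfsg.pPrimeCore 2 S = ⊥) (h8 : Bad (⊤ : Subgroup S))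
    (hmin : ∀ R : Subgroup S, R ≠ ⊤ → (∃ k : ℕ, R.index = 2 ^ k) → ¬ Bad R) (X : Sylow 2 S) :
    (X : Subgroup S).Normal ∧
      (IsMulCommutative X ∨ (Cfsg.IsExtraspecial 2 X ∧ 32 ≤ Nat.card X) ∨
        (∃ X₀ : Subgroup S, X₀ ≤ X ∧ X₀.relIndex X = 2 ∧ Nonempty (X₀ ≃* QuaternionGroup 2) ∧
          X₀ ⊔ ((X : Subgroup S) ⊓ centralizer (X₀ : Set S)) = X) ∨
        (Cfsg.IsSpecial 2 X ∧ Nat.card (center X) = 4)) := by
  classical
  obtain ⟨k, hk⟩ := IsPGroup.iff_card.1 X.2
  have hXi : (Nat.card X).Coprime (X : Subgroup S).index := by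
    rw [hk]
    apply Nat.Coprime.pow_left
    exact (Nat.Prime.coprime_iff_not_dvd Nat.prime_two).2 X.not_dvd_index
  have hS : Nat.card S = (X : Subgroup S).index * Nat.card X := by
    rw [mul_comm]; exact (Subgroup.card_mul_index (X : Subgroup S)).symm
  obtain ⟨K, hKc⟩ := H1.Hall.exists_card_eq hs _ _ hS hXi.symm
  have hK2 : (Nat.card K).Coprime 2 := by
    rw [hKc]
    apply Nat.Coprime.symm
    exact (Nat.Prime.coprime_iff_not_dvd Nat.prime_two).2 X.not_dvd_index
  have hKi : K.index = 2 ^ k := by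
    have h1 := Subgroup.card_mul_index K
    rw [hKc, hS] at h1
    rw [← hk]
    have h4 : 0 < (X : Subgroup S).index := Nat.pos_of_ne_zero index_ne_zero_of_finite
    exact Nat.eq_of_mul_eq_mul_left h4 h1
  -- invariant 2-subgroups smaller than X
  have hsmall : ∀ Y : Subgroup S, Nat.card Y < Nat.card X → K ≤ normalizer (Y : Set S) → ¬ Bad Y := by
    intro Y hY hKY hb
    refine hmin (K ⊔ Y) ?_ ?_ (hb.mono le_sup_right)
    · intro h
      have h1 : ((K ⊔ Y : Subgroup S) : Set S) = (K : Set S) * (Y : Set S) :=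
        (coe_mul_of_left_le_normalizer_right K Y hKY)
      have h2 := Set.natCard_mul_le (s := (K : Set S)) (t := (Y : Set S))
      rw [← h1, h] at h2
      have h3 : Nat.card ((⊤ : Subgroup S) : Set S) = Nat.card S := by
        rw [coe_top]; exact Nat.card_congr (Equiv.Set.univ S)
      rw [h3, hS] at h2
      change _ ≤ Nat.card K * Nat.card Y at h2
      rw [hKc] at h2
      have h4 : 0 < (X : Subgroup S).index := Nat.pos_of_ne_zero index_ne_zero_of_finite
      exact absurd (Nat.le_of_mul_le_mul_left h2 h4) (by omega)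
    · have h1 : (K ⊔ Y).index ∣ 2 ^ k := by
        rw [← hKi]; exact index_dvd_of_le le_sup_left
      obtain ⟨j, -, hj⟩ := (Nat.dvd_prime_pow Nat.prime_two).1 h1
      exact ⟨j, hj⟩
  -- the core
  set T := pCore 2 S with hT
  have hTn : T.Normal := H1.Cores.pCore_normal 2
  have hTp : IsPGroup 2 T := H1.Cores.isPGroup_pCore 2
  have hTX : T ≤ X := H1.Cores.pCore_le_sylow X
  have hCT : centralizer (T : Set S) ≤ T := H1.Solv.centralizer_pCore_le hs 2 hO
  obtain ⟨A, hAt, hAc, hAcyc, hA8⟩ := h8
  have hKT : K ≤ normalizer (T : Set S) := by rw [normalizer_eq_top T]; exact le_top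
  have hTeq : T = X := by
    by_contra hne
    have hlt : T < X := lt_of_le_of_ne hTX hne
    have hcard : Nat.card T < Nat.card X := by
      have h1 := Subgroup.card_le_of_le hTX
      have h2 : Nat.card T ≠ Nat.card X := fun h => hne (eq_of_le_of_card_ge hTX h.ge)
      omega
    have hTb : ¬ Bad T := hsmall T hcard hKT
    have hTK : ⁅T, K⁆ ≠ ⊥ := by
      intro h
      have h1 : K ≤ T := by
        rw [commutator_comm, commutator_eq_bot_iff_le_centralizer] at h
        exact h.trans hCT
      have h2 := coprime_eq_bot hK2 hTp h1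
      rw [h2, Subgroup.card_bot] at hKc
      have h3 : (X : Subgroup S) = ⊤ := index_eq_one.1 hKc.symm
      apply hne
      apply le_antisymm hTX
      rw [h3]
      apply H1.Cores.le_pCore
      · infer_instance
      · rw [← h3]; exact X.2
    obtain ⟨D, hDT, hKD, hDK, hDmin⟩ := exists_min hKT hTK
    have hD2 : IsPGroup 2 D := hTp.to_le hDT
    have hgood := min_struct hK2 hKD hD2 hDK hDmin (fun h => hTb (h.mono hDT))
    have hDeq : D = T := by
      by_contra h
      exact hTb (bad_of_lt hKD hD2 hgood hTp (lt_of_le_of_ne hDT h) hKT)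
    rw [hDeq] at hgood
    rcases hgood with ⟨u, v, hV, -⟩ | ⟨z, a, b, hQ, -⟩
    · exact noA_V hV hTn hCT hAc hA8
    · exact noA_Q hQ hTn hCT hAc hAcyc hA8
  have hXn : (X : Subgroup S).Normal := by rw [← hTeq]; exact hTn
  refine ⟨hXn, ?_⟩
  by_cases hab : ∀ x ∈ (X : Subgroup S), ∀ y ∈ (X : Subgroup S), x * y = y * x
  · left
    exact ⟨⟨fun x y => Subtype.ext (hab x x.2 y y.2)⟩⟩
  right
  refine part2 (K := K) hXn X.2 (by rw [← hTeq]; exact hCT) hK2 ?_ ?_ hab
  · intro Y hY hKY
    refine hsmall Y ?_ hKY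
    have h1 := Subgroup.card_le_of_le hY.le
    have h2 : Nat.card Y ≠ Nat.card X := fun h => hY.ne (eq_of_le_of_card_ge hY.le h.ge)
    omega
  · refine ⟨A, ?_, hAc, hAcyc, hA8⟩
    have hAp : IsPGroup 2 A := IsPGroup.of_card (n := 3) (by rw [hA8]; norm_num)
    obtain ⟨Q, hQ⟩ := hAp.exists_le_sylow
    have hQX : (Q : Subgroup S) = X := by
      have := Sylow.unique_of_normal X hXn
      rw [Subsingleton.elim Q X]
    rw [← hQX]; exact hQ

end H76.NoAb8
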