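import Mathlib

/-! Characters of a normal abelian subgroup of odd order on a module over `𝔽_2`, after extending
scalars to a finite field `K`, and fixed points of a `2`-subgroup. -/

set_option autoImplicit false
set_option linter.unusedSectionVars false

open scoped TensorProduct

namespace H76.OrbitFix

open Subgroup

universe u v w

variable {S : Type u} [Group S] {E : Type v} [AddCommGroup E] [Module (ZMod 2) E]
variable (K : Type w) [Field K] [Algebra (ZMod 2) K]
variable (ρ : Representation (ZMod 2) S E)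

/-- the extended module -/
abbrev EK (E : Type v) [AddCommGroup E] [Module (ZMod 2) E] (K : Type w) [Field K]
  [Algebra (ZMod 2) K] := K ⊗[ZMod 2] E

/-- the extended action -/
noncomputable def rK (g : S) : EK E K →ₗ[K] EK E K := (ρ g).baseChange K

theorem rK_tmul (g : S) (a : K) (e : E) : rK K ρ g (a ⊗ₜ e) = a ⊗ₜ (ρ g e) := rfl

theorem rK_mul (g h : S) (v : EK E K) : rK K ρ (g * h) v = rK K ρ g (rK K ρ h v) := by
  unfold rK
  rw [map_mul, LinearMap.baseChange_mul]
  rfl

theorem rK_one (v : EK E K) : rK K ρ 1 v = v := by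
  unfold rK
  rw [map_one, LinearMap.baseChange_one]
  rfl

/-- component maps -/
noncomputable def comp (c : K →ₗ[ZMod 2] ZMod 2) : EK E K →ₗ[ZMod 2] E :=
  (TensorProduct.lid (ZMod 2) E).toLinearMap ∘ₗ c.rTensor E

theorem comp_tmul (c : K →ₗ[ZMod 2] ZMod 2) (a : K) (e : E) :
    comp (E := E) K c (a ⊗ₜ e) = c a • e := by
  simp [comp]

theorem comp_rK (c : K →ₗ[ZMod 2] ZMod 2) (g : S) (v : EK E K) :
    comp K c (rK K ρ g v) = ρ g (comp K c v) := by
  induction v using TensorProduct.induction_on with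
  | zero => simp
  | tmul a e => rw [rK_tmul, comp_tmul, comp_tmul, map_smul]
  | add x y hx hy => rw [map_add, map_add, map_add, map_add, hx, hy]

/-- fixed vectors of a set of elements -/
def fixE (Q : Set S) : Submodule (ZMod 2) E where
  carrier := {v | ∀ s ∈ Q, ρ s v = v}
  add_mem' := by intro a b ha hb s hs; rw [map_add, ha s hs, hb s hs]
  zero_mem' := fun s _ => map_zero _
  smul_mem' := by intro c a ha s hs; rw [map_smul, ha s hs]

/-- fixed vectors after extension of scalars -/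
def fixK (Q : Set S) : Submodule K (EK E K) where
  carrier := {v | ∀ s ∈ Q, rK K ρ s v = v}
  add_mem' := by intro a b ha hb s hs; rw [map_add, ha s hs, hb s hs]
  zero_mem' := fun s _ => map_zero _
  smul_mem' := by intro c a ha s hs; rw [map_smul, ha s hs]

open Classical in
theorem fixK_eq (Q : Set S) :
    fixK K ρ Q = Submodule.span K ((fun e : E => (1 : K) ⊗ₜ[ZMod 2] e) '' (fixE ρ Q)) := by
  apply le_antisymm
  · intro v hv
    let b := Module.Basis.ofVectorSpace (ZMod 2) K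
    have h1 := (TensorProduct.equivFinsuppOfBasisLeft (N := E) b).symm_apply_apply v
    rw [TensorProduct.equivFinsuppOfBasisLeft_symm_apply] at h1
    rw [← h1, Finsupp.sum]
    refine Submodule.sum_mem _ fun i _ => ?_
    have h2 : (TensorProduct.equivFinsuppOfBasisLeft b) v i = comp K (b.coord i) v :=
      TensorProduct.equivFinsuppOfBasisLeft_apply b v i
    rw [h2]
    have h3 : b i ⊗ₜ[ZMod 2] comp K (b.coord i) v = b i • ((1 : K) ⊗ₜ[ZMod 2] comp K (b.coord i) v) := by
      rw [TensorProduct.smul_tmul', smul_eq_mul, mul_one]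
    rw [h3]
    apply Submodule.smul_mem
    apply Submodule.subset_span
    refine ⟨_, ?_, rfl⟩
    intro s hs
    rw [← comp_rK, hv s hs]
  · rw [Submodule.span_le]
    rintro _ ⟨e, he, rfl⟩ s hs
    show rK K ρ s ((1 : K) ⊗ₜ e) = (1 : K) ⊗ₜ e
    rw [rK_tmul, he s hs]

theorem finrank_fixK_le [Finite E] (Q : Set S) :
    Module.finrank K (fixK K ρ Q) ≤ Module.finrank (ZMod 2) (fixE ρ Q) := by
  let b := Module.finBasis (ZMod 2) (fixE ρ Q)
  have h1 : fixK K ρ Q = Submodule.span K (Set.range (fun i => (1 : K) ⊗ₜ[ZMod 2] (b i : E))) := by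
    rw [fixK_eq]
    apply le_antisymm
    · rw [Submodule.span_le]
      rintro _ ⟨e, he, rfl⟩
      have h2 := b.sum_repr ⟨e, he⟩
      have h3 : e = ∑ i, b.repr ⟨e, he⟩ i • (b i : E) := by
        have := congrArg (Submodule.subtype _) h2
        rw [map_sum] at this
        exact this.symm
      show (1 : K) ⊗ₜ e ∈ _
      rw [h3, TensorProduct.tmul_sum]
      refine Submodule.sum_mem _ fun i _ => ?_
      have h4 : (1 : K) ⊗ₜ[ZMod 2] (b.repr ⟨e, he⟩ i • (b i : E)) =
          (algebraMap (ZMod 2) K (b.repr ⟨e, he⟩ i)) • ((1 : K) ⊗ₜ[ZMod 2] (b i : E)) := by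
        rw [TensorProduct.smul_tmul', ← TensorProduct.smul_tmul, Algebra.smul_def, smul_eq_mul]
      rw [h4]
      exact Submodule.smul_mem _ _ (Submodule.subset_span ⟨i, rfl⟩)
    · apply Submodule.span_mono
      rintro _ ⟨i, rfl⟩
      exact ⟨b i, (b i).2, rfl⟩
  rw [h1]
  exact (finrank_range_le_card _).trans (by simp)

/-- nonzero fixed vectors for `2`-groups -/
theorem exists_fixed [Finite S] [Finite K] [Finite E] (Q : Subgroup S) (hQ : IsPGroup 2 Q)
    (W : Submodule K (EK E K)) (hW : W ≠ ⊥) (hinv : ∀ s ∈ Q, ∀ v ∈ W, rK K ρ s v ∈ W) :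
    ∃ v ∈ W, v ≠ 0 ∧ ∀ s ∈ Q, rK K ρ s v = v := by
  have : Fact (Nat.Prime 2) := ⟨Nat.prime_two⟩
  have hfin : Finite (EK E K) := Module.finite_of_finite K
  have hWf : Module.Finite K W := inferInstance
  let _ : MulAction Q W :=
    { smul := fun s v => ⟨rK K ρ s v, hinv s s.2 v v.2⟩
      one_smul := fun v => Subtype.ext (rK_one K ρ _)
      mul_smul := fun g h v => Subtype.ext (rK_mul K ρ g h _) }
  have h1 : 2 ∣ Nat.card W := by
    have h2 : Nontrivial W := (Submodule.nontrivial_iff_ne_bot).2 hW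
    have h3 : Nat.card W = Nat.card K ^ Module.finrank K W :=
      Module.natCard_eq_pow_finrank (K := K) (V := W)
    have h4 : 2 ∣ Nat.card K := by
      have : CharP K 2 := charP_of_injective_algebraMap (algebraMap (ZMod 2) K).injective 2
      have h5 : ((Nat.card K : ℕ) : K) = 0 := by
        have := Fintype.ofFinite K
        rw [Nat.card_eq_fintype_card]
        exact Nat.cast_card_eq_zero K
      exact (CharP.cast_eq_zero_iff K 2 _).1 h5
    rw [h3]
    exact h4.trans (dvd_pow_self _ (Module.finrank_pos (R := K) (M := W)).ne')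
  have h0 : (0 : W) ∈ MulAction.fixedPoints Q W := fun s => Subtype.ext (map_zero _)
  obtain ⟨b, hb, hb0⟩ := hQ.exists_fixed_point_of_prime_dvd_card_of_fixed_point W h1 h0
  refine ⟨b, b.2, fun h => hb0 (Subtype.ext h.symm), fun s hs => ?_⟩
  exact congrArg Subtype.val (hb ⟨s, hs⟩)

section chars

variable (A : Subgroup S) [A.Normal]

/-- characters with values in `K` -/
def Chr (A : Subgroup S) (K : Type w) [Field K] := A →* Kˣ

variable {A K}

/-- underlying homomorphism -/
def Chr.hom (χ : Chr A K) : A →* Kˣ := χ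

/-- the character of a homomorphism -/
def Chr.of (f : A →* Kˣ) : Chr A K := f

/-- conjugate characters -/
instance : MulAction S (Chr A K) where
  smul g χ := MonoidHom.comp χ.hom (MulAut.conjNormal g⁻¹).toMonoidHom
  one_smul χ := by
    show MonoidHom.comp χ.hom (MulAut.conjNormal (1 : S)⁻¹).toMonoidHom = χ
    rw [inv_one, map_one]
    rfl
  mul_smul g h χ := by
    show MonoidHom.comp χ.hom (MulAut.conjNormal (g * h)⁻¹).toMonoidHom = _
    rw [mul_inv_rev, map_mul]
    rfl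

/-- evaluation in `K` -/
def Chr.ev (χ : Chr A K) (y : A) : K := (χ.hom y : K)

theorem ev_smul (g : S) (χ : Chr A K) (y : A) :
    (g • χ).ev y = χ.ev (MulAut.conjNormal g⁻¹ y) := rfl

theorem ev_of (f : A →* Kˣ) (y : A) : (Chr.of f).ev y = (f y : K) := rfl

theorem ev_mul (χ : Chr A K) (y z : A) : χ.ev (y * z) = χ.ev y * χ.ev z := by
  unfold Chr.ev
  rw [map_mul]; rfl

theorem ev_one (χ : Chr A K) : χ.ev 1 = 1 := by
  unfold Chr.ev
  rw [map_one]; rfl

theorem ev_ne_zero (χ : Chr A K) (y : A) : χ.ev y ≠ 0 := Units.ne_zero (χ.hom y)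

theorem ev_ext {χ ψ : Chr A K} (h : ∀ y, χ.ev y = ψ.ev y) : χ = ψ :=
  MonoidHom.ext fun y => Units.ext (h y)

instance [Finite S] [Finite K] : Finite (Chr A K) :=
  DFunLike.finite (A →* Kˣ)

variable (K)

/-- eigenspaces -/
def Esp (χ : Chr A K) : Submodule K (EK E K) where
  carrier := {v | ∀ y : A, rK K ρ y v = χ.ev y • v}
  add_mem' := by intro a b ha hb y; rw [map_add, ha y, hb y, smul_add]
  zero_mem' := fun y => by rw [map_zero, smul_zero]
  smul_mem' := by intro c a ha y; rw [map_smul, ha y, smul_comm]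

variable {K}

theorem rK_mem_Esp {χ : Chr A K} {v : EK E K} (hv : v ∈ Esp K ρ χ) (g : S) :
    rK K ρ g v ∈ Esp K ρ (g • χ) := by
  intro y
  have h1 := hv (MulAut.conjNormal g⁻¹ y)
  have h2 : (y : S) * g = g * ((MulAut.conjNormal g⁻¹ y : A) : S) := by
    rw [MulAut.conjNormal_apply]; group
  rw [← rK_mul, h2, rK_mul, h1, map_smul]
  rfl

variable [Fintype A]

/-- projections (up to the factor `|A|`) -/
noncomputable def proj (χ : Chr A K) (v : EK E K) : EK E K :=
  ∑ y : A, (χ.ev y)⁻¹ • rK K ρ y v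

theorem proj_add (χ : Chr A K) (v w : EK E K) : proj ρ χ (v + w) = proj ρ χ v + proj ρ χ w := by
  unfold proj
  rw [← Finset.sum_add_distrib]
  refine Finset.sum_congr rfl fun y _ => ?_
  rw [map_add, smul_add]

theorem proj_smul (χ : Chr A K) (c : K) (v : EK E K) : proj ρ χ (c • v) = c • proj ρ χ v := by
  unfold proj
  rw [Finset.smul_sum]
  refine Finset.sum_congr rfl fun y _ => ?_
  rw [map_smul, smul_comm]

theorem proj_zero (χ : Chr A K) : proj ρ χ (0 : EK E K) = 0 := by
  unfold proj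
  exact Finset.sum_eq_zero fun y _ => by rw [map_zero, smul_zero]

theorem proj_mem (χ : Chr A K) (v : EK E K) : proj ρ χ v ∈ Esp K ρ χ := by
  intro z
  unfold proj
  rw [map_sum, Finset.smul_sum]
  refine Fintype.sum_equiv (Equiv.mulLeft z) _ _ fun y => ?_
  rw [map_smul, ← rK_mul, smul_smul]
  have h1 : χ.ev z * (χ.ev (Equiv.mulLeft z y))⁻¹ = (χ.ev y)⁻¹ := by
    rw [Equiv.coe_mulLeft, ev_mul, mul_inv, mul_inv_cancel_left₀ (ev_ne_zero χ z)]
  rw [h1]
  rfl

theorem sum_ev (χ ψ : Chr A K) (h : χ ≠ ψ) : ∑ y : A, (χ.ev y)⁻¹ * ψ.ev y = 0 := by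
  let f : A →* K :=
    { toFun := fun y => (χ.ev y)⁻¹ * ψ.ev y
      map_one' := by rw [ev_one, ev_one, inv_one, one_mul]
      map_mul' := by intro y z; rw [ev_mul, ev_mul, mul_inv]; ring }
  refine sum_hom_units_eq_zero f ?_
  intro hf
  apply h
  apply ev_ext
  intro y
  have h1 : (χ.ev y)⁻¹ * ψ.ev y = 1 := DFunLike.congr_fun hf y
  have h2 := ev_ne_zero χ y
  field_simp at h1
  exact h1.symm

theorem proj_of_mem_ne {χ ψ : Chr A K} (h : χ ≠ ψ) {v : EK E K} (hv : v ∈ Esp K ρ ψ) :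
    proj ρ χ v = 0 := by
  unfold proj
  have h1 : ∀ y : A, (χ.ev y)⁻¹ • rK K ρ y v = ((χ.ev y)⁻¹ * ψ.ev y) • v := by
    intro y
    rw [hv y, smul_smul]
  simp only [h1]
  rw [← Finset.sum_smul, sum_ev χ ψ h, zero_smul]

theorem proj_of_mem {χ : Chr A K} {v : EK E K} (hv : v ∈ Esp K ρ χ) :
    proj ρ χ v = (Fintype.card A : K) • v := by
  unfold proj
  have h1 : ∀ y : A, (χ.ev y)⁻¹ • rK K ρ y v = v := by
    intro y
    rw [hv y, smul_smul, inv_mul_cancel₀ (ev_ne_zero χ y), one_smul]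
  simp only [h1]
  rw [Finset.sum_const, Finset.card_univ, Nat.cast_smul_eq_nsmul]

theorem rK_proj (g : S) (χ : Chr A K) (v : EK E K) :
    rK K ρ g (proj ρ χ v) = proj ρ (g • χ) (rK K ρ g v) := by
  unfold proj
  rw [map_sum]
  refine Fintype.sum_equiv (MulAut.conjNormal g).toEquiv _ _ fun y => ?_
  have h1 : ((MulAut.conjNormal g).toEquiv y : A) = MulAut.conjNormal g y := rfl
  have h2 : MulAut.conjNormal g⁻¹ (MulAut.conjNormal g y) = y := by
    rw [← MulAut.mul_apply, ← map_mul, inv_mul_cancel, map_one, MulAut.one_apply]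
  rw [map_smul, h1, ev_smul, h2, ← rK_mul, ← rK_mul, MulAut.conjNormal_apply, inv_mul_cancel_right]

/-- completeness -/
theorem exists_proj_ne [Finite K] (hcomm : ∀ a b : A, a * b = b * a) (hodd : Odd (Nat.card A))
    [HasEnoughRootsOfUnity K (Monoid.exponent A)] {v : EK E K} (hv : v ≠ 0) :
    ∃ χ : Chr A K, proj ρ χ v ≠ 0 := by
  classical
  let _ : CommGroup A := { (inferInstance : Group A) with mul_comm := hcomm }
  have hfin : Finite (A →* Kˣ) := DFunLike.finite (A →* Kˣ)
  have := Fintype.ofFinite (A →* Kˣ)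
  by_contra hno
  push Not at hno
  have h1 : ∑ χ : A →* Kˣ, proj ρ (Chr.of χ) v = (Fintype.card (A →* Kˣ) : K) • v := by
    unfold proj
    rw [Finset.sum_comm]
    have h2 : ∀ y : A, y ≠ 1 → ∑ χ : A →* Kˣ, ((Chr.of χ).ev y)⁻¹ • rK K ρ y v = 0 := by
      intro y hy
      rw [← Finset.sum_smul]
      let f : (A →* Kˣ) →* K :=
        { toFun := fun χ => ((Chr.of χ).ev y)⁻¹
          map_one' := by
            show (((1 : A →* Kˣ) y : Kˣ) : K)⁻¹ = 1
            rw [MonoidHom.one_apply, Units.val_one, inv_one]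
          map_mul' := by
            intro χ ψ
            show (((χ * ψ) y : Kˣ) : K)⁻¹ = ((χ y : Kˣ) : K)⁻¹ * ((ψ y : Kˣ) : K)⁻¹
            rw [MonoidHom.mul_apply, Units.val_mul, mul_inv] }
      have h3 : ∑ χ : A →* Kˣ, f χ = 0 := by
        apply sum_hom_units_eq_zero f
        intro hf
        obtain ⟨φ, hφ⟩ := CommGroup.exists_apply_ne_one_of_hasEnoughRootsOfUnity A K hy
        have h4 : ((φ y : Kˣ) : K)⁻¹ = 1 := DFunLike.congr_fun hf φ
        apply hφ
        apply Units.ext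
        rw [Units.val_one]
        exact inv_eq_one.1 h4
      have h5 : ∑ χ : A →* Kˣ, ((Chr.of χ).ev y)⁻¹ = 0 := h3
      rw [h5, zero_smul]
    rw [Fintype.sum_eq_single 1 h2]
    have h6 : ∀ χ : A →* Kˣ, ((Chr.of χ).ev 1)⁻¹ • rK K ρ ((1 : A) : S) v = v := by
      intro χ
      rw [ev_one, inv_one, one_smul, OneMemClass.coe_one, rK_one]
    simp only [h6]
    rw [Finset.sum_const, Finset.card_univ, Nat.cast_smul_eq_nsmul]
  have h1' : (0 : EK E K) = (Fintype.card (A →* Kˣ) : K) • v := by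
    rw [← h1]
    exact (Finset.sum_eq_zero (fun χ _ => hno (Chr.of χ))).symm
  have h7 : (Fintype.card (A →* Kˣ) : K) ≠ 0 := by
    obtain ⟨e⟩ := CommGroup.monoidHom_mulEquiv_of_hasEnoughRootsOfUnity A K
    have h8 : Fintype.card (A →* Kˣ) = Nat.card A := by
      rw [← Nat.card_eq_fintype_card]
      exact Nat.card_congr e.toEquiv
    rw [h8]
    have : CharP K 2 := charP_of_injective_algebraMap (algebraMap (ZMod 2) K).injective 2
    intro h9
    rw [CharP.cast_eq_zero_iff K 2] at h9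
    rw [← Nat.not_even_iff_odd, even_iff_two_dvd] at hodd
    exact hodd h9
  exact hv ((smul_eq_zero.1 h1'.symm).resolve_left h7)

/-- support of a vector -/
def supp (v : EK E K) : Set (Chr A K) := {χ | proj ρ χ v ≠ 0}

theorem mem_supp {χ : Chr A K} {v : EK E K} : χ ∈ supp ρ v ↔ proj ρ χ v ≠ 0 := Iff.rfl

theorem rK_eq_zero (g : S) {v : EK E K} : rK K ρ g v = 0 ↔ v = 0 := by
  constructor
  · intro h
    have h1 : rK K ρ g⁻¹ (rK K ρ g v) = 0 := by rw [h, map_zero]
    rwa [← rK_mul, inv_mul_cancel, rK_one] at h1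
  · rintro rfl
    exact map_zero _

theorem smul_mem_supp (g : S) {χ : Chr A K} {v : EK E K} :
    g • χ ∈ supp ρ (rK K ρ g v) ↔ χ ∈ supp ρ v := by
  rw [mem_supp, mem_supp, ← rK_proj, Ne, rK_eq_zero]

open Pointwise in
theorem supp_rK (g : S) (v : EK E K) : supp (A := A) ρ (rK K ρ g v) = g • supp (A := A) ρ v := by
  ext χ
  rw [Set.mem_smul_set_iff_inv_smul_mem]
  have h := smul_mem_supp ρ g (χ := g⁻¹ • χ) (v := v)
  rw [smul_inv_smul] at h
  exact h

/-- vectors supported in a set of characters -/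
def WO (O : Set (Chr A K)) : Submodule K (EK E K) where
  carrier := {v | ∀ χ, χ ∉ O → proj ρ χ v = 0}
  add_mem' := by intro a b ha hb χ hχ; rw [proj_add, ha χ hχ, hb χ hχ, add_zero]
  zero_mem' := fun χ _ => proj_zero ρ χ
  smul_mem' := by intro c a ha χ hχ; rw [proj_smul, ha χ hχ, smul_zero]

/-- a fixed vector with support a given orbit -/
theorem exists_supp_orbit [Finite S] [Finite K] [Finite E] (hcomm : ∀ a b : A, a * b = b * a)
    (hodd : Odd (Nat.card A)) [HasEnoughRootsOfUnity K (Monoid.exponent A)]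
    (Q : Subgroup S) (hQ : IsPGroup 2 Q) (χ : Chr A K) (hχ : Esp K ρ χ ≠ ⊥) :
    ∃ u ∈ fixK K ρ (Q : Set S), supp ρ u = MulAction.orbit Q χ := by
  obtain ⟨w, hw, hw0⟩ := (Submodule.ne_bot_iff _).1 hχ
  have h1 : WO ρ (MulAction.orbit Q χ) ≠ ⊥ := by
    rw [Submodule.ne_bot_iff]
    refine ⟨w, ?_, hw0⟩
    intro ψ hψ
    refine proj_of_mem_ne ρ ?_ hw
    rintro rfl
    exact hψ (MulAction.mem_orbit_self _)
  have h2 : ∀ s ∈ Q, ∀ v ∈ WO ρ (MulAction.orbit Q χ), rK K ρ s v ∈ WO ρ (MulAction.orbit Q χ) := by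
    intro s hs v hv ψ hψ
    have h3 : s⁻¹ • ψ ∉ MulAction.orbit Q χ := by
      rintro ⟨t, ht⟩
      apply hψ
      refine ⟨⟨s, hs⟩ * t, ?_⟩
      show (⟨s, hs⟩ * t : Q) • χ = ψ
      rw [mul_smul]
      have : t • χ = s⁻¹ • ψ := ht
      rw [this]
      exact smul_inv_smul s ψ
    have h4 := rK_proj ρ s (s⁻¹ • ψ) v
    rw [hv _ h3, map_zero, smul_inv_smul] at h4
    exact h4.symm
  obtain ⟨u, hu, hu0, hufix⟩ := exists_fixed K ρ Q hQ _ h1 h2
  refine ⟨u, hufix, ?_⟩
  have h5 : supp ρ u ⊆ MulAction.orbit Q χ := by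
    intro ψ hψ
    by_contra hno
    exact hψ (hu ψ hno)
  obtain ⟨ψ, hψ⟩ := exists_proj_ne ρ hcomm hodd hu0
  apply Set.Subset.antisymm h5
  have h6 : MulAction.orbit Q χ = MulAction.orbit Q ψ :=
    (MulAction.orbit_eq_iff.2 (h5 hψ)).symm
  rw [h6]
  rintro _ ⟨t, rfl⟩
  have h7 := (smul_mem_supp ρ (t : S) (χ := ψ) (v := u)).2 hψ
  rw [hufix t t.2] at h7
  exact h7

end chars

end H76.OrbitFix
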