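import Mathlib
import Cfsg.Agent.Lib.H76.OrbitFix

/-! Fixed points of a Sylow `2`-subgroup on an irreducible module over `𝔽_2`. -/

set_option autoImplicit false
set_option linter.unusedSectionVars false

open scoped TensorProduct

namespace H76.OrbitFix

open Subgroup

universe u v w

variable {S : Type u} [Group S] [Finite S] {E : Type v} [AddCommGroup E] [Module (ZMod 2) E]
  [Finite E]
variable {K : Type w} [Field K] [Algebra (ZMod 2) K] [Finite K]
variable (ρ : Representation (ZMod 2) S E)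
variable {A : Subgroup S} [A.Normal] [Fintype A]

open Pointwise in
/-- invariant sets of characters have size divisible by `q` -/
theorem dvd_card {q : ℕ} [hq : Fact q.Prime] (Sq : Subgroup S) (hSq : IsPGroup q Sq)
    (O : Set (Chr A K)) (hO : ∀ g ∈ Sq, g • O = O)
    (hfree : ∀ χ ∈ O, ∃ g ∈ Sq, g • χ ≠ χ) : q ∣ Nat.card O := by
  let _ : MulAction Sq O :=
    { smul := fun g χ => ⟨(g : S) • (χ : Chr A K), by
        have := Set.smul_mem_smul_set (a := (g : S)) χ.2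
        rwa [hO g g.2] at this⟩
      one_smul := fun χ => Subtype.ext (one_smul S (χ : Chr A K))
      mul_smul := fun g h χ => Subtype.ext (mul_smul (g : S) (h : S) (χ : Chr A K)) }
  have h1 := hSq.card_modEq_card_fixedPoints O
  have h2 : Nat.card (MulAction.fixedPoints Sq O) = 0 := by
    have : IsEmpty (MulAction.fixedPoints Sq O) := by
      constructor
      rintro ⟨χ, hχ⟩
      obtain ⟨g, hg, hne⟩ := hfree χ χ.2
      exact hne (congrArg Subtype.val (hχ ⟨g, hg⟩))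
    exact Nat.card_of_isEmpty
  rw [h2] at h1
  exact (Nat.modEq_zero_iff_dvd).1 h1

theorem not_dvd_orbit {q : ℕ} [hq : Fact q.Prime] (hq2 : q ≠ 2) (Q : Subgroup S)
    (hQ : IsPGroup 2 Q) (χ : Chr A K) : ¬ q ∣ Nat.card (MulAction.orbit Q χ) := by
  intro h
  have h1 : (MulAction.stabilizer Q χ).index = Nat.card (MulAction.orbit Q χ) :=
    MulAction.index_stabilizer Q χ
  have h2 : q ∣ Nat.card Q := (h1 ▸ h).trans (Subgroup.index_dvd_card _)
  obtain ⟨k, hk⟩ := IsPGroup.iff_card.1 hQ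
  rw [hk] at h2
  exact hq2 ((Nat.prime_dvd_prime_iff_eq hq.out Nat.prime_two).1 (hq.out.dvd_of_dvd_pow h2))

/-- the stabilizer of a nontrivial character contains no `Sq` -/
theorem exists_moves (Sq : Subgroup S) (hcomm : ⁅A, Sq⁆ = A) (χ : Chr A K) (hχ : ∃ y, χ.ev y ≠ 1) :
    ∃ g ∈ Sq, g • χ ≠ χ := by
  by_contra hno
  push Not at hno
  obtain ⟨y, hy⟩ := hχ
  apply hy
  have h1 : A ≤ (χ.hom.ker).map A.subtype := by
    conv_lhs => rw [← hcomm]
    rw [commutator_le]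
    intro a ha g hg
    have hmem : a * g * a⁻¹ * g⁻¹ ∈ A := by
      have h2 : g * a⁻¹ * g⁻¹ ∈ A := (inferInstance : A.Normal).conj_mem _ (inv_mem ha) g
      have : a * g * a⁻¹ * g⁻¹ = a * (g * a⁻¹ * g⁻¹) := by group
      rw [this]
      exact mul_mem ha h2
    refine ⟨⟨_, hmem⟩, ?_, rfl⟩
    rw [SetLike.mem_coe, MonoidHom.mem_ker]
    apply Units.ext
    have h3 := hno g⁻¹ (inv_mem hg)
    have h4 : (g⁻¹ • χ).ev (⟨a, ha⟩⁻¹ : A) = χ.ev (⟨a, ha⟩⁻¹ : A) := by rw [h3]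
    rw [ev_smul, inv_inv] at h4
    have h5 : (⟨a * g * a⁻¹ * g⁻¹, hmem⟩ : A) = ⟨a, ha⟩ * MulAut.conjNormal g (⟨a, ha⟩⁻¹ : A) := by
      apply Subtype.ext
      show a * g * a⁻¹ * g⁻¹ = a * ((MulAut.conjNormal g (⟨a, ha⟩⁻¹ : A) : A) : S)
      rw [MulAut.conjNormal_apply]
      show a * g * a⁻¹ * g⁻¹ = a * (g * a⁻¹ * g⁻¹)
      group
    have h6 : χ.ev (⟨a * g * a⁻¹ * g⁻¹, hmem⟩ : A) = 1 := by
      rw [h5, ev_mul, h4, ← ev_mul, mul_inv_cancel, ev_one]
    exact h6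
  obtain ⟨z, hz, hzy⟩ := h1 y.2
  have h7 : z = y := Subtype.ext hzy
  rw [h7, SetLike.mem_coe, MonoidHom.mem_ker] at hz
  exact congrArg Units.val hz

open Pointwise in
/-- the fixed space has dimension at least two -/
theorem two_le (hcommA : ∀ a b : A, a * b = b * a) (hodd : Odd (Nat.card A))
    [HasEnoughRootsOfUnity K (Monoid.exponent A)] (Q : Subgroup S) (hQ : IsPGroup 2 Q)
    {q : ℕ} [hq : Fact q.Prime] (hq2 : q ≠ 2) (Sq : Subgroup S) (hSq : Nat.card Sq = q)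
    (hcomm : ⁅A, Sq⁆ = A) (hfix : ∀ v : E, (∀ y ∈ A, ρ y v = v) → v = 0) (hE : Nontrivial E)
    : 2 ≤ Module.finrank (ZMod 2) (fixE ρ (Q : Set S)) := by
  classical
  set F := fixK K ρ (Q : Set S) with hF
  let Λ : Set (Chr A K) := {χ | Esp K ρ χ ≠ ⊥}
  have hnt : ∀ χ ∈ Λ, ∃ y, χ.ev y ≠ 1 := by
    intro χ hχ
    by_contra hno
    push Not at hno
    apply hχ
    rw [eq_bot_iff]
    intro v hv
    have h1 : v ∈ fixK K ρ (A : Set S) := by
      intro s hs
      have := hv ⟨s, hs⟩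
      rw [hno, one_smul] at this
      exact this
    rw [fixK_eq] at h1
    have h2 : ((fun e : E => (1 : K) ⊗ₜ[ZMod 2] e) '' (fixE ρ (A : Set S))) ⊆ {0} := by
      rintro _ ⟨e, he, rfl⟩
      show (1 : K) ⊗ₜ e = 0
      rw [hfix e he, TensorProduct.tmul_zero]
    have h3 := Submodule.span_mono h2 h1
    rw [Submodule.span_zero_singleton] at h3
    exact h3
  have hΛinv : ∀ g : S, g • Λ = Λ := by
    have h1 : ∀ (g : S), ∀ χ ∈ Λ, g • χ ∈ Λ := by
      intro g χ hχ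
      obtain ⟨w, hw, hw0⟩ := (Submodule.ne_bot_iff _).1 hχ
      exact (Submodule.ne_bot_iff _).2 ⟨_, rK_mem_Esp ρ hw g, fun h => hw0 ((rK_eq_zero ρ g).1 h)⟩
    intro g
    ext χ
    rw [Set.mem_smul_set_iff_inv_smul_mem]
    constructor
    · intro h
      have := h1 g _ h
      rwa [smul_inv_smul] at this
    · intro h
      exact h1 g⁻¹ _ h
  have hproj : ∀ (χ : Chr A K) (v : EK E K), proj ρ χ v ≠ 0 → χ ∈ Λ := fun χ v h =>
    (Submodule.ne_bot_iff _).2 ⟨_, proj_mem ρ χ v, h⟩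
  have hSqp : IsPGroup q Sq := IsPGroup.of_card (n := 1) (by rw [hSq, pow_one])
  have hfreeΛ : ∀ χ ∈ Λ, ∃ g ∈ Sq, g • χ ≠ χ := fun χ hχ => exists_moves Sq hcomm χ (hnt χ hχ)
  -- a character
  have hEK : Nontrivial (EK E K) := by
    apply Module.nontrivial_of_finrank_pos (R := K)
    rw [Module.finrank_baseChange]
    exact Module.finrank_pos
  obtain ⟨v, hv⟩ := exists_ne (0 : EK E K)
  obtain ⟨χ₁, hχ₁⟩ := exists_proj_ne ρ hcommA hodd hv
  have hχ₁Λ := hproj _ _ hχ₁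
  obtain ⟨u₁, hu₁, hs₁⟩ := exists_supp_orbit ρ hcommA hodd Q hQ χ₁ hχ₁Λ
  have horbΛ : ∀ χ ∈ Λ, MulAction.orbit Q χ ⊆ Λ := by
    rintro χ hχ _ ⟨t, rfl⟩
    have := Set.smul_mem_smul_set (a := (t : S)) hχ
    rw [hΛinv] at this
    exact this
  obtain ⟨χ₂, hχ₂Λ, hχ₂⟩ : ∃ χ₂ ∈ Λ, χ₂ ∉ MulAction.orbit Q χ₁ := by
    by_contra hno
    push Not at hno
    have h1 : Λ = MulAction.orbit Q χ₁ := Set.Subset.antisymm hno (horbΛ _ hχ₁Λ)
    have h2 := dvd_card Sq hSqp Λ (fun g _ => hΛinv g) hfreeΛ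
    rw [h1] at h2
    exact not_dvd_orbit hq2 Q hQ χ₁ h2
  obtain ⟨u₂, hu₂, hs₂⟩ := exists_supp_orbit ρ hcommA hodd Q hQ χ₂ hχ₂Λ
  set O₁ := MulAction.orbit Q χ₁ with hO₁
  set O₂ := MulAction.orbit Q χ₂ with hO₂
  have hdisj : ∀ χ ∈ O₁, χ ∉ O₂ := by
    intro χ h1 h2
    apply hχ₂
    rw [hO₁, ← MulAction.orbit_eq_iff.2 h1, MulAction.orbit_eq_iff.2 h2]
    exact MulAction.mem_orbit_self _
  have h1in : χ₁ ∈ O₁ := MulAction.mem_orbit_self _
  have h2in : χ₂ ∈ O₂ := MulAction.mem_orbit_self _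
  have p1 : ∀ χ ∈ O₁, proj ρ χ u₁ ≠ 0 := fun χ h => by rw [← hs₁] at h; exact h
  have p2 : ∀ χ ∈ O₂, proj ρ χ u₂ ≠ 0 := fun χ h => by rw [← hs₂] at h; exact h
  have n1 : ∀ χ, χ ∉ O₁ → proj ρ χ u₁ = 0 := fun χ h => by
    rw [← hs₁, mem_supp, not_not] at h; exact h
  have n2 : ∀ χ, χ ∉ O₂ → proj ρ χ u₂ = 0 := fun χ h => by
    rw [← hs₂, mem_supp, not_not] at h; exact h
  -- independence
  have hli : LinearIndependent K ![u₁, u₂] := by
    rw [LinearIndependent.pair_iff]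
    intro s t hst
    constructor
    · have h1 := congrArg (proj ρ χ₁) hst
      rw [proj_add, proj_smul, proj_smul, proj_zero, n2 χ₁ (hdisj χ₁ h1in), smul_zero, add_zero] at h1
      exact (smul_eq_zero.1 h1).resolve_right (p1 χ₁ h1in)
    · have h1 := congrArg (proj ρ χ₂) hst
      rw [proj_add, proj_smul, proj_smul, proj_zero, n1 χ₂ hχ₂, smul_zero, zero_add] at h1
      exact (smul_eq_zero.1 h1).resolve_right (p2 χ₂ h2in)
  have h1 : Submodule.span K (Set.range ![u₁, u₂]) ≤ F := by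
    rw [Submodule.span_le]
    rintro _ ⟨i, rfl⟩
    fin_cases i
    · exact hu₁
    · exact hu₂
  have h2 := Submodule.finrank_mono h1
  rw [finrank_span_eq_card hli, Fintype.card_fin] at h2
  exact h2.trans (finrank_fixK_le K ρ (Q : Set S))

open Pointwise in
/-- **main theorem** -/
theorem main_aux (hcommA : ∀ a b : A, a * b = b * a) (hodd : Odd (Nat.card A))
    [HasEnoughRootsOfUnity K (Monoid.exponent A)] (Q : Subgroup S) (hQ : IsPGroup 2 Q)
    {q : ℕ} [hq : Fact q.Prime] (hq2 : q ≠ 2) (Sq : Subgroup S) (hSq : Nat.card Sq = q)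
    (hcomm : ⁅A, Sq⁆ = A) (hfix : ∀ v : E, (∀ y ∈ A, ρ y v = v) → v = 0) (hE : Nontrivial E)
    (hle : Module.finrank (ZMod 2) (fixE ρ (Q : Set S)) ≤ 2)
    (hinv : ∀ x ∈ Sq, ∀ v ∈ fixE ρ (Q : Set S), ρ x v ∈ fixE ρ (Q : Set S)) :
    False := by
  classical
  set F := fixK K ρ (Q : Set S) with hF
  let Λ : Set (Chr A K) := {χ | Esp K ρ χ ≠ ⊥}
  have hnt : ∀ χ ∈ Λ, ∃ y, χ.ev y ≠ 1 := by
    intro χ hχ
    by_contra hno
    push Not at hno
    apply hχ
    rw [eq_bot_iff]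
    intro v hv
    have h1 : v ∈ fixK K ρ (A : Set S) := by
      intro s hs
      have := hv ⟨s, hs⟩
      rw [hno, one_smul] at this
      exact this
    rw [fixK_eq] at h1
    have h2 : ((fun e : E => (1 : K) ⊗ₜ[ZMod 2] e) '' (fixE ρ (A : Set S))) ⊆ {0} := by
      rintro _ ⟨e, he, rfl⟩
      show (1 : K) ⊗ₜ e = 0
      rw [hfix e he, TensorProduct.tmul_zero]
    have h3 := Submodule.span_mono h2 h1
    rw [Submodule.span_zero_singleton] at h3
    exact h3
  have hΛinv : ∀ g : S, g • Λ = Λ := by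
    have h1 : ∀ (g : S), ∀ χ ∈ Λ, g • χ ∈ Λ := by
      intro g χ hχ
      obtain ⟨w, hw, hw0⟩ := (Submodule.ne_bot_iff _).1 hχ
      exact (Submodule.ne_bot_iff _).2 ⟨_, rK_mem_Esp ρ hw g, fun h => hw0 ((rK_eq_zero ρ g).1 h)⟩
    intro g
    ext χ
    rw [Set.mem_smul_set_iff_inv_smul_mem]
    constructor
    · intro h
      have := h1 g _ h
      rwa [smul_inv_smul] at this
    · intro h
      exact h1 g⁻¹ _ h
  have hproj : ∀ (χ : Chr A K) (v : EK E K), proj ρ χ v ≠ 0 → χ ∈ Λ := fun χ v h =>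
    (Submodule.ne_bot_iff _).2 ⟨_, proj_mem ρ χ v, h⟩
  have hSqp : IsPGroup q Sq := IsPGroup.of_card (n := 1) (by rw [hSq, pow_one])
  have hfreeΛ : ∀ χ ∈ Λ, ∃ g ∈ Sq, g • χ ≠ χ := fun χ hχ => exists_moves Sq hcomm χ (hnt χ hχ)
  -- a character
  have hEK : Nontrivial (EK E K) := by
    apply Module.nontrivial_of_finrank_pos (R := K)
    rw [Module.finrank_baseChange]
    exact Module.finrank_pos
  obtain ⟨v, hv⟩ := exists_ne (0 : EK E K)
  obtain ⟨χ₁, hχ₁⟩ := exists_proj_ne ρ hcommA hodd hv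
  have hχ₁Λ := hproj _ _ hχ₁
  obtain ⟨u₁, hu₁, hs₁⟩ := exists_supp_orbit ρ hcommA hodd Q hQ χ₁ hχ₁Λ
  have horbΛ : ∀ χ ∈ Λ, MulAction.orbit Q χ ⊆ Λ := by
    rintro χ hχ _ ⟨t, rfl⟩
    have := Set.smul_mem_smul_set (a := (t : S)) hχ
    rw [hΛinv] at this
    exact this
  obtain ⟨χ₂, hχ₂Λ, hχ₂⟩ : ∃ χ₂ ∈ Λ, χ₂ ∉ MulAction.orbit Q χ₁ := by
    by_contra hno
    push Not at hno
    have h1 : Λ = MulAction.orbit Q χ₁ := Set.Subset.antisymm hno (horbΛ _ hχ₁Λ)
    have h2 := dvd_card Sq hSqp Λ (fun g _ => hΛinv g) hfreeΛ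
    rw [h1] at h2
    exact not_dvd_orbit hq2 Q hQ χ₁ h2
  obtain ⟨u₂, hu₂, hs₂⟩ := exists_supp_orbit ρ hcommA hodd Q hQ χ₂ hχ₂Λ
  set O₁ := MulAction.orbit Q χ₁ with hO₁
  set O₂ := MulAction.orbit Q χ₂ with hO₂
  have hdisj : ∀ χ ∈ O₁, χ ∉ O₂ := by
    intro χ h1 h2
    apply hχ₂
    rw [hO₁, ← MulAction.orbit_eq_iff.2 h1, MulAction.orbit_eq_iff.2 h2]
    exact MulAction.mem_orbit_self _
  have h1in : χ₁ ∈ O₁ := MulAction.mem_orbit_self _
  have h2in : χ₂ ∈ O₂ := MulAction.mem_orbit_self _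
  have p1 : ∀ χ ∈ O₁, proj ρ χ u₁ ≠ 0 := fun χ h => by rw [← hs₁] at h; exact h
  have p2 : ∀ χ ∈ O₂, proj ρ χ u₂ ≠ 0 := fun χ h => by rw [← hs₂] at h; exact h
  have n1 : ∀ χ, χ ∉ O₁ → proj ρ χ u₁ = 0 := fun χ h => by
    rw [← hs₁, mem_supp, not_not] at h; exact h
  have n2 : ∀ χ, χ ∉ O₂ → proj ρ χ u₂ = 0 := fun χ h => by
    rw [← hs₂, mem_supp, not_not] at h; exact h
  -- independence
  have hli : LinearIndependent K ![u₁, u₂] := by
    rw [LinearIndependent.pair_iff]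
    intro s t hst
    constructor
    · have h1 := congrArg (proj ρ χ₁) hst
      rw [proj_add, proj_smul, proj_smul, proj_zero, n2 χ₁ (hdisj χ₁ h1in), smul_zero, add_zero] at h1
      exact (smul_eq_zero.1 h1).resolve_right (p1 χ₁ h1in)
    · have h1 := congrArg (proj ρ χ₂) hst
      rw [proj_add, proj_smul, proj_smul, proj_zero, n1 χ₂ hχ₂, smul_zero, zero_add] at h1
      exact (smul_eq_zero.1 h1).resolve_right (p2 χ₂ h2in)
  have hspan : ∀ w ∈ F, ∃ a b : K, a • u₁ + b • u₂ = w := by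
    have h1 : Submodule.span K (Set.range ![u₁, u₂]) = F := by
      apply Submodule.eq_of_le_of_finrank_le
      · rw [Submodule.span_le]
        rintro _ ⟨i, rfl⟩
        fin_cases i
        · exact hu₁
        · exact hu₂
      · rw [finrank_span_eq_card hli, Fintype.card_fin]
        exact (finrank_fixK_le K ρ (Q : Set S)).trans hle
    intro w hw
    rw [← h1] at hw
    have h2 : Set.range ![u₁, u₂] = {u₁, u₂} := by simp [Set.pair_comm]
    rw [h2] at hw
    exact Submodule.mem_span_pair.1 hw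
  -- an element of `Sq`
  obtain ⟨x, hx, hx1⟩ : ∃ x ∈ Sq, x ≠ 1 := by
    have : Nontrivial Sq := Finite.one_lt_card_iff_nontrivial.1 (by rw [hSq]; exact hq.out.one_lt)
    obtain ⟨x, hx⟩ := exists_ne (1 : Sq)
    exact ⟨x, x.2, fun h => hx (Subtype.ext h)⟩
  have hFinv : ∀ w ∈ F, rK K ρ x w ∈ F := by
    intro w hw
    rw [hF, fixK_eq] at hw
    induction hw using Submodule.span_induction with
    | mem w h =>
      obtain ⟨e, he, rfl⟩ := h
      rw [hF, fixK_eq]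
      apply Submodule.subset_span
      exact ⟨_, hinv x hx e he, rfl⟩
    | zero => rw [map_zero]; exact zero_mem _
    | add a b _ _ ha hb => rw [map_add]; exact add_mem ha hb
    | smul c a _ ha => rw [map_smul]; exact Submodule.smul_mem _ _ ha
  have key1 : x • O₁ = O₁ ∨ x • O₁ = O₂ := by
    obtain ⟨a, b, hab⟩ := hspan _ (hFinv u₁ hu₁)
    have h1 : supp (A := A) ρ (a • u₁ + b • u₂) = x • O₁ := by rw [hab, supp_rK, hs₁]
    by_cases ha : a = 0
    · right
      rw [← h1, ha, zero_smul, zero_add]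
      have hb : b ≠ 0 := by
        rintro rfl
        rw [ha, zero_smul, zero_smul, add_zero] at hab
        have h2 := (rK_eq_zero ρ x).1 hab.symm
        apply p1 χ₁ h1in
        rw [h2, proj_zero]
      ext χ
      rw [mem_supp, proj_smul, ← hs₂, mem_supp, Ne, smul_eq_zero, not_or]
      exact ⟨fun h => h.2, fun h => ⟨hb, h⟩⟩
    · left
      symm
      apply Set.eq_of_subset_of_ncard_le
      · intro χ hχ
        rw [← h1, mem_supp, proj_add, proj_smul, proj_smul, n2 χ (hdisj χ hχ), smul_zero, add_zero]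
        exact smul_ne_zero ha (p1 χ hχ)
      · rw [Set.ncard_smul_set]
      · exact Set.toFinite _
  have key2 : x • O₂ = O₁ ∨ x • O₂ = O₂ := by
    obtain ⟨a, b, hab⟩ := hspan _ (hFinv u₂ hu₂)
    have h1 : supp (A := A) ρ (a • u₁ + b • u₂) = x • O₂ := by rw [hab, supp_rK, hs₂]
    by_cases hb : b = 0
    · left
      rw [← h1, hb, zero_smul, add_zero]
      have ha : a ≠ 0 := by
        rintro rfl
        rw [hb, zero_smul, zero_smul, add_zero] at hab
        have h2 := (rK_eq_zero ρ x).1 hab.symm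
        apply p2 χ₂ h2in
        rw [h2, proj_zero]
      ext χ
      rw [mem_supp, proj_smul, ← hs₁, mem_supp, Ne, smul_eq_zero, not_or]
      exact ⟨fun h => h.2, fun h => ⟨ha, h⟩⟩
    · right
      symm
      apply Set.eq_of_subset_of_ncard_le
      · intro χ hχ
        rw [← h1, mem_supp, proj_add, proj_smul, proj_smul, n1 χ (fun h => hdisj χ h hχ), smul_zero,
          zero_add]
        exact smul_ne_zero hb (p2 χ hχ)
      · rw [Set.ncard_smul_set]
      · exact Set.toFinite _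
  have hxx : (x * x) • O₁ = O₁ := by
    rw [mul_smul]
    rcases key1 with h | h
    · rw [h, h]
    · rw [h]
      rcases key2 with h' | h'
      · exact h'
      · exfalso
        have h3 : O₁ = O₂ := by
          have h4 : x⁻¹ • (x • O₁) = x⁻¹ • (x • O₂) := by rw [h, h']
          rwa [inv_smul_smul, inv_smul_smul] at h4
        exact hdisj χ₁ h1in (h3 ▸ h1in)
  have hxx1 : x * x ≠ 1 := by
    intro h
    have h3 : orderOf (⟨x, hx⟩ : Sq) ∣ 2 := orderOf_dvd_of_pow_eq_one (by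
      rw [pow_two]; exact Subtype.ext h)
    have h4 : orderOf (⟨x, hx⟩ : Sq) ∣ q := hSq ▸ orderOf_dvd_natCard _
    rcases (Nat.dvd_prime hq.out).1 h4 with h5 | h5
    · exact hx1 (congrArg Subtype.val (orderOf_eq_one_iff.1 h5))
    · rw [h5] at h3
      exact hq2 ((Nat.prime_dvd_prime_iff_eq hq.out Nat.prime_two).1 h3)
  have hstab : ∀ g ∈ Sq, g • O₁ = O₁ := by
    have h3 : Fact (Nat.card Sq).Prime := ⟨hSq ▸ hq.out⟩
    rcases ((MulAction.stabilizer S O₁).subgroupOf Sq).eq_bot_or_eq_top_of_prime_card with h4 | h4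
    · exfalso
      have h5 : (⟨x * x, mul_mem hx hx⟩ : Sq) ∈ (MulAction.stabilizer S O₁).subgroupOf Sq := by
        rw [mem_subgroupOf]
        exact hxx
      rw [h4, mem_bot] at h5
      exact hxx1 (congrArg Subtype.val h5)
    · intro g hg
      have h5 : (⟨g, hg⟩ : Sq) ∈ (MulAction.stabilizer S O₁).subgroupOf Sq := by
        rw [h4]; exact mem_top _
      rw [mem_subgroupOf] at h5
      exact h5
  exact not_dvd_orbit hq2 Q hQ χ₁ (dvd_card Sq hSqp O₁ hstab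
    (fun χ hχ => hfreeΛ χ (horbΛ _ hχ₁Λ hχ)))

/-- a finite field of characteristic 2 with enough roots of unity -/
theorem exists_field (n : ℕ) (hn : Odd n) :
    ∃ (K : Type) (_ : Field K) (_ : Algebra (ZMod 2) K), Finite K ∧
      ∀ e, e ∣ n → HasEnoughRootsOfUnity K e := by
  have hn0 : 0 < n := hn.pos
  have : Fact (Nat.Prime 2) := ⟨Nat.prime_two⟩
  have hf : Nat.totient n ≠ 0 := (Nat.totient_pos.2 hn0).ne'
  have hfin : Finite (GaloisField 2 (Nat.totient n)) := inferInstance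
  refine ⟨GaloisField 2 (Nat.totient n), inferInstance, inferInstance, hfin, ?_⟩
  intro e he
  have he0 : 0 < e := Nat.pos_of_dvd_of_pos he hn0
  have : NeZero e := ⟨he0.ne'⟩
  have hcard : Nat.card (GaloisField 2 (Nat.totient n))ˣ = 2 ^ Nat.totient n - 1 := by
    rw [Nat.card_units, GaloisField.card 2 _ hf]
  have hdvd : n ∣ 2 ^ Nat.totient n - 1 := by
    have h1 := Nat.ModEq.pow_totient (Nat.coprime_two_left.2 hn)
    exact (Nat.modEq_iff_dvd' (Nat.one_le_two_pow)).1 h1.symm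
  obtain ⟨g, hg⟩ := IsCyclic.exists_generator (α := (GaloisField 2 (Nat.totient n))ˣ)
  have hord : orderOf g = 2 ^ Nat.totient n - 1 := by
    rw [← hcard]
    exact orderOf_eq_card_of_forall_mem_zpowers hg
  obtain ⟨c, hc⟩ := he.trans hdvd
  have hprim : IsPrimitiveRoot (g : GaloisField 2 (Nat.totient n)) (2 ^ Nat.totient n - 1) := by
    rw [← hord]
    exact (IsPrimitiveRoot.orderOf g).map_of_injective (f := Units.coeHom _) Units.val_injective
  have hpos : 0 < 2 ^ Nat.totient n - 1 := by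
    rw [← hcard]
    exact Nat.card_pos
  exact ⟨⟨_, hprim.pow hpos (by rw [hc, mul_comm])⟩, inferInstance⟩

theorem final (A : Subgroup S) (hAn : A.Normal) (hcommA : ∀ a b : A, a * b = b * a)
    (hodd : Odd (Nat.card A)) (hA1 : A ≠ ⊥)
    (Q : Subgroup S) (hQ : IsPGroup 2 Q)
    {q : ℕ} [hq : Fact q.Prime] (hq2 : q ≠ 2) (Sq : Subgroup S) (hSq : Nat.card Sq = q)
    (hcomm : ⁅A, Sq⁆ = A) (hE : Nontrivial E)
    (hirr : ∀ N : Submodule (ZMod 2) E, (∀ s : S, ∀ m ∈ N, ρ s m ∈ N) → N = ⊥ ∨ N = ⊤)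
    (hfaith : ∀ x ∈ A, ρ x = 1 → x = 1) :
    8 ≤ Nat.card {v : E // ∀ s ∈ Q, ρ s v = v} ∨
      (Nat.card {v : E // ∀ s ∈ Q, ρ s v = v} = 4 ∧
        ∃ x ∈ Sq, ∃ v : E, (∀ s ∈ Q, ρ s v = v) ∧ ¬ ∀ s ∈ Q, ρ s (ρ x v) = ρ x v) := by
  obtain ⟨K, hK1, hK2, hK3, hK4⟩ := exists_field (Nat.card A) hodd
  have hK5 : HasEnoughRootsOfUnity K (Monoid.exponent A) := hK4 _ Group.exponent_dvd_nat_card
  have : Fintype A := Fintype.ofFinite A
  have hfix : ∀ v : E, (∀ y ∈ A, ρ y v = v) → v = 0 := by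
    have h1 : ∀ s : S, ∀ m ∈ fixE ρ (A : Set S), ρ s m ∈ fixE ρ (A : Set S) := by
      intro s m hm y hy
      have h2 : s⁻¹ * y * s ∈ A := by
        have := hAn.conj_mem y hy s⁻¹
        rwa [inv_inv] at this
      have h3 : ρ y (ρ s m) = ρ s (ρ (s⁻¹ * y * s) m) := by
        rw [← Module.End.mul_apply, ← Module.End.mul_apply, ← map_mul, ← map_mul]
        congr 2
        group
      rw [h3, hm _ h2]
    rcases hirr _ h1 with h | h
    · intro v hv
      have : v ∈ fixE ρ (A : Set S) := hv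
      rw [h] at this
      exact (Submodule.mem_bot _).1 this
    · exfalso
      apply hA1
      rw [eq_bot_iff]
      intro x hx
      rw [mem_bot]
      apply hfaith x hx
      ext v
      have : v ∈ fixE ρ (A : Set S) := by rw [h]; exact Submodule.mem_top
      exact this x hx
  have h2 := two_le (K := K) ρ hcommA hodd Q hQ hq2 Sq hSq hcomm hfix hE
  have hcard : Nat.card {v : E // ∀ s ∈ Q, ρ s v = v} =
      2 ^ Module.finrank (ZMod 2) (fixE ρ (Q : Set S)) := by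
    have h3 : Nat.card (fixE ρ (Q : Set S)) = Nat.card (ZMod 2) ^ Module.finrank (ZMod 2) (fixE ρ (Q : Set S)) :=
      Module.natCard_eq_pow_finrank
    rw [Nat.card_zmod] at h3
    exact h3
  by_cases h3 : 3 ≤ Module.finrank (ZMod 2) (fixE ρ (Q : Set S))
  · left
    rw [hcard]
    calc 8 = 2 ^ 3 := by norm_num
      _ ≤ _ := Nat.pow_le_pow_right (by norm_num) h3
  · right
    have h4 : Module.finrank (ZMod 2) (fixE ρ (Q : Set S)) = 2 := by omega
    refine ⟨by rw [hcard, h4]; norm_num, ?_⟩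
    by_contra hno
    apply main_aux (K := K) ρ hcommA hodd Q hQ hq2 Sq hSq hcomm hfix hE h4.le
    intro x hx v hv
    by_contra hno2
    exact hno ⟨x, hx, v, hv, hno2⟩

end H76.OrbitFix
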