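import Mathlib
import Cfsg.Agent.Lib.H37.PSolv
import Cfsg.Agent.Lib.H1.SZ
import Cfsg.Agent.Lib.H76.PG

/-!
Chains `1 ≤ A ≤ B ≤ C ≤ D ≤ G` with factors `p', p, p', p, p'` (S4379).
-/

set_option autoImplicit false
open Cfsg Subgroup
open scoped Pointwise

namespace H76.PLen2

variable {G : Type*} [Group G]

/-- the chain of S4379 -/
def PL2 (p : ℕ) (G : Type*) [Group G] : Prop :=
  ∃ A B C D : Subgroup G, A.Normal ∧ B.Normal ∧ C.Normal ∧ D.Normal ∧ A ≤ B ∧ B ≤ C ∧ C ≤ D ∧ ¬ p ∣ Nat.card A ∧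
      (∃ k : ℕ, A.relIndex B = p ^ k) ∧ ¬ p ∣ B.relIndex C ∧ (∃ k : ℕ, C.relIndex D = p ^ k) ∧ ¬ p ∣ D.index

/-- the hypothesis on maximal subgroups of S4379 -/
def Hmax (p : ℕ) (G : Type*) [Group G] : Prop :=
  ∀ M : Subgroup G, IsCoatom M →
    (∃ K : Subgroup ↥M, K.Normal ∧ ¬ p ∣ Nat.card K ∧ ∃ k : ℕ, K.index = p ^ k) ∨ (M.index).Prime

theorem relIndex_dvd_of_le (A : Subgroup G) [A.Normal] {X B : Subgroup G} (h : X ≤ B) :
    A.relIndex X ∣ A.relIndex B := by
  rw [← relIndex_subgroupOf h]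
  exact relIndex_dvd_index_of_normal _ _

theorem relIndex_inf_dvd (A₁ A₂ B₁ B₂ : Subgroup G) [A₁.Normal] [A₂.Normal] :
    (A₁ ⊓ A₂).relIndex (B₁ ⊓ B₂) ∣ A₁.relIndex B₁ * A₂.relIndex B₂ := by
  rw [← relIndex_inf_mul_relIndex]
  exact mul_dvd_mul (relIndex_dvd_of_le A₁ (inf_le_right.trans inf_le_left)) (relIndex_dvd_of_le A₂ inf_le_right)

theorem relIndex_comap_comap {H : Type*} [Group H] {f : G →* H} (hf : Function.Surjective f) (A B : Subgroup H) :
    (A.comap f).relIndex (B.comap f) = A.relIndex B := by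
  rw [relIndex_comap, map_comap_eq_self_of_surjective hf]

theorem hmax_quotient {p : ℕ} [hp : Fact p.Prime] (h : Hmax p G) (N : Subgroup G) [N.Normal] : Hmax p (G ⧸ N) := by
  intro M hM
  have hs := QuotientGroup.mk'_surjective N
  have hM' : IsCoatom (M.comap (QuotientGroup.mk' N)) := isCoatom_comap_of_surjective hs hM
  rcases h _ hM' with ⟨K, hKn, hKp, k, hk⟩ | h
  · left
    have hs' := (QuotientGroup.mk' N).subgroupComap_surjective_of_surjective M hs
    refine ⟨K.map ((QuotientGroup.mk' N).subgroupComap M), hKn.map _ hs', ?_, ?_⟩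
    · intro hd
      exact hKp (hd.trans (card_map_dvd K _))
    · have := index_map_dvd (H := K) hs'
      rw [hk] at this
      obtain ⟨j, _, hj⟩ := (Nat.dvd_prime_pow hp.out).mp this
      exact ⟨j, hj⟩
  · right
    rwa [index_comap_of_surjective _ hs] at h

theorem lift_chain {p : ℕ} (N : Subgroup G) [N.Normal] (h : PL2 p (G ⧸ N)) :
    ∃ A B C D : Subgroup G, A.Normal ∧ B.Normal ∧ C.Normal ∧ D.Normal ∧ N ≤ A ∧ A ≤ B ∧ B ≤ C ∧ C ≤ D ∧
      ¬ p ∣ N.relIndex A ∧
      (∃ k : ℕ, A.relIndex B = p ^ k) ∧ ¬ p ∣ B.relIndex C ∧ (∃ k : ℕ, C.relIndex D = p ^ k) ∧ ¬ p ∣ D.index := by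
  obtain ⟨A, B, C, D, hA, hB, hC, hD, hAB, hBC, hCD, h1, ⟨k, hk⟩, h3, ⟨l, hl⟩, h5⟩ := h
  have hs := QuotientGroup.mk'_surjective N
  refine ⟨A.comap (QuotientGroup.mk' N), B.comap (QuotientGroup.mk' N), C.comap (QuotientGroup.mk' N),
    D.comap (QuotientGroup.mk' N), hA.comap _, hB.comap _, hC.comap _, hD.comap _, ?_, comap_mono hAB,
    comap_mono hBC, comap_mono hCD, ?_, ⟨k, ?_⟩, ?_, ⟨l, ?_⟩, ?_⟩
  · exact QuotientGroup.le_comap_mk' N A
  · have : N.relIndex (A.comap (QuotientGroup.mk' N)) = Nat.card A := by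
      have hker := QuotientGroup.ker_mk' N
      calc N.relIndex (A.comap (QuotientGroup.mk' N))
          = (QuotientGroup.mk' N).ker.relIndex (A.comap (QuotientGroup.mk' N)) := by rw [hker]
        _ = _ := by rw [relIndex_ker, map_comap_eq_self_of_surjective hs]
    rwa [this]
  · rw [relIndex_comap_comap hs, hk]
  · rwa [relIndex_comap_comap hs]
  · rw [relIndex_comap_comap hs, hl]
  · rwa [index_comap_of_surjective _ hs]

theorem pow_of_dvd_mul {p a b c : ℕ} (hp : p.Prime) (ha : ∃ k, a = p ^ k) (hb : ∃ k, b = p ^ k) (h : c ∣ a * b) :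
    ∃ k, c = p ^ k := by
  obtain ⟨k, rfl⟩ := ha
  obtain ⟨l, rfl⟩ := hb
  rw [← pow_add] at h
  obtain ⟨j, _, hj⟩ := (Nat.dvd_prime_pow hp).mp h
  exact ⟨j, hj⟩

theorem not_dvd_of_dvd_mul {p a b c : ℕ} (hp : p.Prime) (ha : ¬ p ∣ a) (hb : ¬ p ∣ b) (h : c ∣ a * b) :
    ¬ p ∣ c := by
  intro hc
  rcases hp.dvd_mul.mp (hc.trans h) with h | h
  · exact ha h
  · exact hb h

theorem of_two {p : ℕ} (hp : p.Prime) (N₁ N₂ : Subgroup G) [N₁.Normal] [N₂.Normal] (hN : N₁ ⊓ N₂ = ⊥)
    (h₁ : PL2 p (G ⧸ N₁)) (h₂ : PL2 p (G ⧸ N₂)) : PL2 p G := by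
  obtain ⟨A₁, B₁, C₁, D₁, hA₁, hB₁, hC₁, hD₁, hNA₁, hAB₁, hBC₁, hCD₁, h1₁, h2₁, h3₁, h4₁, h5₁⟩ := lift_chain N₁ h₁
  obtain ⟨A₂, B₂, C₂, D₂, hA₂, hB₂, hC₂, hD₂, hNA₂, hAB₂, hBC₂, hCD₂, h1₂, h2₂, h3₂, h4₂, h5₂⟩ := lift_chain N₂ h₂
  refine ⟨A₁ ⊓ A₂, B₁ ⊓ B₂, C₁ ⊓ C₂, D₁ ⊓ D₂, inferInstance, inferInstance, inferInstance, inferInstance,
    inf_le_inf hAB₁ hAB₂, inf_le_inf hBC₁ hBC₂, inf_le_inf hCD₁ hCD₂, ?_, ?_, ?_, ?_, ?_⟩
  · rw [← relIndex_bot_left, ← hN]
    exact not_dvd_of_dvd_mul hp h1₁ h1₂ (relIndex_inf_dvd N₁ N₂ A₁ A₂)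
  · exact pow_of_dvd_mul hp h2₁ h2₂ (relIndex_inf_dvd _ _ _ _)
  · exact not_dvd_of_dvd_mul hp h3₁ h3₂ (relIndex_inf_dvd _ _ _ _)
  · exact pow_of_dvd_mul hp h4₁ h4₂ (relIndex_inf_dvd _ _ _ _)
  · have := relIndex_inf_dvd D₁ D₂ ⊤ ⊤
    rw [inf_top_eq, relIndex_top_right, relIndex_top_right, relIndex_top_right] at this
    exact not_dvd_of_dvd_mul hp h5₁ h5₂ this

theorem of_pprime {p : ℕ} (hp : p.Prime) (N : Subgroup G) [N.Normal] (hN : ¬ p ∣ Nat.card N)
    (h : PL2 p (G ⧸ N)) : PL2 p G := by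
  obtain ⟨A, B, C, D, hA, hB, hC, hD, hNA, hAB, hBC, hCD, h1, h2, h3, h4, h5⟩ := lift_chain N h
  refine ⟨A, B, C, D, hA, hB, hC, hD, hAB, hBC, hCD, ?_, h2, h3, h4, h5⟩
  have := relIndex_mul_relIndex ⊥ N A bot_le hNA
  rw [relIndex_bot_left, relIndex_bot_left] at this
  exact not_dvd_of_dvd_mul hp hN h1 this.symm.dvd

/-- Case `N ≤ Φ(G)`. -/
theorem eq_of_frattini [Finite G] {p : ℕ} [hp : Fact p.Prime] (N A : Subgroup G) [N.Normal] [A.Normal]
    (hN : IsPGroup p N) (hNF : N ≤ frattini G) (hNA : N ≤ A) (hcop : ¬ p ∣ N.relIndex A)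
    (hcore : ∀ K : Subgroup G, K.Normal → ¬ p ∣ Nat.card K → K = ⊥) : A = N := by
  have hcop' : (Nat.card (N.subgroupOf A)).Coprime (N.subgroupOf A).index := by
    have h1 : Nat.card (N.subgroupOf A) = Nat.card N := Nat.card_congr (subgroupOfEquivOfLe hNA).toEquiv
    obtain ⟨k, hk⟩ := IsPGroup.iff_card.mp hN
    rw [h1, hk]
    exact Nat.Coprime.pow_left _ ((Nat.Prime.coprime_iff_not_dvd hp.out).mpr hcop)
  obtain ⟨H₀, hH₀⟩ := exists_right_complement'_of_coprime hcop'
  set H := H₀.map A.subtype with hH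
  have hHc : Nat.card H = N.relIndex A := by
    rw [hH, card_map_of_injective A.subtype_injective]
    have h2 := hH₀.card_mul_card
    have h3 := (N.subgroupOf A).card_mul_index
    rw [← h3] at h2
    exact Nat.eq_of_mul_eq_mul_left Nat.card_pos h2
  have hHA : H ≤ A := map_subtype_le _
  have hcopN : (Nat.card N).Coprime (N.relIndex A) := by
    obtain ⟨k, hk⟩ := IsPGroup.iff_card.mp hN
    rw [hk]
    exact Nat.Coprime.pow_left _ ((Nat.Prime.coprime_iff_not_dvd hp.out).mpr hcop)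
  have hsol : Group.IsSolvable N := by
    have := hN.isNilpotent
    infer_instance
  have htop : normalizer (H : Set G) ⊔ frattini G = ⊤ := by
    rw [eq_top_iff]
    intro g _
    have hle : MulAut.conj g • H ≤ A := by
      intro x hx
      rw [H1.SZ.mem_conj_smul] at hx
      have := (inferInstance : A.Normal).conj_mem _ (hHA hx) g
      simpa [mul_assoc] using this
    obtain ⟨n, hn, hn'⟩ := H1.SZ.conj_of_card_rel A N hNA (by rw [normalizer_eq_top]; exact le_top) hcopN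
      (Or.inl hsol) H (MulAut.conj g • H) hHA hle hHc (by rw [H1.SZ.card_conj_smul, hHc])
    have h3 : n⁻¹ * g ∈ normalizer (H : Set G) := by
      apply H1.SZ.mem_normalizer_of_conj_smul_eq
      rw [H1.SZ.conj_mul_smul, ← hn', ← H1.SZ.conj_mul_smul, inv_mul_cancel]
      simp
    have h4 : g = n * (n⁻¹ * g) := by group
    rw [h4]
    exact mul_mem (mem_sup_right (hNF hn)) (mem_sup_left h3)
  have hnorm : normalizer (H : Set G) = ⊤ := frattini_nongenerating htop
  have hHn : H.Normal := normalizer_eq_top_iff.mp hnorm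
  have hbot := hcore H hHn (by rw [hHc]; exact hcop)
  have h1 : N.relIndex A = 1 := by rw [← hHc, hbot, card_bot]
  exact le_antisymm (relIndex_eq_one.mp h1) hNA

theorem main (p : ℕ) [hp : Fact p.Prime] : ∀ (n : ℕ) (G : Type*) [Group G] [Finite G], Nat.card G = n →
    IsPSolvable p G → Hmax p G → PL2 p G := by
  intro n
  induction n using Nat.strong_induction_on with
  | _ n ih =>
  intro G _ _ hn hps hmax
  -- quotients
  have hquot : ∀ N : Subgroup G, ∀ [N.Normal], N ≠ ⊥ → PL2 p (G ⧸ N) := by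
    intro N _ hN
    refine ih (Nat.card (G ⧸ N)) ?_ (G ⧸ N) rfl (H37.PSolv.quotient hps N) (hmax_quotient hmax N)
    rw [← hn, ← index_eq_card, ← N.card_mul_index]
    have h1 : 1 < Nat.card N := by
      rw [one_lt_card_iff_ne_bot]; exact hN
    have h2 : 0 < N.index := Nat.pos_of_ne_zero index_ne_zero_of_finite
    nlinarith
  by_cases ha : ∃ K : Subgroup G, K.Normal ∧ ¬ p ∣ Nat.card K ∧ K ≠ ⊥
  · obtain ⟨K, hKn, hKp, hK⟩ := ha
    exact of_pprime hp.out K hKp (hquot K hK)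
  have hcore : ∀ K : Subgroup G, K.Normal → ¬ p ∣ Nat.card K → K = ⊥ := by
    intro K h1 h2
    by_contra h3
    exact ha ⟨K, h1, h2, h3⟩
  by_cases hb : ∃ N₁ N₂ : Subgroup G, N₁.Normal ∧ N₂.Normal ∧ N₁ ≠ ⊥ ∧ N₂ ≠ ⊥ ∧ N₁ ⊓ N₂ = ⊥
  · obtain ⟨N₁, N₂, h1, h2, h3, h4, h5⟩ := hb
    exact of_two hp.out N₁ N₂ h5 (hquot N₁ h3) (hquot N₂ h4)
  by_cases htriv : Subsingleton G
  · refine ⟨⊥, ⊥, ⊥, ⊤, inferInstance, inferInstance, inferInstance, inferInstance, le_rfl, le_rfl, bot_le, ?_,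
      ⟨0, ?_⟩, ?_, ⟨0, ?_⟩, ?_⟩
    · rw [card_bot]; exact hp.out.one_lt.ne' ∘ Nat.dvd_one.mp
    · rw [relIndex_self, pow_zero]
    · rw [relIndex_self]; exact hp.out.one_lt.ne' ∘ Nat.dvd_one.mp
    · rw [relIndex_top_right, index_bot, pow_zero]; exact Nat.card_unique
    · rw [index_top]; exact hp.out.one_lt.ne' ∘ Nat.dvd_one.mp
  rw [not_subsingleton_iff_nontrivial] at htriv
  -- minimal normal subgroup
  obtain ⟨N, ⟨hNn, hNb⟩, hNmin⟩ := (wellFounded_lt (α := Subgroup G)).has_min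
    {N : Subgroup G | N.Normal ∧ N ≠ ⊥} ⟨⊤, inferInstance, top_ne_bot⟩
  have hNle : ∀ L : Subgroup G, L.Normal → L ≠ ⊥ → N ≤ L := by
    intro L hL hLb
    by_contra hnot
    have h1 : N ⊓ L ≠ ⊥ := fun h => hb ⟨N, L, hNn, hL, hNb, hLb, h⟩
    refine hNmin (N ⊓ L) ⟨inferInstance, h1⟩ (lt_of_le_of_ne inf_le_left ?_)
    intro h
    exact hnot (inf_eq_left.mp h)
  have hNp : IsPGroup p N := by
    have h1 : pCore p G ≠ ⊥ := by
      rcases H37.PSolv.core_ne_bot hps with h | h
      · exact h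
      · exact absurd (hcore _ inferInstance ((Nat.Prime.coprime_iff_not_dvd hp.out).mp
          (H1.Cores.coprime_card_pPrimeCore p).symm)) h
    exact (H1.Cores.isPGroup_pCore p).to_le (hNle _ inferInstance h1)
  obtain ⟨A, B, C, D, hA, hB, hC, hD, hNA, hAB, hBC, hCD, h1, ⟨k, h2⟩, h3, h4, h5⟩ := lift_chain N (hquot N hNb)
  obtain ⟨j, hj⟩ := IsPGroup.iff_card.mp hNp
  by_cases hF : N ≤ frattini G
  · have hAN := eq_of_frattini N A hNp hF hNA h1 hcore
    refine ⟨⊥, B, C, D, inferInstance, hB, hC, hD, bot_le, hBC, hCD, ?_, ⟨j + k, ?_⟩, h3, h4, h5⟩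
    · rw [card_bot]; exact hp.out.one_lt.ne' ∘ Nat.dvd_one.mp
    · rw [← relIndex_mul_relIndex ⊥ A B bot_le hAB, h2, hAN, relIndex_bot_left, hj, pow_add]
  -- a maximal subgroup not containing N
  obtain ⟨M, hM, hNM⟩ : ∃ M : Subgroup G, IsCoatom M ∧ ¬ N ≤ M := by
    by_contra hcon
    push Not at hcon
    apply hF
    rw [frattini, Order.radical]
    exact le_iInf₂ hcon
  have hsup : N ⊔ M = ⊤ := by
    by_contra hne
    exact hne (hM.2 _ (lt_of_le_of_ne le_sup_right (fun h => hNM (h ▸ le_sup_left))))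
  have hNcomm : ∀ x ∈ N, ∀ y ∈ N, x * y = y * x := by
    have : Nontrivial N := (nontrivial_iff_ne_bot N).mpr hNb
    have h1 : Nontrivial (center N) := hNp.center_nontrivial
    have h2 : ((center N).map N.subtype).Normal := inferInstance
    have h3 : (center N).map N.subtype ≠ ⊥ := by
      rw [Ne, (center N).map_eq_bot_iff_of_injective N.subtype_injective]
      exact (nontrivial_iff_ne_bot _).mp h1
    have h4 := hNle _ h2 h3
    intro x hx y hy
    obtain ⟨z, hz, rfl⟩ := h4 hx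
    have := mem_center_iff.mp hz ⟨y, hy⟩
    exact (congrArg Subtype.val this).symm
  have hnormM : ∀ L : Subgroup G, L ≤ M → (∀ m ∈ M, ∀ x ∈ L, m * x * m⁻¹ ∈ L) → (∀ a ∈ N, ∀ x ∈ L, a * x = x * a) →
      L = ⊥ := by
    intro L hLM hLm hLN
    have hLn : L.Normal := by
      rw [← normalizer_eq_top_iff, eq_top_iff, ← hsup, sup_le_iff]
      constructor
      · intro a ha
        rw [mem_normalizer_iff]
        intro x
        constructor
        · intro hx
          rw [hLN a ha x hx, mul_inv_cancel_right]; exact hx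
        · intro hx
          have := hLN a⁻¹ (inv_mem ha) _ hx
          have h7 : a⁻¹ * (a * x * a⁻¹) * a = a * x * a⁻¹ := by
            rw [this]; group
          have h8 : a⁻¹ * (a * x * a⁻¹) * a = x := by group
          rw [← h8, h7]; exact hx
      · intro m hm
        rw [mem_normalizer_iff]
        intro x
        refine ⟨hLm m hm x, fun hx => ?_⟩
        have := hLm m⁻¹ (inv_mem hm) _ hx
        simpa [mul_assoc] using this
    by_contra hLb
    exact hNM ((hNle L hLn hLb).trans hLM)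
  have hinf : N ⊓ M = ⊥ := by
    apply hnormM (N ⊓ M) inf_le_right
    · intro m hm x hx
      exact ⟨hNn.conj_mem _ hx.1 _, M.mul_mem (M.mul_mem hm hx.2) (M.inv_mem hm)⟩
    · intro a ha x hx
      exact hNcomm a ha x hx.1
  have hcompl : IsComplement' N M := isComplement'_of_disjoint_and_mul_eq_univ (disjoint_iff.mpr hinf) (by
    rw [← Subgroup.normal_mul, hsup]; rfl)
  rcases hmax M hM with ⟨K, hKn, hKp, l, hl⟩ | hprime
  · -- `M` is p-nilpotent
    set K' := K.map M.subtype with hK'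
    have hK'M : K' ≤ M := map_subtype_le _
    have hK'c : Nat.card K' = Nat.card K := card_map_of_injective M.subtype_injective
    have hnorm : (N ⊔ K').Normal := by
      rw [← normalizer_eq_top_iff, eq_top_iff, ← hsup, sup_le_iff]
      constructor
      · exact le_sup_left.trans le_normalizer
      · intro m hm
        have key : ∀ m ∈ M, ∀ x ∈ N ⊔ K', m * x * m⁻¹ ∈ N ⊔ K' := by
          intro m hm x hx
          rw [sup_comm, mem_sup_of_normal_right] at hx
          obtain ⟨y, hy, z, hz, rfl⟩ := hx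
          obtain ⟨y, hy', rfl⟩ := hy
          have h6 : m * (M.subtype y * z) * m⁻¹ = (m * M.subtype y * m⁻¹) * (m * z * m⁻¹) := by group
          rw [h6]
          refine mul_mem (mem_sup_right ?_) (mem_sup_left (hNn.conj_mem _ hz _))
          exact ⟨⟨m, hm⟩ * y * ⟨m, hm⟩⁻¹, hKn.conj_mem _ hy' _, rfl⟩
        rw [mem_normalizer_iff]
        intro x
        refine ⟨key m hm x, fun hx => ?_⟩
        have := key m⁻¹ (inv_mem hm) _ hx
        simpa [mul_assoc] using this
    have hdisj : N ⊓ K' = ⊥ := by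
      rw [eq_bot_iff, ← hinf]; exact inf_le_inf_left _ hK'M
    have hrel : N.relIndex (N ⊔ K') = Nat.card K := by
      rw [relIndex_sup_left, ← inf_relIndex_right, hdisj, relIndex_bot_left, hK'c]
    refine ⟨⊥, N, N ⊔ K', ⊤, inferInstance, hNn, hnorm, inferInstance, bot_le, le_sup_left, le_top, ?_,
      ⟨j, ?_⟩, ?_, ⟨l, ?_⟩, ?_⟩
    · rw [card_bot]; exact hp.out.one_lt.ne' ∘ Nat.dvd_one.mp
    · rw [relIndex_bot_left, hj]
    · rw [hrel]; exact hKp
    · rw [relIndex_top_right]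
      have e1 : Nat.card N * Nat.card M = Nat.card G := hcompl.card_mul_card
      have e2 : Nat.card (N ⊔ K' : Subgroup G) * (N ⊔ K').index = Nat.card G := card_mul_index _
      have e3 : Nat.card N * Nat.card K = Nat.card (N ⊔ K' : Subgroup G) := by
        have := relIndex_mul_relIndex ⊥ N (N ⊔ K') bot_le le_sup_left
        rwa [relIndex_bot_left, relIndex_bot_left, hrel] at this
      have e4 : Nat.card K * K.index = Nat.card M := K.card_mul_index
      rw [← e1, ← e3, ← e4, hl, ← mul_assoc] at e2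
      exact Nat.eq_of_mul_eq_mul_left (Nat.mul_pos Nat.card_pos Nat.card_pos) e2
    · rw [index_top]; exact hp.out.one_lt.ne' ∘ Nat.dvd_one.mp
  · -- prime index: `|N| = p`
    have hidx : M.index = Nat.card N := by
      have e1 : Nat.card N * Nat.card M = Nat.card G := hcompl.card_mul_card
      have e2 := M.card_mul_index
      rw [← e1, mul_comm] at e2
      exact Nat.eq_of_mul_eq_mul_right Nat.card_pos e2
    rw [hidx, hj] at hprime
    have hj1 : j = 1 := by
      rcases Nat.eq_zero_or_pos j with h | h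
      · rw [h, pow_zero] at hprime; exact absurd hprime Nat.not_prime_one
      · by_contra hne
        exact Nat.Prime.not_prime_pow (show 2 ≤ j by omega) hprime
    have hcard : Nat.card N = p := by rw [hj, hj1, pow_one]
    -- centralizer
    have hCM : centralizer (N : Set G) ⊓ M = ⊥ := by
      apply hnormM _ inf_le_right
      · intro m hm x hx
        refine ⟨?_, M.mul_mem (M.mul_mem hm hx.2) (M.inv_mem hm)⟩
        exact (inferInstance : (centralizer (N : Set G)).Normal).conj_mem _ hx.1 _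
      · intro a ha x hx
        exact mem_centralizer_iff.mp hx.1 a ha
    have hNC : N ≤ centralizer (N : Set G) := by
      intro x hx
      rw [mem_centralizer_iff]
      intro y hy
      exact hNcomm y hy x hx
    have hC : centralizer (N : Set G) ≤ N := by
      intro c hc
      have : c ∈ N ⊔ M := by rw [hsup]; exact mem_top _
      rw [sup_comm, mem_sup_of_normal_right] at this
      obtain ⟨m, hm, a, ha, rfl⟩ := this
      have h6 : m ∈ centralizer (N : Set G) ⊓ M := by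
        refine ⟨?_, hm⟩
        have := mul_mem hc (inv_mem (hNC ha))
        rwa [mul_inv_cancel_right] at this
      rw [hCM, mem_bot] at h6
      rw [h6, one_mul]; exact ha
    refine ⟨⊥, N, ⊤, ⊤, inferInstance, hNn, inferInstance, inferInstance, bot_le, le_top, le_rfl, ?_,
      ⟨j, ?_⟩, ?_, ⟨0, ?_⟩, ?_⟩
    · rw [card_bot]; exact hp.out.one_lt.ne' ∘ Nat.dvd_one.mp
    · rw [relIndex_bot_left, hj]
    · rw [relIndex_top_right]
      obtain ⟨P, hP⟩ := hNp.exists_le_sylow
      -- `N` is central in `P`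
      have hcP : Nat.card (N.subgroupOf (P : Subgroup G)) = p := by
        rw [Nat.card_congr (subgroupOfEquivOfLe hP).toEquiv, hcard]
      have hNP : (N.subgroupOf (P : Subgroup G)) ≤ center P := by
        obtain ⟨z, hzN, hzc, hz⟩ := H76.PG.exists_center_of_normal P.isPGroup' (N.subgroupOf (P : Subgroup G)) (by
          rw [← one_lt_card_iff_ne_bot, hcP]; exact hp.out.one_lt)
        have h1 : zpowers z = N.subgroupOf (P : Subgroup G) := by
          apply eq_of_le_of_card_ge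
          · rw [zpowers_le]; exact hzN
          · rw [hcP, Nat.card_zpowers, hz]
        rw [← h1, zpowers_le]
        exact hzc
      have hPN : (P : Subgroup G) ≤ N := by
        refine le_trans ?_ hC
        intro x hx
        rw [mem_centralizer_iff]
        intro y hy
        have := mem_center_iff.mp (hNP (show (⟨y, hP hy⟩ : P) ∈ N.subgroupOf P from hy)) ⟨x, hx⟩
        exact (congrArg Subtype.val this).symm
      have hPN' : (P : Subgroup G) = N := le_antisymm hPN hP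
      rw [← hPN']
      exact P.not_dvd_index
    · rw [relIndex_self, pow_zero]
    · rw [index_top]; exact hp.out.one_lt.ne' ∘ Nat.dvd_one.mp

end H76.PLen2
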