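import Mathlib
import Cfsg.Prelude.Def_Local
import Cfsg.Agent.Lib.H37.PSolv
import Cfsg.Agent.Lib.H38.Basic
import Cfsg.Agent.Lib.H1.Coprime2
import Cfsg.Agent.Lib.H13.Thompson
import Cfsg.Agent.Lib.H14.Repl2

/-! `{p,q}`-subgroups of `p`-solvable groups containing a Sylow `p`-subgroup. -/

set_option autoImplicit false
set_option linter.unusedSectionVars false

namespace H76.PQSub

open Subgroup Cfsg H38.Basic
open scoped commutatorElement

universe u

variable {p q : ℕ} [hp : Fact p.Prime] [hq : Fact q.Prime]

theorem exists_pq (hpq : p ≠ q) :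
    ∀ (n : ℕ) (X : Type u) [Group X] [Finite X], Nat.card X ≤ n → IsPSolvable p X → q ∣ Nat.card X →
    ∀ S : Sylow p X, ∃ L : Subgroup X, (S : Subgroup X) ≤ L ∧ (∃ a b, Nat.card L = p ^ a * q ^ b) ∧
      q ∣ Nat.card L := by
  intro n
  induction n with
  | zero =>
    intro X _ _ hn
    have := Nat.card_pos (α := X)
    omega
  | succ n ih =>
    intro X _ _ hn hX hqX S
    have hcopqp : Nat.Coprime q p := (Nat.coprime_primes hq.out hp.out).2 hpq.symm
    have hnt : Nontrivial X := by
      rw [← Finite.one_lt_card_iff_nontrivial]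
      exact lt_of_lt_of_le hq.out.one_lt (Nat.le_of_dvd Nat.card_pos hqX)
    by_cases hP : pCore p X = ⊥
    · have hY : pPrimeCore p X ≠ ⊥ := (H37.PSolv.core_ne_bot hX).resolve_left (fun h => h hP)
      have hYc := H1.Cores.coprime_card_pPrimeCore (G := X) p
      set Y := pPrimeCore p X with hYdef
      have hYn : Y.Normal := H1.Cores.pPrimeCore_normal p
      obtain ⟨s, hs⟩ := S.2.exists_card_eq
      have hcopSY : (Nat.card (S : Subgroup X)).Coprime (Nat.card Y) := by
        rw [hs]; exact (Nat.Coprime.pow_right s hYc).symm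
      by_cases hqY : q ∣ Nat.card Y
      · have hSY : (S : Subgroup X) ≤ normalizer (Y : Set X) := by
          rw [normalizer_eq_top_iff.2 hYn]; exact le_top
        have hSn : Group.IsNilpotent (S : Subgroup X) := S.2.isNilpotent
        obtain ⟨Q, hQ, hSQ⟩ := H1.Coprime2.exists_invariant_sylow (S : Subgroup X) Y hSY hcopSY
          (Or.inl inferInstance) q
        refine ⟨(S : Subgroup X) ⊔ Q, le_sup_left, ?_, ?_⟩
        · have h1 := H13.Thompson.card_sup_mul_card_inf hSQ
          have h2 : Nat.card ((S : Subgroup X) ⊔ Q : Subgroup X) ∣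
              p ^ s * q ^ (Nat.card Y).factorization q := by
            rw [← hs, ← hQ.2, ← h1]
            exact dvd_mul_right _ _
          obtain ⟨m, n, hm, hn, hmn⟩ := exists_dvd_and_dvd_of_dvd_mul h2
          obtain ⟨a', -, ha'⟩ := (Nat.dvd_prime_pow hp.out).1 hm
          obtain ⟨b', -, hb'⟩ := (Nat.dvd_prime_pow hq.out).1 hn
          exact ⟨a', b', by rw [hmn, ha', hb']⟩
        · refine dvd_trans ?_ (card_dvd_of_le (le_sup_right : Q ≤ (S : Subgroup X) ⊔ Q))
          rw [hQ.2]
          apply dvd_pow_self
          exact (hq.out.factorization_pos_of_dvd Nat.card_pos.ne' hqY).ne'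
      · -- pass to `X / Y`
        have hcopqY : Nat.Coprime q (Nat.card Y) := (Nat.Prime.coprime_iff_not_dvd hq.out).2 hqY
        have hcardmul : Nat.card Y * Nat.card (X ⧸ Y) = Nat.card X := by
          have h1 := Y.card_mul_index
          rwa [index_eq_card] at h1
        have hcard : Nat.card (X ⧸ Y) ≤ n := by
          have h2 : 1 < Nat.card Y := by
            have h3 : Nat.card Y ≠ 1 := fun h => hY (Subgroup.card_eq_one.mp h)
            have h4 := Nat.card_pos (α := Y)
            omega
          have h3 : 0 < Nat.card (X ⧸ Y) := Nat.card_pos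
          nlinarith
        have hqX' : q ∣ Nat.card (X ⧸ Y) := by
          rw [← hcardmul] at hqX
          exact hcopqY.dvd_of_dvd_mul_left hqX
        set π := QuotientGroup.mk' Y with hπ
        have hπs : Function.Surjective π := QuotientGroup.mk'_surjective Y
        have hker : π.ker = Y := QuotientGroup.ker_mk' Y
        obtain ⟨L', hSL', ⟨a, b, hab⟩, hqL'⟩ := ih (X ⧸ Y) hcard (H37.PSolv.quotient hX Y) hqX' (S.mapSurjective hπs)
        set L1 := L'.comap π with hL1
        have hYL1 : Y ≤ L1 := by rw [← hker]; exact ker_le_comap π L'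
        have hSL1 : (S : Subgroup X) ≤ L1 := by
          intro x hx
          exact hSL' ⟨x, hx, rfl⟩
        have hcL1 : Nat.card L1 = Nat.card Y * Nat.card L' := H1.Cores.card_comap_mk' Y L'
        have hYrel : Y.relIndex L1 = Nat.card L' := by
          have h2 : Nat.card Y * Y.relIndex L1 = Nat.card L1 := H14.Repl2.card_mul_relIndex hYL1
          rw [hcL1] at h2
          exact Nat.eq_of_mul_eq_mul_left Nat.card_pos h2
        have hcopYL' : Nat.Coprime (Nat.card Y) (Nat.card L') := by
          rw [hab]
          exact Nat.Coprime.mul_right (Nat.Coprime.pow_right a hYc) (Nat.Coprime.pow_right b hcopqY.symm)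
        have hYL1n : (Y.subgroupOf L1).Normal := inferInstance
        obtain ⟨K, hK⟩ := exists_right_complement'_of_coprime (N := Y.subgroupOf L1) (by
          have h1 : Nat.card (Y.subgroupOf L1) = Nat.card Y := Nat.card_congr (subgroupOfEquivOfLe hYL1).toEquiv
          have h2 : (Y.subgroupOf L1).index = Nat.card L' := hYrel
          rw [h1, h2]; exact hcopYL')
        set L2 := K.map L1.subtype with hL2
        have hL2L1 : L2 ≤ L1 := map_subtype_le K
        have hKc : Nat.card K = Nat.card L' := by
          rw [← hK.symm.index_eq_card]; exact hYrel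
        have hL2c : Nat.card L2 = Nat.card L' := by
          rw [hL2, card_map_of_injective L1.subtype_injective]; exact hKc
        obtain ⟨P2, hP2⟩ := exists_isSyl (p := p) L2
        have hP2L1 : IsSyl p P2 L1 := by
          refine ⟨hP2.1.trans hL2L1, hP2.2.1, ?_⟩
          rw [← relIndex_mul_relIndex P2 L2 L1 hP2.1 hL2L1]
          intro h
          rcases (Nat.Prime.dvd_mul hp.out).1 h with h | h
          · exact hP2.2.2 h
          · have h1 : Nat.card L2 * L2.relIndex L1 = Nat.card L1 := H14.Repl2.card_mul_relIndex hL2L1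
            rw [hcL1, hL2c, mul_comm (Nat.card Y)] at h1
            have h2 : L2.relIndex L1 = Nat.card Y := Nat.eq_of_mul_eq_mul_left Nat.card_pos h1
            rw [h2] at h
            exact (Nat.Prime.coprime_iff_not_dvd hp.out).1 hYc.symm h
        have hSL : IsSyl p (S : Subgroup X) L1 := (isSyl_sylow S).of_le hSL1 le_top
        obtain ⟨g, hg, hgS⟩ := hP2L1.exists_conj_eq hSL
        refine ⟨L2.map (MulAut.conj g).toMonoidHom, ?_, ?_, ?_⟩
        · rw [← hgS]; exact map_mono hP2.1
        · refine ⟨a, b, ?_⟩
          rw [card_map_of_injective (MulAut.conj g).injective, hL2c, hab]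
        · rw [card_map_of_injective (MulAut.conj g).injective, hL2c]
          exact hqL'
    · -- pass to `X / O_p(X)`
      set Y := pCore p X with hYdef
      have hYn : Y.Normal := H1.Cores.pCore_normal p
      have hYp : IsPGroup p Y := H1.Cores.isPGroup_pCore p
      obtain ⟨s, hs⟩ := hYp.exists_card_eq
      have hcopqY : Nat.Coprime q (Nat.card Y) := by
        rw [hs]; exact Nat.Coprime.pow_right s hcopqp
      have hcardmul : Nat.card Y * Nat.card (X ⧸ Y) = Nat.card X := by
        have h1 := Y.card_mul_index
        rwa [index_eq_card] at h1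
      have hcard : Nat.card (X ⧸ Y) ≤ n := by
        have h2 : 1 < Nat.card Y := by
          have h3 : Nat.card Y ≠ 1 := fun h => hP (Subgroup.card_eq_one.mp h)
          have h4 := Nat.card_pos (α := Y)
          omega
        have h3 : 0 < Nat.card (X ⧸ Y) := Nat.card_pos
        nlinarith
      have hqX' : q ∣ Nat.card (X ⧸ Y) := by
        rw [← hcardmul] at hqX
        exact hcopqY.dvd_of_dvd_mul_left hqX
      set π := QuotientGroup.mk' Y with hπ
      have hπs : Function.Surjective π := QuotientGroup.mk'_surjective Y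
      obtain ⟨L', hSL', ⟨a, b, hab⟩, hqL'⟩ := ih (X ⧸ Y) hcard (H37.PSolv.quotient hX Y) hqX' (S.mapSurjective hπs)
      have hcL1 : Nat.card (L'.comap π) = Nat.card Y * Nat.card L' := H1.Cores.card_comap_mk' Y L'
      refine ⟨L'.comap π, fun x hx => hSL' ⟨x, hx, rfl⟩, ⟨s + a, b, ?_⟩, ?_⟩
      · rw [hcL1, hs, hab, pow_add, mul_assoc]
      · rw [hcL1]; exact dvd_mul_of_dvd_right hqL' _

end H76.PQSub
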