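import Mathlib
import Cfsg.Agent.Lib.H62.ConjRep
import Cfsg.Agent.Lib.H98.Dickson

/-!
Two-dimensional conjugation representations over `F_p` and `p'`-subgroups of `PGL₂(p)`.
-/

set_option autoImplicit false

open Subgroup Matrix

namespace H76.RV1

/-- coordinates of a conjugation representation on an elementary abelian group of order `p²` -/
theorem exists_gl2 {Γ : Type*} [Group Γ] (A : Subgroup Γ) [A.Normal] [Finite A] {p : ℕ} [hp : Fact p.Prime]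
    (hA : ∀ a ∈ A, ∀ b ∈ A, a * b = b * a) (hexp : ∀ a ∈ A, a ^ p = 1) (hcard : Nat.card A = p ^ 2)
    (x y : Γ) (hx : x ∈ A) (hy : y ∈ A)
    (hind : ∀ i j : ℕ, i < p → j < p → x ^ i * y ^ j = 1 → i = 0 ∧ j = 0) :
    ∃ τ : Γ →* GL (Fin 2) (ZMod p), ∀ g : Γ,
      g * x * g⁻¹ = x ^ ((τ g : Matrix (Fin 2) (Fin 2) (ZMod p)) 0 0).val *
        y ^ ((τ g : Matrix (Fin 2) (Fin 2) (ZMod p)) 1 0).val ∧
      g * y * g⁻¹ = x ^ ((τ g : Matrix (Fin 2) (Fin 2) (ZMod p)) 0 1).val *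
        y ^ ((τ g : Matrix (Fin 2) (Fin 2) (ZMod p)) 1 1).val := by
  obtain ⟨V, _, _, _, e, ρ, he, hρ⟩ := H62.ConjRep.exists_rep A p hA hexp
  have he0 : e 0 = 1 := by
    have h1 := he 0 0
    rw [add_zero] at h1
    exact Subtype.ext (mul_eq_left.mp h1.symm)
  have hen : ∀ (n : ℕ) (v : V), ((e (n • v) : A) : Γ) = (e v : Γ) ^ n := by
    intro n v
    induction n with
    | zero => rw [zero_smul, he0, pow_zero]; rfl
    | succ n ih => rw [succ_nsmul, he, ih, pow_succ]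
  have hes : ∀ (c : ZMod p) (v : V), ((e (c • v) : A) : Γ) = (e v : Γ) ^ c.val := by
    intro c v
    have h1 : ((c.val : ZMod p)) • v = c.val • v := Nat.cast_smul_eq_nsmul _ _ _
    rw [ZMod.natCast_zmod_val] at h1
    rw [h1, hen]
  set v0 : V := e.symm ⟨x, hx⟩ with hv0
  set v1 : V := e.symm ⟨y, hy⟩ with hv1
  have hev0 : ((e v0 : A) : Γ) = x := by rw [hv0, Equiv.apply_symm_apply]
  have hev1 : ((e v1 : A) : Γ) = y := by rw [hv1, Equiv.apply_symm_apply]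
  have hli : LinearIndependent (ZMod p) ![v0, v1] := by
    rw [LinearIndependent.pair_iff]
    intro s t hst
    have h1 : x ^ s.val * y ^ t.val = 1 := by
      have h2 := he (s • v0) (t • v1)
      rw [hst, he0, hes, hes, hev0, hev1] at h2
      exact h2.symm
    obtain ⟨h2, h3⟩ := hind _ _ (ZMod.val_lt s) (ZMod.val_lt t) h1
    exact ⟨(ZMod.val_eq_zero s).mp h2, (ZMod.val_eq_zero t).mp h3⟩
  have hfr : Module.finrank (ZMod p) V = 2 := by
    have h1 : Nat.card V = p ^ 2 := by rw [← hcard]; exact Nat.card_congr e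
    have h2 := Module.natCard_eq_pow_finrank (K := ZMod p) (V := V)
    rw [Nat.card_zmod, h1] at h2
    exact (Nat.pow_right_injective hp.out.two_le h2).symm
  let b : Module.Basis (Fin 2) (ZMod p) V := basisOfLinearIndependentOfCardEqFinrank hli (by simp [hfr])
  have hb : ⇑b = ![v0, v1] := coe_basisOfLinearIndependentOfCardEqFinrank hli _
  have hb0 : b 0 = v0 := by rw [hb]; rfl
  have hb1 : b 1 = v1 := by rw [hb]; rfl
  let τ0 : Γ →* Matrix (Fin 2) (Fin 2) (ZMod p) :=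
    ((LinearMap.toMatrixAlgEquiv b : (V →ₗ[ZMod p] V) ≃ₐ[ZMod p] Matrix (Fin 2) (Fin 2) (ZMod p)) :
      (V →ₗ[ZMod p] V) →* Matrix (Fin 2) (Fin 2) (ZMod p)).comp ρ
  refine ⟨τ0.toHomUnits, fun g => ?_⟩
  have hM : ∀ i j, (((τ0.toHomUnits g : GL (Fin 2) (ZMod p)) : Matrix (Fin 2) (Fin 2) (ZMod p)) i j) =
      b.repr (ρ g (b j)) i := by
    intro i j
    show LinearMap.toMatrixAlgEquiv b (ρ g) i j = _
    rw [LinearMap.toMatrixAlgEquiv_apply]
  have hcol : ∀ j, ρ g (b j) = (b.repr (ρ g (b j)) 0) • v0 + (b.repr (ρ g (b j)) 1) • v1 := by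
    intro j
    conv_lhs => rw [← b.sum_repr (ρ g (b j))]
    rw [Fin.sum_univ_two, hb0, hb1]
  constructor
  · rw [hM, hM]
    have h1 := hρ g v0
    rw [hev0] at h1
    rw [← h1]
    have h2 := hcol 0
    rw [hb0] at h2
    rw [hb0]
    conv_lhs => rw [h2]
    rw [he, hes, hes, hev0, hev1]
  · rw [hM, hM]
    have h1 := hρ g v1
    rw [hev1] at h1
    rw [← h1]
    have h2 := hcol 1
    rw [hb1] at h2
    rw [hb1]
    conv_lhs => rw [h2]
    rw [he, hes, hes, hev0, hev1]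

theorem dih_comm {n : ℕ} (a b : DihedralGroup n) (ha : 3 ≤ orderOf a) (hb : 3 ≤ orderOf b) : a * b = b * a := by
  cases a with
  | sr i => rw [DihedralGroup.orderOf_sr] at ha; omega
  | r i =>
    cases b with
    | sr j => rw [DihedralGroup.orderOf_sr] at hb; omega
    | r j => rw [DihedralGroup.r_mul_r, DihedralGroup.r_mul_r, add_comm]

/-- `p'`-subgroups of `PGL₂(p)` -/
theorem dickson_cases {p : ℕ} [hp : Fact p.Prime] (R : Subgroup (ProjGenLinGroup (Fin 2) (ZMod p)))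
    (hR : ¬ p ∣ Nat.card R) :
    (∀ a b : R, 3 ≤ orderOf a → 3 ≤ orderOf b → a * b = b * a) ∨ Nonempty (R ≃* alternatingGroup (Fin 4)) ∨
      Nonempty (R ≃* Equiv.Perm (Fin 4)) ∨ Nonempty (R ≃* alternatingGroup (Fin 5)) := by
  classical
  have : Finite (ProjGenLinGroup (Fin 2) (ZMod p)) := inferInstanceAs (Finite (_ ⧸ _))
  rcases H98.Dickson.dickson_pgl (G := R) p R.subtype R.subtype_injective with
    ⟨-, hc⟩ | ⟨c, -, -, -, ⟨e⟩⟩ | ⟨h, -⟩ | ⟨-, -, h⟩ | ⟨-, -, h⟩ | ⟨-, -, h⟩ | ⟨P, K, h, hK, -⟩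
  · left
    intro a b _ _
    have := hc.isMulCommutative
    exact mul_comm' a b
  · left
    intro a b ha hb
    apply e.injective
    rw [map_mul, map_mul]
    apply dih_comm
    · rwa [MulEquiv.orderOf_eq]
    · rwa [MulEquiv.orderOf_eq]
  · exact absurd h hR
  · exact Or.inr (Or.inl h)
  · exact Or.inr (Or.inr (Or.inl h))
  · exact Or.inr (Or.inr (Or.inr h))
  · exfalso
    have h1 : Nat.card (P : Subgroup R) = 1 := by
      rw [P.card_eq_multiplicity, Nat.factorization_eq_zero_of_not_dvd hR, pow_zero]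
    rw [h1] at hK
    have h2 : Nontrivial K := inferInstance
    have h3 : 1 < Nat.card K := Finite.one_lt_card
    omega

/-- no element acts with three distinct fixed lines unless trivial: consequence for commuting elements -/
theorem no_three {Γ Q Ω : Type*} [Group Γ] [Group Q] [MulAction Γ Ω] (σ : Γ →* Q) (Ls : Set Ω)
    (hinv : ∀ g : Γ, ∀ L ∈ Ls, g • L ∈ Ls)
    (S1 : ∀ g : Γ, σ g = 1 → ∀ L ∈ Ls, g • L = L)
    (S2 : ∀ g : Γ, ∀ L₁ ∈ Ls, ∀ L₂ ∈ Ls, ∀ L₃ ∈ Ls, L₁ ≠ L₂ → L₁ ≠ L₃ → L₂ ≠ L₃ → g • L₁ = L₁ → g • L₂ = L₂ →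
      g • L₃ = L₃ → σ g = 1)
    (g₁ g₂ g₃ : Γ) (L₁ L₂ L₃ : Ω) (h1 : L₁ ∈ Ls) (h2 : L₂ ∈ Ls) (h3 : L₃ ∈ Ls) (h12 : L₁ ≠ L₂) (h13 : L₁ ≠ L₃)
    (h23 : L₂ ≠ L₃) (hg1 : g₁ • L₁ = L₁) (hg2 : g₂ • L₂ = L₂) (hg3 : g₃ • L₃ = L₃)
    (ho : 3 ≤ orderOf (σ g₂)) (ho1 : σ g₁ ≠ 1) (ho3 : σ g₃ ≠ 1) (hc1 : σ g₁ * σ g₂ = σ g₂ * σ g₁)
    (hc3 : σ g₃ * σ g₂ = σ g₂ * σ g₃) : False := by
  have key : ∀ (g : Γ) (L : Ω), L ∈ Ls → g • L = L → σ g ≠ 1 → σ g * σ g₂ = σ g₂ * σ g → (g₂ ^ 2) • L = L := by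
    intro g L hL hgL hg hc
    -- `g` fixes `g₂ L` and `g₂² L`
    have hstep : ∀ M ∈ Ls, g • M = M → g • (g₂ • M) = g₂ • M := by
      intro M hM hgM
      have h4 : σ (g₂⁻¹ * g * g₂ * g⁻¹) = 1 := by
        rw [map_mul, map_mul, map_mul, map_inv, map_inv, mul_assoc (σ g₂)⁻¹, hc]; group
      have h5 := S1 _ h4 M hM
      have h6 : g⁻¹ • M = M := by rw [inv_smul_eq_iff]; exact hgM.symm
      have h7 : (g₂⁻¹ * g * g₂) • M = M := by
        have : g₂⁻¹ * g * g₂ = (g₂⁻¹ * g * g₂ * g⁻¹) * g := by group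
        rw [this, mul_smul, hgM, h5]
      rw [mul_assoc, mul_smul, mul_smul, inv_smul_eq_iff] at h7
      exact h7
    have h4 := hstep L hL hgL
    have h5 := hstep _ (hinv g₂ L hL) h4
    by_contra hne
    apply hg
    have hsq : (g₂ ^ 2) • L = g₂ • (g₂ • L) := by rw [pow_two, mul_smul]
    rw [hsq] at hne
    by_cases h6 : L = g₂ • L
    · exact absurd (by rw [← h6, ← h6]) hne
    · refine S2 g L hL (g₂ • L) (hinv _ _ hL) (g₂ • g₂ • L) (hinv _ _ (hinv _ _ hL)) h6 (fun h => hne h.symm) ?_ hgL h4 h5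
      intro h
      exact h6 (MulAction.injective g₂ h)
  have e1 := key g₁ L₁ h1 hg1 ho1 hc1
  have e3 := key g₃ L₃ h3 hg3 ho3 hc3
  have e2 : (g₂ ^ 2) • L₂ = L₂ := by rw [pow_two, mul_smul, hg2, hg2]
  have h4 := S2 _ L₁ h1 L₂ h2 L₃ h3 h12 h13 h23 e1 e2 e3
  rw [map_pow] at h4
  have h5 := orderOf_le_of_pow_eq_one (by norm_num) h4
  omega

end H76.RV1
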