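import Mathlib
import Cfsg.Agent.Lib.H76.RV1

/-!
Groups acting on the lines of an elementary abelian group of order `p²`.
-/

set_option autoImplicit false

open Subgroup
open Matrix (ProjGenLinGroup)
open scoped Pointwise

namespace H76.RV2

open H76.RV1

section basics

variable {Γ : Type*} [Group Γ] {p : ℕ} [hp : Fact p.Prime]

theorem indep {x y : Γ} (hxp : x ^ p = 1) (hyp : y ^ p = 1) (hx : x ≠ 1) (hy : y ∉ zpowers x) {i j : ℤ}
    (h : x ^ i * y ^ j = 1) : (p : ℤ) ∣ i ∧ (p : ℤ) ∣ j := by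
  have hox : orderOf x = p := orderOf_eq_prime hxp hx
  have hj : (p : ℤ) ∣ j := by
    by_contra hj
    apply hy
    have hc : IsCoprime (p : ℤ) j :=
      (Int.isCoprime_iff_gcd_eq_one.mpr ((Nat.Prime.coprime_iff_not_dvd hp.out).mpr
        (fun h => hj (Int.natCast_dvd.mpr h))))
    obtain ⟨a, b, hab⟩ := hc
    have h1 : y = (y ^ j) ^ b := by
      conv_lhs => rw [← zpow_one y, ← hab]
      rw [zpow_add, mul_comm a, zpow_mul, zpow_natCast, hyp, one_zpow, one_mul, mul_comm b, zpow_mul]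
    have h2 : y ^ j = x ^ (-i) := by rw [zpow_neg]; exact eq_inv_of_mul_eq_one_right h
    rw [h1, h2, ← zpow_mul]
    exact ⟨_, rfl⟩
  refine ⟨?_, hj⟩
  obtain ⟨k, rfl⟩ := hj
  rw [zpow_mul, zpow_natCast, hyp, one_zpow, mul_one] at h
  rw [← hox]
  exact orderOf_dvd_iff_zpow_eq_one.mpr h

omit hp in
theorem pow_eq_of_dvd {x : Γ} (hxp : x ^ p = 1) {i j : ℕ} (h : (p : ℤ) ∣ (i : ℤ) - j) : x ^ i = x ^ j := by
  rw [pow_eq_pow_iff_modEq]
  have h1 : (j : ℤ) ≡ i [ZMOD p] := (Int.modEq_iff_dvd.mpr h)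
  have h2 : j ≡ i [MOD p] := (Int.natCast_modEq_iff).mp h1
  exact (h2.symm).of_dvd (orderOf_dvd_of_pow_eq_one hxp)

variable {A : Subgroup Γ} (hA : ∀ a ∈ A, ∀ b ∈ A, a * b = b * a) (hexp : ∀ a ∈ A, a ^ p = 1)

theorem zpowers_of_card {L : Subgroup Γ} (hL : Nat.card L = p) {x : Γ} (hx : x ∈ L) (hx1 : x ≠ 1) :
    L = zpowers x := by
  have hf : Finite L := Nat.finite_of_card_ne_zero (by rw [hL]; exact hp.out.ne_zero)
  symm
  apply Subgroup.eq_of_le_of_card_ge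
  · rwa [zpowers_le]
  · rw [hL, Nat.card_zpowers]
    have h1 : orderOf x ∣ p := by
      rw [← hL]
      have := orderOf_dvd_natCard (⟨x, hx⟩ : L)
      rwa [Subgroup.orderOf_mk] at this
    rcases (Nat.dvd_prime hp.out).mp h1 with h | h
    · exact absurd (orderOf_eq_one_iff.mp h) hx1
    · exact h.ge

theorem exists_ne_of_card {L : Subgroup Γ} (hL : Nat.card L = p) : ∃ x ∈ L, x ≠ 1 := by
  by_contra hcon
  push Not at hcon
  have h1 : L = ⊥ := by rw [eq_bot_iff]; exact fun x hx => mem_bot.mpr (hcon x hx)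
  rw [h1, card_bot] at hL
  exact hp.out.one_lt.ne hL

include hA hexp in
theorem gen (hcard : Nat.card A = p ^ 2) {x y : Γ} (hxA : x ∈ A) (hyA : y ∈ A) (hx : x ≠ 1) (hy : y ∉ zpowers x) :
    ∀ a ∈ A, ∃ i j : ℕ, a = x ^ i * y ^ j := by
  have hf : Finite A := Nat.finite_of_card_ne_zero (by rw [hcard]; exact pow_ne_zero _ hp.out.ne_zero)
  let f : Fin p × Fin p → A := fun ij => ⟨x ^ (ij.1 : ℕ) * y ^ (ij.2 : ℕ), mul_mem (pow_mem hxA _) (pow_mem hyA _)⟩
  have hinj : Function.Injective f := by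
    rintro ⟨i, j⟩ ⟨i', j'⟩ h
    have h1 : x ^ (i : ℕ) * y ^ (j : ℕ) = x ^ (i' : ℕ) * y ^ (j' : ℕ) := congrArg Subtype.val h
    have hc : ∀ (m n : ℤ), y ^ m * x ^ n = x ^ n * y ^ m := fun m n =>
      (hA _ (zpow_mem hyA m) _ (zpow_mem hxA n))
    have h2 : x ^ ((i : ℤ) - i') * y ^ ((j : ℤ) - j') = 1 := by
      rw [zpow_sub, zpow_sub]
      simp only [zpow_natCast]
      have h3 := hA _ (pow_mem hxA (i' : ℕ)) _ (pow_mem hyA (j : ℕ))
      calc x ^ (i : ℕ) * (x ^ (i' : ℕ))⁻¹ * (y ^ (j : ℕ) * (y ^ (j' : ℕ))⁻¹)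
          = (x ^ (i : ℕ) * (x ^ (i' : ℕ))⁻¹ * y ^ (j : ℕ)) * (y ^ (j' : ℕ))⁻¹ := by group
        _ = ((x ^ (i' : ℕ))⁻¹ * (x ^ (i : ℕ) * y ^ (j : ℕ))) * (y ^ (j' : ℕ))⁻¹ := by
            rw [hA _ (pow_mem hxA (i : ℕ)) _ (inv_mem (pow_mem hxA (i' : ℕ)))]; group
        _ = 1 := by rw [h1]; group
    obtain ⟨h4, h5⟩ := indep (hexp x hxA) (hexp y hyA) hx hy h2
    have hi : (i : ℤ) = i' := by
      have := Int.emod_emod_of_dvd
      obtain ⟨k, hk⟩ := h4
      have h6 : (i : ℤ) < p := by exact_mod_cast i.2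
      have h7 : (i' : ℤ) < p := by exact_mod_cast i'.2
      have h8 : (0 : ℤ) ≤ i := by positivity
      have h9 : (0 : ℤ) ≤ i' := by positivity
      have h10 : (0 : ℤ) < p := by exact_mod_cast hp.out.pos
      have : k = 0 := by nlinarith
      rw [this] at hk; linarith
    have hj : (j : ℤ) = j' := by
      obtain ⟨k, hk⟩ := h5
      have h6 : (j : ℤ) < p := by exact_mod_cast j.2
      have h7 : (j' : ℤ) < p := by exact_mod_cast j'.2
      have h8 : (0 : ℤ) ≤ j := by positivity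
      have h9 : (0 : ℤ) ≤ j' := by positivity
      have h10 : (0 : ℤ) < p := by exact_mod_cast hp.out.pos
      have : k = 0 := by nlinarith
      rw [this] at hk; linarith
    ext
    · exact_mod_cast hi
    · exact_mod_cast hj
  have hb := hinj.bijective_of_nat_card_le (by rw [Nat.card_prod, Nat.card_fin, hcard, pow_two])
  intro a ha
  obtain ⟨⟨i, j⟩, hij⟩ := hb.2 ⟨a, ha⟩
  exact ⟨i, j, (congrArg Subtype.val hij).symm⟩

end basics

/-- acting on `A` by a power map -/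
def PM {Γ : Type*} [Group Γ] (A : Subgroup Γ) (g : Γ) : Prop := ∃ k : ℕ, ∀ a ∈ A, g * a * g⁻¹ = a ^ k

variable {Γ : Type*} [Group Γ] {p : ℕ} [hp : Fact p.Prime] {A : Subgroup Γ}

theorem PM.fix [Finite Γ] {g : Γ} (h : PM A g) {L : Subgroup Γ} (hL : L ≤ A) : MulAut.conj g • L = L := by
  obtain ⟨k, hk⟩ := h
  have h1 : MulAut.conj g • L ≤ L := by
    rintro _ ⟨x, hx, rfl⟩
    show g * x * g⁻¹ ∈ L
    rw [hk x (hL hx)]; exact pow_mem hx k
  apply Subgroup.eq_of_le_of_card_ge h1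
  have h2 : Nat.card (MulAut.conj g • L : Subgroup Γ) = Nat.card L :=
    Nat.card_congr (Subgroup.equivSMul (MulAut.conj g) L).toEquiv.symm
  exact h2.ge

theorem pm_of_three (hA : ∀ a ∈ A, ∀ b ∈ A, a * b = b * a) (hexp : ∀ a ∈ A, a ^ p = 1)
    (hcard : Nat.card A = p ^ 2) {g : Γ} {L₁ L₂ L₃ : Subgroup Γ} (h1 : L₁ ≤ A) (h2 : L₂ ≤ A) (h3 : L₃ ≤ A)
    (c1 : Nat.card L₁ = p) (c2 : Nat.card L₂ = p) (c3 : Nat.card L₃ = p)
    (h12 : L₁ ≠ L₂) (h13 : L₁ ≠ L₃) (h23 : L₂ ≠ L₃) (g1 : MulAut.conj g • L₁ = L₁) (g2 : MulAut.conj g • L₂ = L₂)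
    (g3 : MulAut.conj g • L₃ = L₃) : PM A g := by
  obtain ⟨x, hx, hx1⟩ := exists_ne_of_card c1
  obtain ⟨y, hy, hy1⟩ := exists_ne_of_card c2
  obtain ⟨w, hw, hw1⟩ := exists_ne_of_card c3
  have e1 := zpowers_of_card c1 hx hx1
  have e2 := zpowers_of_card c2 hy hy1
  have e3 := zpowers_of_card c3 hw hw1
  have hyx : y ∉ zpowers x := by
    intro h
    rw [← e1] at h
    exact h12 ((zpowers_of_card c1 h hy1).trans e2.symm)
  have hmem : ∀ (L : Subgroup Γ) (z : Γ), MulAut.conj g • L = L → z ∈ L → g * z * g⁻¹ ∈ L := by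
    intro L z hL hz
    rw [← hL]
    exact ⟨z, hz, rfl⟩
  have hpw : ∀ (z : Γ), z ^ p = 1 → ∀ u ∈ zpowers z, ∃ m : ℕ, u = z ^ m := by
    intro z hz u hu
    have hfo : IsOfFinOrder z := isOfFinOrder_iff_pow_eq_one.mpr ⟨p, hp.out.pos, hz⟩
    obtain ⟨m, hm⟩ := (hfo.mem_powers_iff_mem_zpowers.mpr hu : u ∈ Submonoid.powers z)
    exact ⟨m, hm.symm⟩
  obtain ⟨m, hm⟩ := hpw x (hexp x (h1 hx)) _ (e1 ▸ hmem L₁ x g1 hx)
  obtain ⟨n, hn⟩ := hpw y (hexp y (h2 hy)) _ (e2 ▸ hmem L₂ y g2 hy)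
  obtain ⟨k, hk⟩ := hpw w (hexp w (h3 hw)) _ (e3 ▸ hmem L₃ w g3 hw)
  obtain ⟨i, j, hij⟩ := gen hA hexp hcard (h1 hx) (h2 hy) hx1 hyx w (h3 hw)
  have hxA := h1 hx
  have hyA := h2 hy
  have hxp := hexp x hxA
  have hyp := hexp y hyA
  have hpi : ¬ (p : ℤ) ∣ i := by
    intro h
    apply h23
    have h4 : w = y ^ j := by
      have : x ^ i = 1 := by
        have h5 := pow_eq_of_dvd (p := p) hxp (i := i) (j := 0) (by simpa using h)
        simpa using h5
      rw [hij, this, one_mul]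
    have h5 : w ∈ L₂ := by rw [h4]; exact pow_mem hy j
    exact (zpowers_of_card c2 h5 hw1).trans e3.symm
  have hpj : ¬ (p : ℤ) ∣ j := by
    intro h
    apply h13
    have h4 : w = x ^ i := by
      have : y ^ j = 1 := by
        have h5 := pow_eq_of_dvd (p := p) hyp (i := j) (j := 0) (by simpa using h)
        simpa using h5
      rw [hij, this, mul_one]
    have h5 : w ∈ L₁ := by rw [h4]; exact pow_mem hx i
    exact (zpowers_of_card c1 h5 hw1).trans e3.symm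
  have hcxy : Commute x y := hA x hxA y hyA
  have h4 : x ^ (m * i) * y ^ (n * j) = x ^ (k * i) * y ^ (k * j) := by
    have h5 : g * w * g⁻¹ = (g * x * g⁻¹) ^ i * (g * y * g⁻¹) ^ j := by
      rw [hij, conj_pow, conj_pow]; group
    rw [hm, hn, hk, ← pow_mul, ← pow_mul, hij, ((hcxy.pow_pow i j)).mul_pow, ← pow_mul, ← pow_mul,
      mul_comm i k, mul_comm j k] at h5
    exact h5.symm
  have h5 : x ^ (((m : ℤ) - k) * i) * y ^ (((n : ℤ) - k) * j) = 1 := by
    have e4 : x ^ (((m : ℤ) - k) * i) = x ^ (m * i) * (x ^ (k * i))⁻¹ := by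
      rw [sub_mul, zpow_sub]
      congr 1
      · rw [← Nat.cast_mul, zpow_natCast]
      · rw [← Nat.cast_mul, zpow_natCast]
    have e5 : y ^ (((n : ℤ) - k) * j) = y ^ (n * j) * (y ^ (k * j))⁻¹ := by
      rw [sub_mul, zpow_sub]
      congr 1
      · rw [← Nat.cast_mul, zpow_natCast]
      · rw [← Nat.cast_mul, zpow_natCast]
    rw [e4, e5]
    have h6 := hA _ (pow_mem hxA (m * i)) _ (inv_mem (pow_mem hxA (k * i)))
    calc x ^ (m * i) * (x ^ (k * i))⁻¹ * (y ^ (n * j) * (y ^ (k * j))⁻¹)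
        = (x ^ (m * i) * (x ^ (k * i))⁻¹) * y ^ (n * j) * (y ^ (k * j))⁻¹ := by group
      _ = (x ^ (k * i))⁻¹ * (x ^ (m * i) * y ^ (n * j)) * (y ^ (k * j))⁻¹ := by rw [h6]; group
      _ = 1 := by rw [h4]; group
  obtain ⟨h6, h7⟩ := indep hxp hyp hx1 hyx h5
  have hpZ : Prime (p : ℤ) := Nat.prime_iff_prime_int.mp hp.out
  have h8 : (p : ℤ) ∣ (m : ℤ) - k := (hpZ.dvd_or_dvd h6).resolve_right hpi
  have h9 : (p : ℤ) ∣ (n : ℤ) - k := (hpZ.dvd_or_dvd h7).resolve_right hpj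
  refine ⟨k, fun a ha => ?_⟩
  obtain ⟨s, t, rfl⟩ := gen hA hexp hcard hxA hyA hx1 hyx a ha
  have h10 : g * (x ^ s * y ^ t) * g⁻¹ = (g * x * g⁻¹) ^ s * (g * y * g⁻¹) ^ t := by
    rw [conj_pow, conj_pow]; group
  rw [h10, hm, hn, pow_eq_of_dvd (p := p) hxp h8, pow_eq_of_dvd (p := p) hyp h9, (hcxy.pow_pow s t).mul_pow,
    ← pow_mul, ← pow_mul, ← pow_mul, ← pow_mul, mul_comm k s, mul_comm k t]

/-- the projective representation -/
theorem exists_sigma [A.Normal] [Finite A] (hA : ∀ a ∈ A, ∀ b ∈ A, a * b = b * a) (hexp : ∀ a ∈ A, a ^ p = 1)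
    (hcard : Nat.card A = p ^ 2) : ∃ σ : Γ →* ProjGenLinGroup (Fin 2) (ZMod p), ∀ g, σ g = 1 ↔ PM A g := by
  obtain ⟨x, hx, hx1⟩ : ∃ x ∈ A, x ≠ 1 := by
    by_contra hcon
    push Not at hcon
    have h1 : A = ⊥ := by rw [eq_bot_iff]; exact fun x hx => mem_bot.mpr (hcon x hx)
    rw [h1, card_bot] at hcard
    have := hp.out.one_lt
    nlinarith
  have hxp := hexp x hx
  obtain ⟨y, hy, hyx⟩ : ∃ y ∈ A, y ∉ zpowers x := by
    by_contra hcon
    push Not at hcon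
    have h1 : Nat.card A ≤ Nat.card (zpowers x) := by
      have hf : Finite (zpowers x) :=
        (finite_zpowers.mpr (isOfFinOrder_iff_pow_eq_one.mpr ⟨p, hp.out.pos, hxp⟩)).to_subtype
      exact card_le_of_le hcon
    rw [hcard, Nat.card_zpowers] at h1
    have h2 := orderOf_le_of_pow_eq_one hp.out.pos hxp
    have := hp.out.one_lt
    nlinarith
  have hyp := hexp y hy
  have hcxy : Commute x y := hA x hx y hy
  obtain ⟨τ, hτ⟩ := exists_gl2 A hA hexp hcard x y hx hy (by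
    intro i j hi hj h
    have h1 := indep (p := p) hxp hyp hx1 hyx (i := i) (j := j) (by simpa using h)
    exact ⟨Nat.eq_zero_of_dvd_of_lt (Int.natCast_dvd_natCast.mp h1.1) hi,
      Nat.eq_zero_of_dvd_of_lt (Int.natCast_dvd_natCast.mp h1.2) hj⟩)
  refine ⟨ProjGenLinGroup.mk.comp τ, fun g => ?_⟩
  rw [MonoidHom.comp_apply, ProjGenLinGroup.mk_eq_one, Matrix.GeneralLinearGroup.mem_center_iff_val_mem_range_scalar]
  obtain ⟨hgx, hgy⟩ := hτ g
  set M : Matrix (Fin 2) (Fin 2) (ZMod p) := (τ g : Matrix (Fin 2) (Fin 2) (ZMod p)) with hM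
  constructor
  · rintro ⟨c, hc⟩
    have h00 : M 0 0 = c := by rw [← hc]; simp
    have h10 : M 1 0 = 0 := by rw [← hc]; simp
    have h01 : M 0 1 = 0 := by rw [← hc]; simp
    have h11 : M 1 1 = c := by rw [← hc]; simp
    rw [h00, h10, ZMod.val_zero, pow_zero, mul_one] at hgx
    rw [h01, h11, ZMod.val_zero, pow_zero, one_mul] at hgy
    refine ⟨c.val, fun a ha => ?_⟩
    obtain ⟨s, t, rfl⟩ := gen hA hexp hcard hx hy hx1 hyx a ha
    have h10 : g * (x ^ s * y ^ t) * g⁻¹ = (g * x * g⁻¹) ^ s * (g * y * g⁻¹) ^ t := by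
      rw [conj_pow, conj_pow]; group
    rw [h10, hgx, hgy, (hcxy.pow_pow s t).mul_pow, ← pow_mul, ← pow_mul, ← pow_mul, ← pow_mul, mul_comm s, mul_comm t]
  · rintro ⟨k, hk⟩
    have e1 : M 0 0 = k ∧ M 1 0 = 0 := by
      have h1 := hk x hx
      rw [hgx] at h1
      have h2 : x ^ (((M 0 0).val : ℤ) - k) * y ^ ((M 1 0).val : ℤ) = 1 := by
        rw [zpow_sub]
        simp only [zpow_natCast]
        have h3 := hA _ (pow_mem hx (M 0 0).val) _ (inv_mem (pow_mem hx k))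
        rw [h3, mul_assoc, h1]; group
      obtain ⟨h3, h4⟩ := indep hxp hyp hx1 hyx h2
      constructor
      · have h5 : (((M 0 0).val : ℤ) - k : ℤ) = (((M 0 0).val : ℤ) - (k : ℤ)) := rfl
        have h6 := (ZMod.intCast_zmod_eq_zero_iff_dvd _ _).mpr h3
        push_cast at h6
        rw [ZMod.natCast_zmod_val, sub_eq_zero] at h6
        exact h6
      · have h6 := (ZMod.intCast_zmod_eq_zero_iff_dvd _ _).mpr h4
        push_cast at h6
        rwa [ZMod.natCast_zmod_val] at h6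
    have e2 : M 0 1 = 0 ∧ M 1 1 = k := by
      have h1 := hk y hy
      rw [hgy] at h1
      have h2 : x ^ ((M 0 1).val : ℤ) * y ^ (((M 1 1).val : ℤ) - k) = 1 := by
        rw [zpow_sub]
        simp only [zpow_natCast]
        rw [← mul_assoc, h1]; group
      obtain ⟨h3, h4⟩ := indep hxp hyp hx1 hyx h2
      constructor
      · have h6 := (ZMod.intCast_zmod_eq_zero_iff_dvd _ _).mpr h3
        push_cast at h6
        rwa [ZMod.natCast_zmod_val] at h6
      · have h6 := (ZMod.intCast_zmod_eq_zero_iff_dvd _ _).mpr h4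
        push_cast at h6
        rw [ZMod.natCast_zmod_val, sub_eq_zero] at h6
        exact h6
    refine ⟨(k : ZMod p), ?_⟩
    ext i j
    rw [Matrix.scalar_apply]
    fin_cases i <;> fin_cases j
    · exact e1.1.symm
    · exact e2.1.symm
    · exact e1.2.symm
    · exact e2.2.symm

end H76.RV2
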