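import Mathlib
import Cfsg.Agent.Lib.H76.RV2
import Cfsg.Agent.Lib.H1.Coprime

/-!
Elements with prescribed fixed lines in a group acting on an elementary abelian group of order `p²`.
-/

set_option autoImplicit false

open Subgroup
open Matrix (ProjGenLinGroup)
open scoped Pointwise

namespace H76.RV3

open H76.RV1 H76.RV2

theorem a4_orders : ∀ a : alternatingGroup (Fin 4), a ^ 2 = 1 ∨ a ^ 3 = 1 := by decide
theorem s4_orders : ∀ a : Equiv.Perm (Fin 4), a ^ 2 = 1 ∨ a ^ 3 = 1 ∨ a ^ 4 = 1 := by decide +kernel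
theorem a5_orders : ∀ a : alternatingGroup (Fin 5), a ^ 2 = 1 ∨ a ^ 3 = 1 ∨ a ^ 5 = 1 := by decide +kernel
theorem s4_count : Fintype.card {a : Equiv.Perm (Fin 4) // a ^ 4 = 1 ∧ a ^ 2 ≠ 1} = 6 := by decide +kernel

variable {Γ : Type*} [Group Γ] [Finite Γ] {p : ℕ} [hp : Fact p.Prime] {A : Subgroup Γ}

omit [Finite Γ] hp in
/-- the range of `σ` has order prime to `p` -/
theorem range_card {Q : Type*} [Group Q] (σ : Γ →* Q) (hA : A ≤ σ.ker) (hidx : ¬ p ∣ A.index) :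
    ¬ p ∣ Nat.card σ.range := by
  intro h
  rw [← index_ker] at h
  exact hidx (h.trans (index_dvd_of_le hA))

omit [Finite Γ] in
theorem le_ker {σ : Γ →* ProjGenLinGroup (Fin 2) (ZMod p)} (hσ : ∀ g, σ g = 1 ↔ PM A g)
    (hA : ∀ a ∈ A, ∀ b ∈ A, a * b = b * a) : A ≤ σ.ker := by
  intro a ha
  rw [MonoidHom.mem_ker, hσ]
  exact ⟨1, fun b hb => by rw [hA a ha b hb, pow_one, mul_inv_cancel_right]⟩

/-- the action on the set of lines: restatement of `no_three` -/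
theorem no_three' [A.Normal] (hA : ∀ a ∈ A, ∀ b ∈ A, a * b = b * a) (hexp : ∀ a ∈ A, a ^ p = 1)
    (hcard : Nat.card A = p ^ 2) (σ : Γ →* ProjGenLinGroup (Fin 2) (ZMod p)) (hσ : ∀ g, σ g = 1 ↔ PM A g)
    (g : Fin 3 → Γ) (L : Fin 3 → Subgroup Γ) (hL : ∀ i, L i ≤ A) (hLc : ∀ i, Nat.card (L i) = p)
    (hinj : Function.Injective L) (hgL : ∀ i, MulAut.conj (g i) • L i = L i)
    (ho : ∀ i, 3 ≤ orderOf (σ (g i))) (hc : ∀ i j, σ (g i) * σ (g j) = σ (g j) * σ (g i)) : False := by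
  let _ := H1.Coprime.conjSubgroupAction Γ
  have hne1 : ∀ i, σ (g i) ≠ 1 := by
    intro i h
    have := ho i
    rw [h, orderOf_one] at this
    omega
  refine no_three (Ω := Subgroup Γ) σ {M | M ≤ A ∧ Nat.card M = p} ?_ ?_ ?_ (g 0) (g 1) (g 2) (L 0) (L 1) (L 2)
    ⟨hL 0, hLc 0⟩ ⟨hL 1, hLc 1⟩ ⟨hL 2, hLc 2⟩ (hinj.ne (by decide)) (hinj.ne (by decide)) (hinj.ne (by decide))
    (hgL 0) (hgL 1) (hgL 2) (ho 1) (hne1 0) (hne1 2) (hc 0 1) (hc 2 1)
  · rintro g M ⟨hM, hMc⟩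
    refine ⟨?_, ?_⟩
    · rintro _ ⟨x, hx, rfl⟩
      exact (inferInstance : A.Normal).conj_mem x (hM hx) g
    · rw [← hMc]
      exact Nat.card_congr (Subgroup.equivSMul (MulAut.conj g) M).toEquiv.symm
  · rintro g hg M ⟨hM, -⟩
    exact PM.fix ((hσ g).mp hg) hM
  · rintro g L₁ ⟨h1, c1⟩ L₂ ⟨h2, c2⟩ L₃ ⟨h3, c3⟩ h12 h13 h23 g1 g2 g3
    exact (hσ g).mpr (pm_of_three hA hexp hcard h1 h2 h3 c1 c2 c3 h12 h13 h23 g1 g2 g3)

/-- three distinct lines with elements of large order -/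
theorem no_three_big [A.Normal] (hA : ∀ a ∈ A, ∀ b ∈ A, a * b = b * a) (hexp : ∀ a ∈ A, a ^ p = 1)
    (hcard : Nat.card A = p ^ 2) (hidx : ¬ p ∣ A.index)
    (g : Fin 3 → Γ) (L : Fin 3 → Subgroup Γ) (hL : ∀ i, L i ≤ A) (hLc : ∀ i, Nat.card (L i) = p)
    (hinj : Function.Injective L) (hgL : ∀ i, MulAut.conj (g i) • L i = L i)
    (ho : ∀ i, ∀ k : ℕ, 0 < k → PM A (g i ^ k) → 6 ≤ k) : False := by
  obtain ⟨σ, hσ⟩ := exists_sigma (p := p) hA hexp hcard
  have : Finite (ProjGenLinGroup (Fin 2) (ZMod p)) := inferInstanceAs (Finite (_ ⧸ _))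
  have hR := range_card (p := p) σ (le_ker hσ hA) hidx
  have hord : ∀ i, ∀ k : ℕ, 0 < k → σ (g i) ^ k = 1 → 6 ≤ k := by
    intro i k hk h
    rw [← map_pow, hσ] at h
    exact ho i k hk h
  have ho' : ∀ i, 6 ≤ orderOf (σ (g i)) := fun i => hord i _ (orderOf_pos _) (pow_orderOf_eq_one _)
  rcases dickson_cases σ.range hR with h | ⟨⟨e⟩⟩ | ⟨⟨e⟩⟩ | ⟨⟨e⟩⟩
  · apply no_three' hA hexp hcard σ hσ g L hL hLc hinj hgL (fun i => (by norm_num : 3 ≤ 6).trans (ho' i))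
    intro i j
    have h1 := h ⟨σ (g i), MonoidHom.mem_range.mpr ⟨g i, rfl⟩⟩ ⟨σ (g j), MonoidHom.mem_range.mpr ⟨g j, rfl⟩⟩
      (by rw [Subgroup.orderOf_mk]; exact (by norm_num : 3 ≤ 6).trans (ho' i))
      (by rw [Subgroup.orderOf_mk]; exact (by norm_num : 3 ≤ 6).trans (ho' j))
    exact congrArg Subtype.val h1
  · have key : ∀ k : ℕ, e ⟨σ (g 0), MonoidHom.mem_range.mpr ⟨g 0, rfl⟩⟩ ^ k = 1 → σ (g 0) ^ k = 1 := by
      intro k hk
      rw [← map_pow, map_eq_one_iff e e.injective] at hk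
      exact congrArg Subtype.val hk
    rcases a4_orders (e ⟨σ (g 0), MonoidHom.mem_range.mpr ⟨g 0, rfl⟩⟩) with h | h
    · have := hord 0 2 (by norm_num) (key 2 h); omega
    · have := hord 0 3 (by norm_num) (key 3 h); omega
  · have key : ∀ k : ℕ, e ⟨σ (g 0), MonoidHom.mem_range.mpr ⟨g 0, rfl⟩⟩ ^ k = 1 → σ (g 0) ^ k = 1 := by
      intro k hk
      rw [← map_pow, map_eq_one_iff e e.injective] at hk
      exact congrArg Subtype.val hk
    rcases s4_orders (e ⟨σ (g 0), MonoidHom.mem_range.mpr ⟨g 0, rfl⟩⟩) with h | h | h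
    · have := hord 0 2 (by norm_num) (key 2 h); omega
    · have := hord 0 3 (by norm_num) (key 3 h); omega
    · have := hord 0 4 (by norm_num) (key 4 h); omega
  · have key : ∀ k : ℕ, e ⟨σ (g 0), MonoidHom.mem_range.mpr ⟨g 0, rfl⟩⟩ ^ k = 1 → σ (g 0) ^ k = 1 := by
      intro k hk
      rw [← map_pow, map_eq_one_iff e e.injective] at hk
      exact congrArg Subtype.val hk
    rcases a5_orders (e ⟨σ (g 0), MonoidHom.mem_range.mpr ⟨g 0, rfl⟩⟩) with h | h | h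
    · have := hord 0 2 (by norm_num) (key 2 h); omega
    · have := hord 0 3 (by norm_num) (key 3 h); omega
    · have := hord 0 5 (by norm_num) (key 5 h); omega

/-- thirteen lines with elements of order divisible by four -/
theorem no_thirteen [A.Normal] (hA : ∀ a ∈ A, ∀ b ∈ A, a * b = b * a) (hexp : ∀ a ∈ A, a ^ p = 1)
    (hcard : Nat.card A = p ^ 2) (hidx : ¬ p ∣ A.index)
    (g : Fin 13 → Γ) (L : Fin 13 → Subgroup Γ) (hL : ∀ i, L i ≤ A) (hLc : ∀ i, Nat.card (L i) = p)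
    (hinj : Function.Injective L) (hgL : ∀ i, MulAut.conj (g i) • L i = L i)
    (ho : ∀ i, ∀ k : ℕ, PM A (g i ^ k) → 4 ∣ k) : False := by
  classical
  obtain ⟨σ, hσ⟩ := exists_sigma (p := p) hA hexp hcard
  have : Finite (ProjGenLinGroup (Fin 2) (ZMod p)) := inferInstanceAs (Finite (_ ⧸ _))
  have hR := range_card (p := p) σ (le_ker hσ hA) hidx
  have hord : ∀ i, ∀ k : ℕ, σ (g i) ^ k = 1 → 4 ∣ k := by
    intro i k h
    rw [← map_pow, hσ] at h
    exact ho i k h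
  have ho' : ∀ i, 3 ≤ orderOf (σ (g i)) := fun i => by
    have h1 := hord i _ (pow_orderOf_eq_one _)
    have h2 := Nat.le_of_dvd (orderOf_pos _) h1
    omega
  rcases dickson_cases σ.range hR with h | ⟨⟨e⟩⟩ | ⟨⟨e⟩⟩ | ⟨⟨e⟩⟩
  · let c : Fin 3 → Fin 13 := Fin.castLE (by norm_num)
    have hcinj : Function.Injective c := Fin.castLE_injective _
    apply no_three' hA hexp hcard σ hσ (g ∘ c) (L ∘ c) (fun i => hL _) (fun i => hLc _) (hinj.comp hcinj)
      (fun i => hgL _) (fun i => ho' _)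
    intro i j
    have h1 := h ⟨σ (g (c i)), MonoidHom.mem_range.mpr ⟨g (c i), rfl⟩⟩ ⟨σ (g (c j)), MonoidHom.mem_range.mpr ⟨g (c j), rfl⟩⟩
      (by rw [Subgroup.orderOf_mk]; exact ho' _)
      (by rw [Subgroup.orderOf_mk]; exact ho' _)
    exact congrArg Subtype.val h1
  · have key : ∀ k : ℕ, e ⟨σ (g 0), MonoidHom.mem_range.mpr ⟨g 0, rfl⟩⟩ ^ k = 1 → σ (g 0) ^ k = 1 := by
      intro k hk
      rw [← map_pow, map_eq_one_iff e e.injective] at hk
      exact congrArg Subtype.val hk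
    rcases a4_orders (e ⟨σ (g 0), MonoidHom.mem_range.mpr ⟨g 0, rfl⟩⟩) with h | h
    · have := hord 0 2 (key 2 h); omega
    · have := hord 0 3 (key 3 h); omega
  · have key : ∀ (i : Fin 13) (k : ℕ), e ⟨σ (g i), MonoidHom.mem_range.mpr ⟨g i, rfl⟩⟩ ^ k = 1 → σ (g i) ^ k = 1 := by
      intro i k hk
      rw [← map_pow, map_eq_one_iff e e.injective] at hk
      exact congrArg Subtype.val hk
    let f : Fin 13 → {a : Equiv.Perm (Fin 4) // a ^ 4 = 1 ∧ a ^ 2 ≠ 1} := fun i =>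
      ⟨e ⟨σ (g i), MonoidHom.mem_range.mpr ⟨g i, rfl⟩⟩, by
        have h2 : e ⟨σ (g i), MonoidHom.mem_range.mpr ⟨g i, rfl⟩⟩ ^ 2 ≠ 1 := by
          intro h
          have := hord i 2 (key i 2 h); omega
        rcases s4_orders (e ⟨σ (g i), MonoidHom.mem_range.mpr ⟨g i, rfl⟩⟩) with h | h | h
        · exact absurd h h2
        · have := hord i 3 (key i 3 h); omega
        · exact ⟨h, h2⟩⟩
    obtain ⟨a, ha⟩ := Fintype.exists_lt_card_fiber_of_mul_lt_card (f := f) (n := 2)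
      (by rw [s4_count, Fintype.card_fin]; norm_num)
    obtain ⟨i, j, k, hi, hj, hk, hij, hik, hjk⟩ := Finset.two_lt_card_iff.mp ha
    simp only [Finset.mem_filter, Finset.mem_univ, true_and] at hi hj hk
    have hs : ∀ i j, f i = f j → σ (g i) = σ (g j) := by
      intro i j h
      have h1 : e ⟨σ (g i), MonoidHom.mem_range.mpr ⟨g i, rfl⟩⟩ = e ⟨σ (g j), MonoidHom.mem_range.mpr ⟨g j, rfl⟩⟩ := congrArg Subtype.val h
      exact congrArg Subtype.val (e.injective h1)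
    have hfix : ∀ j, σ (g i) = σ (g j) → MulAut.conj (g i) • L j = L j := by
      intro j h
      have h1 : σ (g i * (g j)⁻¹) = 1 := by rw [map_mul, map_inv, h, mul_inv_cancel]
      have h2 := PM.fix ((hσ _).mp h1) (hL j)
      have h3 : MulAut.conj (g i) = MulAut.conj (g i * (g j)⁻¹) * MulAut.conj (g j) := by
        rw [← map_mul, inv_mul_cancel_right]
      rw [h3, mul_smul, hgL, h2]
    have h4 := pm_of_three hA hexp hcard (hL i) (hL j) (hL k) (hLc i) (hLc j) (hLc k) (hinj.ne hij) (hinj.ne hik)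
      (hinj.ne hjk) (hgL i) (hfix j (hs i j (hi.trans hj.symm))) (hfix k (hs i k (hi.trans hk.symm)))
    have h5 := ho i 1 (by rwa [pow_one])
    omega
  · have key : ∀ k : ℕ, e ⟨σ (g 0), MonoidHom.mem_range.mpr ⟨g 0, rfl⟩⟩ ^ k = 1 → σ (g 0) ^ k = 1 := by
      intro k hk
      rw [← map_pow, map_eq_one_iff e e.injective] at hk
      exact congrArg Subtype.val hk
    rcases a5_orders (e ⟨σ (g 0), MonoidHom.mem_range.mpr ⟨g 0, rfl⟩⟩) with h | h | h
    · have := hord 0 2 (key 2 h); omega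
    · have := hord 0 3 (key 3 h); omega
    · have := hord 0 5 (key 5 h); omega

end H76.RV3
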