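import Mathlib
import Cfsg.Prelude.Def_Transfer
import Cfsg.Agent.Lib.H76.RV3
import Cfsg.Agent.Lib.H98.TwoCentral
import Cfsg.Agent.Lib.H1.Coprime2
import Cfsg.Agent.Lib.H12.Basic

/-!
Fusion in a Sylow subgroup of type `p^{1+2}_+`.
-/

set_option autoImplicit false

open Subgroup
open scoped Pointwise

namespace H76.RV4

open H76.RV1 H76.RV2 H76.RV3

variable {G : Type*} [Group G] [Finite G] {p : ℕ} [hp : Fact p.Prime]

/-- the ambient data: `P` is a Sylow subgroup of order `p³`, exponent `p`, with centre `Z` of order `p` -/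
structure Data (p : ℕ) [Fact p.Prime] (P Z : Subgroup G) : Prop where
  syl : ∀ T : Subgroup G, IsPGroup p T → P ≤ T → T = P
  pgr : IsPGroup p P
  ndvd : ¬ p ∣ P.index
  card : Nat.card P = p ^ 3
  cardZ : Nat.card Z = p
  ZP : Z ≤ P
  exp : ∀ x ∈ P, x ^ p = 1
  comm : ∀ x ∈ P, ∀ y ∈ P, x * y * x⁻¹ * y⁻¹ ∈ Z
  cen : ∀ z ∈ Z, ∀ g ∈ P, g * z = z * g
  cen' : ∀ x ∈ P, (∀ g ∈ P, g * x = x * g) → x ∈ Z

variable {P Z : Subgroup G}

theorem data_of (P : Sylow p G) (hE : Cfsg.IsExtraspecial p (P : Subgroup G)) (hcard : Nat.card P = p ^ 3)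
    (hexp : Monoid.exponent (P : Subgroup G) = p) :
    Data p (P : Subgroup G) ((center (P : Subgroup G)).map (P : Subgroup G).subtype) := by
  have hmem' : ∀ x : (P : Subgroup G), (x : G) ∈ (center (P : Subgroup G)).map (P : Subgroup G).subtype →
      x ∈ center (P : Subgroup G) := by
    rintro x ⟨z, hz, hzx⟩
    have : z = x := Subtype.ext hzx
    rwa [← this]
  refine ⟨?_, P.2, P.not_dvd_index, hcard, ?_, map_subtype_le _, ?_, ?_, ?_, ?_⟩
  · intro T hT hPT
    exact P.3 hT hPT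
  · exact (Nat.card_congr ((center (P : Subgroup G)).equivMapOfInjective _
      (P : Subgroup G).subtype_injective).toEquiv.symm).trans hE.2
  · intro x hx
    have h1 := Monoid.pow_exponent_eq_one (⟨x, hx⟩ : (P : Subgroup G))
    rw [hexp] at h1
    exact congrArg Subtype.val h1
  · intro x hx y hy
    have h1 : (⟨x, hx⟩ : (P : Subgroup G)) * ⟨y, hy⟩ * ⟨x, hx⟩⁻¹ * ⟨y, hy⟩⁻¹ ∈ center (P : Subgroup G) := by
      rw [← hE.1.2.2]
      exact commutator_mem_commutator (mem_top _) (mem_top _)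
    exact ⟨_, h1, rfl⟩
  · rintro z ⟨z, hz, rfl⟩ g hg
    exact congrArg Subtype.val (mem_center_iff.mp hz ⟨g, hg⟩)
  · intro x hx h
    exact ⟨⟨x, hx⟩, mem_center_iff.mpr fun g => Subtype.ext (h g g.2), rfl⟩

omit [Finite G] in
theorem Data.Z_ne (D : Data p P Z) : ∃ z ∈ Z, z ≠ 1 := exists_ne_of_card D.cardZ

theorem Data.exists_nonZ (D : Data p P Z) : ∃ x ∈ P, x ∉ Z := by
  by_contra hcon
  push Not at hcon
  have h1 := card_le_of_le hcon
  rw [D.card, D.cardZ] at h1
  have h2 := hp.out.one_lt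
  have : p < p ^ 3 := by nlinarith [Nat.pos_of_ne_zero hp.out.ne_zero, mul_pos (show 0 < p by omega) (show 0 < p by omega)]
  omega

omit [Finite G] in
/-- an element of `P` outside `Z` has a partner not commuting with it -/
theorem Data.partner (D : Data p P Z) {x : G} (hx : x ∈ P) (hxZ : x ∉ Z) : ∃ y ∈ P, y * x ≠ x * y := by
  by_contra hcon
  push Not at hcon
  exact hxZ (D.cen' x hx hcon)

/-- subgroups of order `p²` of `P` -/
theorem Data.card_sq (D : Data p P Z) {V : Subgroup G} (hV : V ≤ P) (hVc : Nat.card V = p ^ 2) :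
    (∀ a ∈ V, ∀ b ∈ V, a * b = b * a) ∧ Z ≤ V ∧ P ≤ normalizer (V : Set G) := by
  have h1 : ∀ a ∈ V, ∀ b ∈ V, a * b = b * a := by
    intro a ha b hb
    have := IsPGroup.isMulCommutative_of_card_eq_prime_sq hVc
    exact congrArg Subtype.val (mul_comm' (⟨a, ha⟩ : V) ⟨b, hb⟩)
  have h2 : Z ≤ V := by
    by_contra hcon
    have hn : V ≤ normalizer (Z : Set G) := by
      apply H1.Coprime.le_normalizer_of_conj_mem
      intro a ha z hz
      rw [D.cen z hz a (hV ha), mul_inv_cancel_right]; exact hz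
    have h3 : V ⊔ Z ≤ P := sup_le hV D.ZP
    have h4 : V ⊔ Z = P := by
      obtain ⟨k, hk⟩ := IsPGroup.iff_card.mp (D.pgr.to_le h3)
      have h5 : Nat.card V < Nat.card (V ⊔ Z : Subgroup G) := by
        rcases lt_or_eq_of_le (card_le_of_le (le_sup_left : V ≤ V ⊔ Z)) with h | h
        · exact h
        · exfalso
          have h6 := Subgroup.eq_of_le_of_card_ge (le_sup_left : V ≤ V ⊔ Z) h.ge
          exact hcon (by rw [h6]; exact le_sup_right)
      rw [hVc, hk] at h5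
      have h6 : 2 < k := (Nat.pow_lt_pow_iff_right hp.out.one_lt).mp h5
      apply Subgroup.eq_of_le_of_card_ge h3
      rw [D.card, hk]
      exact Nat.pow_le_pow_right hp.out.pos h6
    obtain ⟨x, hx, hxZ⟩ := D.exists_nonZ
    obtain ⟨y, hy, hyx⟩ := D.partner hx hxZ
    have hab : ∀ a ∈ V ⊔ Z, ∀ b ∈ V ⊔ Z, a * b = b * a := by
      have hc1 : V ⊔ Z ≤ centralizer (V : Set G) := by
        refine sup_le ?_ ?_
        · intro a ha; rw [mem_centralizer_iff]; intro b hb; exact h1 b hb a ha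
        · intro z hz; rw [mem_centralizer_iff]; intro b hb; exact D.cen z hz b (hV hb)
      have hc2 : V ⊔ Z ≤ centralizer (Z : Set G) := by
        intro a ha; rw [mem_centralizer_iff]; intro z hz; exact (D.cen z hz a (h3 ha)).symm
      have hc3 : V ⊔ Z ≤ centralizer ((V ⊔ Z : Subgroup G) : Set G) := by
        rw [le_centralizer_iff]
        refine sup_le ?_ ?_
        · rw [le_centralizer_iff]; exact hc1
        · rw [le_centralizer_iff]; exact hc2
      intro a ha b hb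
      exact mem_centralizer_iff.mp (hc3 hb) a ha
    rw [h4] at hab
    exact hyx (hab y hy x hx)
  refine ⟨h1, h2, ?_⟩
  apply H1.Coprime.le_normalizer_of_conj_mem
  intro u hu v hv
  have : u * v * u⁻¹ = (u * v * u⁻¹ * v⁻¹) * v := by group
  rw [this]
  exact mul_mem (h2 (D.comm u hu v (hV hv))) hv

/-- conjugating Sylow subgroups inside an overgroup -/
theorem Data.conj (D : Data p P Z) (H : Subgroup G) (hPH : P ≤ H) {B : Subgroup G} (hB : B ≤ H)
    (hBp : IsPGroup p B) : ∃ h ∈ H, ∀ b ∈ B, h * b * h⁻¹ ∈ P := by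
  obtain ⟨h, hh, T, hTH, hTp, hPT, hbT⟩ := H98.TwoCentral.conjIn (p := p) H hPH hB D.pgr hBp
  rw [D.syl T hTp hPT] at hbT
  exact ⟨h, hh, hbT⟩

theorem Data.zgen (D : Data p P Z) {z : G} (hz : z ∈ Z) (hz1 : z ≠ 1) : ∀ w ∈ Z, ∃ n : ℕ, w = z ^ n := by
  intro w hw
  rw [zpowers_of_card D.cardZ hz hz1] at hw
  have hfo : IsOfFinOrder z := isOfFinOrder_of_finite z
  obtain ⟨m, hm⟩ := (hfo.mem_powers_iff_mem_zpowers.mpr hw : w ∈ Submonoid.powers z)
  exact ⟨m, hm.symm⟩

end H76.RV4
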