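import Mathlib
import Cfsg.Agent.Lib.H76.RV4

/-!
Diagonal elements in `N_G(P)` from radical rank two subgroups.
-/

set_option autoImplicit false

open Subgroup
open scoped Pointwise

namespace H76.RV5

open H76.RV1 H76.RV2 H76.RV3 H76.RV4

theorem coord {Γ : Type*} [Group Γ] {p : ℕ} [hp : Fact p.Prime] {x y : Γ} (hxp : x ^ p = 1) (hyp : y ^ p = 1)
    (hx : x ≠ 1) (hy : y ∉ zpowers x) (hxy : x * y = y * x) {a b : ZMod p} {i j : ℕ}
    (h : x ^ a.val * y ^ b.val = x ^ i * y ^ j) : a = i ∧ b = j := by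
  have hc : Commute x y := hxy
  have h2 : x ^ ((a.val : ℤ) - i) * y ^ ((b.val : ℤ) - j) = 1 := by
    rw [zpow_sub, zpow_sub]
    simp only [zpow_natCast]
    have h3 : (x ^ i)⁻¹ * y ^ b.val = y ^ b.val * (x ^ i)⁻¹ := ((hc.pow_pow i b.val).inv_left).eq
    have h4 : x ^ i * y ^ b.val = y ^ b.val * x ^ i := (hc.pow_pow i b.val).eq
    have h5 : x ^ i * y ^ j = y ^ j * x ^ i := (hc.pow_pow i j).eq
    calc x ^ a.val * (x ^ i)⁻¹ * (y ^ b.val * (y ^ j)⁻¹) = x ^ a.val * ((x ^ i)⁻¹ * y ^ b.val) * (y ^ j)⁻¹ := by group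
      _ = (x ^ a.val * y ^ b.val) * (x ^ i)⁻¹ * (y ^ j)⁻¹ := by rw [h3]; group
      _ = (x ^ i * y ^ j) * (x ^ i)⁻¹ * (y ^ j)⁻¹ := by rw [h]
      _ = 1 := by rw [h5]; group
  obtain ⟨h3, h4⟩ := indep hxp hyp hx hy h2
  constructor
  · have h6 := (ZMod.intCast_zmod_eq_zero_iff_dvd _ _).mpr h3
    push_cast at h6
    rw [ZMod.natCast_zmod_val, sub_eq_zero] at h6
    exact h6
  · have h6 := (ZMod.intCast_zmod_eq_zero_iff_dvd _ _).mpr h4
    push_cast at h6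
    rw [ZMod.natCast_zmod_val, sub_eq_zero] at h6
    exact h6

theorem Epow {F : Type*} [Field F] (a : F) (m : ℕ) : (!![1, a; 0, 1] : Matrix (Fin 2) (Fin 2) F) ^ m = !![1, m * a; 0, 1] := by
  induction m with
  | zero => ext i j; fin_cases i <;> fin_cases j <;> simp
  | succ m ih =>
    rw [pow_succ, ih]
    ext i j; fin_cases i <;> fin_cases j <;> simp [Matrix.mul_apply, Fin.sum_univ_two, add_mul]
    ring

theorem Fpow {F : Type*} [Field F] (a : F) (m : ℕ) : (!![1, 0; a, 1] : Matrix (Fin 2) (Fin 2) F) ^ m = !![1, 0; m * a, 1] := by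
  induction m with
  | zero => ext i j; fin_cases i <;> fin_cases j <;> simp
  | succ m ih =>
    rw [pow_succ, ih]
    ext i j; fin_cases i <;> fin_cases j <;> simp [Matrix.mul_apply, Fin.sum_univ_two, add_mul]

theorem diag_prod {F : Type*} [Field F] (l : F) (hl : l ≠ 0) :
    (!![1, l; 0, 1] * !![1, 0; -l⁻¹, 1] * !![1, l; 0, 1] * !![1, -1; 0, 1] * !![1, 0; 1, 1] * !![1, -1; 0, 1] :
      Matrix (Fin 2) (Fin 2) F) = !![l, 0; 0, l⁻¹] := by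
  ext i j
  fin_cases i <;> fin_cases j <;> simp [Matrix.mul_apply, Fin.sum_univ_two] <;> field_simp <;> ring

theorem diag_conj {F : Type*} [Field F] (l b : F) (hl : l ≠ 0) :
    (!![l, 0; 0, l⁻¹] * !![1, b; 0, 1] : Matrix (Fin 2) (Fin 2) F) = !![1, l * b * l; 0, 1] * !![l, 0; 0, l⁻¹] := by
  ext i j
  fin_cases i <;> fin_cases j <;> simp [Matrix.mul_apply, Fin.sum_univ_two]
  field_simp

variable {G : Type*} [Group G] [Finite G] {p : ℕ} [hp : Fact p.Prime] {P Z : Subgroup G}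

theorem exists_diag (D : Data p P Z) {V : Subgroup G} (hV : V ≤ P) (hVc : Nat.card V = p ^ 2)
    {h : G} (hh : h ∈ normalizer (V : Set G)) {z : G} (hz : z ∈ Z) (hz1 : h * z * h⁻¹ ∉ Z) (l : (ZMod p)ˣ) :
    ∃ g ∈ normalizer (P : Set G), g ∈ normalizer (V : Set G) ∧
      (∃ x ∈ V, x ∉ Z ∧ ∃ w ∈ Z, g * x * g⁻¹ = x ^ ((l⁻¹ : (ZMod p)ˣ) : ZMod p).val * w) ∧
      ∀ w ∈ Z, g * w * g⁻¹ = w ^ (l : ZMod p).val := by
  classical
  obtain ⟨hVab, hZV, hPV⟩ := D.card_sq hV hVc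
  set N := normalizer (V : Set G) with hN
  have hVN : V ≤ N := le_normalizer
  have hzV : z ∈ V := hZV hz
  have hz'V : h * z * h⁻¹ ∈ V := (mem_normalizer_iff.mp hh z).mp hzV
  have hzne : z ≠ 1 := by
    rintro rfl
    apply hz1
    rw [mul_one, mul_inv_cancel]; exact one_mem _
  obtain ⟨z', hz'⟩ : ∃ z', z' = h * z * h⁻¹ := ⟨_, rfl⟩
  rw [← hz'] at hz1 hz'V
  have hzp : z ^ p = 1 := D.exp z (hV hzV)
  have hz'p : z' ^ p = 1 := D.exp z' (hV hz'V)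
  have hz'z : z' ∉ zpowers z := fun h => hz1 ((zpowers_le.mpr hz) h)
  have hzz' : z * z' = z' * z := hVab z hzV z' hz'V
  have hVexp : ∀ a ∈ V, a ^ p = 1 := fun a ha => D.exp a (hV ha)
  let A : Subgroup N := V.subgroupOf N
  have hAn : A.Normal := (Subgroup.normal_subgroupOf_iff_le_normalizer hVN).mpr le_rfl
  have hAc : Nat.card A = p ^ 2 := by
    rw [← hVc]; exact Nat.card_congr (subgroupOfEquivOfLe hVN).toEquiv
  obtain ⟨τ, hτ⟩ := exists_gl2 A (p := p) (fun a ha b hb => Subtype.ext (hVab a ha b hb))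
    (fun a ha => Subtype.ext (hVexp a ha)) hAc ⟨z, hVN hzV⟩ ⟨z', hVN hz'V⟩ hzV hz'V (by
      intro i j hi hj hij
      have h0 : z ^ i * z' ^ j = 1 := congrArg Subtype.val hij
      have h1 := indep (p := p) hzp hz'p hzne hz'z (i := i) (j := j) (by simpa using h0)
      exact ⟨Nat.eq_zero_of_dvd_of_lt (Int.natCast_dvd_natCast.mp h1.1) hi,
        Nat.eq_zero_of_dvd_of_lt (Int.natCast_dvd_natCast.mp h1.2) hj⟩)
  have hτ1 : ∀ g : N, (g : G) * z * (g : G)⁻¹ = z ^ ((τ g : Matrix (Fin 2) (Fin 2) (ZMod p)) 0 0).val *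
        z' ^ ((τ g : Matrix (Fin 2) (Fin 2) (ZMod p)) 1 0).val := fun g => congrArg Subtype.val (hτ g).1
  have hτ2 : ∀ g : N, (g : G) * z' * (g : G)⁻¹ = z ^ ((τ g : Matrix (Fin 2) (Fin 2) (ZMod p)) 0 1).val *
        z' ^ ((τ g : Matrix (Fin 2) (Fin 2) (ZMod p)) 1 1).val := fun g => congrArg Subtype.val (hτ g).2
  have hco1 : ∀ (g : N) (i j : ℕ), (g : G) * z * (g : G)⁻¹ = z ^ i * z' ^ j →
      (τ g : Matrix (Fin 2) (Fin 2) (ZMod p)) 0 0 = i ∧ (τ g : Matrix (Fin 2) (Fin 2) (ZMod p)) 1 0 = j := by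
    intro g i j hg
    rw [hτ1] at hg
    exact coord hzp hz'p hzne hz'z hzz' hg
  have hco2 : ∀ (g : N) (i j : ℕ), (g : G) * z' * (g : G)⁻¹ = z ^ i * z' ^ j →
      (τ g : Matrix (Fin 2) (Fin 2) (ZMod p)) 0 1 = i ∧ (τ g : Matrix (Fin 2) (Fin 2) (ZMod p)) 1 1 = j := by
    intro g i j hg
    rw [hτ2] at hg
    exact coord hzp hz'p hzne hz'z hzz' hg
  have hEu : ∀ u : N, (u : G) ∈ P → ∃ t : ZMod p, (τ u : Matrix (Fin 2) (Fin 2) (ZMod p)) = !![1, t; 0, 1] := by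
    intro u hu
    have h1 := hco1 u 1 0 (by rw [D.cen z hz u hu]; group)
    obtain ⟨n, hn⟩ := D.zgen hz hzne _ (D.comm u hu z' (hV hz'V))
    have h2 := hco2 u n 1 (by rw [← hn]; group)
    refine ⟨n, ?_⟩
    ext i j
    fin_cases i <;> fin_cases j
    · simpa using h1.1
    · simpa using h2.1
    · simpa using h1.2
    · simpa using h2.2
  obtain ⟨u₀, hu₀P, hu₀⟩ := D.partner (hV hz'V) hz1
  obtain ⟨a, ha⟩ := hEu ⟨u₀, hPV hu₀P⟩ hu₀P
  have ha0 : a ≠ 0 := by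
    rintro rfl
    apply hu₀
    have h1 := hτ2 ⟨u₀, hPV hu₀P⟩
    rw [ha] at h1
    have h3 : Fact (1 < p) := ⟨hp.out.one_lt⟩
    simp only [Matrix.of_apply, Matrix.cons_val', Matrix.cons_val_zero, Matrix.cons_val_one,
      Matrix.cons_val_fin_one, ZMod.val_zero, ZMod.val_one, pow_zero, pow_one, one_mul] at h1
    exact mul_inv_eq_iff_eq_mul.mp h1
  have hErange : ∀ t : ZMod p, ∃ g : N, (g : G) ∈ P ∧ (τ g : Matrix (Fin 2) (Fin 2) (ZMod p)) = !![1, t; 0, 1] := by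
    intro t
    refine ⟨⟨u₀, hPV hu₀P⟩ ^ (t / a).val, pow_mem hu₀P _, ?_⟩
    rw [map_pow, Units.val_pow_eq_pow_val, ha, Epow, ZMod.natCast_zmod_val, div_mul_cancel₀ _ ha0]
  -- the opposite root subgroup
  obtain ⟨c, hc0, hc⟩ : ∃ c : ZMod p, c ≠ 0 ∧
      (τ (⟨h, hh⟩ * ⟨u₀, hPV hu₀P⟩ * ⟨h, hh⟩⁻¹) : Matrix (Fin 2) (Fin 2) (ZMod p)) = !![1, 0; c, 1] := by
    set k : N := ⟨h, hh⟩ * ⟨u₀, hPV hu₀P⟩ * ⟨h, hh⟩⁻¹ with hk
    have hkv : (k : G) = h * u₀ * h⁻¹ := rfl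
    have h1 := hco2 k 0 1 (by
      rw [hkv, hz']
      have h2 := D.cen z hz u₀ hu₀P
      calc h * u₀ * h⁻¹ * (h * z * h⁻¹) * (h * u₀ * h⁻¹)⁻¹ = h * (u₀ * z) * u₀⁻¹ * h⁻¹ := by group
        _ = z ^ 0 * (h * z * h⁻¹) ^ 1 := by rw [h2]; group)
    have hdet : (τ k : Matrix (Fin 2) (Fin 2) (ZMod p)).det = 1 := by
      have h2 : (τ k : Matrix (Fin 2) (Fin 2) (ZMod p)).det = Matrix.GeneralLinearGroup.det (τ k) := rfl
      have h3 : Matrix.GeneralLinearGroup.det (τ k) = Matrix.GeneralLinearGroup.det (τ ⟨u₀, hPV hu₀P⟩) := by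
        rw [hk, map_mul, map_mul, map_inv, map_mul, map_mul, map_inv, mul_comm (Matrix.GeneralLinearGroup.det _) (Matrix.GeneralLinearGroup.det _),
          mul_assoc, mul_inv_cancel, mul_one]
      rw [h2, h3]
      have h4 : ((Matrix.GeneralLinearGroup.det (τ ⟨u₀, hPV hu₀P⟩) : (ZMod p)ˣ) : ZMod p) =
        (τ ⟨u₀, hPV hu₀P⟩ : Matrix (Fin 2) (Fin 2) (ZMod p)).det := rfl
      rw [h4, ha, Matrix.det_fin_two]; simp
    rw [Matrix.det_fin_two, h1.1, h1.2] at hdet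
    have h00 : (τ k : Matrix (Fin 2) (Fin 2) (ZMod p)) 0 0 = 1 := by simpa using hdet
    have hM : (τ k : Matrix (Fin 2) (Fin 2) (ZMod p)) = !![1, 0; (τ k : Matrix (Fin 2) (Fin 2) (ZMod p)) 1 0, 1] := by
      ext i j
      fin_cases i <;> fin_cases j
      · simpa using h00
      · simpa using h1.1
      · simp
      · simpa using h1.2
    refine ⟨_, ?_, hM⟩
    intro hc
    rw [hc] at hM
    have h2 : τ k = 1 := by
      apply Units.ext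
      rw [hM]
      ext i j; fin_cases i <;> fin_cases j <;> simp
    rw [hk, map_mul, map_mul, map_inv, mul_inv_eq_one, mul_eq_left] at h2
    rw [h2] at ha
    have h3 := congrFun (congrFun ha 0) 1
    simp at h3
    exact ha0 h3.symm
  have hFrange : ∀ t : ZMod p, ∃ g : N, (τ g : Matrix (Fin 2) (Fin 2) (ZMod p)) = !![1, 0; t, 1] := by
    intro t
    refine ⟨(⟨h, hh⟩ * ⟨u₀, hPV hu₀P⟩ * ⟨h, hh⟩⁻¹) ^ (t / c).val, ?_⟩
    rw [map_pow, Units.val_pow_eq_pow_val, hc, Fpow, ZMod.natCast_zmod_val, div_mul_cancel₀ _ hc0]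
  obtain ⟨g₀, hg₀⟩ : ∃ g : N, (τ g : Matrix (Fin 2) (Fin 2) (ZMod p)) = !![(l : ZMod p), 0; 0, (l : ZMod p)⁻¹] := by
    obtain ⟨e1, -, he1⟩ := hErange (l : ZMod p)
    obtain ⟨f1, hf1⟩ := hFrange (-(l : ZMod p)⁻¹)
    obtain ⟨e2, -, he2⟩ := hErange (-1)
    obtain ⟨f2, hf2⟩ := hFrange 1
    refine ⟨e1 * f1 * e1 * e2 * f2 * e2, ?_⟩
    simp only [map_mul, Units.val_mul]
    rw [he1, hf1, he2, hf2]
    exact diag_prod _ l.ne_zero
  have e00 : (τ g₀ : Matrix (Fin 2) (Fin 2) (ZMod p)) 0 0 = l := by rw [hg₀]; rfl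
  have e10 : (τ g₀ : Matrix (Fin 2) (Fin 2) (ZMod p)) 1 0 = 0 := by rw [hg₀]; rfl
  have e01 : (τ g₀ : Matrix (Fin 2) (Fin 2) (ZMod p)) 0 1 = 0 := by rw [hg₀]; rfl
  have e11 : (τ g₀ : Matrix (Fin 2) (Fin 2) (ZMod p)) 1 1 = ((l⁻¹ : (ZMod p)ˣ) : ZMod p) := by
    rw [hg₀, Units.val_inv_eq_inv_val]; rfl
  have hg₀z : (g₀ : G) * z * (g₀ : G)⁻¹ = z ^ (l : ZMod p).val := by
    rw [hτ1, e00, e10, ZMod.val_zero, pow_zero, mul_one]
  have hg₀z' : (g₀ : G) * z' * (g₀ : G)⁻¹ = z' ^ ((l⁻¹ : (ZMod p)ˣ) : ZMod p).val := by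
    rw [hτ2, e01, e11, ZMod.val_zero, pow_zero, one_mul]
  -- kernel
  have hker : ∀ k : N, τ k = 1 → (k : G) ∈ centralizer (V : Set G) := by
    intro k hk
    have h3 : Fact (1 < p) := ⟨hp.out.one_lt⟩
    have h1 := hτ1 k
    have h2 := hτ2 k
    rw [hk] at h1 h2
    have f00 : ((1 : Matrix.GeneralLinearGroup (Fin 2) (ZMod p)) : Matrix (Fin 2) (Fin 2) (ZMod p)) 0 0 = 1 := rfl
    have f10 : ((1 : Matrix.GeneralLinearGroup (Fin 2) (ZMod p)) : Matrix (Fin 2) (Fin 2) (ZMod p)) 1 0 = 0 := rfl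
    have f01 : ((1 : Matrix.GeneralLinearGroup (Fin 2) (ZMod p)) : Matrix (Fin 2) (Fin 2) (ZMod p)) 0 1 = 0 := rfl
    have f11 : ((1 : Matrix.GeneralLinearGroup (Fin 2) (ZMod p)) : Matrix (Fin 2) (Fin 2) (ZMod p)) 1 1 = 1 := rfl
    rw [f00, f10, ZMod.val_zero, ZMod.val_one, pow_zero, pow_one, mul_one] at h1
    rw [f01, f11, ZMod.val_zero, ZMod.val_one, pow_zero, pow_one, one_mul] at h2
    have c1 : Commute (k : G) z := mul_inv_eq_iff_eq_mul.mp h1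
    have c2 : Commute (k : G) z' := mul_inv_eq_iff_eq_mul.mp h2
    rw [mem_centralizer_iff]
    intro v hv
    obtain ⟨i, j, rfl⟩ := gen hVab hVexp hVc hzV hz'V hzne hz'z v hv
    exact ((c1.pow_right i).mul_right (c2.pow_right j)).eq.symm
  set K : Subgroup G := centralizer (V : Set G) ⊔ P with hK
  have hconjK : P.map (MulAut.conj (g₀ : G)).toMonoidHom ≤ K := by
    rintro _ ⟨u, hu, rfl⟩
    show (g₀ : G) * u * (g₀ : G)⁻¹ ∈ K
    obtain ⟨b, hb⟩ := hEu ⟨u, hPV hu⟩ hu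
    obtain ⟨w, hwP, hw⟩ := hErange ((l : ZMod p) * b * l)
    have h1 : τ (g₀ * ⟨u, hPV hu⟩) = τ (w * g₀) := by
      apply Units.ext
      rw [map_mul, map_mul, Units.val_mul, Units.val_mul, hb, hw, hg₀]
      exact diag_conj _ b l.ne_zero
    have h2 : τ (g₀ * ⟨u, hPV hu⟩ * g₀⁻¹ * w⁻¹) = 1 := by
      rw [map_mul, map_mul, h1, map_mul, map_inv, map_inv]; group
    have h3 := hker _ h2
    have h4 : (g₀ : G) * u * (g₀ : G)⁻¹ = ((g₀ * ⟨u, hPV hu⟩ * g₀⁻¹ * w⁻¹ : N) : G) * w := by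
      show (g₀ : G) * u * (g₀ : G)⁻¹ = (g₀ : G) * u * (g₀ : G)⁻¹ * (w : G)⁻¹ * w
      group
    rw [h4]
    exact mul_mem (mem_sup_left h3) (mem_sup_right hwP)
  obtain ⟨h₁, hh₁, hcon⟩ := D.conj K le_sup_right hconjK (D.pgr.map _)
  -- action of `K`
  have hS : ∀ k ∈ K, k ∈ N ∧ (∀ w ∈ Z, k * w = w * k) ∧ ∀ x ∈ V, k * x * k⁻¹ * x⁻¹ ∈ Z := by
    have hCN : centralizer (V : Set G) ≤ N := centralizer_le_normalizer _
    let S : Subgroup G :=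
      { carrier := {k | k ∈ N ∧ (∀ w ∈ Z, k * w = w * k) ∧ ∀ x ∈ V, k * x * k⁻¹ * x⁻¹ ∈ Z}
        one_mem' := ⟨one_mem _, fun w _ => by simp, fun x _ => by simp [one_mem]⟩
        mul_mem' := by
          rintro k m ⟨hk1, hk2, hk3⟩ ⟨hm1, hm2, hm3⟩
          refine ⟨mul_mem hk1 hm1, fun w hw => by rw [mul_assoc, hm2 w hw, ← mul_assoc, hk2 w hw, mul_assoc], fun x hx => ?_⟩
          have h5 : (k * m) * x * (k * m)⁻¹ * x⁻¹ = (k * (m * x * m⁻¹ * x⁻¹) * k⁻¹) * (k * x * k⁻¹ * x⁻¹) := by group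
          rw [h5, hk2 _ (hm3 x hx), mul_inv_cancel_right]
          exact mul_mem (hm3 x hx) (hk3 x hx)
        inv_mem' := by
          rintro k ⟨hk1, hk2, hk3⟩
          refine ⟨inv_mem hk1, fun w hw => ?_, fun x hx => ?_⟩
          · rw [inv_mul_eq_iff_eq_mul, ← mul_assoc, hk2 w hw, mul_inv_cancel_right]
          · have h6 : k⁻¹ * x * k ∈ V := (mem_normalizer_iff''.mp hk1 x).mp hx
            have h7 := hk3 _ h6
            have h8 : k⁻¹ * x * k⁻¹⁻¹ * x⁻¹ = (k * (k⁻¹ * x * k) * k⁻¹ * (k⁻¹ * x * k)⁻¹)⁻¹ := by group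
            rw [h8]; exact inv_mem h7 }
    have hKS : K ≤ S := by
      refine sup_le ?_ ?_
      · intro c hc
        refine ⟨hCN hc, fun w hw => (mem_centralizer_iff.mp hc w (hZV hw)).symm, fun x hx => ?_⟩
        rw [← mem_centralizer_iff.mp hc x hx]
        have : x * c * c⁻¹ * x⁻¹ = 1 := by group
        rw [this]; exact one_mem _
      · intro u hu
        exact ⟨hPV hu, fun w hw => D.cen w hw u hu, fun x hx => D.comm u hu x (hV hx)⟩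
    exact fun k hk => hKS hk
  obtain ⟨s1, s2, s3⟩ := hS h₁ hh₁
  refine ⟨h₁ * g₀, ?_, mul_mem s1 g₀.2, ⟨z', hz'V, hz1, ?_⟩, ?_⟩
  · apply H12.Basic.mem_normalizer_of_conj
    intro u hu
    have h5 := hcon _ ⟨u, hu, rfl⟩
    have h6 : h₁ * g₀ * u * (h₁ * (g₀ : G))⁻¹ = h₁ * ((g₀ : G) * u * (g₀ : G)⁻¹) * h₁⁻¹ := by group
    rw [h6]; exact h5
  · set m := ((l⁻¹ : (ZMod p)ˣ) : ZMod p).val with hm
    have h5 := s3 _ (pow_mem hz'V m)
    refine ⟨_, h5, ?_⟩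
    rw [hVab _ (pow_mem hz'V m) _ (hZV h5)]
    have h6 : h₁ * g₀ * z' * (h₁ * (g₀ : G))⁻¹ = h₁ * ((g₀ : G) * z' * (g₀ : G)⁻¹) * h₁⁻¹ := by group
    rw [h6, hg₀z']; group
  · intro w hw
    obtain ⟨n, rfl⟩ := D.zgen hz hzne w hw
    have h6 : h₁ * g₀ * z ^ n * (h₁ * (g₀ : G))⁻¹ = h₁ * ((g₀ : G) * z * (g₀ : G)⁻¹) ^ n * h₁⁻¹ := by
      rw [conj_pow]; group
    rw [h6, hg₀z, s2 _ (pow_mem (pow_mem hz _) _), mul_inv_cancel_right, ← pow_mul, ← pow_mul, mul_comm]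

end H76.RV5
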