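import Mathlib
import Cfsg.Agent.Lib.H76.RV5
import Cfsg.Agent.Lib.H1.Cores

/-!
Bounds for fusion on `p^{1+2}_+`.
-/

set_option autoImplicit false

open Subgroup
open scoped Pointwise

namespace H76.RV6

open H76.RV1 H76.RV2 H76.RV3 H76.RV4 H76.RV5

theorem comm_pow1 {G : Type*} [Group G] {x y t : G} (h : x * y = t * (y * x)) (htx : t * x = x * t) (a : ℕ) :
    x ^ a * y = t ^ a * (y * x ^ a) := by
  induction a with
  | zero => simp
  | succ a ih =>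
    have h1 : x * t ^ a = t ^ a * x := ((show Commute t x from htx).pow_left a).eq.symm
    calc x ^ (a + 1) * y = x * (x ^ a * y) := by rw [pow_succ']; group
      _ = (x * t ^ a) * y * x ^ a := by rw [ih]; group
      _ = t ^ a * (x * y) * x ^ a := by rw [h1]; group
      _ = t ^ a * (t * (y * x)) * x ^ a := by rw [h]
      _ = t ^ (a + 1) * (y * x ^ (a + 1)) := by rw [pow_succ t, pow_succ' x]; group

theorem comm_pow2 {G : Type*} [Group G] {x y t : G} (h : x * y = t * (y * x)) (htx : t * x = x * t)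
    (hty : t * y = y * t) (a b : ℕ) : x ^ a * y ^ b = t ^ (a * b) * (y ^ b * x ^ a) := by
  induction b with
  | zero => simp
  | succ b ih =>
    have h1 := comm_pow1 h htx a
    have h2 : y ^ b * t ^ a = t ^ a * y ^ b := ((show Commute t y from hty).pow_pow a b).eq.symm
    calc x ^ a * y ^ (b + 1) = (x ^ a * y ^ b) * y := by rw [pow_succ]; group
      _ = t ^ (a * b) * y ^ b * (x ^ a * y) := by rw [ih]; group
      _ = t ^ (a * b) * (y ^ b * t ^ a) * (y * x ^ a) := by rw [h1]; group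
      _ = t ^ (a * b) * t ^ a * (y ^ b * y) * x ^ a := by rw [h2]; group
      _ = t ^ (a * (b + 1)) * (y ^ (b + 1) * x ^ a) := by rw [← pow_add, ← pow_succ, mul_add, mul_one]; group

variable {G : Type*} [Group G] [Finite G] {p : ℕ} [hp : Fact p.Prime] {P Z : Subgroup G}

omit [Finite G] in
theorem cast_eq_of_pow {t : G} (htp : t ^ p = 1) (ht : t ≠ 1) {i j : ℕ} (h : t ^ i = t ^ j) : (i : ZMod p) = j := by
  rw [pow_eq_pow_iff_modEq, orderOf_eq_prime htp ht] at h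
  exact (ZMod.natCast_eq_natCast_iff i j p).mpr h

theorem order_dvd (D : Data p P Z) {g x : G} (hg : g ∈ normalizer (P : Set G)) (hx : x ∈ P) (hxZ : x ∉ Z) {l m : ℕ}
    (hw : ∃ w ∈ Z, g * x * g⁻¹ = x ^ m * w) (hgz : ∀ w ∈ Z, g * w * g⁻¹ = w ^ l) (k c : ℕ)
    (hc : ∀ u ∈ P, ∃ w ∈ Z, g ^ k * u * (g ^ k)⁻¹ = u ^ c * w) (hlm : (l : ZMod p) * m = 1) :
    (l : ZMod p) ^ (3 * k) = 1 := by
  have h1 : ∀ k : ℕ, ∃ w ∈ Z, g ^ k * x * (g ^ k)⁻¹ = x ^ (m ^ k) * w := by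
    intro k
    induction k with
    | zero => exact ⟨1, one_mem _, by simp⟩
    | succ k ih =>
      obtain ⟨w, hwZ, hw1⟩ := ih
      obtain ⟨w0, hw0Z, hw0⟩ := hw
      refine ⟨w0 ^ (m ^ k) * w ^ l, mul_mem (pow_mem hw0Z _) (pow_mem hwZ _), ?_⟩
      have h2 : g ^ (k + 1) * x * (g ^ (k + 1))⁻¹ = g * (g ^ k * x * (g ^ k)⁻¹) * g⁻¹ := by rw [pow_succ' g k]; group
      have h3 : g * (x ^ (m ^ k) * w) * g⁻¹ = (g * x * g⁻¹) ^ (m ^ k) * (g * w * g⁻¹) := by rw [conj_pow]; group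
      have h4 : Commute (x ^ m) w0 := D.cen w0 hw0Z _ (pow_mem hx m)
      rw [h2, hw1, h3, hgz w hwZ, hw0, h4.mul_pow, ← pow_mul, ← pow_succ']
      group
  have h2 : ∀ k : ℕ, ∀ w ∈ Z, g ^ k * w * (g ^ k)⁻¹ = w ^ (l ^ k) := by
    intro k
    induction k with
    | zero => intro w _; simp
    | succ k ih =>
      intro w hwZ
      have h3 : g ^ (k + 1) * w * (g ^ (k + 1))⁻¹ = g * (g ^ k * w * (g ^ k)⁻¹) * g⁻¹ := by rw [pow_succ' g k]; group
      rw [h3, ih w hwZ, ← conj_pow, hgz w hwZ, ← pow_mul, ← pow_succ']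
  -- `c = m^k`
  have hcm : (c : ZMod p) = (m : ZMod p) ^ k := by
    obtain ⟨w1, hw1Z, e1⟩ := h1 k
    obtain ⟨w2, hw2Z, e2⟩ := hc x hx
    rw [e1] at e2
    have h3 : x ^ ((m ^ k : ℕ) - (c : ℤ)) ∈ Z := by
      have h4 : x ^ ((m ^ k : ℕ) - (c : ℤ)) = w2 * w1⁻¹ := by
        rw [zpow_sub, zpow_natCast, zpow_natCast]
        have h5 : x ^ c * w2 = w2 * x ^ c := D.cen w2 hw2Z _ (pow_mem hx c)
        have h6 : x ^ (m ^ k) = x ^ c * w2 * w1⁻¹ := by rw [← e2]; group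
        have h7 : x ^ c * (w2 * w1⁻¹) = (w2 * w1⁻¹) * x ^ c :=
          D.cen _ (mul_mem hw2Z (inv_mem hw1Z)) _ (pow_mem hx c)
        rw [h6, mul_assoc (x ^ c), h7]; group
      rw [h4]; exact mul_mem hw2Z (inv_mem hw1Z)
    by_contra hne
    apply hxZ
    have h4 : ¬ (p : ℤ) ∣ ((m ^ k : ℕ) - (c : ℤ)) := by
      intro h
      apply hne
      have h6 := (ZMod.intCast_zmod_eq_zero_iff_dvd _ _).mpr h
      push_cast at h6
      rw [sub_eq_zero] at h6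
      exact h6.symm
    have hcop : IsCoprime (p : ℤ) (((m ^ k : ℕ) : ℤ) - (c : ℤ)) :=
      (Int.isCoprime_iff_gcd_eq_one.mpr ((Nat.Prime.coprime_iff_not_dvd hp.out).mpr
        (fun h => h4 (Int.natCast_dvd.mpr h))))
    obtain ⟨a, b, hab⟩ := hcop
    have h5 : x = (x ^ (((m ^ k : ℕ) : ℤ) - (c : ℤ))) ^ b := by
      conv_lhs => rw [← zpow_one x, ← hab]
      rw [zpow_add, mul_comm a, zpow_mul, zpow_natCast, D.exp x hx, one_zpow, one_mul, mul_comm b, zpow_mul]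
    rw [h5]; exact zpow_mem h3 b
  obtain ⟨y, hy, hyx⟩ := D.partner hx hxZ
  set t := x * y * x⁻¹ * y⁻¹ with ht
  have htZ : t ∈ Z := D.comm x hx y hy
  have ht1 : t ≠ 1 := by
    intro h
    apply hyx
    calc y * x = (x * y * x⁻¹ * y⁻¹)⁻¹ * (x * y) := by group
      _ = x * y := by rw [← ht, h]; group
  have htx : t * x = x * t := (D.cen t htZ x hx).symm
  have hty : t * y = y * t := (D.cen t htZ y hy).symm
  have hxy : x * y = t * (y * x) := by rw [ht]; group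
  obtain ⟨w1, hw1Z, e1⟩ := h1 k
  obtain ⟨w2, hw2Z, e2⟩ := hc y hy
  have h3 : g ^ k * t * (g ^ k)⁻¹ = t ^ (m ^ k * c) := by
    have h4 : g ^ k * t * (g ^ k)⁻¹ = (g ^ k * x * (g ^ k)⁻¹) * (g ^ k * y * (g ^ k)⁻¹) *
        (g ^ k * x * (g ^ k)⁻¹)⁻¹ * (g ^ k * y * (g ^ k)⁻¹)⁻¹ := by rw [ht]; group
    rw [h4, e1, e2]
    have h5 := comm_pow2 hxy htx hty (m ^ k) c
    have f1 : w1 * y ^ c = y ^ c * w1 := (D.cen w1 hw1Z _ (pow_mem hy c)).symm
    have f2 : w2 * x ^ (m ^ k) = x ^ (m ^ k) * w2 := (D.cen w2 hw2Z _ (pow_mem hx _)).symm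
    have f3 : w1 * w2 = w2 * w1 := D.cen w2 hw2Z w1 (D.ZP hw1Z)
    have f4 : w1 * x ^ (m ^ k) = x ^ (m ^ k) * w1 := (D.cen w1 hw1Z _ (pow_mem hx _)).symm
    have f5 : w2 * y ^ c = y ^ c * w2 := (D.cen w2 hw2Z _ (pow_mem hy c)).symm
    set X := x ^ (m ^ k)
    set Y := y ^ c
    have h6 : (X * w1) * (Y * w2) = t ^ (m ^ k * c) * ((Y * w2) * (X * w1)) := by
      calc (X * w1) * (Y * w2) = X * (w1 * Y) * w2 := by group
        _ = (X * Y) * w1 * w2 := by rw [f1]; group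
        _ = t ^ (m ^ k * c) * Y * X * (w1 * w2) := by rw [h5]; group
        _ = t ^ (m ^ k * c) * Y * (X * w2) * w1 := by rw [f3]; group
        _ = t ^ (m ^ k * c) * ((Y * w2) * (X * w1)) := by rw [← f2]; group
    calc X * w1 * (Y * w2) * (X * w1)⁻¹ * (Y * w2)⁻¹ = ((X * w1) * (Y * w2)) * ((Y * w2) * (X * w1))⁻¹ := by group
      _ = t ^ (m ^ k * c) := by rw [h6]; group
  rw [h2 k t htZ] at h3
  have h4 := cast_eq_of_pow (D.exp t (D.ZP htZ)) ht1 h3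
  push_cast at h4
  rw [hcm] at h4
  calc (l : ZMod p) ^ (3 * k) = (l : ZMod p) ^ k * ((l : ZMod p) ^ k * (l : ZMod p) ^ k) := by ring
    _ = ((m : ZMod p) ^ k * (m : ZMod p) ^ k) * ((l : ZMod p) ^ k * (l : ZMod p) ^ k) := by rw [← h4]
    _ = ((l : ZMod p) * m) ^ (2 * k) := by ring
    _ = 1 := by rw [hlm, one_pow]

end H76.RV6
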