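import Mathlib
import Cfsg.Agent.Lib.H76.RV6

/-!
Bounds for fusion on `p^{1+2}_+`: passage to `N_G(P)/Z(P)`.
-/

set_option autoImplicit false

open Subgroup
open scoped Pointwise

namespace H76.RV7

open H76.RV1 H76.RV2 H76.RV3 H76.RV4 H76.RV5 H76.RV6

universe u

variable {G : Type u} [Group G] [Finite G] {p : ℕ} [hp : Fact p.Prime] {P Z : Subgroup G}

omit [Finite G] in
theorem le_normalizer_Z (D : Data p P Z) : normalizer (P : Set G) ≤ normalizer (Z : Set G) := by
  apply H1.Coprime.le_normalizer_of_conj_mem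
  intro g hg z hz
  apply D.cen'
  · exact (mem_normalizer_iff.mp hg z).mp (D.ZP hz)
  · intro u hu
    have h1 : g⁻¹ * u * g ∈ P := (mem_normalizer_iff''.mp hg u).mp hu
    have h2 := D.cen z hz _ h1
    calc u * (g * z * g⁻¹) = g * ((g⁻¹ * u * g) * z) * g⁻¹ := by group
      _ = g * z * g⁻¹ * u := by rw [h2]; group

theorem quotient_setup (D : Data p P Z) {n : ℕ} (V : Fin n → Subgroup G) (hV : ∀ i, V i ≤ P)
    (hVc : ∀ i, Nat.card (V i) = p ^ 2) (hinj : Function.Injective V) (g : Fin n → G)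
    (hgP : ∀ i, g i ∈ normalizer (P : Set G)) (hgV : ∀ i, g i ∈ normalizer (V i : Set G)) :
    ∃ (Γ : Type u) (_ : Group Γ) (_ : Finite Γ) (A : Subgroup Γ) (_ : A.Normal) (L : Fin n → Subgroup Γ)
      (g' : Fin n → Γ), (∀ a ∈ A, ∀ b ∈ A, a * b = b * a) ∧ (∀ a ∈ A, a ^ p = 1) ∧ Nat.card A = p ^ 2 ∧
      ¬ p ∣ A.index ∧ (∀ i, L i ≤ A) ∧ (∀ i, Nat.card (L i) = p) ∧ Function.Injective L ∧
      (∀ i, MulAut.conj (g' i) • L i = L i) ∧
      ∀ i k, PM A (g' i ^ k) → ∃ c : ℕ, ∀ u ∈ P, ∃ w ∈ Z, g i ^ k * u * (g i ^ k)⁻¹ = u ^ c * w := by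
  set N := normalizer (P : Set G) with hN
  have hPN : P ≤ N := le_normalizer
  have hZN : Z ≤ N := D.ZP.trans hPN
  let Zn : Subgroup N := Z.subgroupOf N
  have hZn : Zn.Normal := (Subgroup.normal_subgroupOf_iff_le_normalizer hZN).mpr (le_normalizer_Z D)
  let Pn : Subgroup N := P.subgroupOf N
  have hPn : Pn.Normal := (Subgroup.normal_subgroupOf_iff_le_normalizer hPN).mpr le_rfl
  let π := QuotientGroup.mk' Zn
  have hπs : Function.Surjective π := QuotientGroup.mk'_surjective Zn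
  have hker : ∀ x : N, π x = 1 ↔ (x : G) ∈ Z := fun x => QuotientGroup.eq_one_iff x
  have heq : ∀ x y : N, π x = π y ↔ ∃ w ∈ Z, (x : G) = y * w := by
    intro x y
    constructor
    · intro h
      have h1 : π (y⁻¹ * x) = 1 := by rw [map_mul, map_inv, h, inv_mul_cancel]
      rw [hker] at h1
      exact ⟨_, h1, by show (x : G) = y * ((y : G)⁻¹ * x); group⟩
    · rintro ⟨w, hw, h⟩
      have h1 : π (y⁻¹ * x) = 1 := by
        rw [hker]
        show (y : G)⁻¹ * x ∈ Z
        rw [h, inv_mul_cancel_left]; exact hw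
      rw [map_mul, map_inv, inv_mul_eq_one] at h1
      exact h1.symm
  have hZc : Nat.card Zn = p := by
    rw [← D.cardZ]; exact Nat.card_congr (subgroupOfEquivOfLe hZN).toEquiv
  have hPc : Nat.card Pn = p ^ 3 := by
    rw [← D.card]; exact Nat.card_congr (subgroupOfEquivOfLe hPN).toEquiv
  have hZP : Zn ≤ Pn := fun x hx => D.ZP hx
  have hp0 : 0 < p := hp.out.pos
  have hAcard : Nat.card (Pn.map π) = p ^ 2 := by
    have h1 := H1.Cores.card_map_mk' Zn Pn hZP
    rw [hZc, hPc] at h1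
    have h2 : p * Nat.card (Pn.map π) = p * p ^ 2 := by rw [← pow_succ']; exact h1
    exact Nat.eq_of_mul_eq_mul_left hp0 h2
  have hVN : ∀ i, V i ≤ N := fun i => (hV i).trans hPN
  have hZV : ∀ i, Z ≤ V i := fun i => (D.card_sq (hV i) (hVc i)).2.1
  let L : Fin n → Subgroup (N ⧸ Zn) := fun i => ((V i).subgroupOf N).map π
  have hcomap : ∀ i, (L i).comap π = (V i).subgroupOf N := by
    intro i
    show (((V i).subgroupOf N).map π).comap π = _
    rw [comap_map_eq, QuotientGroup.ker_mk', sup_eq_left]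
    exact fun x hx => hZV i hx
  refine ⟨N ⧸ Zn, inferInstance, inferInstance, Pn.map π, inferInstance, L, fun i => π ⟨g i, hgP i⟩, ?_, ?_, hAcard,
    ?_, ?_, ?_, ?_, ?_, ?_⟩
  · rintro _ ⟨a, ha, rfl⟩ _ ⟨b, hb, rfl⟩
    rw [← map_mul, ← map_mul, heq]
    refine ⟨(a : G)⁻¹ * (b : G)⁻¹ * a * b, ?_, ?_⟩
    · have h1 := D.comm _ (inv_mem ha) _ (inv_mem hb)
      rwa [inv_inv, inv_inv] at h1
    · show (a : G) * b = (b : G) * a * ((a : G)⁻¹ * (b : G)⁻¹ * a * b)
      group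
  · rintro _ ⟨a, ha, rfl⟩
    rw [← map_pow, hker]
    show (a : G) ^ p ∈ Z
    rw [D.exp a ha]; exact one_mem _
  · intro h
    apply D.ndvd
    have h1 : (Pn.map π).index = Pn.index := by
      rw [← index_comap_of_surjective _ hπs, comap_map_eq, QuotientGroup.ker_mk', sup_eq_left.mpr hZP]
    rw [h1] at h
    have h2 : Pn.index ∣ P.index := relIndex_dvd_index_of_le hPN
    exact h.trans h2
  · exact fun i => map_mono (fun x hx => hV i hx)
  · intro i
    have h1 := H1.Cores.card_map_mk' Zn ((V i).subgroupOf N) (fun x hx => hZV i hx)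
    have h2 : Nat.card ((V i).subgroupOf N) = p ^ 2 := by
      rw [← hVc i]; exact Nat.card_congr (subgroupOfEquivOfLe (hVN i)).toEquiv
    rw [hZc, h2] at h1
    have h3 : p * Nat.card (((V i).subgroupOf N).map π) = p * p := by rw [← pow_two]; exact h1
    exact Nat.eq_of_mul_eq_mul_left hp0 h3
  · intro i j hij
    apply hinj
    have h1 : (V i).subgroupOf N = (V j).subgroupOf N := by rw [← hcomap i, ← hcomap j, hij]
    have h2 := congrArg (Subgroup.map N.subtype) h1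
    rw [subgroupOf_map_subtype, subgroupOf_map_subtype, inf_eq_left.mpr (hVN i), inf_eq_left.mpr (hVN j)] at h2
    exact h2
  · intro i
    apply Subgroup.eq_of_le_of_card_ge
    · rintro _ ⟨_, ⟨v, hv, rfl⟩, rfl⟩
      refine ⟨⟨g i, hgP i⟩ * v * ⟨g i, hgP i⟩⁻¹, ?_, ?_⟩
      · exact (mem_normalizer_iff.mp (hgV i) v).mp hv
      · rw [map_mul, map_mul, map_inv]; rfl
    · exact (Nat.card_congr (Subgroup.equivSMul (MulAut.conj (π ⟨g i, hgP i⟩)) (L i)).toEquiv.symm).ge
  · rintro i k ⟨c, hc⟩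
    refine ⟨c, fun u hu => ?_⟩
    have h1 := hc (π ⟨u, hPN hu⟩) ⟨_, hu, rfl⟩
    rw [← map_pow, ← map_mul, ← map_inv, ← map_mul, ← map_pow, heq] at h1
    exact h1

end H76.RV7
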