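import Mathlib
import Cfsg.Agent.Lib.H76.RV7

/-!
Bounds for fusion on `p^{1+2}_+`: the numerical bounds.
-/

set_option autoImplicit false

open Subgroup
open scoped Pointwise

namespace H76.RV8

open H76.RV1 H76.RV2 H76.RV3 H76.RV4 H76.RV5 H76.RV6 H76.RV7

universe u

variable {G : Type u} [Group G] [Finite G] {p : ℕ} [hp : Fact p.Prime] {P Z : Subgroup G}

theorem plane_step (D : Data p P Z) {n : ℕ} (V : Fin n → Subgroup G) (hV : ∀ i, V i ≤ P)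
    (hVc : ∀ i, Nat.card (V i) = p ^ 2) (hinj : Function.Injective V)
    (hmove : ∀ i, ∃ h ∈ normalizer (V i : Set G), ∃ z ∈ Z, h * z * h⁻¹ ∉ Z) :
    ∃ (Γ : Type u) (_ : Group Γ) (_ : Finite Γ) (A : Subgroup Γ) (_ : A.Normal) (L : Fin n → Subgroup Γ)
      (g' : Fin n → Γ), (∀ a ∈ A, ∀ b ∈ A, a * b = b * a) ∧ (∀ a ∈ A, a ^ p = 1) ∧ Nat.card A = p ^ 2 ∧
      ¬ p ∣ A.index ∧ (∀ i, L i ≤ A) ∧ (∀ i, Nat.card (L i) = p) ∧ Function.Injective L ∧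
      (∀ i, MulAut.conj (g' i) • L i = L i) ∧
      ∀ i k, PM A (g' i ^ k) → (p - 1) ∣ 3 * k := by
  obtain ⟨l, hl⟩ := IsCyclic.exists_ofOrder_eq_natCard (α := (ZMod p)ˣ)
  have hl' : orderOf l = p - 1 := by
    rw [hl, Nat.card_eq_fintype_card, ZMod.card_units]
  have hex : ∀ i, ∃ g ∈ normalizer (P : Set G), g ∈ normalizer (V i : Set G) ∧
      (∃ x ∈ V i, x ∉ Z ∧ ∃ w ∈ Z, g * x * g⁻¹ = x ^ ((l⁻¹ : (ZMod p)ˣ) : ZMod p).val * w) ∧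
      ∀ w ∈ Z, g * w * g⁻¹ = w ^ (l : ZMod p).val := by
    intro i
    obtain ⟨h, hh, z, hz, hz1⟩ := hmove i
    exact exists_diag D (hV i) (hVc i) hh hz hz1 l
  choose g hgP hgV hgx hgz using hex
  obtain ⟨Γ, i1, i2, A, i3, L, g', h1, h2, h3, h4, h5, h6, h7, h8, h9⟩ := quotient_setup D V hV hVc hinj g hgP hgV
  refine ⟨Γ, i1, i2, A, i3, L, g', h1, h2, h3, h4, h5, h6, h7, h8, fun i k hPM => ?_⟩
  obtain ⟨c, hc⟩ := h9 i k hPM
  obtain ⟨x, hxV, hxZ, hw⟩ := hgx i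
  have h10 := order_dvd D (hgP i) (hV i hxV) hxZ hw (hgz i) k c hc (by
    rw [ZMod.natCast_zmod_val, ZMod.natCast_zmod_val, ← Units.val_mul, mul_inv_cancel, Units.val_one])
  rw [ZMod.natCast_zmod_val, ← Units.val_pow_eq_pow_val, Units.val_eq_one] at h10
  rw [← hl']
  exact orderOf_dvd_of_pow_eq_one h10

theorem no_three_planes (D : Data p P Z) (V : Fin 3 → Subgroup G) (hV : ∀ i, V i ≤ P)
    (hVc : ∀ i, Nat.card (V i) = p ^ 2) (hinj : Function.Injective V)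
    (hmove : ∀ i, ∃ h ∈ normalizer (V i : Set G), ∃ z ∈ Z, h * z * h⁻¹ ∉ Z)
    (hk : ∀ k : ℕ, 0 < k → (p - 1) ∣ 3 * k → 6 ≤ k) : False := by
  obtain ⟨Γ, i1, i2, A, i3, L, g', h1, h2, h3, h4, h5, h6, h7, h8, h9⟩ := plane_step D V hV hVc hinj hmove
  exact no_three_big (p := p) h1 h2 h3 h4 g' L h5 h6 h7 h8 fun i k hk0 hPM => hk k hk0 (h9 i k hPM)

theorem no_thirteen_planes (D : Data p P Z) (V : Fin 13 → Subgroup G) (hV : ∀ i, V i ≤ P)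
    (hVc : ∀ i, Nat.card (V i) = p ^ 2) (hinj : Function.Injective V)
    (hmove : ∀ i, ∃ h ∈ normalizer (V i : Set G), ∃ z ∈ Z, h * z * h⁻¹ ∉ Z)
    (hk : ∀ k : ℕ, (p - 1) ∣ 3 * k → 4 ∣ k) : False := by
  obtain ⟨Γ, i1, i2, A, i3, L, g', h1, h2, h3, h4, h5, h6, h7, h8, h9⟩ := plane_step D V hV hVc hinj hmove
  exact no_thirteen (p := p) h1 h2 h3 h4 g' L h5 h6 h7 h8 fun i k hPM => hk k (h9 i k hPM)

/-- the arithmetic for `p ≥ 17` or `p = 11` -/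
theorem arith (hp11 : 11 ≤ p) (hp13 : p ≠ 13) : ∀ k : ℕ, 0 < k → (p - 1) ∣ 3 * k → 6 ≤ k := by
  intro k hk hdvd
  have h1 : p ≠ 12 := fun h => absurd (h ▸ hp.out) (by norm_num)
  have h2 : p ≠ 14 := fun h => absurd (h ▸ hp.out) (by norm_num)
  have h3 : p ≠ 15 := fun h => absurd (h ▸ hp.out) (by norm_num)
  have h4 : p ≠ 16 := fun h => absurd (h ▸ hp.out) (by norm_num)
  by_cases h5 : p = 11
  · subst h5
    obtain ⟨c, hc⟩ := hdvd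
    omega
  · have h6 := Nat.le_of_dvd (by omega) hdvd
    omega

end H76.RV8
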