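import Mathlib
import Cfsg.Agent.Lib.H76.RV8

/-!
Bounds for fusion on `p^{1+2}_+`: moving the centre.
-/

set_option autoImplicit false

open Subgroup
open scoped Pointwise

namespace H76.RV9

open H76.RV1 H76.RV2 H76.RV3 H76.RV4 H76.RV5 H76.RV6 H76.RV7 H76.RV8

universe u

section Trans

variable {p : ℕ} [hp : Fact p.Prime]

/-- a transvection of an elementary abelian group of order `p²` -/
theorem transvection {V : Type*} [Group V] [Finite V] (hab : ∀ a b : V, a * b = b * a) (hexp : ∀ a : V, a ^ p = 1)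
    (hcard : Nat.card V = p ^ 2) {z x : V} (hz : z ≠ 1) (hx : x ∉ zpowers z) :
    ∃ φ : MulAut V, orderOf φ = p ∧ φ z = z * x := by
  have hval : ∀ (u : V) (a b : ZMod p), u ^ (a + b).val = u ^ a.val * u ^ b.val := by
    intro u a b
    rw [← pow_add]
    apply pow_eq_of_dvd (hexp u)
    rw [← ZMod.intCast_zmod_eq_zero_iff_dvd]
    push_cast
    rw [ZMod.natCast_zmod_val, ZMod.natCast_zmod_val, ZMod.natCast_zmod_val, sub_self]
  let F : Multiplicative (ZMod p × ZMod p) →* V :=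
    { toFun := fun c => z ^ (c.toAdd.1).val * x ^ (c.toAdd.2).val
      map_one' := by simp
      map_mul' := by
        intro c d
        show z ^ (c.toAdd.1 + d.toAdd.1).val * x ^ (c.toAdd.2 + d.toAdd.2).val = _
        rw [hval, hval]
        have h1 := hab (z ^ (d.toAdd.1).val) (x ^ (c.toAdd.2).val)
        calc z ^ (c.toAdd.1).val * z ^ (d.toAdd.1).val * (x ^ (c.toAdd.2).val * x ^ (d.toAdd.2).val)
            = z ^ (c.toAdd.1).val * (z ^ (d.toAdd.1).val * x ^ (c.toAdd.2).val) * x ^ (d.toAdd.2).val := by group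
          _ = z ^ (c.toAdd.1).val * (x ^ (c.toAdd.2).val * z ^ (d.toAdd.1).val) * x ^ (d.toAdd.2).val := by rw [h1]
          _ = _ := by group }
  have hF : ∀ a b : ZMod p, F (Multiplicative.ofAdd (a, b)) = z ^ a.val * x ^ b.val := fun a b => rfl
  have hinj : Function.Injective F := by
    intro c d hcd
    have h1 := coord (hexp z) (hexp x) hz hx (hab z x) (a := c.toAdd.1) (b := c.toAdd.2) (i := (d.toAdd.1).val)
      (j := (d.toAdd.2).val) hcd
    rw [ZMod.natCast_zmod_val, ZMod.natCast_zmod_val] at h1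
    exact congrArg Multiplicative.ofAdd (Prod.ext h1.1 h1.2)
  have hcd : Nat.card (Multiplicative (ZMod p × ZMod p)) = Nat.card V := by
    rw [hcard]
    show Nat.card (ZMod p × ZMod p) = _
    rw [Nat.card_prod, Nat.card_zmod, pow_two]
  have hbij : Function.Bijective F := by
    have : Finite (Multiplicative (ZMod p × ZMod p)) := inferInstanceAs (Finite (ZMod p × ZMod p))
    exact (Nat.bijective_iff_injective_and_card F).mpr ⟨hinj, hcd⟩
  let e := MulEquiv.ofBijective F hbij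
  let T : (ZMod p × ZMod p) ≃+ (ZMod p × ZMod p) :=
    { toFun := fun c => (c.1, c.2 + c.1)
      invFun := fun c => (c.1, c.2 - c.1)
      left_inv := fun c => by simp
      right_inv := fun c => by simp
      map_add' := fun c d => by
        ext
        · rfl
        · show c.2 + d.2 + (c.1 + d.1) = c.2 + c.1 + (d.2 + d.1)
          ring }
  let φ : MulAut V := e.symm.trans ((AddEquiv.toMultiplicative T).trans e)
  have hφ : ∀ a b : ZMod p, φ (z ^ a.val * x ^ b.val) = z ^ a.val * x ^ (b + a).val := by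
    intro a b
    show e (AddEquiv.toMultiplicative T (e.symm (z ^ a.val * x ^ b.val))) = _
    have h1 : e.symm (z ^ a.val * x ^ b.val) = Multiplicative.ofAdd (a, b) := by
      rw [MulEquiv.symm_apply_eq]; rfl
    rw [h1]
    rfl
  have hφk : ∀ (k : ℕ) (a b : ZMod p), (φ ^ k) (z ^ a.val * x ^ b.val) = z ^ a.val * x ^ (b + k * a).val := by
    intro k
    induction k with
    | zero => intro a b; simp
    | succ k ih =>
      intro a b
      rw [pow_succ', MulAut.mul_apply, ih, hφ]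
      congr 3
      push_cast
      ring
  have hrep : ∀ v : V, ∃ a b : ZMod p, v = z ^ a.val * x ^ b.val := by
    intro v
    obtain ⟨c, hc⟩ := hbij.2 v
    exact ⟨c.toAdd.1, c.toAdd.2, hc.symm⟩
  have hφz : φ z = z * x := by
    have h1 := hφ 1 0
    have h2 : (1 : ZMod p).val = 1 := ZMod.val_one p
    rwa [zero_add, ZMod.val_zero, pow_zero, mul_one, h2, pow_one, pow_one] at h1
  refine ⟨φ, orderOf_eq_prime ?_ ?_, hφz⟩
  · ext v
    obtain ⟨a, b, rfl⟩ := hrep v
    rw [hφk, CharP.cast_eq_zero, zero_mul, add_zero]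
    rfl
  · intro h
    rw [h] at hφz
    have h1 : x = 1 := by
      have h2 : z = z * x := hφz
      exact (mul_eq_left.mp h2.symm)
    exact hx (by rw [h1]; exact one_mem _)

end Trans

variable {G : Type u} [Group G] [Finite G] {p : ℕ} [hp : Fact p.Prime] {P Z : Subgroup G}

theorem exists_notZ (D : Data p P Z) {V : Subgroup G} (hVc : Nat.card V = p ^ 2) : ∃ x ∈ V, x ∉ Z := by
  by_contra hcon
  push Not at hcon
  have h1 := card_le_of_le hcon
  rw [hVc, D.cardZ] at h1
  have h2 := hp.out.one_lt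
  nlinarith

/-- moving the centre when all automorphisms of order `p` are induced -/
theorem move_of_induced (D : Data p P Z) {V : Subgroup G} (hV : V ≤ P) (hVc : Nat.card V = p ^ 2)
    (hind : ∀ φ : MulAut V, orderOf φ = p → ∃ g : G, ∀ a : V, (φ a : G) = g * (a : G) * g⁻¹) :
    ∃ h ∈ normalizer (V : Set G), ∃ z ∈ Z, h * z * h⁻¹ ∉ Z := by
  obtain ⟨hab, hZV, -⟩ := D.card_sq hV hVc
  obtain ⟨z, hz, hz1⟩ := D.Z_ne
  obtain ⟨x, hx, hxZ⟩ := exists_notZ D hVc
  have hzx : (⟨x, hx⟩ : V) ∉ zpowers (⟨z, hZV hz⟩ : V) := by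
    rintro ⟨k, hk⟩
    apply hxZ
    have h1 : z ^ k = x := congrArg Subtype.val hk
    rw [← h1]
    exact zpow_mem hz k
  obtain ⟨φ, hφ, hφz⟩ := transvection (p := p) (V := V) (fun a b => Subtype.ext (hab a a.2 b b.2))
    (fun a => Subtype.ext (D.exp a (hV a.2))) hVc (z := ⟨z, hZV hz⟩) (x := ⟨x, hx⟩)
    (fun h => hz1 (congrArg Subtype.val h)) hzx
  obtain ⟨g, hg⟩ := hind φ hφ
  refine ⟨g, ?_, z, hz, ?_⟩
  · apply H12.Basic.mem_normalizer_of_conj
    intro v hv
    rw [← hg ⟨v, hv⟩]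
    exact (φ ⟨v, hv⟩).2
  · have h1 := hg ⟨z, hZV hz⟩
    rw [hφz] at h1
    have h2 : g * z * g⁻¹ = z * x := h1.symm
    rw [h2]
    intro h3
    exact hxZ (by simpa using mul_mem (inv_mem hz) h3)

/-- moving the centre when all elements are conjugate -/
theorem move_of_conj (D : Data p P Z) {V : Subgroup G} (hV : V ≤ P) (hVc : Nat.card V = p ^ 2)
    (hconj : ∀ x ∈ P, ∀ y ∈ P, x ≠ 1 → y ≠ 1 → ∃ g : G, g * x * g⁻¹ = y) :
    ∃ h ∈ normalizer (V : Set G), ∃ z ∈ Z, h * z * h⁻¹ ∉ Z := by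
  obtain ⟨hab, hZV, hPV⟩ := D.card_sq hV hVc
  obtain ⟨z, hz, hz1⟩ := D.Z_ne
  obtain ⟨x, hx, hxZ⟩ := exists_notZ D hVc
  obtain ⟨g0, hg0⟩ := hconj x (hV hx) z (D.ZP hz) (fun h => hxZ (by rw [h]; exact one_mem _)) hz1
  have hB : V.map (MulAut.conj g0).toMonoidHom ≤ centralizer {z} := by
    rintro _ ⟨v, hv, rfl⟩
    rw [mem_centralizer_singleton_iff]
    show g0 * v * g0⁻¹ * z = z * (g0 * v * g0⁻¹)
    rw [← hg0]
    have h1 := hab v hv x hx
    calc g0 * v * g0⁻¹ * (g0 * x * g0⁻¹) = g0 * (v * x) * g0⁻¹ := by group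
      _ = g0 * (x * v) * g0⁻¹ := by rw [h1]
      _ = _ := by group
  have hPC : P ≤ centralizer {z} := by
    intro u hu
    rw [mem_centralizer_singleton_iff]
    exact D.cen z hz u hu
  have hVp : IsPGroup p V := D.pgr.to_le hV
  obtain ⟨c, hc, hcV⟩ := D.conj (centralizer {z}) hPC hB (hVp.map _)
  set g1 := c * g0 with hg1
  have hg1x : g1 * x * g1⁻¹ = z := by
    have h1 : g1 * x * g1⁻¹ = c * (g0 * x * g0⁻¹) * c⁻¹ := by rw [hg1]; group
    rw [h1, hg0, mem_centralizer_singleton_iff.mp hc, mul_inv_cancel_right]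
  set V' := V.map (MulAut.conj g1).toMonoidHom with hV'
  have hV'P : V' ≤ P := by
    rintro _ ⟨v, hv, rfl⟩
    have h1 := hcV (g0 * v * g0⁻¹) ⟨v, hv, rfl⟩
    have h2 : (MulAut.conj g1).toMonoidHom v = c * (g0 * v * g0⁻¹) * c⁻¹ := by
      show g1 * v * g1⁻¹ = _
      rw [hg1]; group
    rw [h2]; exact h1
  have hV'c : Nat.card V' = p ^ 2 := by
    rw [← hVc]
    exact Nat.card_congr (V.equivMapOfInjective _ (MulAut.conj g1).injective).toEquiv.symm
  obtain ⟨-, -, hPV'⟩ := D.card_sq hV'P hV'c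
  have hB2 : P.map (MulAut.conj g1).toMonoidHom ≤ normalizer (V' : Set G) := by
    apply H1.Coprime.le_normalizer_of_conj_mem
    rintro _ ⟨u, hu, rfl⟩ _ ⟨v, hv, rfl⟩
    refine ⟨u * v * u⁻¹, (mem_normalizer_iff.mp (hPV hu) v).mp hv, ?_⟩
    rw [map_mul, map_mul, map_inv]
  obtain ⟨k, hk, hkP⟩ := D.conj (normalizer (V' : Set G)) hPV' hB2 (D.pgr.map _)
  set n := k * g1 with hn
  have hnP : n ∈ normalizer (P : Set G) := by
    apply H12.Basic.mem_normalizer_of_conj
    intro u hu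
    have h1 := hkP _ ⟨u, hu, rfl⟩
    have h2 : n * u * n⁻¹ = k * (MulAut.conj g1).toMonoidHom u * k⁻¹ := by
      show n * u * n⁻¹ = k * (g1 * u * g1⁻¹) * k⁻¹
      rw [hn]; group
    rw [h2]; exact h1
  have hnZ := le_normalizer_Z D hnP
  refine ⟨g1⁻¹ * n, ?_, n⁻¹ * z * n, (mem_normalizer_iff''.mp hnZ z).mp hz, ?_⟩
  · apply H12.Basic.mem_normalizer_of_conj
    intro v hv
    have h1 : k * (g1 * v * g1⁻¹) * k⁻¹ ∈ V' := (mem_normalizer_iff.mp hk _).mp ⟨v, hv, rfl⟩
    obtain ⟨w, hw, hw1⟩ := h1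
    have h2 : g1 * w * g1⁻¹ = k * (g1 * v * g1⁻¹) * k⁻¹ := hw1
    have h3 : g1⁻¹ * n * v * (g1⁻¹ * n)⁻¹ = w := by
      calc g1⁻¹ * n * v * (g1⁻¹ * n)⁻¹ = g1⁻¹ * (k * (g1 * v * g1⁻¹) * k⁻¹) * g1 := by rw [hn]; group
        _ = g1⁻¹ * (g1 * w * g1⁻¹) * g1 := by rw [h2]
        _ = w := by group
    rw [h3]; exact hw
  · have h1 : g1⁻¹ * n * (n⁻¹ * z * n) * (g1⁻¹ * n)⁻¹ = g1⁻¹ * z * g1 := by group
    have h2 : g1⁻¹ * z * g1 = x := by rw [← hg1x]; group
    rw [h1, h2]; exact hxZ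

/-- enough subgroups of order `p²` -/
theorem exists_planes (D : Data p P Z) (n : ℕ) (hn : n ≤ p) :
    ∃ V : Fin n → Subgroup G, (∀ i, V i ≤ P) ∧ (∀ i, Nat.card (V i) = p ^ 2) ∧ Function.Injective V := by
  obtain ⟨x, hx, hxZ⟩ := D.exists_nonZ
  obtain ⟨y, hy, hyx⟩ := D.partner hx hxZ
  have hu : ∀ i : ℕ, x * y ^ i ∈ P := fun i => mul_mem hx (pow_mem hy i)
  have huZ : ∀ i : ℕ, x * y ^ i ∉ Z := by
    intro i hi
    have h1 := D.cen _ hi y hy
    apply hyx
    have h2 : y * x * y ^ i = x * y * y ^ i := by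
      calc y * x * y ^ i = y * (x * y ^ i) := by group
        _ = x * y ^ i * y := h1
        _ = x * (y ^ i * y) := by group
        _ = x * (y * y ^ i) := by rw [← pow_succ, ← pow_succ']
        _ = x * y * y ^ i := by group
    exact mul_right_cancel h2
  have hcard : ∀ i : ℕ, Nat.card (P ⊓ centralizer {x * y ^ i} : Subgroup G) = p ^ 2 := by
    intro i
    obtain ⟨k, hk⟩ := IsPGroup.iff_card.mp (D.pgr.to_le (inf_le_left : P ⊓ centralizer {x * y ^ i} ≤ P))
    have hZl : Z ≤ P ⊓ centralizer {x * y ^ i} := by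
      refine le_inf D.ZP ?_
      intro z hz
      rw [mem_centralizer_singleton_iff]
      exact (D.cen z hz _ (hu i)).symm
    have hmem : x * y ^ i ∈ P ⊓ centralizer {x * y ^ i} := mem_inf.mpr ⟨hu i, by
      rw [mem_centralizer_singleton_iff]⟩
    have h1 : 1 < k := by
      by_contra hcon
      have h2 : Nat.card (P ⊓ centralizer {x * y ^ i} : Subgroup G) ≤ Nat.card Z := by
        rw [hk, D.cardZ]
        calc p ^ k ≤ p ^ 1 := Nat.pow_le_pow_right hp.out.pos (by omega)
          _ = p := pow_one p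
      have h3 := Subgroup.eq_of_le_of_card_ge hZl h2
      rw [← h3] at hmem
      exact huZ i hmem
    have h2 : k < 3 := by
      by_contra hcon
      have h3 : Nat.card P ≤ Nat.card (P ⊓ centralizer {x * y ^ i} : Subgroup G) := by
        rw [hk, D.card]
        exact Nat.pow_le_pow_right hp.out.pos (by omega)
      have h4 := Subgroup.eq_of_le_of_card_ge (inf_le_left : P ⊓ centralizer {x * y ^ i} ≤ P) h3
      apply huZ i
      apply D.cen' _ (hu i)
      intro g hg
      rw [← h4] at hg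
      exact mem_centralizer_singleton_iff.mp hg.2
    have h3 : k = 2 := by omega
    rw [hk, h3]
  refine ⟨fun i => P ⊓ centralizer {x * y ^ (i : ℕ)}, fun i => inf_le_left, fun i => hcard i, ?_⟩
  have key : ∀ i j : ℕ, i < j → j < p → P ⊓ centralizer {x * y ^ i} ≠ P ⊓ centralizer {x * y ^ j} := by
    intro i j hij hjp heq
    set V := P ⊓ centralizer {x * y ^ i} with hV
    have hmi : x * y ^ i ∈ V := mem_inf.mpr ⟨hu i, by rw [mem_centralizer_singleton_iff]⟩
    have hmj : x * y ^ j ∈ V := by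
      rw [heq]
      exact mem_inf.mpr ⟨hu j, by rw [mem_centralizer_singleton_iff]⟩
    obtain ⟨hab, -, -⟩ := D.card_sq (inf_le_left : V ≤ P) (hcard i)
    have h1 : y ^ (j - i) ∈ V := by
      have h2 : y ^ (j - i) = (x * y ^ i)⁻¹ * (x * y ^ j) := by
        have h3 : y ^ j = y ^ i * y ^ (j - i) := by rw [← pow_add]; congr 1; omega
        rw [h3]; group
      rw [h2]
      exact mul_mem (inv_mem hmi) hmj
    have hcop : IsCoprime ((j - i : ℕ) : ℤ) (p : ℤ) := by
      rw [Nat.isCoprime_iff_coprime]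
      refine Nat.Coprime.symm ((hp.out.coprime_iff_not_dvd).mpr fun h => ?_)
      have := Nat.le_of_dvd (by omega) h
      omega
    obtain ⟨a, b, hab'⟩ := hcop
    have hyV : y ∈ V := by
      have h2 : y = (y ^ (j - i)) ^ a * (y ^ p) ^ b := by
        conv_lhs => rw [← zpow_one y, ← hab', zpow_add, mul_comm a, mul_comm b, zpow_mul, zpow_mul, zpow_natCast,
          zpow_natCast]
      rw [h2, D.exp y hy, one_zpow, mul_one]
      exact zpow_mem h1 a
    have hxV : x ∈ V := by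
      have h2 : x = x * y ^ i * (y ^ i)⁻¹ := by group
      rw [h2]
      exact mul_mem hmi (inv_mem (pow_mem hyV i))
    exact hyx (hab y hyV x hxV)
  intro i j hij
  rcases lt_trichotomy (i : ℕ) (j : ℕ) with h | h | h
  · exact absurd hij (key i j h (lt_of_lt_of_le j.2 hn))
  · exact Fin.ext h
  · exact absurd hij.symm (key j i h (lt_of_lt_of_le i.2 hn))

end H76.RV9
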