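import Mathlib
import Cfsg.Agent.Lib.H76.EigenAut

/-! Elementary abelian automorphism group of order 8 with few broad elements. -/

set_option autoImplicit false
set_option linter.unusedSectionVars false
open Cfsg

namespace H76.ThreeBroad

open Subgroup H76.EigenAut

variable {P : Type*} [Group P] [Finite P]

theorem odd_card {p : ℕ} (hp : p.Prime) (hp2 : p ≠ 2) (hP : IsPGroup p P) : Odd (Nat.card P) := by
  have := Fact.mk hp
  obtain ⟨n, hn⟩ := IsPGroup.iff_card.mp hP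
  rw [hn]
  exact (hp.odd_of_ne_two hp2).pow

theorem orderOf_eq {p : ℕ} (hp : p.Prime) (hP : IsPGroup p P) {a : P} (ha : (orderOf a).Prime) :
    orderOf a = p := by
  obtain ⟨k, hk⟩ := hP a
  have h1 := orderOf_dvd_of_pow_eq_one hk
  exact (Nat.prime_dvd_prime_iff_eq ha hp).1 (ha.dvd_of_dvd_pow h1)

theorem inv_ne {p : ℕ} (hp2 : p ≠ 2) (hp : p.Prime) {a : P} (ha : orderOf a = p) : a⁻¹ ≠ a := by
  intro h
  have h3 : a ^ 2 = 1 := by
    rw [pow_two]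
    nth_rewrite 1 [← h]
    exact inv_mul_cancel _
  have h4 := orderOf_dvd_of_pow_eq_one h3
  rw [ha] at h4
  exact hp2 ((Nat.prime_dvd_prime_iff_eq hp Nat.prime_two).1 h4)

/-- index of the stabilizer of an eigen-element -/
theorem index_stab_le {I : Subgroup (MulAut P)} {a : P} (ha : ∀ i ∈ I, i a = a ∨ i a = a⁻¹) :
    (MulAction.stabilizer I a).index ≤ 2 := by
  rw [MulAction.index_stabilizer]
  have h1 : MulAction.orbit I a ⊆ {a, a⁻¹} := by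
    rintro _ ⟨i, rfl⟩
    rcases ha i i.2 with h | h
    · left; exact h
    · right; exact h
  calc (MulAction.orbit I a).ncard ≤ ({a, a⁻¹} : Set P).ncard := Set.ncard_le_ncard h1 (Set.toFinite _)
    _ ≤ 2 := (Set.ncard_insert_le a {a⁻¹}).trans (by rw [Set.ncard_singleton])

theorem exists_moved {j : MulAut P} (hj : j ≠ 1) : ∃ x ∈ (⊤ : Subgroup P), j x ≠ x := by
  by_contra hcon
  push Not at hcon
  exact hj (MulEquiv.ext fun x => hcon x (mem_top x))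

/-- existence of the dual bases -/
theorem exists_basis {p : ℕ} (hp : p.Prime) (hp2 : p ≠ 2) (hP : IsPGroup p P)
    {I : Subgroup (MulAut P)} (hI : ∀ i ∈ I, i * i = 1) (hI8 : Nat.card I = 8) :
    ∃ e₁ ∈ I, ∃ e₂ ∈ I, ∃ e₃ ∈ I, ∃ a₁ a₂ a₃ : P, (orderOf a₁ = p ∧ orderOf a₂ = p ∧ orderOf a₃ = p) ∧
      (e₁ a₁ = a₁⁻¹ ∧ e₁ a₂ = a₂ ∧ e₁ a₃ = a₃) ∧ (e₂ a₁ = a₁ ∧ e₂ a₂ = a₂⁻¹ ∧ e₂ a₃ = a₃) ∧
      (e₃ a₁ = a₁ ∧ e₃ a₂ = a₂ ∧ e₃ a₃ = a₃⁻¹) := by
  have hodd := odd_card hp hp2 hP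
  have hI1 : ∃ j ∈ I, j ≠ 1 := by
    have h1 : I ≠ ⊥ := by
      intro h
      rw [h, card_bot] at hI8
      omega
    exact (Subgroup.bot_or_exists_ne_one I).resolve_left h1
  obtain ⟨j₁, hj₁, hj₁1⟩ := hI1
  obtain ⟨a₁, -, hE₁, hja₁, ho₁, -⟩ := exists_eig_aut hodd hI (X := ⊤) (fun _ _ _ _ => mem_top _) hj₁
    (exists_moved hj₁1)
  -- j₂
  have hex : ∀ H : Subgroup I, H.index ≤ 4 → ∃ j ∈ I, j ≠ 1 ∧ ∀ h : j ∈ I, (⟨j, h⟩ : I) ∈ H := by
    intro H hH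
    have h1 : H ≠ ⊥ := by
      intro h
      have h2 := H.card_mul_index
      rw [h, card_bot, one_mul, hI8] at h2
      rw [h] at hH
      omega
    obtain ⟨j, hj, hj1⟩ := (Subgroup.bot_or_exists_ne_one H).resolve_left h1
    exact ⟨j, j.2, fun h => hj1 (Subtype.ext h), fun h => hj⟩
  obtain ⟨j₂, hj₂, hj₂1, hs₂⟩ := hex (MulAction.stabilizer I a₁) ((index_stab_le hE₁).trans (by norm_num))
  have hj₂a : j₂ a₁ = a₁ := hs₂ hj₂
  obtain ⟨a₂, -, hE₂, hja₂, ho₂, -⟩ := exists_eig_aut hodd hI (X := ⊤) (fun _ _ _ _ => mem_top _) hj₂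
    (exists_moved hj₂1)
  obtain ⟨j₃, hj₃, hj₃1, hs₃⟩ := hex (MulAction.stabilizer I a₁ ⊓ MulAction.stabilizer I a₂)
    ((Subgroup.index_inf_le).trans (Nat.mul_le_mul (index_stab_le hE₁) (index_stab_le hE₂)))
  have hj₃a₁ : j₃ a₁ = a₁ := (hs₃ hj₃).1
  have hj₃a₂ : j₃ a₂ = a₂ := (hs₃ hj₃).2
  obtain ⟨a₃, -, hE₃, hja₃, ho₃, -⟩ := exists_eig_aut hodd hI (X := ⊤) (fun _ _ _ _ => mem_top _) hj₃
    (exists_moved hj₃1)
  -- adjust e₂
  obtain ⟨e₂, he₂, h21, h22, h23⟩ : ∃ e₂ ∈ I, e₂ a₁ = a₁ ∧ e₂ a₂ = a₂⁻¹ ∧ e₂ a₃ = a₃ := by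
    rcases hE₃ j₂ hj₂ with h | h
    · exact ⟨j₂, hj₂, hj₂a, hja₂, h⟩
    · refine ⟨j₂ * j₃, I.mul_mem hj₂ hj₃, ?_, ?_, ?_⟩
      · rw [MulAut.mul_apply, hj₃a₁, hj₂a]
      · rw [MulAut.mul_apply, hj₃a₂, hja₂]
      · rw [MulAut.mul_apply, hja₃, map_inv, h, inv_inv]
  obtain ⟨f₁, hf₁, h11, h12⟩ : ∃ f₁ ∈ I, f₁ a₁ = a₁⁻¹ ∧ f₁ a₂ = a₂ := by
    rcases hE₂ j₁ hj₁ with h | h
    · exact ⟨j₁, hj₁, hja₁, h⟩
    · refine ⟨j₁ * e₂, I.mul_mem hj₁ he₂, ?_, ?_⟩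
      · rw [MulAut.mul_apply, h21, hja₁]
      · rw [MulAut.mul_apply, h22, map_inv, h, inv_inv]
  obtain ⟨e₁, he₁, h1, h2, h3⟩ : ∃ e₁ ∈ I, e₁ a₁ = a₁⁻¹ ∧ e₁ a₂ = a₂ ∧ e₁ a₃ = a₃ := by
    rcases hE₃ f₁ hf₁ with h | h
    · exact ⟨f₁, hf₁, h11, h12, h⟩
    · refine ⟨f₁ * j₃, I.mul_mem hf₁ hj₃, ?_, ?_, ?_⟩
      · rw [MulAut.mul_apply, hj₃a₁, h11]
      · rw [MulAut.mul_apply, hj₃a₂, h12]
      · rw [MulAut.mul_apply, hja₃, map_inv, h, inv_inv]
  exact ⟨e₁, he₁, e₂, he₂, j₃, hj₃, a₁, a₂, a₃, ⟨orderOf_eq hp hP ho₁, orderOf_eq hp hP ho₂,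
    orderOf_eq hp hP ho₃⟩, ⟨h1, h2, h3⟩, ⟨h21, h22, h23⟩, ⟨hj₃a₁, hj₃a₂, hja₃⟩⟩

theorem bool_eq {a : P} (h : a⁻¹ ≠ a) {x x' : Bool}
    (e : (if x' = true then a⁻¹ else a) = if x = true then a⁻¹ else a) : x = x' := by
  cases x with
  | true =>
    cases x' with
    | true => rfl
    | false => rw [if_pos rfl, if_neg (by decide)] at e; exact absurd e.symm h
  | false =>
    cases x' with
    | true => rw [if_pos rfl, if_neg (by decide)] at e; exact absurd e h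
    | false => rfl

theorem all_elements {I : Subgroup (MulAut P)} (hI8 : Nat.card I = 8) {e₁ e₂ e₃ : MulAut P}
    (he₁ : e₁ ∈ I) (he₂ : e₂ ∈ I) (he₃ : e₃ ∈ I) {a₁ a₂ a₃ : P}
    (hn : a₁⁻¹ ≠ a₁ ∧ a₂⁻¹ ≠ a₂ ∧ a₃⁻¹ ≠ a₃)
    (h1 : e₁ a₁ = a₁⁻¹ ∧ e₁ a₂ = a₂ ∧ e₁ a₃ = a₃) (h2 : e₂ a₁ = a₁ ∧ e₂ a₂ = a₂⁻¹ ∧ e₂ a₃ = a₃)
    (h3 : e₃ a₁ = a₁ ∧ e₃ a₂ = a₂ ∧ e₃ a₃ = a₃⁻¹) :
    ∀ i ∈ I, i = 1 ∨ i = e₁ ∨ i = e₂ ∨ i = e₃ ∨ i = e₁ * e₂ ∨ i = e₁ * e₃ ∨ i = e₂ * e₃ ∨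
      i = e₁ * e₂ * e₃ := by
  classical
  let _ := Fintype.ofFinite I
  let f : Bool × Bool × Bool → I := fun b =>
    ⟨(if b.1 then e₁ else 1) * (if b.2.1 then e₂ else 1) * (if b.2.2 then e₃ else 1),
      I.mul_mem (I.mul_mem (by split_ifs; exacts [he₁, I.one_mem]) (by split_ifs; exacts [he₂, I.one_mem]))
        (by split_ifs; exacts [he₃, I.one_mem])⟩
  have hv1 : ∀ b, (f b : MulAut P) a₁ = if b.1 then a₁⁻¹ else a₁ := by
    rintro ⟨x, y, z⟩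
    show ((if x then e₁ else 1) * (if y then e₂ else 1) * (if z then e₃ else 1) : MulAut P) a₁ = _
    cases x <;> cases y <;> cases z <;> simp [h1.1, h2.1, h3.1]
  have hv2 : ∀ b, (f b : MulAut P) a₂ = if b.2.1 then a₂⁻¹ else a₂ := by
    rintro ⟨x, y, z⟩
    show ((if x then e₁ else 1) * (if y then e₂ else 1) * (if z then e₃ else 1) : MulAut P) a₂ = _
    cases x <;> cases y <;> cases z <;> simp [h1.2.1, h2.2.1, h3.2.1]
  have hv3 : ∀ b, (f b : MulAut P) a₃ = if b.2.2 then a₃⁻¹ else a₃ := by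
    rintro ⟨x, y, z⟩
    show ((if x then e₁ else 1) * (if y then e₂ else 1) * (if z then e₃ else 1) : MulAut P) a₃ = _
    cases x <;> cases y <;> cases z <;> simp [h1.2.2, h2.2.2, h3.2.2]
  have hinj : Function.Injective f := by
    rintro ⟨x, y, z⟩ ⟨x', y', z'⟩ h
    have e1 := hv1 (x, y, z)
    have e2 := hv2 (x, y, z)
    have e3 := hv3 (x, y, z)
    rw [h] at e1 e2 e3
    rw [hv1] at e1
    rw [hv2] at e2
    rw [hv3] at e3
    simp only at e1 e2 e3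
    have q1 : x = x' := bool_eq hn.1 e1
    have q2 : y = y' := bool_eq hn.2.1 e2
    have q3 : z = z' := bool_eq hn.2.2 e3
    rw [q1, q2, q3]
  have hbij := (Fintype.bijective_iff_injective_and_card f).2 ⟨hinj, by
    rw [← Nat.card_eq_fintype_card (α := I), hI8]; rfl⟩
  intro i hi
  obtain ⟨⟨x, y, z⟩, hb⟩ := hbij.2 ⟨i, hi⟩
  have hb' : ((if x then e₁ else 1) * (if y then e₂ else 1) * (if z then e₃ else 1) : MulAut P) = i :=
    congrArg Subtype.val hb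
  rw [← hb']
  cases x <;> cases y <;> cases z <;> simp

theorem comm_of_sq {I : Subgroup (MulAut P)} (hI : ∀ i ∈ I, i * i = 1) {i j : MulAut P}
    (hi : i ∈ I) (hj : j ∈ I) : i * j = j * i := H76.Eigen.comm_of_sq hI hi hj

/-- an abelian `2`-generated `p`-group has at most `p ^ 2` elements of order dividing `p`. -/
theorem card_ker_le {p : ℕ} (hp : p.Prime) (hc : ∀ x y : P, x * y = y * x) {a b : P}
    (hab : closure {a, b} = ⊤) (K : Subgroup P) (hK : ∀ x ∈ K, x ^ p = 1) :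
    Nat.card K ≤ p ^ 2 := by
  classical
  have hp0 : 0 < p := hp.pos
  let f : P →* P :=
    { toFun := fun x => x ^ p
      map_one' := one_pow p
      map_mul' := fun x y => (show Commute x y from hc x y).mul_pow p }
  have h1 : Nat.card K ≤ Nat.card f.ker := by
    apply Nat.le_of_dvd Nat.card_pos
    exact card_dvd_of_le (fun x hx => hK x hx)
  have h2 : Nat.card f.ker = f.range.index := by
    have h3 := f.ker.card_mul_index
    have h4 := f.range.card_mul_index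
    rw [index_ker] at h3
    have h5 : 0 < Nat.card f.range := Nat.card_pos
    have h6 : Nat.card f.range * Nat.card f.ker = Nat.card f.range * f.range.index := by
      rw [h4, mul_comm, h3]
    exact Nat.eq_of_mul_eq_mul_left h5 h6
  have h6 : ∀ x : P, ∃ i j : ℤ, x = a ^ i * b ^ j := by
    intro x
    have hx : x ∈ closure {a, b} := by rw [hab]; exact mem_top x
    induction hx using closure_induction with
    | mem x hx =>
      rcases hx with h | h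
      · exact ⟨1, 0, by rw [h]; simp⟩
      · exact ⟨0, 1, by rw [h]; simp⟩
    | one => exact ⟨0, 0, by simp⟩
    | mul x y _ _ hx hy =>
      obtain ⟨i, j, rfl⟩ := hx
      obtain ⟨k, l, rfl⟩ := hy
      refine ⟨i + k, j + l, ?_⟩
      rw [zpow_add, zpow_add, mul_assoc, ← mul_assoc (b ^ j), hc (b ^ j) (a ^ k)]
      simp only [mul_assoc]
    | inv x _ hx =>
      obtain ⟨i, j, rfl⟩ := hx
      refine ⟨-i, -j, ?_⟩
      rw [mul_inv_rev, zpow_neg, zpow_neg, hc]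
  have hfn : f.range.Normal := ⟨fun x hx g => by rw [hc g x, mul_inv_cancel_right]; exact hx⟩
  have h7 : Function.Surjective (fun q : Fin p × Fin p =>
      ((a ^ (q.1 : ℕ) * b ^ (q.2 : ℕ) : P) : P ⧸ f.range)) := by
    intro y
    obtain ⟨x, rfl⟩ := QuotientGroup.mk_surjective y
    obtain ⟨i, j, rfl⟩ := h6 x
    have hpz : (0 : ℤ) < p := by exact_mod_cast hp0
    have hm : ∀ i : ℤ, ∃ r : Fin p, i = p * (i / p) + ((r : ℕ) : ℤ) := by
      intro i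
      have e1 := Int.emod_nonneg i hpz.ne'
      have e2 := Int.emod_lt_of_pos i hpz
      refine ⟨⟨(i % p).toNat, by omega⟩, ?_⟩
      have e3 := Int.mul_ediv_add_emod i p
      simp only
      omega
    obtain ⟨r, hr⟩ := hm i
    obtain ⟨s, hs⟩ := hm j
    refine ⟨(r, s), ?_⟩
    simp only
    rw [QuotientGroup.eq]
    refine ⟨a ^ (i / p) * b ^ (j / p), ?_⟩
    show (a ^ (i / p) * b ^ (j / p)) ^ p = _
    rw [(show Commute (a ^ (i / p)) (b ^ (j / p)) from hc _ _).mul_pow]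
    have e4 : a ^ i = a ^ (r : ℕ) * (a ^ (i / p)) ^ p := by
      conv_lhs => rw [hr]
      rw [zpow_add, hc, zpow_natCast, ← zpow_natCast (a ^ (i / p)), ← zpow_mul, mul_comm (i / p)]
    have e5 : b ^ j = b ^ (s : ℕ) * (b ^ (j / p)) ^ p := by
      conv_lhs => rw [hs]
      rw [zpow_add, hc, zpow_natCast, ← zpow_natCast (b ^ (j / p)), ← zpow_mul, mul_comm (j / p)]
    rw [e4, e5, mul_inv_rev]
    generalize (a ^ (i / p)) ^ p = u
    generalize (b ^ (j / p)) ^ p = v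
    generalize a ^ (r : ℕ) = w
    generalize b ^ (s : ℕ) = y
    calc u * v = y⁻¹ * (w⁻¹ * w) * (y * u) * v := by rw [hc y u]; rw [inv_mul_cancel, mul_one, hc u y, inv_mul_cancel_left]
      _ = y⁻¹ * w⁻¹ * (w * u * (y * v)) := by rw [hc y u]; simp only [mul_assoc]
  have h8 : f.range.index ≤ p ^ 2 := by
    have h9 := Nat.card_le_card_of_surjective _ h7
    rw [Nat.card_prod, Nat.card_fin, ← pow_two] at h9
    exact h9
  omega

theorem card_span {p : ℕ} (hp : p.Prime) (hp2 : p ≠ 2) (hc : ∀ x y : P, x * y = y * x)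
    {e₁ e₂ e₃ : MulAut P} {a₁ a₂ a₃ : P} (ho : orderOf a₁ = p ∧ orderOf a₂ = p ∧ orderOf a₃ = p)
    (h1 : e₁ a₁ = a₁⁻¹ ∧ e₁ a₂ = a₂ ∧ e₁ a₃ = a₃) (h2 : e₂ a₁ = a₁ ∧ e₂ a₂ = a₂⁻¹ ∧ e₂ a₃ = a₃)
    (h3 : e₃ a₁ = a₁ ∧ e₃ a₂ = a₂ ∧ e₃ a₃ = a₃⁻¹) :
    Nat.card ((zpowers a₁ ⊔ zpowers a₂) ⊔ zpowers a₃ : Subgroup P) = p ^ 3 := by
  -- an element of order `p` outside
  have key : ∀ (A : Subgroup P) (b : P) (e : MulAut P), orderOf b = p → (∀ x ∈ A, e x = x) →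
      e b = b⁻¹ → A ⊓ zpowers b = ⊥ := by
    intro A b e hob hA hb
    have h8 : Nat.card (A ⊓ zpowers b : Subgroup P) ∣ p := by
      rw [← hob, ← Nat.card_zpowers]; exact card_dvd_of_le inf_le_right
    rcases (Nat.dvd_prime hp).1 h8 with h9 | h9
    · exact card_eq_one.mp h9
    · exfalso
      have h10 : A ⊓ zpowers b = zpowers b :=
        eq_of_le_of_card_ge inf_le_right (by rw [Nat.card_zpowers, hob, h9])
      have h11 : b ∈ A := by
        have : b ∈ A ⊓ zpowers b := by rw [h10]; exact mem_zpowers b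
        exact this.1
      have h12 := hA b h11
      rw [hb] at h12
      exact inv_ne hp2 hp hob h12
  have hfix : ∀ (e : MulAut P) (a : P), e a = a → ∀ x ∈ zpowers a, e x = x := by
    rintro e a h _ ⟨m, rfl⟩
    simp only
    rw [map_zpow, h]
  have hfix2 : ∀ (e : MulAut P) (a b : P), e a = a → e b = b → ∀ x ∈ zpowers a ⊔ zpowers b,
      e x = x := by
    intro e a b ha hb x hx
    obtain ⟨y, hy, z, hz, rfl⟩ := (H76.Commuting.mem_sup_of_commute (fun a _ b _ => hc a b)).1 hx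
    rw [map_mul, hfix e a ha y hy, hfix e b hb z hz]
  rw [H76.Commuting.card_sup_of_commute (fun a _ b _ => hc a b)
    (key _ a₃ e₃ ho.2.2 (hfix2 e₃ a₁ a₂ h3.1 h3.2.1) h3.2.2),
    H76.Commuting.card_sup_of_commute (fun a _ b _ => hc a b)
    (key _ a₂ e₂ ho.2.1 (hfix e₂ a₁ h2.1) h2.2.1), Nat.card_zpowers, Nat.card_zpowers,
    Nat.card_zpowers, ho.1, ho.2.1, ho.2.2]
  ring

theorem main {p : ℕ} (hp : p.Prime) (hp2 : p ≠ 2) (hP : IsPGroup p P)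
    {I : Subgroup (MulAut P)} (hI : ∀ i ∈ I, i * i = 1) (hI8 : Nat.card I = 8)
    {I₀ : Subgroup (MulAut P)} (hI₀ : I₀ < I) (hd : ∀ T ∈ I₀, T ≠ 1 → Cyc T)
    (hprod : ∀ T ∈ I, ∀ T' ∈ I, T ≠ 1 → T' ≠ 1 → ¬ Cyc T → ¬ Cyc T' → T * T' ∈ I₀) :
    (∀ x y : P, x * y = y * x) ∧ (∃ a b c : P, closure {a, b, c} = ⊤) ∧
    (¬ ∃ a b : P, closure {a, b} = ⊤) ∧ ∃ e₁ e₂ e₃ : MulAut P, e₁ ≠ e₂ ∧ e₁ ≠ e₃ ∧ e₂ ≠ e₃ ∧
      (∀ T, (T ∈ I ∧ T ≠ 1 ∧ ¬ Cyc T) ↔ (T = e₁ ∨ T = e₂ ∨ T = e₃)) ∧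
      closure {e₁, e₂, e₃} = I ∧
      (∀ T, T ∈ I₀ ↔ (T = 1 ∨ T = e₁ * e₂ ∨ T = e₁ * e₃ ∨ T = e₂ * e₃)) := by
  obtain ⟨e₁, he₁, e₂, he₂, e₃, he₃, a₁, a₂, a₃, ho, h1, h2, h3⟩ := exists_basis hp hp2 hP hI hI8
  have hn : a₁⁻¹ ≠ a₁ ∧ a₂⁻¹ ≠ a₂ ∧ a₃⁻¹ ≠ a₃ :=
    ⟨inv_ne hp2 hp ho.1, inv_ne hp2 hp ho.2.1, inv_ne hp2 hp ho.2.2⟩
  have hall := all_elements hI8 he₁ he₂ he₃ hn h1 h2 h3
  have hodd := odd_card hp hp2 hP
  have c12 := comm_of_sq hI he₁ he₂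
  have c13 := comm_of_sq hI he₁ he₃
  have c23 := comm_of_sq hI he₂ he₃
  have s1 := hI e₁ he₁
  have s2 := hI e₂ he₂
  have s3 := hI e₃ he₃
  have n1 : ¬ Cyc e₁ := not_cyc hp hp2 (T' := e₂) (x := a₃) (y := a₂) h1.2.2 h1.2.1 ho.2.2 ho.2.1
    h2.2.2 h2.2.1
  have n2 : ¬ Cyc e₂ := not_cyc hp hp2 (T' := e₁) (x := a₃) (y := a₁) h2.2.2 h2.1 ho.2.2 ho.1
    h1.2.2 h1.1
  have n3 : ¬ Cyc e₃ := not_cyc hp hp2 (T' := e₁) (x := a₂) (y := a₁) h3.2.1 h3.1 ho.2.1 ho.1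
    h1.2.1 h1.1
  have e1n : e₁ ≠ 1 := by rintro rfl; exact hn.1 h1.1.symm
  have e2n : e₂ ≠ 1 := by rintro rfl; exact hn.2.1 h2.2.1.symm
  have e3n : e₃ ≠ 1 := by rintro rfl; exact hn.2.2 h3.2.2.symm
  have m12 := hprod e₁ he₁ e₂ he₂ e1n e2n n1 n2
  have m13 := hprod e₁ he₁ e₃ he₃ e1n e3n n1 n3
  have m23 := hprod e₂ he₂ e₃ he₃ e2n e3n n2 n3
  have hcl : ∀ J : Subgroup (MulAut P), e₁ ∈ J → e₂ ∈ J → e₃ ∈ J → I ≤ J := by
    intro J j1 j2 j3 i hi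
    rcases hall i hi with h | h | h | h | h | h | h | h <;> rw [h]
    · exact J.one_mem
    · exact j1
    · exact j2
    · exact j3
    · exact J.mul_mem j1 j2
    · exact J.mul_mem j1 j3
    · exact J.mul_mem j2 j3
    · exact J.mul_mem (J.mul_mem j1 j2) j3
  have o1 : e₁ ∉ I₀ := by
    intro h
    apply hI₀.2
    refine hcl I₀ h ?_ ?_
    · have := I₀.mul_mem (I₀.inv_mem h) m12
      rwa [inv_mul_cancel_left] at this
    · have := I₀.mul_mem (I₀.inv_mem h) m13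
      rwa [inv_mul_cancel_left] at this
  have o2 : e₂ ∉ I₀ := by
    intro h
    apply o1
    have := I₀.mul_mem m12 (I₀.inv_mem h)
    rwa [mul_inv_cancel_right] at this
  have o3 : e₃ ∉ I₀ := by
    intro h
    apply o1
    have := I₀.mul_mem m13 (I₀.inv_mem h)
    rwa [mul_inv_cancel_right] at this
  set z := e₁ * e₂ * e₃ with hz
  have oz : z ∉ I₀ := by
    intro h
    apply o1
    have := I₀.mul_mem h (I₀.inv_mem m23)
    rwa [hz, mul_assoc e₁ e₂ e₃, mul_inv_cancel_right] at this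
  have hzI : z ∈ I := I.mul_mem (I.mul_mem he₁ he₂) he₃
  have m12n : e₁ * e₂ ≠ 1 := by
    intro h
    have : e₁ = e₂ := by rw [← mul_one e₁, ← s2, ← mul_assoc, h, one_mul]
    rw [this] at h1
    exact hn.1 (by rw [← h1.1, h2.1])
  have m13n : e₁ * e₃ ≠ 1 := by
    intro h
    have : e₁ = e₃ := by rw [← mul_one e₁, ← s3, ← mul_assoc, h, one_mul]
    rw [this] at h1
    exact hn.1 (by rw [← h1.1, h3.1])
  have m23n : e₂ * e₃ ≠ 1 := by
    intro h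
    have : e₂ = e₃ := by rw [← mul_one e₂, ← s3, ← mul_assoc, h, one_mul]
    rw [this] at h2
    exact hn.2.1 (by rw [← h2.2.1, h3.2.1])
  have C12 := hd _ m12 m12n
  have C13 := hd _ m13 m13n
  have C23 := hd _ m23 m23n
  -- `z` is fixed point free
  have hfpf : ∀ x : P, z x = x → x = 1 := by
    by_contra hcon
    push Not at hcon
    obtain ⟨x₀, hx₀, hx₀1⟩ := hcon
    let X : Subgroup P := MonoidHom.eqLocus z.toMonoidHom (MonoidHom.id P)
    have hXm : ∀ x, x ∈ X ↔ z x = x := fun x => Iff.rfl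
    obtain ⟨x, hxX, hE, hox, -⟩ := exists_eig_aut' hodd hI (X := X) (by
      intro i hi x hx
      rw [hXm] at hx ⊢
      have := congrArg (fun f : MulAut P => f x) (comm_of_sq hI hzI hi)
      simp only [MulAut.mul_apply] at this
      rw [this, hx]) (by
      intro h
      have : x₀ ∈ X := (hXm x₀).2 hx₀
      rw [h, mem_bot] at this
      exact hx₀1 this)
    rw [hXm] at hxX
    have hox' := orderOf_eq hp hP hox
    have hxn := inv_ne hp2 hp hox'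
    have hzx : z x = e₁ (e₂ (e₃ x)) := rfl
    rcases hE e₃ he₃ with q3 | q3
    · -- `e₃` fixes `x`
      have h12x : (e₁ * e₂) x = x := by
        rw [hzx, q3] at hxX; exact hxX
      exact not_cyc hp hp2 (T' := e₃) (x := x) (y := a₃) h12x
        (by rw [MulAut.mul_apply, h2.2.2, h1.2.2]) hox' ho.2.2 q3 h3.2.2 C12
    · rcases hE e₂ he₂ with q2 | q2
      · have h13x : (e₁ * e₃) x = x := by
          rw [MulAut.mul_apply, q3]
          rw [hzx, q3, map_inv, q2] at hxX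
          exact hxX
        exact not_cyc hp hp2 (T' := e₂) (x := x) (y := a₂) h13x
          (by rw [MulAut.mul_apply, h3.2.1, h1.2.1]) hox' ho.2.1 q2 h2.2.1 C13
      · have h1x : e₁ x = x := by
          rw [hzx, q3, map_inv, q2, inv_inv] at hxX
          exact hxX
        exact not_cyc hp hp2 (T' := e₁) (x := x) (y := a₁)
          (by rw [MulAut.mul_apply, q3, map_inv, q2, inv_inv])
          (by rw [MulAut.mul_apply, h3.1, h2.1]) hox' ho.1 h1x h1.1 C23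
  have hzz : z * z = 1 := hI z hzI
  have hcomm : ∀ x y : P, x * y = y * x := by
    have hφ : MonoidHom.FixedPointFree z.toMonoidHom := hfpf
    exact hφ.commute_all_of_involutive (fun x => by
      have := congrArg (fun f : MulAut P => f x) hzz
      exact this)
  have nz : Cyc z := ⟨1, fun x => ⟨fun h => by rw [hfpf x h]; exact one_mem _, fun h => by
    rw [zpowers_one_eq_bot, mem_bot] at h; rw [h, map_one]⟩⟩
  have hI₀m : ∀ T, T ∈ I₀ ↔ (T = 1 ∨ T = e₁ * e₂ ∨ T = e₁ * e₃ ∨ T = e₂ * e₃) := by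
    intro T
    constructor
    · intro hT
      rcases hall T (hI₀.1 hT) with h | h | h | h | h | h | h | h
      · exact Or.inl h
      · exact absurd (h ▸ hT) o1
      · exact absurd (h ▸ hT) o2
      · exact absurd (h ▸ hT) o3
      · exact Or.inr (Or.inl h)
      · exact Or.inr (Or.inr (Or.inl h))
      · exact Or.inr (Or.inr (Or.inr h))
      · exact absurd (h ▸ hT) oz
    · rintro (h | h | h | h) <;> rw [h]
      · exact I₀.one_mem
      · exact m12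
      · exact m13
      · exact m23
  refine ⟨hcomm, ?_, ?_, e₁, e₂, e₃, ?_, ?_, ?_, ?_, ?_, hI₀m⟩
  · obtain ⟨g₃, hg₃⟩ := C12
    obtain ⟨g₂, hg₂⟩ := C13
    obtain ⟨g₁, hg₁⟩ := C23
    refine ⟨g₁, g₂, g₃, ?_⟩
    have hg : ∀ g ∈ ({g₁, g₂, g₃} : Set P), zpowers g ≤ closure {g₁, g₂, g₃} := by
      intro g hg
      rw [zpowers_le]
      exact subset_closure hg
    have hst : (e₁ * e₂) * (e₁ * e₃) = e₂ * e₃ := by
      rw [c12, mul_assoc, ← mul_assoc e₁ e₁ e₃, s1, one_mul]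
    have hts : (e₁ * e₃) * (e₁ * e₂) = e₂ * e₃ := by
      rw [c13, mul_assoc, ← mul_assoc e₁ e₁ e₂, s1, one_mul, c23]
    exact eq_top_of_fixed hodd (hI _ (I.mul_mem he₁ he₂)) (hI _ (I.mul_mem he₁ he₃))
      (hst.trans hts.symm)
      (fun x hx => hg g₃ (by simp) ((hg₃ x).1 hx))
      (fun x hx => hg g₂ (by simp) ((hg₂ x).1 hx))
      (fun x hx => hg g₁ (by simp) ((hg₁ x).1 (by rw [← hst]; exact hx)))
  · rintro ⟨a, b, hab⟩
    have h4 := card_ker_le hp hcomm hab ((zpowers a₁ ⊔ zpowers a₂) ⊔ zpowers a₃) (by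
      have hz' : ∀ a : P, orderOf a = p → ∀ x ∈ zpowers a, x ^ p = 1 := by
        rintro a ha _ ⟨m, rfl⟩
        simp only
        rw [← zpow_natCast, ← zpow_mul, mul_comm, zpow_mul, zpow_natCast, ← ha, pow_orderOf_eq_one,
          one_zpow]
      have hs : ∀ A B : Subgroup P, (∀ x ∈ A, x ^ p = 1) → (∀ x ∈ B, x ^ p = 1) →
          ∀ x ∈ A ⊔ B, x ^ p = 1 := by
        intro A B hA hB x hx
        obtain ⟨y, hy, w, hw, rfl⟩ := (H76.Commuting.mem_sup_of_commute (fun a _ b _ => hcomm a b)).1 hx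
        rw [(show Commute y w from hcomm y w).mul_pow, hA y hy, hB w hw, one_mul]
      exact hs _ _ (hs _ _ (hz' a₁ ho.1) (hz' a₂ ho.2.1)) (hz' a₃ ho.2.2))
    rw [card_span hp hp2 hcomm ho h1 h2 h3] at h4
    exact absurd h4 (not_le.mpr (Nat.pow_lt_pow_right hp.one_lt (by norm_num)))
  · rintro rfl; exact m12n s1
  · rintro rfl; exact m13n s1
  · rintro rfl; exact m23n s2
  · intro T
    constructor
    · rintro ⟨hT, hT1, hTc⟩
      rcases hall T hT with h | h | h | h | h | h | h | h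
      · exact absurd h hT1
      · exact Or.inl h
      · exact Or.inr (Or.inl h)
      · exact Or.inr (Or.inr h)
      · exact absurd (h ▸ C12) hTc
      · exact absurd (h ▸ C13) hTc
      · exact absurd (h ▸ C23) hTc
      · exact absurd (h ▸ nz) hTc
    · rintro (h | h | h) <;> rw [h]
      · exact ⟨he₁, e1n, n1⟩
      · exact ⟨he₂, e2n, n2⟩
      · exact ⟨he₃, e3n, n3⟩
  · apply le_antisymm
    · rw [closure_le]
      rintro x (h | h | h) <;> rw [h]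
      · exact he₁
      · exact he₂
      · exact he₃
    · exact hcl _ (subset_closure (by simp)) (subset_closure (by simp)) (subset_closure (by simp))

end H76.ThreeBroad
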