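import Mathlib

set_option autoImplicit false
open Pointwise

namespace H76.TwoMax

variable {G : Type*} [Group G]

theorem card_conj (g : G) (M : Subgroup G) :
    Nat.card (MulAut.conj g • M : Subgroup G) = Nat.card M :=
  Nat.card_congr (Subgroup.equivSMul (MulAut.conj g) M).toEquiv.symm

theorem mem_conj {g x : G} {M : Subgroup G} : x ∈ MulAut.conj g • M ↔ g⁻¹ * x * g ∈ M := by
  rw [Subgroup.mem_pointwise_smul_iff_inv_smul_mem, ← map_inv, MulAut.smul_def, MulAut.conj_apply,
    inv_inv]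

theorem conj_mul (g h : G) (M : Subgroup G) :
    MulAut.conj (g * h) • M = MulAut.conj g • MulAut.conj h • M := by
  rw [map_mul, mul_smul]

theorem conj_one (M : Subgroup G) : MulAut.conj (1 : G) • M = M := by
  rw [map_one, one_smul]

theorem conj_eq_iff_mem_normalizer {g : G} {M : Subgroup G} :
    MulAut.conj g • M = M ↔ g ∈ Subgroup.normalizer (M : Set G) := by
  constructor
  · intro h
    rw [Subgroup.mem_normalizer_iff]
    intro x
    constructor
    · intro hx
      rw [← h, mem_conj]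
      have : g⁻¹ * (g * x * g⁻¹) * g = x := by group
      rw [this]; exact hx
    · intro hx
      rw [← h, mem_conj] at hx
      have : g⁻¹ * (g * x * g⁻¹) * g = x := by group
      rwa [this] at hx
  · intro h
    rw [Subgroup.mem_normalizer_iff] at h
    ext x
    rw [mem_conj, h]
    have : g * (g⁻¹ * x * g) * g⁻¹ = x := by group
    rw [this]

variable [Finite G]

theorem card_mul_relIndex {Q L : Subgroup G} (h : Q ≤ L) :
    Nat.card Q * Q.relIndex L = Nat.card L := by
  rw [Subgroup.relIndex, ← Subgroup.card_mul_index (Q.subgroupOf L),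
    Nat.card_congr (Subgroup.subgroupOfEquivOfLe h).toEquiv]

/-- A `p`-subgroup which is not Sylow in `H` grows inside `H` and its normalizer. -/
theorem grow {p : ℕ} [hp : Fact p.Prime] {Q H : Subgroup G} {n : ℕ} (hQH : Q ≤ H)
    (hQ : Nat.card Q = p ^ n) (hd : p ^ (n+1) ∣ Nat.card H) :
    ∃ K : Subgroup G, Nat.card K = p ^ (n+1) ∧ K ≤ H ∧ Q ≤ K ∧
      K ≤ Subgroup.normalizer (Q : Set G) := by
  obtain ⟨K, hK, hQK⟩ := Sylow.exists_subgroup_card_pow_succ (G := H) (p := p) (n := n) hd
    (H := Q.subgroupOf H) (by rw [Nat.card_congr (Subgroup.subgroupOfEquivOfLe hQH).toEquiv, hQ])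
  have hKc : Nat.card (K.map H.subtype) = p ^ (n+1) := by
    rw [Subgroup.card_map_of_injective H.subtype_injective, hK]
  have hQ' : Q ≤ K.map H.subtype := by
    intro x hx
    exact ⟨⟨x, hQH hx⟩, hQK (Subgroup.mem_subgroupOf.2 hx), rfl⟩
  refine ⟨K.map H.subtype, hKc, Subgroup.map_subtype_le K, hQ', ?_⟩
  set L := K.map H.subtype with hL
  have hidx : Q.relIndex L = p := by
    have h1 := card_mul_relIndex hQ'
    rw [hQ, hKc, pow_succ] at h1
    exact Nat.eq_of_mul_eq_mul_left (pow_pos hp.1.pos n) h1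
  have hnorm : (Q.subgroupOf L).Normal := by
    apply Subgroup.normal_of_index_eq_minFac_card
    rw [← Subgroup.relIndex, hidx, hKc, Nat.pow_minFac (Nat.succ_ne_zero n), hp.1.minFac_eq]
  exact (Subgroup.normal_subgroupOf_iff_le_normalizer hQ').1 hnorm

/-- If `Q` is a Sylow subgroup of `G` whose normalizer lies in `M`, then `M` is the only conjugate
of `M` containing `Q`. -/
theorem sylow_unique {p : ℕ} [hp : Fact p.Prime] {Q M : Subgroup G} {n : ℕ}
    (hQ : Nat.card Q = p ^ n) (hd : ¬ p ^ (n+1) ∣ Nat.card G)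
    (hN : Subgroup.normalizer (Q : Set G) ≤ M) {g : G} (hg : Q ≤ MulAut.conj g • M) : g ∈ M := by
  have hQM : Q ≤ M := Subgroup.le_normalizer.trans hN
  have hQM' : (MulAut.conj g⁻¹ • Q : Subgroup G) ≤ M := by
    intro x hx
    rw [mem_conj, inv_inv] at hx
    have h2 := hg hx
    rw [mem_conj] at h2
    have : g⁻¹ * (g * x * g⁻¹) * g = x := by group
    rwa [this] at h2
  have hfac : (Nat.card M).factorization p = n := by
    have h0 : Nat.card M ≠ 0 := Nat.card_pos.ne'
    apply le_antisymm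
    · by_contra hlt
      push Not at hlt
      exact hd (((hp.1.pow_dvd_iff_le_factorization h0).2 hlt).trans (Subgroup.card_subgroup_dvd_card M))
    · rw [← hp.1.pow_dvd_iff_le_factorization h0, ← hQ]
      exact Subgroup.card_dvd_of_le hQM
  have hc1 : Nat.card (Q.subgroupOf M) = p ^ (Nat.card M).factorization p := by
    rw [Nat.card_congr (Subgroup.subgroupOfEquivOfLe hQM).toEquiv, hQ, hfac]
  have hc2 : Nat.card ((MulAut.conj g⁻¹ • Q : Subgroup G).subgroupOf M) =
      p ^ (Nat.card M).factorization p := by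
    rw [Nat.card_congr (Subgroup.subgroupOfEquivOfLe hQM').toEquiv, card_conj, hQ, hfac]
  obtain ⟨m, hm⟩ := MulAction.exists_smul_eq M (Sylow.ofCard _ hc1) (Sylow.ofCard _ hc2)
  have key : ∀ x ∈ Q, (m : G) * x * (m : G)⁻¹ ∈ (MulAut.conj g⁻¹ • Q : Subgroup G) := by
    intro x hx
    have h3 : (m * ⟨x, hQM hx⟩ * m⁻¹ : M) ∈ (m • Sylow.ofCard _ hc1 : Sylow p M) := by
      rw [Sylow.smul_def]
      exact Subgroup.smul_mem_pointwise_smul _ (MulAut.conj m) _ (Subgroup.mem_subgroupOf.2 hx)
    rw [hm] at h3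
    exact Subgroup.mem_subgroupOf.1 h3
  have hle : (MulAut.conj (g * m : G) • Q : Subgroup G) ≤ Q := by
    intro y hy
    rw [mem_conj] at hy
    have h4 := key _ hy
    rw [mem_conj] at h4
    have : g⁻¹⁻¹ * ((m : G) * ((g * m : G)⁻¹ * y * (g * m : G)) * (m : G)⁻¹) * g⁻¹ = y := by group
    rwa [this] at h4
  have heq : (MulAut.conj (g * m : G) • Q : Subgroup G) = Q :=
    Subgroup.eq_of_le_of_card_ge hle (by rw [card_conj])
  have h5 := hN (conj_eq_iff_mem_normalizer.1 heq)
  have : g = (g * m : G) * (m : G)⁻¹ := by group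
  rw [this]
  exact M.mul_mem h5 (M.inv_mem m.2)

structure Hyp (M₁ M₂ : Subgroup G) : Prop where
  hO : ∀ (p : ℕ) (Q : Subgroup G), p.Prime → IsPGroup p Q → Q ≠ ⊥ →
    Subgroup.normalizer (Q : Set G) ≠ ⊤
  cov : ∀ H : Subgroup G, H ≠ ⊤ → ∃ g : G, H ≤ MulAut.conj g • M₁ ∨ H ≤ MulAut.conj g • M₂

theorem Hyp.symm {M₁ M₂ : Subgroup G} (h : Hyp M₁ M₂) : Hyp M₂ M₁ :=
  ⟨h.hO, fun H hH => by
    obtain ⟨g, hg⟩ := h.cov H hH
    exact ⟨g, hg.symm⟩⟩

theorem conj_mem_eq {g : G} {M : Subgroup G} (hg : g ∈ M) : MulAut.conj g • M = M :=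
  conj_eq_iff_mem_normalizer.2 (Subgroup.le_normalizer hg)

/-- the key bound -/
theorem Hyp.bound {M₁ M₂ : Subgroup G} (h : Hyp M₁ M₂) {p : ℕ} [hp : Fact p.Prime]
    (hp1 : ¬ p ∣ M₁.index) :
    ∀ (k n : ℕ), (Nat.card G).factorization p + 1 ≤ n + k → ¬ p ^ n ∣ Nat.card M₂ →
      ∀ (Q : Subgroup G) (g : G), g ∉ M₁ → Nat.card Q = p ^ n → Q ≤ M₁ →
        Q ≤ MulAut.conj g • M₁ → False := by
  intro k
  induction k with
  | zero =>
    intro n hn _ Q g _ hQ _ _
    have h0 : Nat.card G ≠ 0 := Nat.card_pos.ne'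
    have : p ^ n ∣ Nat.card G := hQ ▸ Subgroup.card_subgroup_dvd_card Q
    rw [hp.1.pow_dvd_iff_le_factorization h0] at this
    omega
  | succ k ih =>
    intro n hn hn2 Q g hg hQ hQ1 hQ2
    have hnext : ¬ p ^ (n+1) ∣ Nat.card M₂ := fun hh => hn2 ((pow_dvd_pow p (Nat.le_succ n)).trans hh)
    have IH := ih (n+1) (by omega) hnext
    have hQb : Q ≠ ⊥ := by
      rintro rfl
      rw [Subgroup.card_bot] at hQ
      rw [← hQ] at hn2
      exact hn2 (one_dvd _)
    have hPG : IsPGroup p Q := IsPGroup.of_card hQ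
    have hNt := h.hO p Q hp.1 hPG hQb
    obtain ⟨t, ht | ht⟩ := h.cov _ hNt
    · by_cases hd : p ^ (n+1) ∣ Nat.card G
      · have hd1 : p ^ (n+1) ∣ Nat.card M₁ := by
          rw [← Subgroup.card_mul_index M₁] at hd
          exact Nat.Coprime.dvd_of_dvd_mul_right
            (Nat.Coprime.pow_left _ ((Nat.Prime.coprime_iff_not_dvd hp.1).2 hp1)) hd
        obtain ⟨K, hK, hKM, hQK, hKN⟩ := grow hQ1 hQ hd1
        have htM : t ∈ M₁ := by
          by_contra hcon
          exact IH K t hcon hK hKM (hKN.trans ht)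
        rw [conj_mem_eq htM] at ht
        obtain ⟨K', hK', hKM', hQK', hKN'⟩ := grow hQ2 hQ (by rw [card_conj]; exact hd1)
        exact IH K' g hg hK' (hKN'.trans ht) hKM'
      · have h1 : Q ≤ MulAut.conj t⁻¹ • (MulAut.conj t • M₁ : Subgroup G) := by
          rw [← conj_mul, inv_mul_cancel, conj_one]; exact hQ1
        have h2 := sylow_unique hQ hd ht h1
        have h3 : (MulAut.conj t • M₁ : Subgroup G) = M₁ := by
          have h4 := conj_mem_eq h2
          rw [← conj_mul, inv_mul_cancel, conj_one] at h4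
          exact h4.symm
        rw [h3] at ht
        exact hg (sylow_unique hQ hd ht hQ2)
    · have : Nat.card Q ∣ Nat.card M₂ := by
        rw [← card_conj t M₂]
        exact Subgroup.card_dvd_of_le (Subgroup.le_normalizer.trans ht)
      rw [hQ] at this
      exact hn2 this

theorem Hyp.coprime {M₁ M₂ : Subgroup G} (h : Hyp M₁ M₂) {p : ℕ} (hp : p.Prime)
    (hp2 : p ∣ M₂.index) : ¬ p ∣ M₁.index := by
  intro hp1
  haveI : Fact p.Prime := ⟨hp⟩
  have hpG : p ∣ Nat.card G := hp2.trans (Subgroup.index_dvd_card M₂)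
  have P : Sylow p G := default
  have hPc : Nat.card P = p ^ (Nat.card G).factorization p := P.card_eq_multiplicity
  have key : ∀ (M : Subgroup G) (g : G), p ∣ M.index → ¬ (P : Subgroup G) ≤ MulAut.conj g • M := by
    intro M g hM hle
    have h1 : p ^ (Nat.card G).factorization p ∣ Nat.card M := by
      rw [← hPc, ← card_conj g M]
      exact Subgroup.card_dvd_of_le hle
    have h2 : p ^ ((Nat.card G).factorization p + 1) ∣ Nat.card G := by
      rw [← Subgroup.card_mul_index M, pow_succ]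
      exact mul_dvd_mul (by rw [Subgroup.card_mul_index M]; exact h1) hM
    rw [hp.pow_dvd_iff_le_factorization Nat.card_pos.ne'] at h2
    omega
  have hPb : (P : Subgroup G) ≠ ⊥ := by
    intro hb
    have h1 : Nat.card P = 1 := by
      have : Nat.card (P : Subgroup G) = 1 := by rw [hb, Subgroup.card_bot]
      exact this
    rw [hPc] at h1
    have h2 : 1 ≤ (Nat.card G).factorization p := by
      rw [← hp.pow_dvd_iff_le_factorization Nat.card_pos.ne', pow_one]; exact hpG
    have h3 : (Nat.card G).factorization p ≠ 0 := by omega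
    have h4 : 1 < p ^ (Nat.card G).factorization p := Nat.one_lt_pow h3 hp.one_lt
    omega
  have hN := h.hO p P hp P.isPGroup' hPb
  obtain ⟨g, hg | hg⟩ := h.cov _ hN
  · exact key M₁ g hp1 (Subgroup.le_normalizer.trans hg)
  · exact key M₂ g hp2 (Subgroup.le_normalizer.trans hg)

omit [Finite G] in
theorem orbit_count {H X : Type*} [Group H] [MulAction H X] [Finite X] (x0 : X)
    (hfix : ∀ h : H, h • x0 = x0) (d : ℕ)
    (hd : ∀ x, x ≠ x0 → d ∣ Nat.card (MulAction.orbit H x)) : d ∣ Nat.card X - 1 := by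
  classical
  haveI := Fintype.ofFinite X
  haveI : Finite (MulAction.orbitRel.Quotient H X) := Quotient.finite _
  haveI := Fintype.ofFinite (MulAction.orbitRel.Quotient H X)
  have h1 : Nat.card X = ∑ ω : MulAction.orbitRel.Quotient H X, Nat.card ω.orbit := by
    rw [← Nat.card_sigma]
    exact Nat.card_congr (MulAction.selfEquivSigmaOrbits' H X)
  let ω0 : MulAction.orbitRel.Quotient H X := Quotient.mk'' x0
  have h2 : Nat.card ω0.orbit = 1 := by
    have : ω0.orbit = MulAction.orbit H x0 := rfl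
    rw [this, Nat.card_eq_one_iff_unique]
    constructor
    · constructor
      rintro ⟨a, ha⟩ ⟨b, hb⟩
      obtain ⟨s, rfl⟩ := ha
      obtain ⟨t, rfl⟩ := hb
      simp [hfix]
    · exact ⟨⟨x0, MulAction.mem_orbit_self x0⟩⟩
  rw [h1, ← Finset.add_sum_erase Finset.univ _ (Finset.mem_univ ω0), h2, Nat.add_sub_cancel_left]
  apply Finset.dvd_sum
  intro ω hω
  obtain ⟨x, rfl⟩ := Quotient.exists_rep ω
  have hx : x ≠ x0 := by
    rintro rfl
    exact (Finset.mem_erase.1 hω).1 rfl
  exact hd x hx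

theorem Hyp.dvd {M₁ M₂ : Subgroup G} (h : Hyp M₁ M₂) : M₂.index ∣ M₁.index - 1 := by
  have hcount := orbit_count (H := M₁) (X := G ⧸ M₁) ((1 : G) : G ⧸ M₁) (by
    intro m
    show (((m : G) * 1 : G) : G ⧸ M₁) = ((1 : G) : G ⧸ M₁)
    rw [QuotientGroup.eq, mul_one, mul_one]
    exact M₁.inv_mem m.2) M₂.index ?_
  · exact hcount
  · intro x hx
    obtain ⟨g, rfl⟩ := QuotientGroup.mk_surjective x
    have hg : g ∉ M₁ := by
      intro hg
      apply hx
      rw [QuotientGroup.eq, mul_one]
      exact M₁.inv_mem hg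
    set St := MulAction.stabilizer M₁ (g : G ⧸ M₁) with hSt
    set S : Subgroup G := St.map M₁.subtype with hS
    have hSc : Nat.card S = Nat.card St := Subgroup.card_map_of_injective M₁.subtype_injective
    have hSM : S ≤ M₁ := Subgroup.map_subtype_le St
    have hSM' : S ≤ MulAut.conj g • M₁ := by
      rintro y ⟨m, hm, rfl⟩
      have h1 : (((m : G) * g : G) : G ⧸ M₁) = (g : G ⧸ M₁) := MulAction.mem_stabilizer_iff.1 hm
      rw [QuotientGroup.eq] at h1
      rw [mem_conj]
      have h2 := M₁.inv_mem h1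
      have : ((m * g : G)⁻¹ * g)⁻¹ = g⁻¹ * (m : G) * g := by group
      rwa [this] at h2
    have horb : Nat.card (MulAction.orbit M₁ (g : G ⧸ M₁)) * Nat.card S = Nat.card M₁ := by
      rw [hSc, Nat.card_coe_set_eq, ← MulAction.index_stabilizer, Subgroup.index_mul_card]
    have hO0 : Nat.card (MulAction.orbit M₁ (g : G ⧸ M₁)) ≠ 0 := by
      intro h0
      rw [h0, zero_mul] at horb
      exact Nat.card_pos.ne' horb.symm
    have hS0 : Nat.card S ≠ 0 := Nat.card_pos.ne'
    have hI2 : M₂.index ≠ 0 := Subgroup.index_ne_zero_of_finite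
    have hI1 : M₁.index ≠ 0 := Subgroup.index_ne_zero_of_finite
    rw [← Nat.factorization_prime_le_iff_dvd hI2 hO0]
    intro p hp
    by_cases hp2 : p ∣ M₂.index
    · have : Fact p.Prime := ⟨hp⟩
      have hp1 := h.coprime hp hp2
      obtain ⟨Q, hQ⟩ := Sylow.exists_subgroup_card_pow_prime (G := S) p
        (n := (Nat.card S).factorization p) (Nat.ordProj_dvd _ _)
      have hQS : Q.map S.subtype ≤ S := Subgroup.map_subtype_le Q
      have hQc : Nat.card (Q.map S.subtype) = p ^ (Nat.card S).factorization p := by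
        rw [Subgroup.card_map_of_injective S.subtype_injective, hQ]
      have hdv : p ^ (Nat.card S).factorization p ∣ Nat.card M₂ := by
        by_contra hcon
        exact h.bound hp1 ((Nat.card G).factorization p + 1) _ (by omega) hcon _ g hg hQc
          (hQS.trans hSM) (hQS.trans hSM')
      rw [hp.pow_dvd_iff_le_factorization Nat.card_pos.ne'] at hdv
      have e1 := congrArg (fun n => n.factorization p) horb
      have e2 := congrArg (fun n => n.factorization p) (Subgroup.card_mul_index M₁)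
      have e3 := congrArg (fun n => n.factorization p) (Subgroup.card_mul_index M₂)
      simp only [Nat.factorization_mul hO0 hS0, Nat.factorization_mul (Nat.card_pos (α := M₁)).ne' hI1,
        Nat.factorization_mul (Nat.card_pos (α := M₂)).ne' hI2, Finsupp.add_apply] at e1 e2 e3
      rw [Nat.factorization_eq_zero_of_not_dvd hp1] at e2
      omega
    · rw [Nat.factorization_eq_zero_of_not_dvd hp2]
      exact Nat.zero_le _

theorem Hyp.false {M₁ M₂ : Subgroup G} (h : Hyp M₁ M₂) (h1 : M₁ ≠ ⊤) (h2 : M₂ ≠ ⊤) : False := by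
  have hI1 : M₁.index ≠ 0 := Subgroup.index_ne_zero_of_finite
  have hI2 : M₂.index ≠ 0 := Subgroup.index_ne_zero_of_finite
  have hJ1 : M₁.index ≠ 1 := fun hh => h1 (Subgroup.index_eq_one.1 hh)
  have hJ2 : M₂.index ≠ 1 := fun hh => h2 (Subgroup.index_eq_one.1 hh)
  have d1 := Nat.le_of_dvd (by omega) h.dvd
  have d2 := Nat.le_of_dvd (by omega) h.symm.dvd
  omega

end H76.TwoMax
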