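import Cfsg.Agent.Lib.H76.TwoMax
import Cfsg.Agent.S0003

set_option autoImplicit false
open Pointwise

namespace H76.TwoMax

universe u

theorem map_conj' {G H : Type*} [Group G] [Group H] (f : G →* H) (g : G) (M : Subgroup G) :
    (MulAut.conj g • M : Subgroup G).map f = MulAut.conj (f g) • M.map f := by
  ext x
  constructor
  · rintro ⟨y, hy, rfl⟩
    rw [SetLike.mem_coe, mem_conj] at hy
    rw [mem_conj]
    exact ⟨_, hy, by simp⟩
  · intro hx
    rw [mem_conj] at hx
    obtain ⟨y, hy, hyx⟩ := hx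
    refine ⟨g * y * g⁻¹, ?_, ?_⟩
    · rw [SetLike.mem_coe, mem_conj]
      have : g⁻¹ * (g * y * g⁻¹) * g = y := by group
      rw [this]; exact hy
    · rw [map_mul, map_mul, hyx, map_inv]; group

theorem conj_top {G : Type*} [Group G] (g : G) : (MulAut.conj g • (⊤ : Subgroup G)) = ⊤ := by
  ext x
  rw [mem_conj]
  simp

theorem solv (n : ℕ) : ∀ {G : Type u} [Group G] [Finite G], Nat.card G = n →
    (∃ M₁ M₂ : Subgroup G, ∀ M : Subgroup G, IsCoatom M →
      ∃ g : G, M = MulAut.conj g • M₁ ∨ M = MulAut.conj g • M₂) → Group.IsSolvable G := by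
  induction n using Nat.strong_induction_on with
  | _ n ih =>
  intro G _ _ hn hyp
  obtain ⟨M₁, M₂, hall⟩ := hyp
  by_cases hO : ∀ (p : ℕ) (Q : Subgroup G), p.Prime → IsPGroup p Q → Q ≠ ⊥ →
    Subgroup.normalizer (Q : Set G) ≠ ⊤
  · rcases subsingleton_or_nontrivial G with hs | hnt
    · infer_instance
    exfalso
    have hcov : ∀ H : Subgroup G, H ≠ ⊤ → ∃ g : G, (H ≤ MulAut.conj g • M₁ ∧ M₁ ≠ ⊤) ∨
        (H ≤ MulAut.conj g • M₂ ∧ M₂ ≠ ⊤) := by
      intro H hH
      obtain ⟨M, hM, hHM⟩ := (eq_top_or_exists_le_coatom H).resolve_left hH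
      obtain ⟨g, rfl | rfl⟩ := hall M hM
      · refine ⟨g, Or.inl ⟨hHM, ?_⟩⟩
        rintro rfl
        exact hM.1 (conj_top g)
      · refine ⟨g, Or.inr ⟨hHM, ?_⟩⟩
        rintro rfl
        exact hM.1 (conj_top g)
    by_cases h1 : M₁ = ⊤
    · by_cases h2 : M₂ = ⊤
      · obtain ⟨g, hg | hg⟩ := hcov ⊥ bot_ne_top
        · exact hg.2 h1
        · exact hg.2 h2
      · have : Hyp M₂ M₂ := ⟨hO, fun H hH => by
          obtain ⟨g, hg | hg⟩ := hcov H hH
          · exact absurd h1 hg.2
          · exact ⟨g, Or.inl hg.1⟩⟩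
        exact this.false h2 h2
    · by_cases h2 : M₂ = ⊤
      · have : Hyp M₁ M₁ := ⟨hO, fun H hH => by
          obtain ⟨g, hg | hg⟩ := hcov H hH
          · exact ⟨g, Or.inl hg.1⟩
          · exact absurd h2 hg.2⟩
        exact this.false h1 h1
      · have : Hyp M₁ M₂ := ⟨hO, fun H hH => by
          obtain ⟨g, hg | hg⟩ := hcov H hH
          · exact ⟨g, Or.inl hg.1⟩
          · exact ⟨g, Or.inr hg.1⟩⟩
        exact this.false h1 h2
  · push Not at hO
    obtain ⟨p, Q, hp, hPG, hQ, hN⟩ := hO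
    have : Fact p.Prime := ⟨hp⟩
    have hQn : Q.Normal := Subgroup.normalizer_eq_top_iff.1 hN
    have hQs : Group.IsSolvable Q := by
      have := hPG.isNilpotent
      infer_instance
    have hlt : Nat.card (G ⧸ Q) < n := by
      rw [← hn, Subgroup.card_eq_card_quotient_mul_card_subgroup Q]
      have h1 : 0 < Nat.card (G ⧸ Q) := Nat.card_pos
      have h2 : 1 < Nat.card Q := (Subgroup.one_lt_card_iff_ne_bot Q).2 hQ
      nlinarith
    have hquot : Group.IsSolvable (G ⧸ Q) := by
      apply ih _ hlt rfl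
      refine ⟨M₁.map (QuotientGroup.mk' Q), M₂.map (QuotientGroup.mk' Q), fun M hM => ?_⟩
      have hM' : IsCoatom (M.comap (QuotientGroup.mk' Q)) :=
        Subgroup.isCoatom_comap_of_surjective (QuotientGroup.mk'_surjective Q) hM
      have hMM : M = (M.comap (QuotientGroup.mk' Q)).map (QuotientGroup.mk' Q) :=
        (Subgroup.map_comap_eq_self_of_surjective (QuotientGroup.mk'_surjective Q) M).symm
      obtain ⟨g, hg | hg⟩ := hall _ hM'
      · refine ⟨QuotientGroup.mk' Q g, Or.inl ?_⟩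
        rw [hMM, hg, map_conj']
      · refine ⟨QuotientGroup.mk' Q g, Or.inr ?_⟩
        rw [hMM, hg, map_conj']
    exact Group.isSolvable_of_ker_le_range Q.subtype (QuotientGroup.mk' Q)
      (by rw [QuotientGroup.ker_mk', Subgroup.range_subtype])

theorem index_conj {G : Type*} [Group G] [Finite G] (g : G) (M : Subgroup G) :
    (MulAut.conj g • M : Subgroup G).index = M.index := by
  have h1 := Subgroup.card_mul_index (MulAut.conj g • M : Subgroup G)
  rw [card_conj, ← Subgroup.card_mul_index M] at h1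
  exact Nat.eq_of_mul_eq_mul_left Nat.card_pos h1

theorem exists_coatom_prime_power_index {G : Type*} [Group G] [Finite G] [Group.IsSolvable G]
    {p : ℕ} (hp : p.Prime) (hpG : p ∣ Nat.card G) :
    ∃ M : Subgroup G, IsCoatom M ∧ M.index.minFac = p := by
  have h0 : Nat.card G ≠ 0 := Nat.card_pos.ne'
  obtain ⟨H, hH⟩ := Cfsg.Agent.S0003.result (G := G) (Nat.card G / p ^ (Nat.card G).factorization p)
    (p ^ (Nat.card G).factorization p) (by rw [mul_comm, Nat.ordProj_mul_ordCompl_eq_self])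
    ((Nat.coprime_ordCompl hp h0).symm.pow_right _)
  have hI : H.index = p ^ (Nat.card G).factorization p := by
    have h1 := Subgroup.card_mul_index H
    rw [hH] at h1
    have h2 : Nat.card G / p ^ (Nat.card G).factorization p * p ^ (Nat.card G).factorization p =
      Nat.card G := by rw [mul_comm, Nat.ordProj_mul_ordCompl_eq_self]
    rw [← h2] at h1
    have h3 : 0 < Nat.card G / p ^ (Nat.card G).factorization p := Nat.ordCompl_pos p h0
    rw [h2] at h1
    exact Nat.eq_of_mul_eq_mul_left h3 (by rw [h1, h2])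
  have hv : (Nat.card G).factorization p ≠ 0 := by
    have h2 : 1 ≤ (Nat.card G).factorization p := by
      rw [← hp.pow_dvd_iff_le_factorization Nat.card_pos.ne', pow_one]; exact hpG
    omega
  have hHt : H ≠ ⊤ := by
    rintro rfl
    rw [Subgroup.index_top] at hI
    have := Nat.one_lt_pow hv hp.one_lt
    omega
  obtain ⟨M, hM, hHM⟩ := (eq_top_or_exists_le_coatom H).resolve_left hHt
  have hMI : M.index ∣ p ^ (Nat.card G).factorization p := hI ▸ Subgroup.index_dvd_of_le hHM
  obtain ⟨k, -, hk⟩ := (Nat.dvd_prime_pow hp).1 hMI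
  refine ⟨M, hM, ?_⟩
  have hk0 : k ≠ 0 := by
    rintro rfl
    rw [pow_zero, Subgroup.index_eq_one] at hk
    exact hM.1 hk
  rw [hk, hp.pow_minFac hk0]

/-- A `p`-group with exactly two maximal subgroups up to conjugacy does not exist. -/
theorem not_pgroup {G : Type*} [Group G] [Finite G] {p : ℕ} (hp : p.Prime) (hG : IsPGroup p G)
    (M₁ M₂ : Subgroup G) (h1 : IsCoatom M₁) (h2 : IsCoatom M₂)
    (hne : ∀ g : G, M₂ ≠ MulAut.conj g • M₁)
    (hall : ∀ M : Subgroup G, IsCoatom M →
      ∃ g : G, M = MulAut.conj g • M₁ ∨ M = MulAut.conj g • M₂) : False := by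
  have : Fact p.Prime := ⟨hp⟩
  have hnil := hG.isNilpotent
  have hn1 : M₁.Normal := Subgroup.NormalizerCondition.normal_of_coatom M₁ Group.normalizerCondition_of_isNilpotent h1
  have hn2 : M₂.Normal := Subgroup.NormalizerCondition.normal_of_coatom M₂ Group.normalizerCondition_of_isNilpotent h2
  have e1 : ∀ g : G, (MulAut.conj g • M₁ : Subgroup G) = M₁ := fun g => by
    rw [conj_eq_iff_mem_normalizer, Subgroup.normalizer_eq_top_iff.2 hn1]; trivial
  have e2 : ∀ g : G, (MulAut.conj g • M₂ : Subgroup G) = M₂ := fun g => by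
    rw [conj_eq_iff_mem_normalizer, Subgroup.normalizer_eq_top_iff.2 hn2]; trivial
  have hall' : ∀ M : Subgroup G, IsCoatom M → M = M₁ ∨ M = M₂ := by
    intro M hM
    obtain ⟨g, hg⟩ := hall M hM
    rwa [e1, e2] at hg
  have hx : ∃ x : G, x ∉ M₁ ∧ x ∉ M₂ := by
    have hne' : M₁ ≠ M₂ := fun hh => hne 1 (by rw [conj_one, hh])
    have h12 : ¬ M₁ ≤ M₂ := fun hle => by
      rcases h1.le_iff.1 hle with h | h
      · exact h2.1 h
      · exact hne' h.symm
    have h21 : ¬ M₂ ≤ M₁ := fun hle => by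
      rcases h2.le_iff.1 hle with h | h
      · exact h1.1 h
      · exact hne' h
    obtain ⟨a, ha1, ha2⟩ := Set.not_subset.1 h12
    obtain ⟨b, hb2, hb1⟩ := Set.not_subset.1 h21
    refine ⟨a * b, fun h => hb1 ?_, fun h => ha2 ?_⟩
    · have h3 := M₁.mul_mem (M₁.inv_mem ha1) h
      rwa [inv_mul_cancel_left] at h3
    · have h3 := M₂.mul_mem h (M₂.inv_mem hb2)
      rwa [mul_inv_cancel_right] at h3
  obtain ⟨x, hx1, hx2⟩ := hx
  have htop : Subgroup.zpowers x = ⊤ := by
    by_contra hcon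
    obtain ⟨M, hM, hxM⟩ := (eq_top_or_exists_le_coatom _).resolve_left hcon
    rcases hall' M hM with rfl | rfl
    · exact hx1 (hxM (Subgroup.mem_zpowers x))
    · exact hx2 (hxM (Subgroup.mem_zpowers x))
  have hle : ∀ M : Subgroup G, M ≠ ⊤ → M ≤ Subgroup.zpowers (x ^ p) := by
    intro M hM y hy
    have hy' : y ∈ Subgroup.zpowers x := htop ▸ Subgroup.mem_top y
    obtain ⟨j, rfl⟩ := hy'
    by_cases hd : (p : ℤ) ∣ j
    · obtain ⟨k, rfl⟩ := hd
      exact ⟨k, by simp [zpow_mul]⟩
    · exfalso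
      apply hM
      obtain ⟨k, hk⟩ := hG x
      have hcop : IsCoprime j ((p : ℤ) ^ k) := by
        apply IsCoprime.pow_right
        exact ((Nat.prime_iff_prime_int.1 hp).coprime_iff_not_dvd.2 hd).symm
      obtain ⟨a, b, hab⟩ := hcop
      have hxM : x ∈ M := by
        have : x = (x ^ j) ^ a := by
          have h3 : x = x ^ (a * j + b * (p : ℤ) ^ k) := by rw [hab, zpow_one]
          rw [zpow_add, mul_comm b, zpow_mul x ((p : ℤ) ^ k)] at h3
          have h4 : x ^ ((p : ℤ) ^ k) = 1 := by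
            rw [← hk, ← zpow_natCast]; push_cast; rfl
          rw [h4, one_zpow, mul_one, mul_comm, zpow_mul] at h3
          exact h3
        rw [this]
        exact M.zpow_mem hy a
      rw [← top_le_iff, ← htop, Subgroup.zpowers_le]
      exact hxM
  by_cases hP : Subgroup.zpowers (x ^ p) = ⊤
  · have hxx : x ∈ Subgroup.zpowers (x ^ p) := hP ▸ Subgroup.mem_top x
    obtain ⟨k, hk⟩ := hG x
    have hpow : ∀ n : ℕ, x ∈ Subgroup.zpowers (x ^ (p ^ n)) := by
      intro n
      induction n with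
      | zero => simp
      | succ n ihn =>
        obtain ⟨a, ha⟩ := hxx
        obtain ⟨b, hb⟩ := ihn
        refine ⟨a * b, ?_⟩
        simp only at ha hb ⊢
        have h6 : x ^ (p ^ (n+1)) = (x ^ p) ^ (p ^ n) := by rw [pow_succ', pow_mul]
        have h7 : ((x ^ p) ^ (p ^ n)) ^ (a * b) = (((x ^ p) ^ a) ^ (p ^ n)) ^ b := by
          rw [← zpow_natCast (x ^ p), ← zpow_natCast ((x ^ p) ^ a), ← zpow_mul, ← zpow_mul, ← zpow_mul]
          congr 1
          ring
        rw [h6, h7, ha, hb]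
    have h5 := hpow k
    rw [hk] at h5
    simp at h5
    apply hx1
    rw [h5]
    exact M₁.one_mem
  · have hc1 : M₁ = Subgroup.zpowers (x ^ p) := (h1.le_iff.1 (hle M₁ h1.1)).resolve_left hP |>.symm
    have hc2 : M₂ = Subgroup.zpowers (x ^ p) := (h2.le_iff.1 (hle M₂ h2.1)).resolve_left hP |>.symm
    apply hne 1
    rw [conj_one, hc1, hc2]

end H76.TwoMax
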