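import Mathlib
import Cfsg.Agent.Lib.H13.Thompson

/-! Two noncommuting transvections on an elementary abelian group: `p^2-1` divides the order. -/

set_option autoImplicit false
set_option linter.unusedSectionVars false

namespace H76.TwoTrans

open Subgroup

variable {Γ : Type*} [Group Γ] [Finite Γ] {p q : ℕ} [hp : Fact p.Prime] [hq : Fact q.Prime]

/-- size of a conjugation orbit divides the order -/
theorem card_orbit_dvd (H : Subgroup Γ) (w : Γ) :
    Set.ncard {y : Γ | ∃ h ∈ H, h * w * h⁻¹ = y} ∣ Nat.card H := by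
  let _ : MulAction H Γ := MulAction.compHom Γ ((MulAut.conj : Γ →* MulAut Γ).comp H.subtype)
  have h1 : MulAction.orbit H w = {y : Γ | ∃ h ∈ H, h * w * h⁻¹ = y} := by
    ext y
    constructor
    · rintro ⟨h, rfl⟩
      exact ⟨h, h.2, rfl⟩
    · rintro ⟨h, hh, rfl⟩
      exact ⟨⟨h, hh⟩, rfl⟩
  rw [← h1, ← MulAction.index_stabilizer]
  exact Subgroup.index_dvd_card _

theorem conj_two {G : Type*} [Group G] (g u v : G) (s t : ℤ) :
    g * (u ^ s * v ^ t) * g⁻¹ = (g * u * g⁻¹) ^ s * (g * v * g⁻¹) ^ t := by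
  rw [conj_zpow, conj_zpow]; group

/-- `c` is a `q`-element acting on `W0` as the `p`-element `b` and trivially on `W / W0` -/
theorem centralizes_of (hpq : p ≠ q) {W W0 : Subgroup Γ} (hW0 : W0 ≤ W)
    (hWp : ∀ u ∈ W, u ^ p = 1) {b c : Γ} (hb : b ^ p = 1)
    (hcq : ∃ m, c ^ q ^ m = 1) (hcb : ∀ w ∈ W0, c * w * c⁻¹ = b * w * b⁻¹)
    (hbW : ∀ w ∈ W0, b * w * b⁻¹ ∈ W0) (hcW : ∀ w ∈ W, w⁻¹ * (c * w * c⁻¹) ∈ W0) :
    ∀ w ∈ W, c * w = w * c := by
  have h1 : ∀ n : ℕ, ∀ w ∈ W0, c ^ n * w * (c ^ n)⁻¹ = b ^ n * w * (b ^ n)⁻¹ ∧ b ^ n * w * (b ^ n)⁻¹ ∈ W0 := by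
    intro n
    induction n with
    | zero => intro w hw; simpa using hw
    | succ n ih =>
      intro w hw
      obtain ⟨h2, h3⟩ := ih w hw
      have e1 : c ^ (n + 1) * w * (c ^ (n + 1))⁻¹ = c * (c ^ n * w * (c ^ n)⁻¹) * c⁻¹ := by
        rw [pow_succ']; group
      have e2 : b ^ (n + 1) * w * (b ^ (n + 1))⁻¹ = b * (b ^ n * w * (b ^ n)⁻¹) * b⁻¹ := by
        rw [pow_succ']; group
      rw [e1, e2, h2, hcb _ h3]
      exact ⟨rfl, hbW _ h3⟩
  have h2 : ∀ w ∈ W0, c ^ p * w * (c ^ p)⁻¹ = w := by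
    intro w hw
    rw [(h1 p w hw).1, hb]; group
  -- powers of c act trivially on W / W0
  have h3 : ∀ n : ℕ, ∀ w ∈ W, w⁻¹ * (c ^ n * w * (c ^ n)⁻¹) ∈ W0 := by
    intro n
    induction n with
    | zero => intro w hw; simp [W0.one_mem]
    | succ n ih =>
      intro w hw
      have h4 := ih w hw
      set u := w⁻¹ * (c ^ n * w * (c ^ n)⁻¹) with hu
      have e1 : c ^ n * w * (c ^ n)⁻¹ = w * u := by rw [hu]; group
      have e2 : w⁻¹ * (c ^ (n + 1) * w * (c ^ (n + 1))⁻¹) = (w⁻¹ * (c * w * c⁻¹)) * (c * u * c⁻¹) := by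
        calc w⁻¹ * (c ^ (n + 1) * w * (c ^ (n + 1))⁻¹) = w⁻¹ * (c * (c ^ n * w * (c ^ n)⁻¹) * c⁻¹) := by
              rw [pow_succ']; group
          _ = _ := by rw [e1]; group
      rw [e2]
      refine mul_mem (hcW w hw) ?_
      rw [hcb u h4]
      exact hbW u h4
  set d := c ^ p with hd
  have h5 : ∀ n : ℕ, ∀ w ∈ W, d ^ n * w * (d ^ n)⁻¹ = w * (w⁻¹ * (d * w * d⁻¹)) ^ n := by
    intro n w hw
    have hu := h3 p w hw
    rw [← hd] at hu
    set u := w⁻¹ * (d * w * d⁻¹) with hu'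
    have hduw : d * w * d⁻¹ = w * u := by rw [hu']; group
    have hdu : d * u * d⁻¹ = u := h2 u hu
    have hduk : ∀ k : ℕ, d * u ^ k * d⁻¹ = u ^ k := by
      intro k
      rw [← conj_pow, hdu]
    induction n with
    | zero => simp
    | succ n ih =>
      calc d ^ (n + 1) * w * (d ^ (n + 1))⁻¹ = d * (d ^ n * w * (d ^ n)⁻¹) * d⁻¹ := by
            rw [pow_succ']; group
        _ = (d * w * d⁻¹) * (d * u ^ n * d⁻¹) := by rw [ih]; group
        _ = w * u ^ (n + 1) := by rw [hduw, hduk, pow_succ']; group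
  have h6 : ∀ w ∈ W, c ^ (p * p) * w = w * c ^ (p * p) := by
    intro w hw
    have h7 := h5 p w hw
    rw [hWp _ (hW0 (h3 p w hw)), mul_one, hd, ← pow_mul] at h7
    rwa [mul_inv_eq_iff_eq_mul] at h7
  -- c is a power of c ^ (p * p)
  obtain ⟨m, hm⟩ := hcq
  have hcop : (p * p).Coprime (orderOf c) := by
    have h8 : p.Coprime (q ^ m) := Nat.Coprime.pow_right m ((Nat.coprime_primes hp.out hq.out).2 hpq)
    have h9 : p.Coprime (orderOf c) := Nat.Coprime.coprime_dvd_right (orderOf_dvd_of_pow_eq_one hm) h8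
    exact Nat.Coprime.mul_left h9 h9
  obtain ⟨k, hk⟩ := exists_pow_eq_self_of_coprime hcop
  intro w hw
  have h8 : Commute (c ^ (p * p)) w := h6 w hw
  have h9 := h8.pow_left k
  rw [hk] at h9
  exact h9

theorem two_transv (hpq : p ≠ q) {W X : Subgroup Γ} {a x : Γ}
    (hWc : ∀ u ∈ W, ∀ v ∈ W, u * v = v * u) (hWp : ∀ u ∈ W, u ^ p = 1)
    (haW : a ∈ normalizer (W : Set Γ)) (hxW : x ∈ normalizer (W : Set Γ)) (hap : a ^ p = 1)
    (hidx : (W ⊓ centralizer {a}).relIndex W ≤ p)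
    (hcq : ∃ m, (x * a * x⁻¹ * a⁻¹) ^ q ^ m = 1)
    (hcW : ¬ ∀ w ∈ W, (x * a * x⁻¹ * a⁻¹) * w = w * (x * a * x⁻¹ * a⁻¹))
    (haX : a ∈ X) (hxX : x ∈ X) : p ^ 2 - 1 ∣ Nat.card X := by
  classical
  have hpp : p.Prime := hp.out
  have haW' : ∀ w ∈ W, a * w * a⁻¹ ∈ W := fun w hw => (mem_normalizer_iff.1 haW w).1 hw
  have haW'' : ∀ w ∈ W, a⁻¹ * w * a ∈ W := fun w hw => by
    have := (mem_normalizer_iff.1 (inv_mem haW) w).1 hw
    rwa [inv_inv] at this
  have hxW' : ∀ w ∈ W, x * w * x⁻¹ ∈ W := fun w hw => (mem_normalizer_iff.1 hxW w).1 hw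
  have hxW'' : ∀ w ∈ W, x⁻¹ * w * x ∈ W := fun w hw => by
    have := (mem_normalizer_iff.1 (inv_mem hxW) w).1 hw
    rwa [inv_inv] at this
  -- the homomorphism `w ↦ [w,a]`
  let f : W →* W :=
    { toFun := fun w => ⟨(w : Γ)⁻¹ * (a * w * a⁻¹), mul_mem (inv_mem w.2) (haW' w w.2)⟩
      map_one' := by apply Subtype.ext; simp
      map_mul' := by
        rintro ⟨u, hu⟩ ⟨v, hv⟩
        apply Subtype.ext
        show (u * v)⁻¹ * (a * (u * v) * a⁻¹) = u⁻¹ * (a * u * a⁻¹) * (v⁻¹ * (a * v * a⁻¹))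
        have h1 := hWc _ (haW' u hu) _ (inv_mem hv)
        have h2 := hWc _ (inv_mem hv) _ (inv_mem hu)
        calc (u * v)⁻¹ * (a * (u * v) * a⁻¹) = (v⁻¹ * u⁻¹) * (a * u * a⁻¹) * (a * v * a⁻¹) := by group
          _ = u⁻¹ * (v⁻¹ * (a * u * a⁻¹)) * (a * v * a⁻¹) := by rw [h2]; group
          _ = u⁻¹ * ((a * u * a⁻¹) * v⁻¹) * (a * v * a⁻¹) := by rw [h1]
          _ = _ := by group }
  have hker : f.ker = (W ⊓ centralizer {a}).subgroupOf W := by
    ext ⟨w, hw⟩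
    rw [MonoidHom.mem_ker, mem_subgroupOf, mem_inf, mem_centralizer_singleton_iff]
    constructor
    · intro h
      have h1 : w⁻¹ * (a * w * a⁻¹) = 1 := congrArg Subtype.val h
      refine ⟨hw, ?_⟩
      rw [inv_mul_eq_one] at h1
      show w * a = a * w
      calc w * a = (a * w * a⁻¹) * a := by rw [← h1]
        _ = a * w := by group
    · rintro ⟨-, h⟩
      apply Subtype.ext
      show w⁻¹ * (a * w * a⁻¹) = 1
      have h' : w * a = a * w := h
      rw [← h']; group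
  have hrange : Nat.card f.range ≤ p := by
    have h1 : f.ker.index = Nat.card f.range := f.ker.index_eq_card.trans
      (Nat.card_congr (QuotientGroup.quotientKerEquivRange f).toEquiv)
    rw [← h1, hker]
    exact hidx
  -- `a` does not centralize `W`
  have hna : ∃ w ∈ W, w⁻¹ * (a * w * a⁻¹) ≠ 1 := by
    by_contra hno
    push Not at hno
    apply hcW
    have h1 : ∀ w ∈ W, Commute a w := by
      intro w hw
      have := hno w hw
      rw [inv_mul_eq_one] at this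
      show a * w = w * a
      calc a * w = (a * w * a⁻¹) * a := by group
        _ = w * a := by rw [← this]
    have h2 : ∀ w ∈ W, Commute (x * a * x⁻¹) w := by
      intro w hw
      have h3 := h1 _ (hxW'' w hw)
      show x * a * x⁻¹ * w = w * (x * a * x⁻¹)
      calc x * a * x⁻¹ * w = x * (a * (x⁻¹ * w * x)) * x⁻¹ := by group
        _ = x * ((x⁻¹ * w * x) * a) * x⁻¹ := by rw [h3.eq]
        _ = _ := by group
    intro w hw
    exact ((h2 w hw).mul_left (h1 w hw).inv_left).eq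
  have hWpg : IsPGroup p W := by
    rintro ⟨w, hw⟩
    exact ⟨1, Subtype.ext (by rw [pow_one]; exact hWp w hw)⟩
  have hrp : Nat.card f.range = p := by
    obtain ⟨n, hn⟩ := IsPGroup.iff_card.1 (hWpg.to_subgroup f.range)
    have hn0 : n ≠ 0 := by
      rintro rfl
      rw [pow_zero] at hn
      obtain ⟨w, hw, hne⟩ := hna
      apply hne
      have h1 : f ⟨w, hw⟩ ∈ f.range := ⟨_, rfl⟩
      rw [Subgroup.card_eq_one.1 hn, mem_bot] at h1
      exact congrArg Subtype.val h1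
    have hn1 : ¬ 2 ≤ n := by
      intro h
      have h2 : p ^ 2 ≤ p ^ n := Nat.pow_le_pow_right hpp.pos h
      have h3 : p < p ^ 2 := by
        rw [pow_two]; exact lt_mul_of_one_lt_left hpp.pos hpp.one_lt
      omega
    have hn2 : n = 1 := by omega
    rw [hn, hn2, pow_one]
  have hcyc : IsCyclic f.range := isCyclic_of_prime_card hrp
  obtain ⟨⟨⟨w1, hw1W⟩, hw1r⟩, hgen⟩ := hcyc.exists_generator
  have hw1p : w1 ^ p = 1 := hWp w1 hw1W
  have F1 : ∀ w ∈ W, ∃ k : ℤ, w⁻¹ * (a * w * a⁻¹) = w1 ^ k := by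
    intro w hw
    obtain ⟨k, hk⟩ := mem_zpowers_iff.1 (hgen ⟨f ⟨w, hw⟩, ⟨_, rfl⟩⟩)
    refine ⟨k, ?_⟩
    have h1 : f ⟨w, hw⟩ = (⟨w1, hw1W⟩ : W) ^ k := (congrArg Subtype.val hk).symm
    have h2 : ((f ⟨w, hw⟩ : W) : Γ) = w1 ^ k := by
      rw [h1]; simp
    exact h2
  have hw11 : w1 ≠ 1 := by
    rintro rfl
    obtain ⟨w, hw, hne⟩ := hna
    obtain ⟨k, hk⟩ := F1 w hw
    rw [one_zpow] at hk
    exact hne hk
  have how1 : orderOf w1 = p := orderOf_eq_prime hw1p hw11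
  have hz1 : ∀ k : ℤ, w1 ^ k = 1 ↔ (p : ℤ) ∣ k := by
    intro k
    rw [← how1, orderOf_dvd_iff_zpow_eq_one]
  -- conjugation by `a` fixes `w1`
  have haw1 : a * w1 * a⁻¹ = w1 := by
    obtain ⟨k, hk⟩ := F1 w1 hw1W
    have h1 : a * w1 * a⁻¹ = w1 ^ (1 + k) := by
      rw [zpow_add, zpow_one, ← hk]; group
    have h2 : ∀ n : ℕ, a ^ n * w1 * (a ^ n)⁻¹ = w1 ^ ((1 + k) ^ n) := by
      intro n
      induction n with
      | zero => simp
      | succ n ih =>
        calc a ^ (n + 1) * w1 * (a ^ (n + 1))⁻¹ = a * (a ^ n * w1 * (a ^ n)⁻¹) * a⁻¹ := by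
              rw [pow_succ']; group
          _ = (a * w1 * a⁻¹) ^ ((1 + k) ^ n) := by rw [ih, conj_zpow]
          _ = w1 ^ ((1 + k) ^ (n + 1)) := by rw [h1, ← zpow_mul, pow_succ']
    have h3 := h2 p
    rw [hap] at h3
    have h4 : w1 ^ ((1 + k) ^ p - 1) = 1 := by
      rw [zpow_sub, zpow_one, ← h3]; group
    rw [hz1] at h4
    have h5 : ((1 + k : ℤ) : ZMod p) ^ p = 1 := by
      have h6 := (ZMod.intCast_zmod_eq_zero_iff_dvd _ p).2 h4
      push_cast at h6 ⊢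
      exact sub_eq_zero.1 h6
    rw [ZMod.pow_card] at h5
    have h7 : (p : ℤ) ∣ k := by
      rw [← ZMod.intCast_zmod_eq_zero_iff_dvd]
      push_cast at h5
      simpa using h5
    rw [h1, zpow_add, zpow_one, (hz1 k).2 h7, mul_one]
  set w2 := x * w1 * x⁻¹ with hw2
  have hw2W : w2 ∈ W := hxW' w1 hw1W
  have hw2p : w2 ^ p = 1 := hWp w2 hw2W
  set a' := x * a * x⁻¹ with ha'
  have ha'p : a' ^ p = 1 := by rw [ha', conj_pow, hap]; group
  have hw21 : w2 ≠ 1 := by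
    intro h
    apply hw11
    have : w1 = x⁻¹ * w2 * x := by rw [hw2]; group
    rw [this, h]; group
  have how2 : orderOf w2 = p := orderOf_eq_prime hw2p hw21
  have hz2 : ∀ k : ℤ, w2 ^ k = 1 ↔ (p : ℤ) ∣ k := by
    intro k
    rw [← how2, orderOf_dvd_iff_zpow_eq_one]
  have F2 : ∀ w ∈ W, ∃ k : ℤ, w⁻¹ * (a' * w * a'⁻¹) = w2 ^ k := by
    intro w hw
    obtain ⟨k, hk⟩ := F1 _ (hxW'' w hw)
    refine ⟨k, ?_⟩
    rw [hw2, conj_zpow, ← hk, ha']
    group
  have ha'w2 : a' * w2 * a'⁻¹ = w2 := by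
    calc a' * w2 * a'⁻¹ = x * (a * w1 * a⁻¹) * x⁻¹ := by rw [ha', hw2]; group
      _ = w2 := by rw [haw1]
  have hc12 : w1 * w2 = w2 * w1 := hWc w1 hw1W w2 hw2W
  obtain ⟨i, hi⟩ := F1 w2 hw2W
  obtain ⟨j, hj⟩ := F2 w1 hw1W
  have haw2 : a * w2 * a⁻¹ = w2 * w1 ^ i := by rw [← hi]; group
  have ha'w1 : a' * w1 * a'⁻¹ = w1 * w2 ^ j := by rw [← hj]; group
  -- the plane
  set W0 : Subgroup Γ := zpowers w1 ⊔ zpowers w2 with hW0
  have hW0W : W0 ≤ W := sup_le (by rw [zpowers_le]; exact hw1W) (by rw [zpowers_le]; exact hw2W)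
  have hmem0 : ∀ w, w ∈ W0 ↔ ∃ s t : ℤ, w = w1 ^ s * w2 ^ t := by
    intro w
    constructor
    · intro h
      have h1 : W0 ≤ ({ carrier := {w | ∃ s t : ℤ, w = w1 ^ s * w2 ^ t}
                        one_mem' := ⟨0, 0, by simp⟩
                        mul_mem' := by
                          rintro _ _ ⟨s, t, rfl⟩ ⟨s', t', rfl⟩
                          refine ⟨s + s', t + t', ?_⟩
                          have h2 : Commute (w2 ^ t) (w1 ^ s') := (show Commute w2 w1 from hc12.symm).zpow_zpow t s'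
                          calc w1 ^ s * w2 ^ t * (w1 ^ s' * w2 ^ t') = w1 ^ s * (w2 ^ t * w1 ^ s') * w2 ^ t' := by
                                simp only [mul_assoc]
                            _ = w1 ^ s * (w1 ^ s' * w2 ^ t) * w2 ^ t' := by rw [h2.eq]
                            _ = _ := by rw [zpow_add, zpow_add]; simp only [mul_assoc]
                        inv_mem' := by
                          rintro _ ⟨s, t, rfl⟩
                          refine ⟨-s, -t, ?_⟩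
                          have h2 : Commute (w2 ^ (-t)) (w1 ^ (-s)) := (show Commute w2 w1 from hc12.symm).zpow_zpow _ _
                          rw [mul_inv_rev, ← zpow_neg, ← zpow_neg, h2.eq] } : Subgroup Γ) := by
        rw [hW0]
        refine sup_le ?_ ?_
        · rw [zpowers_le]; exact ⟨1, 0, by simp⟩
        · rw [zpowers_le]; exact ⟨0, 1, by simp⟩
      exact h1 h
    · rintro ⟨s, t, rfl⟩
      exact mul_mem (mem_sup_left (zpow_mem (mem_zpowers _) _)) (mem_sup_right (zpow_mem (mem_zpowers _) _))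
  have hconj0 : ∀ (g : Γ), g * w1 * g⁻¹ ∈ W0 → g * w2 * g⁻¹ ∈ W0 → ∀ w ∈ W0, g * w * g⁻¹ ∈ W0 := by
    intro g h1 h2 w hw
    obtain ⟨s, t, rfl⟩ := (hmem0 w).1 hw
    rw [conj_two]
    exact mul_mem (zpow_mem h1 _) (zpow_mem h2 _)
  have hw10 : w1 ∈ W0 := mem_sup_left (mem_zpowers _)
  have hw20 : w2 ∈ W0 := mem_sup_right (mem_zpowers _)
  have ha0 : ∀ w ∈ W0, a * w * a⁻¹ ∈ W0 :=
    hconj0 a (by rw [haw1]; exact hw10) (by rw [haw2]; exact mul_mem hw20 (zpow_mem hw10 _))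
  have ha'0 : ∀ w ∈ W0, a' * w * a'⁻¹ ∈ W0 :=
    hconj0 a' (by rw [ha'w1]; exact mul_mem hw10 (zpow_mem hw20 _)) (by rw [ha'w2]; exact hw20)
  have hainv : ∀ w, a⁻¹ * w * a = a ^ (p - 1) * w * (a ^ (p - 1))⁻¹ := by
    intro w
    have : a⁻¹ = a ^ (p - 1) := by
      rw [inv_eq_iff_mul_eq_one, ← pow_succ']
      rw [Nat.sub_add_cancel hpp.one_lt.le, hap]
    rw [← this, inv_inv]
  have hapow : ∀ n : ℕ, ∀ w ∈ W0, a ^ n * w * (a ^ n)⁻¹ ∈ W0 := by
    intro n
    induction n with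
    | zero => intro w hw; simpa using hw
    | succ n ih =>
      intro w hw
      have e : a ^ (n + 1) * w * (a ^ (n + 1))⁻¹ = a * (a ^ n * w * (a ^ n)⁻¹) * a⁻¹ := by
        rw [pow_succ']; group
      rw [e]; exact ha0 _ (ih w hw)
  have ha0' : ∀ w ∈ W0, a⁻¹ * w * a ∈ W0 := fun w hw => by rw [hainv]; exact hapow _ w hw
  have hcW0 : ∀ w ∈ W, w⁻¹ * ((a' * a⁻¹) * w * (a' * a⁻¹)⁻¹) ∈ W0 := by
    intro w hw
    obtain ⟨k, hk⟩ := F1 _ (haW'' w hw)
    obtain ⟨l, hl⟩ := F2 _ (haW'' w hw)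
    -- a' (a⁻¹ w a) a'⁻¹ = (a⁻¹ w a) w2^l ; w = (a⁻¹ w a) w1^k
    set v := a⁻¹ * w * a with hv
    have e1 : w = v * w1 ^ k := by
      rw [← hk, hv]; group
    have e2 : (a' * a⁻¹) * w * (a' * a⁻¹)⁻¹ = v * w2 ^ l := by
      rw [← hl, hv]; group
    rw [e2, e1]
    have e3 : (v * w1 ^ k)⁻¹ * (v * w2 ^ l) = (w1 ^ k)⁻¹ * w2 ^ l := by group
    rw [e3]
    exact mul_mem (inv_mem (zpow_mem hw10 _)) (zpow_mem hw20 _)
  have hi0 : ¬ (p : ℤ) ∣ i := by
    intro h
    apply hcW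
    have haw2' : a * w2 * a⁻¹ = w2 := by rw [haw2, (hz1 i).2 h, mul_one]
    have hac : ∀ w ∈ W0, a * w * a⁻¹ = w := by
      intro w hw
      obtain ⟨s, t, rfl⟩ := (hmem0 w).1 hw
      rw [conj_two, haw1, haw2']
    refine centralizes_of (p := p) (q := q) hpq hW0W hWp (b := a') ha'p hcq ?_ ha'0 hcW0
    intro w hw
    have h1 : a⁻¹ * w * a = w := by
      have := hac w hw
      calc a⁻¹ * w * a = a⁻¹ * (a * w * a⁻¹) * a := by rw [this]
        _ = w := by group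
    calc a' * a⁻¹ * w * (a' * a⁻¹)⁻¹ = a' * (a⁻¹ * w * a) * a'⁻¹ := by group
      _ = a' * w * a'⁻¹ := by rw [h1]
  have hj0 : ¬ (p : ℤ) ∣ j := by
    intro h
    apply hcW
    have ha'w1' : a' * w1 * a'⁻¹ = w1 := by rw [ha'w1, (hz2 j).2 h, mul_one]
    have ha'c : ∀ w ∈ W0, a' * w * a'⁻¹ = w := by
      intro w hw
      obtain ⟨s, t, rfl⟩ := (hmem0 w).1 hw
      rw [conj_two, ha'w1', ha'w2]
    refine centralizes_of (p := p) (q := q) hpq hW0W hWp (b := a⁻¹) (by rw [inv_pow, hap, inv_one]) hcq ?_ ?_ hcW0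
    · intro w hw
      have h2 := ha'c _ (ha0' w hw)
      calc a' * a⁻¹ * w * (a' * a⁻¹)⁻¹ = a' * (a⁻¹ * w * a) * a'⁻¹ := by group
        _ = a⁻¹ * w * a⁻¹⁻¹ := by rw [h2, inv_inv]
    · intro w hw
      rw [inv_inv]; exact ha0' w hw
  -- the orbit
  have hppos : (0 : ℤ) < p := by exact_mod_cast hpp.pos
  have hcardW0 : Nat.card W0 = p ^ 2 := by
    have hinf : zpowers w1 ⊓ zpowers w2 = ⊥ := by
      rw [eq_bot_iff]
      intro w hw
      obtain ⟨h1, h2⟩ := mem_inf.1 hw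
      by_contra hne
      rw [mem_bot] at hne
      -- then w2 ∈ ⟨w1⟩
      have h3 : zpowers w = zpowers w2 := by
        apply eq_of_le_of_card_ge (by rw [zpowers_le]; exact h2)
        have h4 : orderOf w = p := orderOf_eq_prime (hWp w (hW0W (mem_sup_right h2))) hne
        rw [Nat.card_zpowers, Nat.card_zpowers, h4, how2]
      have h5 : w2 ∈ zpowers w1 := by
        have : zpowers w ≤ zpowers w1 := by rw [zpowers_le]; exact h1
        exact this (h3 ▸ mem_zpowers w2)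
      obtain ⟨s, hs⟩ := mem_zpowers_iff.1 h5
      apply hi0
      rw [← hz1]
      have h6 : a * w2 * a⁻¹ = w2 := by rw [← hs, ← conj_zpow, haw1]
      rw [haw2] at h6
      simpa using h6
    have h1 := H13.Thompson.card_sup_mul_card_inf (A := zpowers w1) (B := zpowers w2) (by
      rw [zpowers_le, mem_normalizer_iff]
      intro y
      have key : ∀ y ∈ zpowers w2, w1 * y * w1⁻¹ = y := by
        intro y hy
        obtain ⟨s, rfl⟩ := mem_zpowers_iff.1 hy
        have : Commute w1 (w2 ^ s) := (show Commute w1 w2 from hc12).zpow_right s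
        rw [this.eq]; group
      constructor
      · intro hy; rw [key y hy]; exact hy
      · intro hy
        have h2 : y = w1⁻¹ * (w1 * y * w1⁻¹) * w1 := by group
        have h3 : w1⁻¹ * (w1 * y * w1⁻¹) * w1 = w1 * y * w1⁻¹ := by
          have := key _ hy
          calc w1⁻¹ * (w1 * y * w1⁻¹) * w1 = w1⁻¹ * (w1 * (w1 * y * w1⁻¹) * w1⁻¹) * w1 := by rw [this]
            _ = w1 * y * w1⁻¹ := by group
        rw [h2, h3]; exact hy)
    rw [hinf, Subgroup.card_bot, mul_one, Nat.card_zpowers, Nat.card_zpowers, how1, how2] at h1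
    rw [hW0, h1, pow_two]
  -- connectivity
  set H0 : Subgroup Γ := closure {a, a'} with hH0
  have haH : a ∈ H0 := subset_closure (by simp)
  have ha'H : a' ∈ H0 := subset_closure (by simp)
  have hH0X : H0 ≤ X := by
    rw [hH0, closure_le]
    rintro y (rfl | rfl)
    · exact haX
    · exact mul_mem (mul_mem hxX haX) (inv_mem hxX)
  set Conn : Γ → Prop := fun w => ∃ h ∈ H0, h * w1 * h⁻¹ = w with hConn
  have hstep : ∀ g ∈ H0, ∀ w, Conn (g * w * g⁻¹) → Conn w := by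
    rintro g hg w ⟨h, hh, hw⟩
    refine ⟨g⁻¹ * h, mul_mem (inv_mem hg) hh, ?_⟩
    calc g⁻¹ * h * w1 * (g⁻¹ * h)⁻¹ = g⁻¹ * (h * w1 * h⁻¹) * g := by group
      _ = w := by rw [hw]; group
  have hw1mod : ∀ s s' : ℤ, (p : ℤ) ∣ s - s' → w1 ^ s = w1 ^ s' := by
    intro s s' h
    have := (hz1 _).2 h
    rw [zpow_sub, mul_inv_eq_one] at this
    exact this
  have hw2mod : ∀ s s' : ℤ, (p : ℤ) ∣ s - s' → w2 ^ s = w2 ^ s' := by
    intro s s' h
    have := (hz2 _).2 h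
    rw [zpow_sub, mul_inv_eq_one] at this
    exact this
  have hac1 : ∀ n : ℕ, ∀ s t : ℤ, a ^ n * (w1 ^ s * w2 ^ t) * (a ^ n)⁻¹ = w1 ^ (s + i * n * t) * w2 ^ t := by
    intro n s t
    have e1 : ∀ n : ℕ, a ^ n * w1 * (a ^ n)⁻¹ = w1 := by
      intro n
      induction n with
      | zero => simp
      | succ n ih =>
        calc a ^ (n + 1) * w1 * (a ^ (n + 1))⁻¹ = a * (a ^ n * w1 * (a ^ n)⁻¹) * a⁻¹ := by
              rw [pow_succ']; group
          _ = w1 := by rw [ih, haw1]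
    have e2 : ∀ n : ℕ, a ^ n * w2 * (a ^ n)⁻¹ = w2 * w1 ^ (i * n) := by
      intro n
      induction n with
      | zero => simp
      | succ n ih =>
        calc a ^ (n + 1) * w2 * (a ^ (n + 1))⁻¹ = a * (a ^ n * w2 * (a ^ n)⁻¹) * a⁻¹ := by
              rw [pow_succ']; group
          _ = (a * w2 * a⁻¹) * (a * w1 * a⁻¹) ^ (i * (n : ℤ)) := by rw [ih, conj_zpow]; group
          _ = w2 * w1 ^ (i * ((n + 1 : ℕ) : ℤ)) := by
              rw [haw1, haw2, mul_assoc, ← zpow_add]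
              congr 2
              push_cast; ring
    have hcc : Commute w2 (w1 ^ (i * (n : ℤ))) := (show Commute w2 w1 from hc12.symm).zpow_right _
    have hcc2 : Commute (w2 ^ t) (w1 ^ (i * (n : ℤ) * t)) := (show Commute w2 w1 from hc12.symm).zpow_zpow _ _
    rw [conj_two, e1, e2, hcc.mul_zpow, ← zpow_mul, hcc2.eq, ← mul_assoc, ← zpow_add]
  have hac2 : ∀ n : ℕ, ∀ s t : ℤ, a' ^ n * (w1 ^ s * w2 ^ t) * (a' ^ n)⁻¹ = w1 ^ s * w2 ^ (t + j * n * s) := by
    intro n s t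
    have e1 : ∀ n : ℕ, a' ^ n * w2 * (a' ^ n)⁻¹ = w2 := by
      intro n
      induction n with
      | zero => simp
      | succ n ih =>
        calc a' ^ (n + 1) * w2 * (a' ^ (n + 1))⁻¹ = a' * (a' ^ n * w2 * (a' ^ n)⁻¹) * a'⁻¹ := by
              rw [pow_succ']; group
          _ = w2 := by rw [ih, ha'w2]
    have e2 : ∀ n : ℕ, a' ^ n * w1 * (a' ^ n)⁻¹ = w1 * w2 ^ (j * n) := by
      intro n
      induction n with
      | zero => simp
      | succ n ih =>
        calc a' ^ (n + 1) * w1 * (a' ^ (n + 1))⁻¹ = a' * (a' ^ n * w1 * (a' ^ n)⁻¹) * a'⁻¹ := by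
              rw [pow_succ']; group
          _ = (a' * w1 * a'⁻¹) * (a' * w2 * a'⁻¹) ^ (j * (n : ℤ)) := by
              rw [ih, show (a' * w2 * a'⁻¹) ^ (j * (n : ℤ)) = a' * w2 ^ (j * (n : ℤ)) * a'⁻¹ from conj_zpow]
              group
          _ = w1 * w2 ^ (j * ((n + 1 : ℕ) : ℤ)) := by
              rw [ha'w2, ha'w1, mul_assoc, ← zpow_add]
              congr 2
              push_cast; ring
    have hcc : Commute w1 (w2 ^ (j * (n : ℤ))) := (show Commute w1 w2 from hc12).zpow_right _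
    rw [conj_two, e1, e2, hcc.mul_zpow, ← zpow_mul, mul_assoc, ← zpow_add]
    congr 2
    ring
  -- solve congruences
  have hsolve : ∀ u v : ℤ, ¬ (p : ℤ) ∣ u → ∃ n : ℕ, (p : ℤ) ∣ u * n - v := by
    intro u v hu
    have hu' : ((u : ℤ) : ZMod p) ≠ 0 := by
      rw [Ne, ZMod.intCast_zmod_eq_zero_iff_dvd]; exact hu
    refine ⟨(((u : ZMod p))⁻¹ * (v : ZMod p)).val, ?_⟩
    rw [← ZMod.intCast_zmod_eq_zero_iff_dvd]
    push_cast
    rw [ZMod.natCast_zmod_val, ← mul_assoc, mul_inv_cancel₀ hu', one_mul, sub_self]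
  have hpZ : Prime (p : ℤ) := Nat.prime_iff_prime_int.1 hpp
  have mv1 : ∀ s s' t : ℤ, ¬ (p : ℤ) ∣ t → Conn (w1 ^ s' * w2 ^ t) → Conn (w1 ^ s * w2 ^ t) := by
    intro s s' t ht hC
    obtain ⟨n, hn⟩ := hsolve (i * t) (s' - s) (fun h => (hpZ.dvd_or_dvd h).elim hi0 ht)
    apply hstep (a ^ n) (pow_mem haH n)
    rw [hac1, hw1mod (s + i * n * t) s' ?_]
    · exact hC
    · have : s + i * n * t - s' = i * t * n - (s' - s) := by ring
      rw [this]; exact hn
  have mv2 : ∀ s t t' : ℤ, ¬ (p : ℤ) ∣ s → Conn (w1 ^ s * w2 ^ t') → Conn (w1 ^ s * w2 ^ t) := by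
    intro s t t' hs hC
    obtain ⟨n, hn⟩ := hsolve (j * s) (t' - t) (fun h => (hpZ.dvd_or_dvd h).elim hj0 hs)
    apply hstep (a' ^ n) (pow_mem ha'H n)
    rw [hac2, hw2mod (t + j * n * s) t' ?_]
    · exact hC
    · have : t + j * n * s - t' = j * s * n - (t' - t) := by ring
      rw [this]; exact hn
  have hone : ¬ (p : ℤ) ∣ 1 := fun h => hpZ.not_isUnit (isUnit_of_dvd_one h)
  have h10 : Conn (w1 ^ (1 : ℤ) * w2 ^ (0 : ℤ)) := ⟨1, one_mem _, by simp⟩
  have hall : ∀ s t : ℤ, ¬ ((p : ℤ) ∣ s ∧ (p : ℤ) ∣ t) → Conn (w1 ^ s * w2 ^ t) := by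
    intro s t hst
    by_cases ht : (p : ℤ) ∣ t
    · have hs : ¬ (p : ℤ) ∣ s := fun h => hst ⟨h, ht⟩
      apply mv2 s t 1 hs
      apply mv1 s 1 1 hone
      exact mv2 1 1 0 hone h10
    · apply mv1 s 1 t ht
      exact mv2 1 t 0 hone h10
  have horb : {y : Γ | ∃ h ∈ H0, h * w1 * h⁻¹ = y} = (W0 : Set Γ) \ {1} := by
    ext w
    constructor
    · rintro ⟨h, hh, rfl⟩
      refine ⟨?_, ?_⟩
      · -- H0 normalizes W0
        have hn : H0 ≤ normalizer (W0 : Set Γ) := by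
          rw [hH0, closure_le]
          have hfin : ∀ g : Γ, (∀ w ∈ W0, g * w * g⁻¹ ∈ W0) → g ∈ normalizer (W0 : Set Γ) := by
            intro g hg
            exact mem_normalizer_fintype (fun w hw => hg w hw)
          rintro y (rfl | rfl)
          · exact hfin _ ha0
          · exact hfin _ ha'0
        exact (mem_normalizer_iff.1 (hn hh) w1).1 hw10
      · intro h1
        apply hw11
        have h2 : h * w1 * h⁻¹ = 1 := h1
        have : w1 = h⁻¹ * (h * w1 * h⁻¹) * h := by group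
        rw [this, h2]; group
    · rintro ⟨hw, hw1⟩
      obtain ⟨s, t, rfl⟩ := (hmem0 w).1 hw
      apply hall s t
      rintro ⟨h1, h2⟩
      apply hw1
      show w1 ^ s * w2 ^ t = 1
      rw [(hz1 s).2 h1, (hz2 t).2 h2, mul_one]
  have hd := card_orbit_dvd H0 w1
  rw [horb, Set.ncard_sdiff (by simp), Set.ncard_singleton] at hd
  have hcW : (W0 : Set Γ).ncard = p ^ 2 := by rw [← hcardW0]; rfl
  rw [hcW] at hd
  exact hd.trans (Subgroup.card_dvd_of_le hH0X)

end H76.TwoTrans
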