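import Cfsg.Agent.Lib.H76.U33Tab
import Cfsg.Agent.Lib.H76.Hur7
import Cfsg.Agent.Lib.H21.PSLSeven
import Cfsg.Agent.Lib.H64.U34C

/-!
# `PSU₃(3)` contains `PSL₂(7)`
-/

set_option autoImplicit false
set_option linter.all false
set_option maxRecDepth 10000

namespace H76.U33

open H63.U3 Matrix Cfsg

/-- matrix of order three -/
def MB : Matrix (Fin 3) (Fin 3) K :=
  !![k8, k2, k1; k4, k2, k1; k0, k5, k5]

theorem MB_det : MB.det = 1 := by rw [det_fin_three]; decide

/-- element of order three -/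
def SB : SpecialLinearGroup (Fin 3) K := ⟨MB, MB_det⟩

theorem SB_mem : SB ∈ SU 3 K 3 := by
  rw [H7.UnitSU.mem_SU_iff card_K]
  show MBᵀ * H7.UnitSU.bar 3 MB = 1
  apply Matrix.ext
  intro i j
  rw [Matrix.mul_apply, Fin.sum_univ_three, Matrix.one_apply]
  show MB 0 i * (MB 0 j) ^ 3 + MB 1 i * (MB 1 j) ^ 3 + MB 2 i * (MB 2 j) ^ 3 = if i = j then 1 else 0
  revert i j
  decide

/-- element of order three -/
def CB : SU3 := ⟨SB, SB_mem⟩

/-- the matrix of an element -/
def mt (g : SU3) : Matrix (Fin 3) (Fin 3) K := (g : SpecialLinearGroup (Fin 3) K).1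

/-- the columns of an element -/
def cols (g : SU3) : T3 × T3 × T3 :=
  (⟨mt g 0 0, mt g 1 0, mt g 2 0⟩, ⟨mt g 0 1, mt g 1 1, mt g 2 1⟩, ⟨mt g 0 2, mt g 1 2, mt g 2 2⟩)

theorem mt_mul (g h : SU3) (i j : Fin 3) :
    mt (g * h) i j = mt g i 0 * mt h 0 j + mt g i 1 * mt h 1 j + mt g i 2 * mt h 2 j := by
  show (mt g * mt h) i j = _
  rw [Matrix.mul_apply, Fin.sum_univ_three]

theorem cols_mulA (g : SU3) : cols (C1 * g) = act R1 (cols g) := by
  unfold cols
  simp only [mt_mul]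
  rfl

theorem cols_mulB (g : SU3) : cols (CB * g) = act RB (cols g) := by
  unfold cols
  simp only [mt_mul]
  rfl

theorem cols_inj {g h : SU3} (e : cols g = cols h) : g = h := by
  apply Subtype.ext
  apply Subtype.ext
  show mt g = mt h
  simp only [cols, Prod.mk.injEq, T3.mk.injEq] at e
  obtain ⟨⟨a1, a2, a3⟩, ⟨b1, b2, b3⟩, c1, c2, c3⟩ := e
  apply Matrix.ext
  intro i j
  fin_cases i <;> fin_cases j <;> assumption

theorem cols_one : cols 1 = tab.getD 0 (⟨0, 0, 0⟩, ⟨0, 0, 0⟩, ⟨0, 0, 0⟩) := by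
  have : cols 1 = (⟨1, 0, 0⟩, ⟨0, 1, 0⟩, ⟨0, 0, 1⟩) := rfl
  rw [this]
  decide +kernel

/-- default -/
abbrev df : T3 × T3 × T3 := (⟨0, 0, 0⟩, ⟨0, 0, 0⟩, ⟨0, 0, 0⟩)

theorem chk_sound (R : T3 × T3 × T3) : ∀ (l : List (T3 × T3 × T3)) (t : List ℕ), chk R l t = true →
    ∀ i, i < l.length → ∃ n < 168, act R (l.getD i df) = tab.getD n df
  | c :: cs, n :: ns, h, i, hi => by
    rw [chk, Bool.and_eq_true, Bool.and_eq_true] at h
    obtain ⟨⟨h1, h2⟩, h3⟩ := h
    cases i with
    | zero => exact ⟨n, of_decide_eq_true h1, of_decide_eq_true h2⟩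
    | succ i =>
      have := chk_sound R cs ns h3 i (by simpa using hi)
      simpa using this
  | [], _, _, i, hi => by simp at hi
  | c :: cs, [], h, _, _ => by simp [chk] at h

theorem len : tab.length = 168 := by decide +kernel

/-- being in the table -/
def InT (g : SU3) : Prop := ∃ i < 168, cols g = tab.getD i df

theorem InT.a {g : SU3} (h : InT g) : InT (C1 * g) := by
  obtain ⟨i, hi, h⟩ := h
  obtain ⟨n, hn, h1⟩ := chk_sound R1 tab ta chkA i (by rw [len]; exact hi)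
  exact ⟨n, hn, by rw [cols_mulA, h, h1]⟩

theorem InT.b {g : SU3} (h : InT g) : InT (CB * g) := by
  obtain ⟨i, hi, h⟩ := h
  obtain ⟨n, hn, h1⟩ := chk_sound RB tab tb chkB i (by rw [len]; exact hi)
  exact ⟨n, hn, by rw [cols_mulB, h, h1]⟩

theorem cols_one' : cols 1 = (⟨1, 0, 0⟩, ⟨0, 1, 0⟩, ⟨0, 0, 1⟩) := rfl

theorem a2 : C1 ^ 2 = 1 := by
  apply cols_inj
  rw [show C1 ^ 2 = C1 * (C1 * 1) by rw [mul_one, pow_two], cols_mulA, cols_mulA, cols_one']
  decide +kernel

theorem b3 : CB ^ 3 = 1 := by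
  apply cols_inj
  rw [show CB ^ 3 = CB * (CB * (CB * 1)) by rw [mul_one, pow_succ', pow_two], cols_mulB, cols_mulB, cols_mulB, cols_one']
  decide +kernel

theorem ab7 : (C1 * CB) ^ 7 = 1 := by
  apply cols_inj
  rw [show (C1 * CB) ^ 7 = C1 * (CB * (C1 * (CB * (C1 * (CB * (C1 * (CB * (C1 * (CB * (C1 * (CB * (C1 * (CB * 1))))))))))))) by
    simp only [pow_succ', pow_zero, mul_one, mul_assoc]]
  simp only [cols_mulA, cols_mulB, cols_one']
  decide +kernel

/-- commutator -/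
def cc : SU3 := C1 * (CB * (C1 * (CB * CB)))

theorem cc4 : cc ^ 4 = 1 := by
  apply cols_inj
  rw [show cc ^ 4 = C1 * (CB * (C1 * (CB * (CB * (C1 * (CB * (C1 * (CB * (CB * (C1 * (CB * (C1 * (CB * (CB *
      (C1 * (CB * (C1 * (CB * (CB * 1))))))))))))))))))) by
    simp only [cc, pow_succ', pow_zero, mul_one, mul_assoc]]
  simp only [cols_mulA, cols_mulB, cols_one']
  decide +kernel

theorem cc2 : cc ^ 2 ≠ 1 := by
  intro h
  have h1 := congrArg cols h
  rw [show cc ^ 2 = C1 * (CB * (C1 * (CB * (CB * (C1 * (CB * (C1 * (CB * (CB * 1))))))))) by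
    simp only [cc, pow_succ', pow_zero, mul_one, mul_assoc]] at h1
  simp only [cols_mulA, cols_mulB, cols_one'] at h1
  revert h1
  decide +kernel

theorem a_ne : C1 ≠ 1 := by
  intro h
  have h1 := congrArg cols h
  rw [show C1 = C1 * 1 by rw [mul_one]] at h1
  simp only [cols_mulA, cols_one'] at h1
  revert h1
  decide +kernel

/-- the subgroup -/
def HL : Subgroup SU3 := Subgroup.closure {C1, CB}

theorem inT (g : SU3) (hg : g ∈ HL) : InT g := by
  unfold HL at hg
  induction hg using Subgroup.closure_induction_left with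
  | one => exact ⟨0, by norm_num, cols_one⟩
  | mul_left x hx y hy ih =>
    rcases hx with rfl | hx
    · exact ih.a
    · rw [Set.mem_singleton_iff.1 hx]; exact ih.b
  | inv_mul_cancel x hx y hy ih =>
    rcases hx with rfl | hx
    · have : C1⁻¹ = C1 := by
        rw [inv_eq_iff_mul_eq_one, ← pow_two, a2]
      rw [this]
      exact ih.a
    · rw [Set.mem_singleton_iff.1 hx]
      have : CB⁻¹ = CB * CB := by
        rw [inv_eq_iff_mul_eq_one, ← pow_two, ← pow_succ', b3]
      rw [this, mul_assoc]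
      exact ih.b.b

theorem card_le : Nat.card HL ≤ 168 := by
  choose f hf1 hf2 using fun g : HL => inT g.1 g.2
  have hinj : Function.Injective (fun g : HL => (⟨f g, hf1 g⟩ : Fin 168)) := by
    intro g h e
    apply Subtype.ext
    apply cols_inj
    rw [hf2 g, hf2 h, show f g = f h from congrArg Fin.val e]
  have := Nat.card_le_card_of_injective _ hinj
  rwa [Nat.card_eq_fintype_card (α := Fin 168), Fintype.card_fin] at this

instance : Finite SU3 := by
  apply Nat.finite_of_card_ne_zero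
  rw [card_SU3]; norm_num

theorem memA : C1 ∈ HL := Subgroup.subset_closure (Or.inl rfl)
theorem memB : CB ∈ HL := Subgroup.subset_closure (Or.inr rfl)

theorem hur : Hur7.Hur HL ⟨C1, memA⟩ ⟨CB, memB⟩ := by
  refine ⟨?_, Subtype.ext a2, Subtype.ext b3, Subtype.ext ab7⟩
  have h := Subgroup.closure_closure_coe_preimage (k := ({C1, CB} : Set SU3))
  have e : ((Subtype.val : HL → SU3) ⁻¹' ({C1, CB} : Set SU3)) = {⟨C1, memA⟩, ⟨CB, memB⟩} := by
    ext x
    simp only [Set.mem_preimage, Set.mem_insert_iff, Set.mem_singleton_iff, Subtype.ext_iff]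
  rw [← e]
  exact h

instance : Nontrivial HL := ⟨⟨⟨C1, memA⟩, 1, fun h => a_ne (congrArg Subtype.val h)⟩⟩

theorem cc_mem : cc ∈ HL := by
  unfold cc
  exact HL.mul_mem memA (HL.mul_mem memB (HL.mul_mem memA (HL.mul_mem memB memB)))

theorem card_HL : Nat.card HL = 168 := by
  haveI : Fact (Nat.Prime 2) := ⟨Nat.prime_two⟩
  refine hur.card (x := ⟨cc, cc_mem⟩) ?_ card_le
  rw [← Subgroup.orderOf_coe]
  show orderOf cc = 4
  have : orderOf cc = 2 ^ (1 + 1) := by
    apply orderOf_eq_prime_pow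
    · rw [pow_one]; exact cc2
    · rw [show (2 ^ (1 + 1) : ℕ) = 4 by norm_num]; exact cc4
  rw [this]; norm_num

instance : IsSimpleGroup HL := hur.simple card_HL

theorem center_bot : Subgroup.center (SU 3 K 3) = ⊥ := by
  have h := H7.UnitSU.card_center (K := K) (q := 3) card_K (n := 3) (by norm_num)
  rw [show Nat.gcd 3 (3 + 1) = 1 by norm_num] at h
  exact Subgroup.card_eq_one.1 h

theorem ex0 {L : Type*} [Field L] [Fintype L] (hL : Fintype.card L = 7) :
    ∃ H : Subgroup (Cfsg.PSU 3 K 3), Nonempty (H ≃* Matrix.ProjectiveSpecialLinearGroup (Fin 2) L) := by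
  obtain ⟨e⟩ := H21.PSLSeven.psl_seven card_HL hL
  let f : SU 3 K 3 →* PSU 3 K 3 := QuotientGroup.mk' (Subgroup.center (SU 3 K 3))
  have hf : Function.Injective f := by
    rw [← MonoidHom.ker_eq_bot_iff, QuotientGroup.ker_mk', center_bot]
  exact ⟨HL.map f, ⟨(HL.equivMapOfInjective f hf).symm.trans e⟩⟩

theorem ex {F : Type*} [Field F] [Fintype F] (hF : Fintype.card F = 9)
    {L : Type*} [Field L] [Fintype L] (hL : Fintype.card L = 7) :
    ∃ H : Subgroup (Cfsg.PSU 3 F 3), Nonempty (H ≃* Matrix.ProjectiveSpecialLinearGroup (Fin 2) L) := by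
  have h1 : Fintype.card F = 3 ^ 2 := by rw [hF]; norm_num
  let e := FiniteField.ringEquivOfCardEq (K := K) (K' := F) (by rw [card_K, h1])
  let e' : PSU 3 K 3 ≃* PSU 3 F 3 := H6.Frame.quotCenterCongr (H64.U34.suCongr card_K h1 e)
  obtain ⟨H, ⟨t⟩⟩ := ex0 hL
  exact ⟨H.map e'.toMonoidHom, ⟨(H.equivMapOfInjective e'.toMonoidHom e'.injective).symm.trans t⟩⟩

end H76.U33
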